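import Cfsg.Agent.H7.SLCase

/-!
Exceptional containments in SL_3(4), SL_4(3), SL_4(5).
-/

set_option autoImplicit false
set_option linter.unusedSectionVars false

namespace Cfsg.Agent.H7

open Module Cfsg.Agent.Form
open scoped Matrix MatrixGroups

section abstract
variable {F : Type*} [Field F] {V : Type*} [AddCommGroup V] [Module F V]

theorem det_monomial {T : Type*} [Fintype T] [DecidableEq T] (b : Basis T F V) {g : V ≃ₗ[F] V}
    {σ : Equiv.Perm T} {c : T → F} (h : ∀ i, g (b i) = c i • b (σ i)) :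
    (LinearEquiv.det g : F) = (Equiv.Perm.sign σ : ℤ) * ∏ i, c i := by
  have h1 : (LinearMap.toMatrix b b (g : V →ₗ[F] V)).submatrix σ id = Matrix.diagonal c := by
    ext i j
    simp [LinearMap.toMatrix_apply, h, Finsupp.single_apply, Matrix.diagonal_apply, eq_comm]
    split_ifs with h' <;> simp [h']
  have h2 := Matrix.det_permute σ (LinearMap.toMatrix b b (g : V →ₗ[F] V))
  rw [h1, Matrix.det_diagonal, LinearMap.det_toMatrix, ← LinearEquiv.coe_det] at h2
  rw [h2, ← mul_assoc]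
  rcases Int.units_eq_one_or (Equiv.Perm.sign σ) with h3 | h3 <;> simp [h3]

theorem exists_symp_pair [FiniteDimensional F V] (S : PQ (FP.symp F) V) {U : Submodule F V}
    (hU : S.NondegOn U) (hd : finrank F U = 2) :
    ∃ p ∈ U, ∃ q ∈ U, S.B p q = 1 ∧ ∀ x ∈ U, x = S.B x q • p - S.B x p • q := by
  obtain ⟨q, hq, hq0⟩ := exists_ne_zero_of_finrank_pos (A := U) (by omega)
  obtain ⟨p, hp⟩ := hU.restrict.exists_eq (x := ⟨q, hq⟩) (by simpa using hq0) 1
  have hp' : S.B p q = 1 := hp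
  have h1 : Submodule.span F {(p : V), q} = U := by
    apply Submodule.eq_of_le_of_finrank_eq
    · rw [Submodule.span_le]; rintro x (rfl | rfl); exacts [p.2, hq]
    · rw [S.finrank_span_pair_of_hyperbolic trivial (by rw [hp']; exact one_ne_zero), hd]
  refine ⟨p, p.2, q, hq, hp', fun x hx => ?_⟩
  rw [← h1] at hx
  obtain ⟨a, b, rfl⟩ := Submodule.mem_span_pair.1 hx
  simp [S.symp_B_self, S.symp_B_swap (p : V) q, hp']

theorem Projs.sim {P : FP F} {T : Type*} [Fintype T] {D : T → Submodule F V} {π : T → V →ₗ[F] V}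
    (hπ : Projs D π) (S : PQ P V) (ho : ∀ i j, i ≠ j → ∀ x ∈ D i, ∀ y ∈ D j, S.B x y = 0)
    {g : V ≃ₗ[F] V} {σ : Equiv.Perm T} (hσ : ∀ i, (D i).map (g : V →ₗ[F] V) = D (σ i)) {c : F}
    (h : ∀ i, ∀ x ∈ D i, ∀ y ∈ D i, S.B (g x) (g y) = c * S.B x y) (x y : V) :
    S.B (g x) (g y) = c * S.B x y := by
  rw [hπ.B_eq_sum S ho, hπ.B_eq_sum S ho x, ← Equiv.sum_comp σ, Finset.mul_sum]
  refine Finset.sum_congr rfl fun i _ => ?_
  rw [hπ.proj_map hσ, hπ.proj_map hσ, h i _ (hπ.mem i x) _ (hπ.mem i y)]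

end abstract

variable {ι : Type} [Fintype ι] [DecidableEq ι] {F : Type*} [Field F] [Fintype F]

theorem mem_stabilizing_of_mapsTo {C : Set (ι → F)} {g : GL ι F} (h : ∀ v ∈ C, toLE g v ∈ C) :
    g ∈ stabilizing (glToMat ι F) C := by
  intro v
  refine ⟨h v, fun hv => ?_⟩
  have h1 : Set.BijOn (toLE g) C C :=
    ((Set.toFinite C).injOn_iff_bijOn_of_mapsTo h).1 (toLE g).injective.injOn
  obtain ⟨w, hw, e⟩ := h1.surjOn hv
  rwa [← (toLE g).injective e]

theorem klein_aux : ∀ a b c d : ZMod 5, ((a * b * c * d) ^ 2 = 1 ∨ (a = 0 ∧ b = 0) ∨ (a = 0 ∧ c = 0) ∨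
    (a = 0 ∧ d = 0) ∨ (b = 0 ∧ c = 0) ∨ (b = 0 ∧ d = 0) ∨ (c = 0 ∧ d = 0)) →
    (((a + b) * (a - b) * (c - d) * (c + d)) ^ 2 = 1 ∨ (a + b = 0 ∧ a - b = 0) ∨ (a + b = 0 ∧ c - d = 0) ∨
    (a + b = 0 ∧ c + d = 0) ∨ (a - b = 0 ∧ c - d = 0) ∨ (a - b = 0 ∧ c + d = 0) ∨ (c - d = 0 ∧ c + d = 0)) := by
  decide +kernel

omit [Fintype F] in
theorem two_zero_iff (x : Fin 4 → F) : (∃ i j, i ≠ j ∧ x i = 0 ∧ x j = 0) ↔ (x 0 = 0 ∧ x 1 = 0) ∨
    (x 0 = 0 ∧ x 2 = 0) ∨ (x 0 = 0 ∧ x 3 = 0) ∨ (x 1 = 0 ∧ x 2 = 0) ∨ (x 1 = 0 ∧ x 3 = 0) ∨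
    (x 2 = 0 ∧ x 3 = 0) := by
  constructor
  · rintro ⟨i, j, hij, hi, hj⟩
    fin_cases i <;> fin_cases j <;> simp_all
  · rintro (h | h | h | h | h | h) <;> exact ⟨_, _, by decide, h.1, h.2⟩

/-- The monomial subgroup of `SL_4(5)` is not maximal. -/
theorem monomial_four_five (hq : Fintype.card F = 5) {D : Fin 4 → Submodule F (ι → F)}
    (hD : Geo.IsMDecomposition 1 D) : ¬ Geo.IsMaximalIn (Geo.specialLinear ι F)
      (Geo.decompositionStabilizer D ⊓ Geo.specialLinear ι F) := by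
  intro hH
  have hn := card_eq_of_isMDecomposition hD
  obtain ⟨b, rfl⟩ := exists_basis_of_isMDecomposition hD
  let C : Set (ι → F) := {x | (∏ i, b.repr x i) ^ 2 = 1 ∨ ∃ i j, i ≠ j ∧ b.repr x i = 0 ∧ b.repr x j = 0}
  have h5 : (5 : F) = 0 := by
    have := natCast_card_eq_zero (F := F); rw [hq] at this; exact_mod_cast this
  have h1 := eq_inf_of_max hH (M := stabilizing (glToMat ι F) C) ?_ ?_
  · let A : Matrix (Fin 4) (Fin 4) F := !![1, 1, 0, 0; 1, -1, 0, 0; 0, 0, 1, -1; 0, 0, 1, 1]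
    have hA : A.det = 1 := by
      simp [A, Matrix.det_succ_row_zero, Fin.sum_univ_succ, Fin.succAbove]
      linear_combination -h5
    let g := Matrix.toLinearEquiv b A (by rw [hA]; exact isUnit_one)
    have hg : ∀ x, b.repr (g x) = A *ᵥ b.repr x := fun x => by
      rw [Matrix.toLinearEquiv_apply, Matrix.repr_toLin]
    have : toLE.symm g ∈ Geo.decompositionStabilizer (fun i => F ∙ b i) ⊓ Geo.specialLinear ι F := by
      rw [h1]
      refine ⟨mem_stabilizing_of_mapsTo fun v hv => ?_, ?_⟩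
      · rw [MulEquiv.apply_symm_apply]
        simp only [C, Set.mem_ofPred_eq, two_zero_iff, Fin.prod_univ_four] at hv ⊢
        have e0 : b.repr (g v) 0 = b.repr v 0 + b.repr v 1 := by
          rw [hg]; simp [A, Matrix.mulVec, dotProduct, Fin.sum_univ_four]
        have e1 : b.repr (g v) 1 = b.repr v 0 - b.repr v 1 := by
          rw [hg]; simp [A, Matrix.mulVec, dotProduct, Fin.sum_univ_four, sub_eq_add_neg]
        have e2 : b.repr (g v) 2 = b.repr v 2 - b.repr v 3 := by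
          rw [hg]; simp [A, Matrix.mulVec, dotProduct, Fin.sum_univ_four, sub_eq_add_neg]
        have e3 : b.repr (g v) 3 = b.repr v 2 + b.repr v 3 := by
          rw [hg]; simp [A, Matrix.mulVec, dotProduct, Fin.sum_univ_four]
        rw [e0, e1, e2, e3]
        let φ := ZMod.ringEquivOfPrime F (by norm_num : Nat.Prime 5) hq
        obtain ⟨a0, h0⟩ := φ.surjective (b.repr v 0)
        obtain ⟨a1, h1⟩ := φ.surjective (b.repr v 1)
        obtain ⟨a2, h2⟩ := φ.surjective (b.repr v 2)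
        obtain ⟨a3, h3⟩ := φ.surjective (b.repr v 3)
        rw [← h0, ← h1, ← h2, ← h3] at hv ⊢
        simp only [← map_mul, ← map_pow, ← map_add, ← map_sub, map_eq_zero_iff φ φ.injective,
          map_eq_one_iff φ φ.injective] at hv ⊢
        exact klein_aux _ _ _ _ hv
      · refine (mem_SL_iff _).2 (Units.ext ?_)
        rw [MulEquiv.apply_symm_apply, LinearEquiv.coe_det]
        exact (LinearMap.det_toLin b A).trans hA
    refine notMem_decompositionStabilizer (i := 0) (Submodule.mem_span_singleton_self _)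
      (notMem_span_basis b (j := 0) (k := 1) (by decide) ?_ ?_) this.1
    · rw [MulEquiv.apply_symm_apply, hg]; simp [A, Matrix.mulVec, dotProduct, Fin.sum_univ_four]
    · rw [MulEquiv.apply_symm_apply, hg]; simp [A, Matrix.mulVec, dotProduct, Fin.sum_univ_four]
  · intro g hg
    obtain ⟨σ, c, h1, h2, h3⟩ := monomial_of_mem b hg.1
    have hd := det_monomial b h2
    rw [(mem_SL_iff g).1 hg.2] at hd
    have h4 : (∏ i, c i) ^ 2 = 1 := by
      rcases Int.units_eq_one_or (Equiv.Perm.sign σ) with h | h <;> rw [h] at hd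
      · simp at hd; rw [← hd]; simp
      · simp at hd; rw [← neg_sq, ← hd]; simp
    refine mem_stabilizing_of_mapsTo fun v hv => ?_
    rcases hv with hv | ⟨i, j, hij, hi, hj⟩
    · left
      rw [← Equiv.prod_comp σ]
      simp only [h3, Finset.prod_mul_distrib, mul_pow, h4, hv, one_mul]
    · exact Or.inr ⟨σ i, σ j, fun h => hij (σ.injective h), by simp [h3, hi], by simp [h3, hj]⟩
  · intro hle
    obtain ⟨_, ⟨g, hg, rfl⟩, a, ha, e⟩ := Rich.trans (richGL_SL (ι := ι) (F := F) (by omega)) (b 0) trivial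
      (b 0 + b 1 + b 2) trivial (b.ne_zero 0) (fun h => by simpa using congrArg (fun x => b.repr x 0) h)
    have h1 : toLE g (b 0) ∈ C := (hle hg (b 0)).1 (Or.inr ⟨1, 2, by decide, by simp, by simp⟩)
    erw [e] at h1
    simp [C, two_zero_iff, Fin.prod_univ_four, ha] at h1

/-- `GL_2(3) wr S_2 ∩ SL_4(3)` preserves a symplectic form up to sign. -/
theorem planes_four_three (hq : Fintype.card F = 3) {D : Fin 2 → Submodule F (ι → F)}
    (hD : Geo.IsMDecomposition 2 D) : ∃ f : (ι → F) → (ι → F) → F, Geo.IsSymplecticForm f ∧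
      Geo.decompositionStabilizer D ⊓ Geo.specialLinear ι F ≤ Geo.similarityGroup f := by
  obtain ⟨f, hf, hD'⟩ := exists_symp_of_planes hD
  refine ⟨f, hf, fun g hg => ?_⟩
  have h3 := three_eq_zero_of_card_three hq
  let S := sympPQ hf
  obtain ⟨π, hπ⟩ := exists_projs hD.indep hD.iSup_eq_top
  obtain ⟨σ, hσ⟩ := (mem_decompositionStabilizer_iff _ g).1 hg.1
  have hnd : ∀ i, S.NondegOn (D i) := fun i => (S.nondegOn_iff_geo _).2 (hD'.nondegenerate i)
  choose p hp q hq' h1 h2 using fun i => exists_symp_pair S (hnd i) (hD.finrank_eq i)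
  let d : Fin 2 → F := fun i => S.B (toLE g (p i)) (toLE g (q i))
  have hd : ∀ i, ∀ x ∈ D i, ∀ y ∈ D i, S.B (toLE g x) (toLE g y) = d i * S.B x y := by
    intro i x hx y hy
    conv_lhs => rw [h2 i x hx, h2 i y hy]
    conv_rhs => rw [h2 i x hx, h2 i y hy]
    simp only [map_sub, map_smul, PQ.B_sub_left, PQ.B_sub_right, PQ.B_smul_left, PQ.B_smul_right,
      S.symp_B_self, S.symp_B_swap (toLE g (p i)) (toLE g (q i)), S.symp_B_swap (p i) (q i), h1, FP.symp_σ, d]
    ring
  have hd0 : ∀ i, d i ≠ 0 := by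
    intro i h0
    have : toLE g (p i) = 0 := hnd (σ i) _ (mem_of_map_eq (hσ i) (hp i)) fun y hy => by
      rw [← hσ] at hy
      obtain ⟨y, hy', rfl⟩ := hy
      rw [LinearEquiv.coe_coe, hd i _ (hp i) _ hy', h0, zero_mul]
    have h4 := h1 i
    rw [(toLE g).map_eq_zero_iff.1 this] at h4
    simp at h4
  by_cases hdd : d 0 = d 1
  · refine ⟨Units.mk0 (d 0) (hd0 0), fun u v => ?_⟩
    refine hπ.sim S hD'.orthogonal hσ (fun i x hx y hy => ?_) u v
    rw [hd i x hx y hy]
    fin_cases i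
    · rfl
    · exact congrArg (· * S.B x y) hdd.symm
  exfalso
  have hpm : ∀ i, d i = 1 ∨ d i = -1 := fun i =>
    mul_self_eq_one_iff.1 (by rw [← sq]; exact pow_card_pred (k := 2) hq (hd0 i))
  obtain ⟨i, hi, hi'⟩ : ∃ i, d i = -1 ∧ ∀ j, j ≠ i → d j = 1 := by
    rcases hpm 0 with a | a <;> rcases hpm 1 with b | b
    · exact (hdd (a.trans b.symm)).elim
    · exact ⟨1, b, fun j hj => by fin_cases j; exacts [a, (hj rfl).elim]⟩
    · exact ⟨0, a, fun j hj => by fin_cases j; exacts [(hj rfl).elim, b]⟩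
    · exact (hdd (a.trans b.symm)).elim
  obtain ⟨k, hk, e⟩ := exists_dilat (φ := (-2 : F) • S.lin (q i)) (v := p i) (by simp [h1]; norm_num)
  have hk1 : ∀ j, j ≠ i → ∀ x ∈ D j, k x = x := fun j hj x hx => by
    have : S.B x (q i) = 0 := hD'.orthogonal j i hj x hx _ (hq' i)
    simp [e, this]
  have hk2 : ∀ j, ∀ x ∈ D j, k x ∈ D j := fun j x hx => by
    by_cases hj : j = i
    · subst hj; rw [e]; exact add_mem hx (Submodule.smul_mem _ _ (hp j))
    · rwa [hk1 j hj x hx]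
  have h4 : toLE g * k ∈ S.isom := by
    rw [PQ.symp_mem_isom]
    intro x y
    rw [← one_mul (S.B x y)]
    refine hπ.sim S hD'.orthogonal (σ := σ) (fun j => map_eq_of_mem (g := toLE g * k) (by rw [hD.finrank_eq, hD.finrank_eq])
      fun x hx => mem_of_map_eq (hσ j) (hk2 j x hx)) (fun j x hx y hy => ?_) x y
    rw [LinearEquiv.mul_apply, LinearEquiv.mul_apply, hd j _ (hk2 j x hx) _ (hk2 j y hy)]
    by_cases hj : j = i
    · subst hj
      have h5 : S.B x y = S.B x (q j) * S.B (p j) y + S.B x (p j) * S.B y (q j) := by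
        conv_lhs => rw [h2 j x hx]
        simp [S.symp_B_swap y (q j)]
      simp only [hi, e, LinearMap.smul_apply, PQ.lin_apply, PQ.B_add_left, PQ.B_add_right, PQ.B_smul_left,
        PQ.B_smul_right, S.symp_B_self, FP.symp_σ, smul_eq_mul]
      linear_combination (-2) * h5
    · rw [hk1 j hj x hx, hk1 j hj y hy, hi' j hj]
  have h5 := (mem_sisom.1 (isom_le_sisom_of_all_sing (sympPQ_nondeg hf) (fun _ => trivial) h4)).2
  rw [map_mul, (mem_SL_iff g).1 hg.2, one_mul] at h5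
  rw [h5] at hk
  simp only [Units.val_one, LinearMap.smul_apply, PQ.lin_apply, h1, smul_eq_mul] at hk
  exact one_ne_zero (by linear_combination h3 - hk : (1 : F) = 0)

/-- The prime subfield `{x | x ^ 2 = x}` in characteristic two. -/
def subTwo (h2 : (2 : F) = 0) : Subfield F where
  carrier := {x | x ^ 2 = x}
  mul_mem' := by
    intro a b ha hb
    simp only [Set.mem_ofPred_eq] at *
    rw [mul_pow, ha, hb]
  one_mem' := by simp
  add_mem' := by
    intro a b ha hb
    simp only [Set.mem_ofPred_eq] at *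
    linear_combination ha + hb + a * b * h2
  zero_mem' := by simp
  neg_mem' := by
    intro a ha
    simp only [Set.mem_ofPred_eq] at *
    linear_combination ha + a * h2
  inv_mem' := by
    intro a ha
    simp only [Set.mem_ofPred_eq] at *
    rw [inv_pow, ha]

theorem card_subTwo (h2 : (2 : F) = 0) : Nat.card (subTwo h2) = 2 := by
  rw [Nat.card_eq_two_iff' (0 : subTwo h2)]
  refine ⟨1, one_ne_zero, fun y hy => Subtype.ext ?_⟩
  have h1 : (y : F) ^ 2 = y := y.2
  have h3 : (y : F) ≠ 0 := fun h => hy (Subtype.ext h)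
  exact mul_left_cancel₀ h3 (by rw [← sq, h1]; simp)

theorem singer_aux (hq : Fintype.card F = 4) {K : Type*} [Field K] [Algebra F K] [Finite K]
    (hd : finrank F K = 3) : ∃ b : Basis (Fin 3) F K, (∀ x : K, x ^ 8 = x ↔ ∀ i, b.repr x i ^ 2 = b.repr x i) ∧
      ∀ x : K, x ^ 4 = x → ∃ c : F, x = algebraMap F K c := by
  classical
  have := Fintype.ofFinite K
  have hK : Fintype.card K = 64 := by rw [Module.card_eq_pow_finrank (K := F), hq, hd]; norm_num
  have h2F := two_eq_zero_of_card_four hq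
  have h2 : (2 : K) = 0 := by rw [← map_ofNat (algebraMap F K) 2, h2F, map_zero]
  have : CharP K 2 := (CharP.charP_iff_prime_eq_zero Nat.prime_two).2 h2
  obtain ⟨ζ, hζ⟩ : ∃ ζ : K, ζ ^ 3 = ζ + 1 := by
    obtain ⟨a, ha, ha'⟩ := exists_pow_ne_one_of_lt (F := K) (k := 9) (by norm_num) (by omega)
    have h7 : (a ^ 9) ^ 7 = 1 := by rw [← pow_mul]; exact pow_card_pred (k := 63) hK ha
    set η := a ^ 9
    have h3 : (η - 1) * ((η ^ 3 + η + 1) * (η ^ 3 + η ^ 2 + 1)) = 0 := by
      linear_combination h7 + (η ^ 4 - η ^ 3) * h2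
    rcases mul_eq_zero.1 ((mul_eq_zero.1 h3).resolve_left (sub_ne_zero.2 ha')) with h | h
    · exact ⟨η, by linear_combination h - (η + 1) * h2⟩
    · exact ⟨η + 1, by linear_combination h + (η ^ 2 + η - 1) * h2⟩
  have hζ0 : ζ ≠ 0 := by rintro rfl; simp at hζ
  have hζ1 : ζ + 1 ≠ 0 := by rw [← hζ]; exact pow_ne_zero _ hζ0
  have h4 : ζ ^ 4 = ζ ^ 2 + ζ := by linear_combination ζ * hζ
  have h8 : ζ ^ 8 = ζ := by
    linear_combination (ζ ^ 5 + ζ ^ 3 + ζ ^ 2 + ζ) * hζ + (ζ ^ 3 + ζ ^ 2) * h2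
  let φ : K →+* K := iterateFrobenius K 2 2
  let ψ : K →+* K := iterateFrobenius K 2 3
  have hφ : ∀ x, φ x = x ^ 4 := fun x => rfl
  have hψ : ∀ x, ψ x = x ^ 8 := fun x => rfl
  have hF4 : ∀ c : F, c ^ 4 = c := fun c => by rw [← hq]; exact FiniteField.pow_card c
  have hφ' : ∀ (c : F) (x : K), φ (c • x) = c • φ x := fun c x => by
    rw [hφ, hφ, smul_pow, hF4]
  have hψ' : ∀ (c : F) (x : K), ψ (c • x) = c ^ 2 • ψ x := fun c x => by
    rw [hψ, hψ, smul_pow, show 8 = 4 * 2 by norm_num, pow_mul, hF4]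
  have hφζ : φ ζ = ζ ^ 2 + ζ := h4
  have hφζ2 : φ (ζ ^ 2) = ζ := by rw [hφ, ← pow_mul]; exact h8
  have hli : LinearIndependent F ![(1 : K), ζ, ζ ^ 2] := by
    rw [Fintype.linearIndependent_iff]
    intro g hg
    rw [Fin.sum_univ_three] at hg
    simp only [Matrix.cons_val_zero, Matrix.cons_val_one, Matrix.cons_val] at hg
    have e1 := congrArg φ hg
    simp only [map_add, hφ', map_one, hφζ, hφζ2, map_zero] at e1
    have e2 := congrArg φ e1
    simp only [map_add, hφ', map_one, hφζ, hφζ2, map_zero] at e2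
    simp only [Algebra.smul_def] at hg e1 e2
    set a := algebraMap F K (g 0)
    set b := algebraMap F K (g 1)
    set c := algebraMap F K (g 2)
    have f1 : ζ * (b * ζ - c * (ζ - 1)) = 0 := by linear_combination e1 - hg
    have f2 : ζ * (b * (ζ + 1) + c) = 0 := by linear_combination e2 - hg
    have f3 := (mul_eq_zero.1 f1).resolve_left hζ0
    have f4 := (mul_eq_zero.1 f2).resolve_left hζ0
    have hb : b = 0 := by
      have : b * (ζ ^ 2 + ζ + 1) = 0 := by linear_combination f3 + (ζ - 1) * f4 + b * h2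
      refine (mul_eq_zero.1 this).resolve_right fun h => hζ0 ?_
      linear_combination (ζ - 1) * h - hζ
    have hc : c = 0 := by rw [hb] at f4; simpa using f4
    have ha : a = 0 := by rw [hb, hc] at hg; simpa using hg
    intro i
    fin_cases i
    · exact (map_eq_zero_iff _ (algebraMap F K).injective).1 ha
    · exact (map_eq_zero_iff _ (algebraMap F K).injective).1 hb
    · exact (map_eq_zero_iff _ (algebraMap F K).injective).1 hc
  let b := basisOfLinearIndependentOfCardEqFinrank hli (by simp [hd])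
  have hb : ⇑b = ![(1 : K), ζ, ζ ^ 2] := coe_basisOfLinearIndependentOfCardEqFinrank _ _
  have hb8 : ∀ i, ψ (b i) = b i := fun i => by
    rw [hb]
    fin_cases i
    · simp
    · exact h8
    · change ψ (ζ ^ 2) = ζ ^ 2
      rw [map_pow, hψ, h8]
  have h5 : ∀ x, ψ x = ∑ i, b.repr x i ^ 2 • b i := fun x => by
    conv_lhs => rw [← b.sum_repr x, map_sum]
    simp [hψ', hb8]
  refine ⟨b, fun x => ?_, fun x hx => ?_⟩
  · rw [← hψ, h5]
    constructor
    · intro h i
      conv_rhs => rw [← h]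
      simp [Finsupp.single_apply]
    · intro h; simp [h]
  · have e0 := b.sum_repr x
    rw [Fin.sum_univ_three] at e0
    have e1 := congrArg φ e0
    rw [hφ x, hx] at e1
    have b0 : b 0 = 1 := by rw [hb]; rfl
    have b1 : φ (b 1) = b 2 + b 1 := by rw [hb]; exact hφζ
    have b2 : φ (b 2) = b 1 := by rw [hb]; exact hφζ2
    simp only [map_add, hφ', b1, b2] at e1
    have e2 := congrArg (fun y => b.repr y 1) e1
    have e3 := congrArg (fun y => b.repr y 2) e1
    have e4 : φ (b 0) = b 0 := by rw [b0, map_one]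
    simp [e4] at e2 e3
    refine ⟨b.repr x 0, ?_⟩
    conv_lhs => rw [← e0, e3, e2, b0]
    simp [Algebra.algebraMap_eq_smul_one]

theorem singer_aux2 (hq : Fintype.card F = 4) (h2F : (2 : F) = 0) {K : Type*} [Field K] [Algebra F K]
    [Finite K] (hd : finrank F K = 3) (b : Basis (Fin 3) F K)
    (hb1 : ∀ x : K, x ^ 8 = x ↔ ∀ i, b.repr x i ^ 2 = b.repr x i)
    (hb2 : ∀ x : K, x ^ 4 = x → ∃ c : F, x = algebraMap F K c) (σ : K →ₗ[F] K)
    (hσmul : ∀ k l : K, σ (k * l) = σ k * σ l) (a : K)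
    (hdet : LinearMap.det (Algebra.lmul F K a ∘ₗ σ) = 1) :
    ∃ c : F, c ≠ 0 ∧ ∀ x : Fin 3 → F, (∀ i, x i ∈ subTwo h2F) →
      ∀ i, (c • b.equivFun (a * σ (b.equivFun.symm x))) i ∈ subTwo h2F := by
  rw [LinearMap.det_comp, ← Algebra.norm_apply] at hdet
  have hσ8 : ∀ k : K, k ^ 8 = k → σ k ^ 8 = σ k := fun k hk => by
    conv_rhs => rw [← hk]
    simp only [pow_succ, hσmul, pow_zero, one_mul]
  have hdσ : LinearMap.det σ ∈ subTwo h2F := by
    rw [← LinearMap.det_toMatrix b, Matrix.det_apply']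
    refine sum_mem fun s _ => mul_mem (intCast_mem _ _) (prod_mem fun i _ => ?_)
    rw [LinearMap.toMatrix_apply]
    refine (hb1 _).1 (hσ8 _ ((hb1 _).2 fun j => ?_)) _
    rw [b.repr_self, Finsupp.single_apply]; split_ifs <;> simp
  have hdσ1 : LinearMap.det σ = 1 := by
    have h0 : LinearMap.det σ ≠ 0 := fun h => by simp [h] at hdet
    exact mul_left_cancel₀ h0 (by rw [← sq, mul_one]; exact hdσ)
  have h21 : a ^ 21 = 1 := by
    rw [hdσ1, mul_one] at hdet
    have := FiniteField.algebraMap_norm_eq_pow (K := F) (K' := K) (x := a)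
    rw [hdet, map_one, Module.natCard_eq_pow_finrank (K := F), hd, Nat.card_eq_fintype_card, hq] at this
    exact this.symm
  obtain ⟨c, hc⟩ := hb2 (a ^ 7) (by linear_combination a ^ 7 * h21)
  have hc0 : c ≠ 0 := by
    rintro rfl
    rw [map_zero] at hc
    rw [show 21 = 7 * 3 by norm_num, pow_mul, hc] at h21
    simp at h21
  refine ⟨c ^ 2, pow_ne_zero _ hc0, fun x hx i => ?_⟩
  have h3 : c ^ 2 • b.equivFun (a * σ (b.equivFun.symm x)) = b.equivFun (a ^ 15 * σ (b.equivFun.symm x)) := by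
    rw [← map_smul, Algebra.smul_def, map_pow, ← hc]
    congr 1; ring
  rw [h3]
  refine (hb1 _).1 ?_ i
  rw [mul_pow, hσ8 _ ((hb1 _).2 fun j => by
    rw [← Basis.equivFun_apply, LinearEquiv.apply_symm_apply]; exact hx j)]
  congr 1
  linear_combination (a ^ 99 + a ^ 78 + a ^ 57 + a ^ 36 + a ^ 15) * h21

omit [Fintype F] in
/-- Evaluation at a non-zero vector identifies a field of full degree with the column space. -/
theorem exists_ev_equiv {r : ℕ} {K : Subalgebra F (Matrix ι ι F)} (hK : Geo.IsFieldSubalgebra r K)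
    (hr : r = Fintype.card ι) {v0 : ι → F} (hv0 : v0 ≠ 0) :
    ∃ E : K ≃ₗ[F] (ι → F), ∀ k : K, E k = (k : Matrix ι ι F) *ᵥ v0 := by
  let ev : K →ₗ[F] (ι → F) :=
    { toFun := fun k => (k : Matrix ι ι F) *ᵥ v0
      map_add' := fun a b => by simp [Matrix.add_mulVec]
      map_smul' := fun a b => by simp [Matrix.smul_mulVec] }
  have hev : Function.Injective ev := by
    rw [injective_iff_map_eq_zero]
    exact fun k hk => Subtype.ext (H8.field_eq_zero_of_mulVec hK k.2 hv0 hk)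
  exact ⟨LinearEquiv.ofInjectiveOfFinrankEq ev hev (by simp [hK.finrank_eq, hr]), fun k => rfl⟩

omit [Fintype F] in
theorem exists_conj_restrict {K : Subalgebra F (Matrix ι ι F)} {g : GL ι F}
    (hg : g ∈ Geo.subalgebraNormalizer K) : ∃ σ : K →ₗ[F] K, (∀ k l, σ (k * l) = σ k * σ l) ∧
      ∀ (k : K) v, toLE g ((k : Matrix ι ι F) *ᵥ v) = (σ k : Matrix ι ι F) *ᵥ toLE g v := by
  let σ : K →ₗ[F] K :=
    { toFun := fun k => ⟨conjMat g k, (hg k).1 k.2⟩
      map_add' := fun a b => Subtype.ext (map_add (conjMat g) _ _)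
      map_smul' := fun a b => Subtype.ext (map_smul (conjMat g) _ _) }
  refine ⟨σ, fun k l => Subtype.ext ?_, fun k v => ?_⟩
  · change (g : Matrix ι ι F) * ((k : Matrix ι ι F) * (l : Matrix ι ι F)) * _ =
      (_ * (k : Matrix ι ι F) * _) * (_ * (l : Matrix ι ι F) * _)
    simp only [mul_assoc, Units.inv_mul_cancel_left]
  · change _ = ((g : Matrix ι ι F) * (k : Matrix ι ι F) * _) *ᵥ _
    rw [conj_mulVec, LinearEquiv.symm_apply_apply]

/-- The normaliser of a Singer cycle in `SL_3(4)` lies in a subfield subgroup. -/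
theorem singer_three_four (hq : Fintype.card F = 4) {K : Subalgebra F (Matrix (Fin 3) (Fin 3) F)}
    (hK : Geo.IsFieldSubalgebra 3 K) : ∃ (F₀ : Subfield F) (P : GL (Fin 3) F), Nat.card F₀ = 2 ∧
      Geo.subalgebraNormalizer K ⊓ Geo.specialLinear (Fin 3) F ≤ Geo.subfieldSubgroup F₀ P := by
  let _ := Asch.fieldOf K hK.comm hK.inv
  have h2F := two_eq_zero_of_card_four hq
  obtain ⟨b, hb1, hb2⟩ := singer_aux hq (K := K) hK.finrank_eq
  obtain ⟨E, hE⟩ := exists_ev_equiv hK (by simp) (v0 := Pi.single 0 1) (by simp)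
  let Ψ : (Fin 3 → F) ≃ₗ[F] (Fin 3 → F) := b.equivFun.symm.trans E
  refine ⟨subTwo h2F, toLE.symm Ψ, card_subTwo h2F, fun g hg => ?_⟩
  rw [mem_subfieldSubgroup_iff]
  obtain ⟨σ, hσ1, hσ2⟩ := exists_conj_restrict hg.1
  obtain ⟨a, ha⟩ := E.surjective (toLE g (Pi.single 0 1))
  have hga : ∀ k : K, toLE g (E k) = E (a * σ k) := fun k => by
    rw [mul_comm, hE k, hσ2, ← ha, hE, hE, Matrix.mulVec_mulVec]; rfl
  have hθ : ∀ x, theta (Equiv.refl _) (toLE.symm Ψ) g x = b.equivFun (a * σ (b.equivFun.symm x)) := fun x => by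
    rw [theta_apply, LinearEquiv.symm_apply_eq, psi_apply, psi_apply, toLE_symm_mulVec, toLE_symm_mulVec]
    change toLE g (E (b.equivFun.symm x)) = E (b.equivFun.symm (b.equivFun _))
    rw [hga, LinearEquiv.symm_apply_apply]
  simp only [hθ]
  refine singer_aux2 hq h2F hK.finrank_eq b hb1 hb2 σ hσ1 a ?_
  have h1 : (toLE g : (Fin 3 → F) →ₗ[F] (Fin 3 → F)) =
      (E : K →ₗ[F] _) ∘ₗ (Algebra.lmul F K a ∘ₗ σ) ∘ₗ (E.symm : _ →ₗ[F] K) := by
    refine LinearMap.ext fun x => ?_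
    obtain ⟨k, rfl⟩ := E.surjective x
    simp [hga]
  have h2 := congrArg Units.val ((mem_SL_iff g).1 hg.2)
  rwa [LinearEquiv.coe_det, h1, LinearMap.det_conj] at h2

end Cfsg.Agent.H7
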