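import Cfsg.Agent.H7.Sp6
import Cfsg.Agent.H7.SmallSL

/-!
Symplectic groups: maximality of field extension subgroups of symplectic type, second part.
-/

set_option autoImplicit false
set_option linter.unusedSectionVars false

namespace Cfsg.Agent.H7

open Module Cfsg.Agent.Form
open scoped Matrix MatrixGroups

variable {F K : Type*} [Field F] [Field K] [Algebra F K] {V : Type*} [AddCommGroup V] [Module F V] [Module K V]
  [IsScalarTower F K V] [FiniteDimensional F K] [FiniteDimensional K V] [FiniteDimensional F V]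
variable {τ : K →ₗ[F] F} {f : PQ (FP.symp K) V} {S : PQ (FP.symp F) V} {M : Subgroup (V ≃ₗ[F] V)}

/-- The stabiliser of a subspace. -/
def stabSub (W : Submodule F V) : Subgroup (V ≃ₗ[F] V) where
  carrier := {g | ∀ w ∈ W, g w ∈ W}
  one_mem' _ h := h
  mul_mem' hg hh w hw := hg _ (hh w hw)
  inv_mem' {g} hg w hw := (stab_iff_of_le g W hg (g.symm w)).2 (by simpa using hw)

/-- The scalars `k` with `g (k u) ∈ K u`. -/
def dz (K : Type*) [Field K] [Algebra F K] [Module K V] [IsScalarTower F K V] (u : V) (g : V ≃ₗ[F] V) :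
    Submodule F K :=
  ((K ∙ u).restrictScalars F).comap ((g : V →ₗ[F] V) ∘ₗ (LinearMap.toSpanSingleton K V u).restrictScalars F)

theorem mem_dz {u : V} {g : V ≃ₗ[F] V} {k : K} : k ∈ dz K u g ↔ ∃ k' : K, g (k • u) = k' • u := by
  simp [dz, Submodule.mem_span_singleton, eq_comm]

theorem dz_inv_top {u : V} {g : V ≃ₗ[F] V} (h : dz K u g = ⊤) : dz K u g⁻¹ = ⊤ := by
  have : g ∈ stabSub ((K ∙ u).restrictScalars F) := fun w hw => by
    obtain ⟨k, rfl⟩ := Submodule.mem_span_singleton.1 hw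
    exact (h ▸ Submodule.mem_top : k ∈ dz K u g)
  exact eq_top_iff.2 fun k _ => (stabSub _).inv_mem this _
    (Submodule.smul_mem (K ∙ u) k (Submodule.mem_span_singleton_self u))

theorem exists_extremal (h : ExtS τ f S) (hp : (finrank F K).Prime) {u : V} {G : Subgroup (V ≃ₗ[F] V)}
    (hT : ∀ κ, (tv f u κ).restrictScalars F ∈ G) (hex : ∃ g ∈ G, dz K u g ≠ ⊤ ∧ dz K u g ≠ ⊥) :
    ∃ g ∈ G, dz K u g ≠ ⊤ ∧ dz K u g ≠ ⊥ ∧ ((∀ b : K, f.B (g (b • u)) u = 0) ∨ ∃ β : K, β ≠ 0 ∧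
      (∀ b, τ (β * b) = 0 ↔ f.B (g (b • u)) u = 0) ∧ ∀ δ ∈ dz K u g, ∃ κ, ∀ b : K,
        (g⁻¹ * (tv f u κ).restrictScalars F * g) (b • u) = b • u + τ (β * b) • δ • u) := by
  obtain ⟨g₀, hg₀, a1, a2⟩ := hex
  obtain ⟨g, ⟨hg, b1⟩, hmax⟩ := (measure fun g => finrank F K - finrank F (dz K u g)).wf.has_min
    {g | g ∈ G ∧ dz K u g ≠ ⊤} ⟨g₀, hg₀, a1⟩
  have hmax' : ∀ g' ∈ G, finrank F (dz K u g) < finrank F (dz K u g') → dz K u g' = ⊤ := fun g' hg' e => by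
    by_contra e'
    refine hmax g' ⟨hg', e'⟩ ?_
    have := Submodule.finrank_le (dz K u g')
    change finrank F K - finrank F (dz K u g') < finrank F K - finrank F (dz K u g)
    omega
  have b2 : dz K u g ≠ ⊥ := fun e => a1 (hmax' g₀ hg₀ (by
    rw [e, finrank_bot]; exact Nat.pos_of_ne_zero fun e' => a2 (Submodule.finrank_eq_zero.1 e')))
  refine ⟨g, hg, b1, b2, ?_⟩
  by_cases hφ : ∀ b : K, f.B (g (b • u)) u = 0
  · exact Or.inl hφ
  right
  push Not at hφ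
  obtain ⟨a, ha⟩ := hφ
  let φ : K →ₗ[F] K := flin F f u ∘ₗ (g : V →ₗ[F] V) ∘ₗ (LinearMap.toSpanSingleton K V u).restrictScalars F
  have hφ : ∀ b, f.B (g (b • u)) u = φ b := fun b => rfl
  simp only [hφ] at ha ⊢
  have ht : ∀ κ b : K, (g⁻¹ * (tv f u κ).restrictScalars F * g) (b • u) = b • u + g.symm ((κ * φ b) • u) :=
    fun κ b => by simp [LinearEquiv.mul_apply, hφ]
  have c1 : ∀ δ ∈ dz K u g⁻¹, ∀ b, δ / φ a * φ b ∈ dz K u g⁻¹ := fun δ hδ b => by
    have := hmax' _ (G.mul_mem (G.mul_mem (G.inv_mem hg) (hT (δ / φ a))) hg)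
      (Submodule.finrank_lt_finrank_of_lt (SetLike.lt_iff_le_and_exists.2 ⟨fun c hc => ?_, a, ?_, fun hc => ?_⟩))
    · obtain ⟨k, hk⟩ := mem_dz.1 (this ▸ Submodule.mem_top : b ∈ dz K u _)
      rw [ht] at hk
      exact mem_dz.2 ⟨k - b, by rw [sub_smul, ← hk]; simp⟩
    · obtain ⟨k, hk⟩ := mem_dz.1 hc
      exact mem_dz.2 ⟨c, by rw [ht, ← hφ c, hk]; simp⟩
    · obtain ⟨k, hk⟩ := mem_dz.1 hδ
      exact mem_dz.2 ⟨a + k, by rw [ht, div_mul_cancel₀ _ ha, add_smul, ← hk]; rfl⟩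
    · obtain ⟨k, hk⟩ := mem_dz.1 hc
      exact ha (by rw [← hφ, hk]; simp)
  let A : Subalgebra F K :=
    { carrier := {l | ∀ δ ∈ dz K u g⁻¹, δ * l ∈ dz K u g⁻¹}
      mul_mem' := fun hb hc δ hδ => by rw [← mul_assoc]; exact hc _ (hb δ hδ)
      add_mem' := fun hb hc δ hδ => by rw [mul_add]; exact add_mem (hb δ hδ) (hc δ hδ)
      algebraMap_mem' := fun c δ hδ => by rw [mul_comm, ← Algebra.smul_def]; exact Submodule.smul_mem _ _ hδ }
  have hA : A = ⊥ := by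
    refine ((Subalgebra.isSimpleOrder_of_finrank_prime F K hp).eq_bot_or_eq_top A).resolve_right fun e => b1 ?_
    obtain ⟨δ, hδ, hδ0⟩ := Submodule.exists_mem_ne_zero_of_ne_bot b2
    obtain ⟨k, hk⟩ := mem_dz.1 hδ
    have hu : u ≠ 0 := by rintro rfl; apply ha; rw [← hφ]; simp
    have hk0 : k ≠ 0 := by rintro rfl; simp [hδ0, hu] at hk
    rw [← inv_inv g]
    refine dz_inv_top (eq_top_iff.2 fun l _ => ?_)
    have := (e ▸ Algebra.mem_top : l / k ∈ A) k (mem_dz.2 ⟨δ, by rw [← hk]; exact g.symm_apply_apply _⟩)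
    rwa [mul_div_cancel₀ _ hk0] at this
  obtain ⟨ψ, ψ1, -⟩ := exists_dual_one (F := F) (W := ⊥) (x := φ a) (by simpa using ha)
  obtain ⟨β, hβ⟩ := exists_tau_eq h.tau (ψ ∘ₗ φ)
  have c2 : ∀ b, φ b = τ (β * b) • φ a := fun b => by
    have : φ b / φ a ∈ A := fun δ hδ => by convert c1 δ hδ b using 1; ring
    rw [hA, Algebra.mem_bot] at this
    obtain ⟨c, hc⟩ := this
    have e : φ b = c • φ a := by rw [Algebra.smul_def, hc, div_mul_cancel₀ _ ha]
    rw [← hβ, LinearMap.comp_apply ψ, e, map_smul, ψ1, smul_eq_mul, mul_one]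
  refine ⟨β, ?_, fun b => ?_, fun δ hδ => ?_⟩
  · rintro rfl; exact ha (by simpa using c2 a)
  · rw [c2 b, smul_eq_zero, or_iff_left ha]
  · obtain ⟨k, hk⟩ := mem_dz.1 hδ
    refine ⟨k / φ a, fun b => ?_⟩
    rw [ht, c2 b, mul_smul_comm, div_mul_cancel₀ _ ha, smul_assoc, ← hk, map_smul, g.symm_apply_apply]

theorem tv_of_two (h : ExtS τ f S) (hM : M ≤ S.isom) (hK : ∀ g ∈ f.isom, g.restrictScalars F ∈ M) {u : V}
    (hu : u ≠ 0) {β δ₁ δ₂ : K} (hβ : β ≠ 0) (h1 : δ₁ ≠ 0) (h2 : δ₂ ≠ 0) (h12 : δ₁ ≠ δ₂)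
    (t1 : ∃ t ∈ M, ∀ b : K, t (b • u) = b • u + τ (β * b) • δ₁ • u)
    (t2 : ∃ t ∈ M, ∀ b : K, t (b • u) = b • u + τ (β * b) • δ₂ • u) :
    ∃ v c, v ≠ 0 ∧ c ≠ 0 ∧ tv S v c ∈ M := by
  have Z : ∀ β : K, β ≠ 0 → (∃ t ∈ M, ∀ b : K, t (b • u) = b • u + τ (β * b) • δ₁ • u) → ∀ δ' : K, ∃ g ∈ M, ∀ x,
      g x = x + (δ' / β * f.B x u + τ (δ₁ * f.B x u) • δ' + τ (δ' * f.B x u) • δ₁ +
        (τ (β * δ') * τ (δ₁ * f.B x u)) • δ₁) • u := by
    rintro β hβ ⟨t, ht, e⟩ δ'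
    refine ⟨_, M.mul_mem (M.mul_mem ht (hK _ (tv_mem u (δ' / β)))) (M.inv_mem ht), fun x => ?_⟩
    have e1 : f.B (t.symm x) u = f.B x u + τ (δ₁ * f.B x u) • β := by
      refine sub_eq_zero.1 (eq_zero_of_tau h.tau fun k => ?_)
      have := PQ.B_isom (hM ht) (t.symm x) (k • u)
      rw [t.apply_symm_apply, e, S.B_add_right, S.B_smul_right, h.B, h.B, h.B] at this
      simp only [PQ.B_smul_right, FP.symp_σ] at this
      simp only [mul_sub, mul_add, map_sub, map_add, mul_smul_comm, map_smul, smul_eq_mul, mul_comm k β]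
      linear_combination -this
    simp only [LinearEquiv.mul_apply, LinearEquiv.coe_inv, LinearEquiv.restrictScalars_apply, tv_apply, map_add,
      t.apply_symm_apply, e, e1, mul_add, mul_smul_comm, div_mul_cancel₀ _ hβ, ← mul_assoc,
      mul_div_cancel₀ _ hβ, map_smul, add_smul, smul_assoc]
    module
  have hβ' : β * δ₂ / δ₁ ≠ 0 := div_ne_zero (mul_ne_zero hβ h2) h1
  obtain ⟨k, hk, ek⟩ := h.exists_trans hu (smul_ne_zero (div_ne_zero h1 h2) hu)
  obtain ⟨δ', hδ'⟩ : ∃ δ', τ (δ' * (β - β * δ₂ / δ₁)) ≠ 0 := by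
    by_contra hc
    push Not at hc
    have := sub_eq_zero.1 (eq_zero_of_tau h.tau hc)
    rw [eq_div_iff h1] at this
    exact h12 (mul_left_cancel₀ hβ this)
  obtain ⟨g1, m1, e1⟩ := Z β hβ t1 δ'
  obtain ⟨g2, m2, e2⟩ := Z _ hβ' (by
    obtain ⟨t, ht, e⟩ := t2
    refine ⟨_, M.mul_mem (M.mul_mem (hK k hk) ht) (M.inv_mem (hK k hk)), fun b => ?_⟩
    have e1 : (k.restrictScalars F)⁻¹ (b • u) = (b * δ₂ / δ₁) • u := by
      rw [LinearEquiv.coe_inv, LinearEquiv.symm_apply_eq, LinearEquiv.restrictScalars_apply, map_smul k, ek,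
        smul_smul]
      congr 1; field_simp
    rw [LinearEquiv.mul_apply, LinearEquiv.mul_apply, e1, e, map_add, map_smul (k.restrictScalars F),
      LinearEquiv.restrictScalars_apply, LinearEquiv.restrictScalars_apply, map_smul k, map_smul k, ek,
      smul_smul, smul_smul δ₂]
    congr 2
    · field_simp
    · congr 1; ring
    · congr 1; field_simp) (-δ')
  refine ⟨δ₁ • u, _, smul_ne_zero h1 hu, hδ', ?_⟩
  have m3 := M.mul_mem (M.mul_mem m1 m2) (hK _ (tv_mem u (δ' / (β * δ₂ / δ₁) - δ' / β)))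
  suffices H : tv S (δ₁ • u) _ = _ from H ▸ m3
  ext x
  simp only [LinearEquiv.mul_apply, LinearEquiv.restrictScalars_apply, tv_apply, e1, e2, PQ.B_add_left,
    PQ.B_smul_left, sB_self, mul_zero, add_zero]
  simp only [h.B, PQ.B_smul_right, FP.symp_σ, mul_sub, map_sub, mul_neg,
    neg_mul, map_neg, mul_comm δ' β, mul_comm δ' (β * δ₂ / δ₁), add_smul, smul_assoc, neg_div, smul_neg, neg_smul]
  module

theorem exists_two_ne [Fintype F] (hex : ¬ (finrank F K ≤ 2 ∧ Fintype.card F = 2)) {D : Submodule F K}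
    (h0 : D ≠ ⊥) (φ : K →ₗ[F] F) (hD : ∀ b, φ b = 0 → b ∈ D) :
    ∃ δ₁ ∈ D, ∃ δ₂ ∈ D, δ₁ ≠ 0 ∧ δ₂ ≠ 0 ∧ δ₁ ≠ δ₂ := by
  obtain ⟨δ, hδ, hδ0⟩ := Submodule.exists_mem_ne_zero_of_ne_bot h0
  by_cases hq : Fintype.card F = 2
  · have a1 := finrank_le_finrank_inf_ker ⊤ φ
    have a2 := finrank_span_singleton_le (F := F) δ
    rw [finrank_top] at a1
    obtain ⟨b, hb, hb'⟩ := exists_mem_notMem_of_finrank_lt (U := ⊤ ⊓ LinearMap.ker φ) (W := F ∙ δ) (by omega)
    refine ⟨δ, hδ, b, hD b hb.2, hδ0, ?_, ?_⟩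
    · rintro rfl; exact hb' (zero_mem _)
    · rintro rfl; exact hb' (Submodule.mem_span_singleton_self _)
  · obtain ⟨c, hc0, hc1⟩ := exists_ne_zero_one hq
    refine ⟨δ, hδ, c • δ, D.smul_mem c hδ, hδ0, smul_ne_zero hc0 hδ0, fun e => hc1 ?_⟩
    have : (c - 1) • δ = 0 := by rw [sub_smul, ← e, one_smul, sub_self]
    exact sub_eq_zero.1 ((smul_eq_zero.1 this).resolve_right hδ0)

theorem tv_of_plane [Fintype F] (h : ExtS τ f S) (hp : (finrank F K).Prime) (hM : M ≤ S.isom)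
    (hK : ∀ g ∈ f.isom, g.restrictScalars F ∈ M) (hex : ¬ (finrank F K ≤ 2 ∧ Fintype.card F = 2)) {u : V}
    (hu : u ≠ 0) {G : Subgroup (V ≃ₗ[F] V)} (hG : G ≤ M) (hT : ∀ κ, (tv f u κ).restrictScalars F ∈ G)
    (hP : ∀ g ∈ G, ∀ b : K, f.B (g (b • u)) u = 0 → b ∈ dz K u g)
    (hg : ∃ g ∈ G, dz K u g ≠ ⊤ ∧ dz K u g ≠ ⊥) : ∃ v c, v ≠ 0 ∧ c ≠ 0 ∧ tv S v c ∈ M := by
  obtain ⟨g, hg, a1, a2, a3 | ⟨β, b1, b2, b3⟩⟩ := exists_extremal h hp hT hg
  · exact (a1 (eq_top_iff.2 fun b _ => hP g hg b (a3 b))).elim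
  obtain ⟨δ₁, c1, δ₂, c2, c3, c4, c5⟩ := exists_two_ne hex a2 (τ ∘ₗ LinearMap.mulLeft F β)
    fun b hb => hP g hg b ((b2 b).1 hb)
  obtain ⟨κ₁, e1⟩ := b3 δ₁ c1
  obtain ⟨κ₂, e2⟩ := b3 δ₂ c2
  exact tv_of_two h hM hK hu b1 c3 c4 c5 ⟨_, hG (G.mul_mem (G.mul_mem (G.inv_mem hg) (hT _)) hg), e1⟩
    ⟨_, hG (G.mul_mem (G.mul_mem (G.inv_mem hg) (hT _)) hg), e2⟩

theorem not_semi_conj (h : ExtS τ f S) (h3 : 3 ≤ finrank K V) {u : V} (hu : u ≠ 0) {g : V ≃ₗ[F] V}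
    (a1 : dz K u g ≠ ⊤) (a2 : dz K u g ≠ ⊥) {κ : K} (hκ : κ ≠ 0) :
    ¬ KSemi K (g⁻¹ * (tv f u κ).restrictScalars F * g) := by
  intro hs
  have ht : ∀ x, (g⁻¹ * (tv f u κ).restrictScalars F * g) x = x + g.symm ((κ * f.B (g x) u) • u) :=
    fun x => by simp [LinearEquiv.mul_apply]
  have hl : KLin K (g⁻¹ * (tv f u κ).restrictScalars F * g) := fun k => by
    obtain ⟨k', e⟩ := hs k
    obtain ⟨v, hv, hv0⟩ := Submodule.exists_mem_ne_zero_of_ne_bot (LinearMap.ker_ne_bot_of_finrank_lt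
      (f := (flin F f u ∘ₗ (g : V →ₗ[F] V)).prod
        (flin F f u ∘ₗ (g : V →ₗ[F] V) ∘ₗ (LinearMap.lsmul K V k).restrictScalars F)) (by
        rw [finrank_prod, ← Module.finrank_mul_finrank F K V]
        have := Module.finrank_pos (R := F) (M := K)
        nlinarith))
    have v1 : f.B (g v) u = 0 := congrArg Prod.fst hv
    have v2 : f.B (g (k • v)) u = 0 := congrArg Prod.snd hv
    have := e v
    rw [ht, ht, v1, v2] at this
    simp only [mul_zero, zero_smul, map_zero, add_zero] at this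
    obtain rfl := smul_left_injective K hv0 this
    exact e
  obtain ⟨δ, hδ, hδ0⟩ := Submodule.exists_mem_ne_zero_of_ne_bot a2
  obtain ⟨k, hk⟩ := mem_dz.1 hδ
  obtain ⟨x, hx⟩ := h.nd.exists_eq hu (k / κ)
  refine a1 (eq_top_iff.2 fun l _ => mem_dz.2 ⟨κ * f.B (g ((l / δ) • g.symm x)) u, ?_⟩)
  have := hl (l / δ) (g.symm x)
  rw [ht, ht, smul_add, add_right_inj, g.apply_symm_apply, hx, mul_div_cancel₀ _ hκ, ← hk, g.symm_apply_apply,
    smul_smul, div_mul_cancel₀ _ hδ0, LinearEquiv.symm_apply_eq] at this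
  exact this.symm

theorem exists_dz (h : ExtS τ f S) (hK : ∀ g ∈ f.isom, g.restrictScalars F ∈ M) {g : V ≃ₗ[F] V} (hg : g ∈ M)
    (hg' : ¬ KSemi K g) : ∃ u, u ≠ 0 ∧ ∃ g ∈ M, dz K u g ≠ ⊤ ∧ dz K u g ≠ ⊥ := by
  by_contra hc
  push Not at hc
  have h1 : ∀ (k : K) v, ∃ k' : K, g (k • v) = k' • g v := fun k v => by
    by_cases hv : v = 0
    · exact ⟨0, by simp [hv]⟩
    obtain ⟨l, hl, e⟩ := h.exists_trans (u := g v) (by simpa using hv) hv
    have : dz K v (l.restrictScalars F * g) = ⊤ := by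
      by_contra e'
      have := hc v hv _ (M.mul_mem (hK l hl) hg) e'
      have h1 : (1 : K) ∈ dz K v (l.restrictScalars F * g) :=
        mem_dz.2 ⟨1, by simp [LinearEquiv.mul_apply, e]⟩
      rw [this] at h1
      exact one_ne_zero ((Submodule.mem_bot F).1 h1)
    obtain ⟨k', hk'⟩ := mem_dz.1 (this ▸ Submodule.mem_top : k ∈ dz K v _)
    refine ⟨k', l.injective ?_⟩
    rw [map_smul l k', e]; exact hk'
  apply hg'
  intro k
  choose c hc using h1 k
  have h2 : ∀ v w, f.B (g v) (g w) ≠ 0 → c v = c w := fun v w e => by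
    have := hc (v + w)
    rw [smul_add, map_add, map_add, hc v, hc w] at this
    have e1 := congrArg (f.B · (g w)) this
    have e2 := congrArg (f.B · (g v)) this
    simp only [PQ.B_add_left, PQ.B_smul_left, sB_self, mul_zero, add_zero, zero_add] at e1 e2
    rw [mul_right_cancel₀ e e1, mul_right_cancel₀ (sB_ne_comm e) e2]
  by_cases h0 : ∀ v : V, v = 0
  · exact ⟨0, fun v => by simp [h0 v]⟩
  push Not at h0
  obtain ⟨v₀, hv₀⟩ := h0
  refine ⟨c v₀, fun v => ?_⟩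
  by_cases hv : v = 0
  · simp [hv]
  obtain ⟨d, -, d1, d2⟩ := exists_B_ne_ne (S := f) (U := ⊤) (x := g v) (y := g v₀)
    (by simpa [h.nd.perp_top] using hv) (by simpa [h.nd.perp_top] using hv₀)
  obtain ⟨d, rfl⟩ := g.surjective d
  rw [hc, h2 _ _ d1, h2 _ _ d2]

theorem sp_ext_ctr [Fintype F] (h : ExtS τ f S) (hp : (finrank F K).Prime)
    (hex : ¬ (finrank K V ≤ 2 ∧ finrank F K ≤ 2 ∧ Fintype.card F = 2)) (hM : M ≤ S.isom)
    (hH : ∀ g ∈ S.isom, KSemi K g → g ∈ M) (hg : ∃ g ∈ M, ¬ KSemi K g) (v : V) : Ctr S M v := by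
  have : Finite K := Module.finite_of_finite F
  have hK : ∀ g ∈ f.isom, g.restrictScalars F ∈ M := fun g hg => hH _ (h.res_mem hg) (kLin_res g).semi
  suffices H : ∃ v c, v ≠ 0 ∧ c ≠ 0 ∧ tv S v c ∈ M by
    obtain ⟨w, c, a1, a2, a3⟩ := H
    exact h.ctr_of_tv hK a1 a2 a3 v
  obtain ⟨g, hg, hg'⟩ := hg
  obtain ⟨u, hu, hd⟩ := exists_dz h hK hg hg'
  have hT : ∀ u κ, (tv f u κ).restrictScalars F ∈ M := fun u κ => hK _ (tv_mem _ _)
  by_cases h3 : finrank K V ≤ 2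
  · refine tv_of_plane h hp hM hK (fun e => hex ⟨h3, e⟩) hu le_rfl (hT u) (fun g hg b e => ?_) hd
    have a1 := h.nd.finrank_perp (K ∙ u)
    rw [finrank_span_singleton hu] at a1
    have a2 : (K ∙ u) = f.perp (K ∙ u) := Submodule.eq_of_le_of_finrank_le
      ((Submodule.span_singleton_le_iff_mem _ _).2 (f.mem_perp_span_singleton.2 (by simp)))
      (by rw [finrank_span_singleton hu]; omega)
    exact (a2 ▸ f.mem_perp_span_singleton.2 e : g (b • u) ∈ K ∙ u)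
  obtain ⟨g, hg, a1, a2, a3⟩ := exists_extremal h hp (hT u) hd
  obtain ⟨κ, hκ, a4⟩ : ∃ κ, κ ≠ 0 ∧ dz K u (g⁻¹ * (tv f u κ).restrictScalars F * g) = ⊤ := by
    rcases a3 with a3 | ⟨β, b1, -, b3⟩
    · exact ⟨1, one_ne_zero, eq_top_iff.2 fun b _ => mem_dz.2 ⟨b, by simp [LinearEquiv.mul_apply, a3]⟩⟩
    · obtain ⟨δ, hδ, hδ0⟩ := Submodule.exists_mem_ne_zero_of_ne_bot a2
      obtain ⟨κ, e⟩ := b3 δ hδ
      refine ⟨κ, ?_, eq_top_iff.2 fun b _ => mem_dz.2 ⟨b + τ (β * b) • δ, by rw [e, add_smul, smul_assoc]⟩⟩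
      rintro rfl
      refine b1 (eq_zero_of_tau h.tau fun k => ?_)
      simpa [LinearEquiv.mul_apply, hδ0, hu, mul_comm] using e k
  by_cases hY : ∀ ρ ∈ M, (∀ w, f.B w u = 0 → ρ w = w) → KLin K ρ
  · exact (not_semi_conj h (by omega) hu a1 a2 hκ (h.semi_of_stab hM hH hu hY
      (M.mul_mem (M.mul_mem (M.inv_mem hg) (hT _ _)) hg) (fun k => mem_dz.1 (a4 ▸ Submodule.mem_top))
      (fun k => mem_dz.1 (dz_inv_top a4 ▸ Submodule.mem_top)))).elim
  push Not at hY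
  obtain ⟨ρ₀, r1, r2, r3⟩ := hY
  obtain ⟨x, hx⟩ := h.nd.exists_eq hu 1
  have key : ∀ ρ ∈ M, (∀ w, f.B w u = 0 → ρ w = w) → ∀ y, ∃ k : K, ρ y - y = k • u := fun ρ r1 r2 y =>
    h.mem_span_of_perp fun w e => by
      rw [S.B_sub_left, sub_eq_zero]
      conv_lhs => rw [← r2 w e]
      exact PQ.B_isom (hM r1) y w
  obtain ⟨ρ, r1, r2, r3, r4⟩ : ∃ ρ ∈ M, (∀ w, f.B w u = 0 → ρ w = w) ∧ ¬ KLin K ρ ∧ ρ x = x := by
    obtain ⟨k, hk⟩ := key ρ₀ r1 r2 x
    refine ⟨_, M.mul_mem (hT u (-k)) r1, fun w e => by simp [LinearEquiv.mul_apply, r2 w e, e], fun e => r3 ?_, ?_⟩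
    · simpa using (kLin_res (tv f u (-k))).inv.mul e
    · simp [LinearEquiv.mul_apply, sub_eq_iff_eq_add.1 hk, hx]
  have hx0 : x ≠ 0 := by rintro rfl; simp at hx
  have hux : f.B u x = -1 := by rw [sB_swap, hx]
  have p : ∀ y, f.B (y - f.B y u • x) u = 0 := fun y => by simp [hx]
  by_cases hr : finrank F K ≤ 2
  · let s : K →ₗ[F] K := -(flin F f x ∘ₗ (ρ : V →ₗ[F] V) ∘ₗ (LinearMap.toSpanSingleton K V x).restrictScalars F)
    have hs : ∀ a : K, ρ (a • x) = a • x + s a • u := fun a => by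
      obtain ⟨k, hk⟩ := key ρ r1 r2 (a • x)
      have e : s a = -f.B (ρ (a • x)) x := rfl
      rw [e, sub_eq_iff_eq_add.1 hk]; simp [hux, add_comm]
    have hρ : ∀ y, ρ y = y + s (f.B y u) • u := fun y => by
      have := r2 _ (p y)
      rw [map_sub, hs] at this
      linear_combination (norm := module) this
    have s1 : ∀ a, τ (s a) = 0 := fun a => by
      have := PQ.B_isom (hM r1) (a • x) x
      simpa [hs, r4, h.B, hux] using this
    obtain ⟨a, ha⟩ : ∃ a, s a ≠ 0 := by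
      by_contra hc
      push Not at hc
      exact r3 fun k y => by simp [hρ, hc]
    have s2 : ∀ b, τ b = 0 → ∃ c : F, b = c • s a := fun b hb =>
      exists_smul_of_finrank_one (A := LinearMap.ker τ) (by
        have a1 := LinearMap.finrank_range_add_finrank_ker τ
        have a2 : finrank F (LinearMap.range τ) = 1 := by
          rw [Module.Dual.range_eq_top_of_ne_zero h.tau]; simp
        have := hp.two_le
        omega) (s1 a) ha hb
    obtain ⟨ψ, ψ1, -⟩ := exists_dual_one (F := F) (W := ⊥) (x := s a) (by simpa using ha)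
    obtain ⟨γ, hγ⟩ := exists_tau_eq h.tau (ψ ∘ₗ s)
    have s3 : ∀ b, s b = τ (γ * b) • s a := fun b => by
      obtain ⟨c, hc⟩ := s2 _ (s1 b)
      rw [← hγ, LinearMap.comp_apply, hc, map_smul, ψ1, smul_eq_mul, mul_one]
    obtain ⟨c, hc⟩ := s2 γ (by
      have := hρ x
      rw [r4, hx, s3, left_eq_add] at this
      simpa [ha, hu] using this)
    refine ⟨s a • u, c, smul_ne_zero ha hu, ?_, ?_⟩
    · rintro rfl; exact ha (by rw [s3, hc]; simp)
    · suffices H : tv S (s a • u) c = ρ from H ▸ r1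
      ext y
      rw [hρ, s3 (f.B y u), hc, tv_apply, h.B]
      simp
  let P := (Submodule.span K {x, u}).restrictScalars F
  refine tv_of_plane h hp hM hK (fun e => hr e.1) hx0 (G := M ⊓ stabSub P) inf_le_left
    (fun κ => ⟨hT _ _, fun w hw => ?_⟩) (fun g hg b e => ?_) ⟨ρ, ⟨r1, fun w hw => ?_⟩, fun e => r3 ?_, fun e => ?_⟩
  · exact add_mem hw (Submodule.smul_mem (Submodule.span K {x, u}) _ (Submodule.subset_span (by simp)))
  · obtain ⟨s, t, e'⟩ := Submodule.mem_span_pair.1 (hg.2 (b • x)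
      (Submodule.smul_mem (Submodule.span K {x, u}) _ (Submodule.subset_span (by simp))))
    rw [← e'] at e
    have : t = 0 := by simpa [hux] using e
    exact mem_dz.2 ⟨s, by rw [← e', this, zero_smul, add_zero]⟩
  · obtain ⟨k, hk⟩ := key ρ r1 r2 w
    rw [sub_eq_iff_eq_add.1 hk]
    exact add_mem (Submodule.smul_mem (Submodule.span K {x, u}) _ (Submodule.subset_span (by simp))) hw
  · have e1 : ∀ y, ρ y = y := fun y => by
      obtain ⟨k, hk⟩ := mem_dz.1 (e ▸ Submodule.mem_top : f.B y u ∈ dz K x ρ)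
      obtain ⟨l, hl⟩ := key ρ r1 r2 (f.B y u • x)
      have e2 := congrArg (f.B · x) hl
      have e3 := r2 _ (p y)
      simp only [hk, PQ.B_sub_left, PQ.B_smul_left, sB_self, hux] at e2
      have e4 : l = 0 := by simpa using e2
      rw [e4, zero_smul, sub_eq_zero] at hl
      rwa [map_sub, hl, sub_left_inj] at e3
    exact fun k y => by rw [e1, e1]
  · have : (1 : K) ∈ dz K x ρ := mem_dz.2 ⟨1, by simp [r4]⟩
    rw [e] at this
    exact one_ne_zero ((Submodule.mem_bot F).1 this)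

omit [FiniteDimensional K V] [FiniteDimensional F V] in
/-- The form over the extension field with prescribed trace. -/
theorem exists_lift_form (hτ : τ ≠ 0) (B : V → V → F) (h1 : ∀ x y z, B (x + y) z = B x z + B y z)
    (h2 : ∀ (c : F) x y, B (c • x) y = c * B x y) : ∃ f : V → V → K, ∀ x y k, τ (k * f x y) = B (k • x) y := by
  have : ∀ x y, ∃ β : K, ∀ k, τ (k * β) = B (k • x) y := fun x y => by
    obtain ⟨β, hβ⟩ := exists_tau_eq hτ
      { toFun := fun k : K => B (k • x) y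
        map_add' := fun a b => by rw [add_smul, h1]
        map_smul' := fun c a => by rw [smul_assoc, h2]; rfl }
    exact ⟨β, fun k => by rw [mul_comm]; exact (hβ k).symm⟩
  choose f hf using this
  exact ⟨f, hf⟩

omit [FiniteDimensional K V] [FiniteDimensional F V] in
theorem exists_extS (hS : S.Nondeg) (hsa : ∀ (k : K) x y, S.B (k • x) y = S.B x (k • y))
    (halt : ∀ (k : K) x, S.B (k • x) x = 0) : ∃ (τ : K →ₗ[F] F) (f : PQ (FP.symp K) V), ExtS τ f S := by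
  obtain ⟨τ, τ1, -⟩ := exists_dual_one (F := F) (W := ⊥) (x := (1 : K)) (by simp)
  have hτ : τ ≠ 0 := by rintro rfl; simp at τ1
  obtain ⟨f, hf⟩ := exists_lift_form hτ S.B S.B_add_left S.B_smul_left
  have ext : ∀ a b : K, (∀ k, τ (k * a) = τ (k * b)) → a = b := fun a b e =>
    sub_eq_zero.1 (eq_zero_of_tau hτ fun k => by rw [mul_sub, map_sub, e, sub_self])
  refine ⟨τ, PQ.ofAlt f (fun x y v => ext _ _ fun k => by simp [hf, mul_add])
    (fun c x v => ext _ _ fun k => by rw [hf, ← mul_assoc, hf, mul_smul])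
    (fun u v => ext _ _ fun k => by rw [mul_neg, map_neg, hf, hf, hsa, sB_swap])
    (fun v => ext _ _ fun k => by simp [hf, halt]), hτ, fun x hx => hS x fun y => ?_, fun x y => ?_⟩
  · have := hf x y 1
    rw [show f x y = 0 from hx y] at this
    simpa using this.symm
  · have := hf x y 1
    rw [one_mul, one_smul] at this
    exact this.symm

theorem mem_subalgebraNormalizer_iff' {ι : Type} [Fintype ι] [DecidableEq ι] (A : Subalgebra F (Matrix ι ι F))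
    (g : GL ι F) : g ∈ Geo.subalgebraNormalizer A ↔
      ∀ k : A, ∃ k' : A, ∀ v, toLE g ((k : Matrix ι ι F) *ᵥ v) = (k' : Matrix ι ι F) *ᵥ toLE g v := by
  refine ⟨fun hg k => ?_, fun h => mem_subalgebraNormalizer_of fun k hk => ?_⟩
  · obtain ⟨σ, -, e⟩ := exists_conj_restrict hg
    exact ⟨σ k, e k⟩
  · obtain ⟨k', e⟩ := h ⟨k, hk⟩
    convert k'.2
    exact matrix_ext_mulVec fun v => by rw [conj_mulVec, e, LinearEquiv.apply_symm_apply]

theorem sp_max_ext [Fintype F] {m : ℕ} (hm : 2 ≤ m) {r : ℕ} (hr : r.Prime) (hex : ¬ (m = 2 ∧ Fintype.card F = 2))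
    {A : Subalgebra F (Matrix (Fin m ⊕ Fin m) (Fin m ⊕ Fin m) F)} (hA : Geo.IsFieldSubalgebra r A)
    (hsa : Geo.IsSelfAdjointFor (sympForm m F) A)
    (halt : ∀ k ∈ A, ∀ v : (Fin m ⊕ Fin m → F), sympForm m F (k *ᵥ v) v = 0) :
    Geo.IsMaximalIn (spGL m F) (Geo.subalgebraNormalizer A ⊓ spGL m F) := by
  have : Nonempty (Fin m ⊕ Fin m) := ⟨.inl ⟨0, by omega⟩⟩
  let _ := Asch.fieldOf A hA.comm hA.inv
  let inst : Module A (Fin m ⊕ Fin m → F) :=
    Module.compHom _ ((Matrix.toLinAlgEquiv' (R := F)).toRingHom.comp A.val.toRingHom)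
  have : @IsScalarTower F A (Fin m ⊕ Fin m → F) Algebra.toSMul inst.toSMul _ :=
    ⟨fun c k v => Matrix.smul_mulVec c k.1 v⟩
  have : FiniteDimensional A (Fin m ⊕ Fin m → F) := Module.Finite.right F A _
  obtain ⟨τ, f, h⟩ := exists_extS (K := A) (spS_nondeg (F := F) m) (fun k => hsa k k.2) (fun k => halt k k.2)
  refine sp_max _ (KSemi A) (fun g _ => mem_subalgebraNormalizer_iff' A g)
    (Sp_not_le_subalgebraNormalizer hm hA hr.one_lt)
    fun M h1 h2 h3 => sp_ext_ctr h (hA.finrank_eq ▸ hr) (fun e => hex ⟨?_, e.2.2⟩) h1 h2 h3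
  have := Module.finrank_mul_finrank F A (Fin m ⊕ Fin m → F)
  rw [finrank_spS] at this
  have := Nat.mul_le_mul e.2.1 e.1
  omega

end Cfsg.Agent.H7
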