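import Cfsg.Agent.H7.Ord4

/-!
The Sylow five-subgroup of `E₇(2)`.
-/

set_option autoImplicit false
set_option linter.unusedSectionVars false
set_option linter.unusedSimpArgs false

namespace Cfsg.Agent.H7.Ord

open Cfsg.Agent.H1.E8 Cfsg.Agent.H6.E7 Cfsg.Agent.H7.Inq
open Cfsg.Agent.H7.Bit hiding app

/-- exponent vectors -/
abbrev V5 := ZMod 5 × ZMod 5

/-- linear maps -/
def lin (d1 d2 v : V5) : V5 := v.1.val • d1 + v.2.val • d2

/-- words in three linear maps -/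
def evF (d1 d2 : V5) : List ℕ → V5 → V5
  | [] => id
  | 0 :: w => lin (0, 4) (4, 0) ∘ evF d1 d2 w
  | 1 :: w => lin (0, 1) (4, 4) ∘ evF d1 d2 w
  | (_ + 2) :: w => lin d1 d2 ∘ evF d1 d2 w

set_option synthInstance.maxSize 2000 in
theorem fin_chk : ∀ d1 d2 : V5, (∀ v ∈ [(1, 0), (0, 1)], lin d1 d2 (lin d1 d2 v) + 2 • v = 3 • lin d1 d2 v) →
    (∀ v, lin d1 d2 v = v) ∨ (∀ v, lin d1 d2 v = 2 • v) ∨
      ∃ w ∈ [[0, 2, 0, 2, 2, 2], [0, 1, 2, 2, 0, 1, 2, 2], [0, 2, 1, 2, 0, 2, 1, 2], [0, 1, 2, 1, 2, 0, 1, 2, 1, 2]],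
        (∀ v, (evF d1 d2 w)^[5] v = v) ∧ ∃ v, evF d1 d2 w v ≠ v := by decide +kernel

theorem span_chk : ∀ v : V5, v ≠ 0 → ∃ i < 5, ∃ j < 5, i • v + j • lin (0, 1) (4, 4) v = (1, 0) := by decide +kernel

instance fact5 : Fact (Nat.Prime 5) := ⟨by norm_num⟩

section gen
variable {Λ : Type*} [Group Λ] {a b : Λ} (ha : a ^ 5 = 1) (hb : b ^ 5 = 1) (hab : Commute a b)

/-- the elementary abelian group -/
def zq : Multiplicative V5 →* Λ :=
  ((zp ha).noncommCoprod (zp hb) fun _ _ => hab.pow_pow _ _).comp (MulEquiv.prodMultiplicative _ _).toMonoidHom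

theorem zq_apply (v : V5) : zq ha hb hab (.ofAdd v) = a ^ v.1.val * b ^ v.2.val := rfl

/-- action on the elementary abelian group -/
def Acts (x : Λ) (h : V5 → V5) : Prop := ∀ v, x * zq ha hb hab (.ofAdd v) * x⁻¹ = zq ha hb hab (.ofAdd (h v))

variable {ha hb hab}

theorem Acts.mul {x y : Λ} {h k : V5 → V5} (hx : Acts ha hb hab x h) (hy : Acts ha hb hab y k) :
    Acts ha hb hab (x * y) (h ∘ k) := fun v => by
  rw [Function.comp, ← hx, ← hy]; group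

theorem Acts.pow {x : Λ} {h : V5 → V5} (hx : Acts ha hb hab x h) (n : ℕ) : Acts ha hb hab (x ^ n) h^[n] := by
  induction n with
  | zero => intro v; simp
  | succ n ih => rw [pow_succ]; exact ih.mul hx

theorem acts_lin {x : Λ} {d1 d2 : V5} (h1 : x * a * x⁻¹ = zq ha hb hab (.ofAdd d1))
    (h2 : x * b * x⁻¹ = zq ha hb hab (.ofAdd d2)) : Acts ha hb hab x (lin d1 d2) := fun v => by
  rw [zq_apply, ← conj_mul, ← conj_pow, ← conj_pow, h1, h2, lin, ofAdd_add, map_mul, ofAdd_nsmul, ofAdd_nsmul,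
    map_pow, map_pow]

theorem Acts.eq [Finite Λ] (hi : Function.Injective (zq ha hb hab)) (hΛ : ¬5 ^ 3 ∣ Nat.card Λ) {x : Λ} {h : V5 → V5}
    (hx : Acts ha hb hab x h) (h5 : ∀ v, h^[5] v = v) (v : V5) : h v = v := by
  obtain ⟨P, hP⟩ := exists_sylow (p := 5) (n := 2) _ hi (by simp) hΛ
  have h0 := (orderOf_pos x).ne'
  have h1 := hx.pow (ordCompl[5] (orderOf x))
  have h2 : (x ^ ordCompl[5] (orderOf x)) ^ 5 ^ (orderOf x).factorization 5 = 1 := by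
    rw [← pow_mul, mul_comm, Nat.ordProj_mul_ordCompl_eq_self, pow_orderOf_eq_one]
  have h3 := (Nat.coprime_ordCompl fact5.out h0)
  generalize ordCompl[5] (orderOf x) = m at *
  have h4 : IsPGroup 5 (Subgroup.zpowers (x ^ m)) := fun ⟨_, k, rfl⟩ =>
    ⟨_, Subtype.ext (by change ((x ^ m) ^ k) ^ _ = 1; rw [← zpow_natCast, zpow_comm, zpow_natCast, h2, one_zpow])⟩
  have h6 : x ^ m ∈ (P : Subgroup Λ) := by
    rw [← P.is_maximal' (P.isPGroup'.to_sup_of_normal_left' h4 ?_) le_sup_left]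
    · exact Subgroup.mem_sup_right (Subgroup.mem_zpowers _)
    · rw [Subgroup.zpowers_le, hP]
      refine Subgroup.mem_normalizer_fintype ?_
      rintro _ ⟨u, rfl⟩
      exact ⟨_, (h1 u.toAdd).symm⟩
  obtain ⟨u, hu⟩ := hP ▸ h6
  have h7 : Function.IsPeriodicPt h m v := by
    have := h1 v
    rw [← hu, ← map_mul, mul_comm, map_mul, mul_inv_cancel_right] at this
    exact (hi this).symm
  have := Function.IsPeriodicPt.gcd (h5 v) h7
  rwa [h3] at this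

end gen

theorem exists_five : ∃ (a b σ : Γ) (ha : a ^ 5 = 1) (hb : b ^ 5 = 1) (hab : Commute a b),
    Acts ha hb hab σ (lin (2, 0) (0, 1)) ∧ ∀ v ≠ 0, fd (ρV (zq ha hb hab (.ofAdd v))) = 16 := by
  have r := fun p hp => rel_eq (rel5 p hp)
  simp only [List.forall_mem_cons, List.map_cons, List.map_nil, List.prod_cons, List.prod_nil, mul_one] at r
  obtain ⟨a5, b5, hab, r11, r12, r21, r22, -⟩ := r
  have h1 : fd (ρV (yy 0)) = 16 := by
    simpa [← ρV_evalW ρV_yy] using le_antisymm (fd_le eW up5a) (le_fd eW lo5a)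
  have h2 : fd (ρV (yy 1)) = 16 := by
    simpa [← ρV_evalW ρV_yy] using le_antisymm (fd_le eW up5b) (le_fd eW lo5b)
  have h3 : fd (ρV (yy 0 * yy 1)) = 16 := by
    simpa [← ρV_evalW ρV_yy] using le_antisymm (fd_le eW up5c) (le_fd eW lo5c)
  generalize yy 0 = a, yy 1 = b, yy 2 = s, yy 3 = t at *
  replace a5 : a ^ 5 = 1 := by simpa [pow_succ, mul_assoc] using a5
  replace b5 : b ^ 5 = 1 := by simpa [pow_succ, mul_assoc] using b5
  change Commute a b at hab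
  have hs : Acts a5 b5 hab s (lin (2, 0) (0, 1)) := acts_lin
    (by rw [r11, zq_apply]; change _ = a ^ 2 * b ^ 0; simp [pow_two, mul_assoc])
    (by rw [r12, zq_apply]; change _ = a ^ 0 * b ^ 1; simp)
  have ht : Acts a5 b5 hab t (lin (1, 0) (0, 2)) := acts_lin
    (by rw [r21, zq_apply]; change _ = a ^ 1 * b ^ 0; simp)
    (by rw [r22, zq_apply]; change _ = a ^ 0 * b ^ 2; simp [pow_two, mul_assoc])
  refine ⟨a, b, s, a5, b5, hab, hs, fun v hv => ?_⟩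
  obtain ⟨u, hu, i, -, j, -, rfl⟩ := (by decide +kernel : ∀ v : V5, v ≠ 0 → ∃ u ∈ [(1, 0), (0, 1), (1, 1)],
    ∃ i < 4, ∃ j < 4, ((lin (2, 0) (0, 1))^[i] ∘ (lin (1, 0) (0, 2))^[j]) u = v) v hv
  rw [← (hs.pow i).mul (ht.pow j) u, fd_conj, zq_apply]
  simp only [List.mem_cons, List.not_mem_nil, or_false] at hu
  rcases hu with rfl | rfl | rfl
  · change fd (ρV (a ^ 1 * b ^ 0)) = _; simpa using h1
  · change fd (ρV (a ^ 0 * b ^ 1)) = _; simpa using h2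
  · change fd (ρV (a ^ 1 * b ^ 1)) = _; simpa using h3

theorem inj_five {a b : Γ} {ha : a ^ 5 = 1} {hb : b ^ 5 = 1} {hab : Commute a b}
    (h : ∀ v ≠ 0, fd (ρV (zq ha hb hab (.ofAdd v))) = 16) : Function.Injective (zq ha hb hab) :=
  (injective_iff_map_eq_one _).2 fun v hv => by
    by_contra hc
    have := h v.toAdd hc
    rw [ofAdd_toAdd, hv, map_one, fd_one, card_W] at this
    omega

theorem five {g : Γ} (hg : g ^ 5 = 1) (h1 : g ≠ 1) : fd (ρV g) = 16 := by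
  obtain ⟨a, b, σ, ha, hb, hab, -, h⟩ := exists_five
  obtain ⟨P, hP⟩ := exists_sylow (p := 5) (n := 2) _ (inj_five h) (by simp) not_dvd.1
  obtain ⟨d, hd⟩ := conj_mem P hg
  obtain ⟨v, hv⟩ := hP ▸ hd
  rw [← fd_conj ρV g d, ← hv]
  refine h v.toAdd fun e => h1 ?_
  rw [show v = 1 from e, map_one] at hv
  simpa using hv.symm

theorem no_S3 {a b s t : Γ} (ha : a ^ 5 = 1) (hb : b ^ 5 = 1) (hab : Commute a b) (h1 : s * a = b ^ 4 * s)
    (h2 : s * b = a ^ 4 * s) (h3 : t * a = b * t) (h4 : t * b = a ^ 4 * b ^ 4 * t) : a = 1 := by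
  by_contra h0
  have hs : Acts ha hb hab s (lin (0, 4) (4, 0)) := acts_lin
    (by rw [h1, zq_apply]; change _ = a ^ 0 * b ^ 4; simp) (by rw [h2, zq_apply]; change _ = a ^ 4 * b ^ 0; simp)
  have ht : Acts ha hb hab t (lin (0, 1) (4, 4)) := acts_lin
    (by rw [h3, zq_apply]; change _ = a ^ 0 * b ^ 1; simp) (by rw [h4, zq_apply]; change _ = a ^ 4 * b ^ 4; simp)
  have e1 : zq ha hb hab (.ofAdd (1, 0)) = a := by rw [zq_apply]; change a ^ 1 * b ^ 0 = a; simp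
  have e2 : zq ha hb hab (.ofAdd (0, 1)) = b := by rw [zq_apply]; change a ^ 0 * b ^ 1 = b; simp
  have hi : Function.Injective (zq ha hb hab) := (injective_iff_map_eq_one _).2 fun v hv => by
    by_contra hc
    obtain ⟨i, -, j, -, e⟩ := span_chk v.toAdd hc
    have := ht v.toAdd
    rw [ofAdd_toAdd, hv, mul_one, mul_inv_cancel] at this
    apply h0
    rw [← e1, ← e, ofAdd_add, ofAdd_nsmul, ofAdd_nsmul, map_mul, map_pow, map_pow, ← this, ofAdd_toAdd, hv]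
    simp
  obtain ⟨a', b', σ, ha', hb', hab', hσ, h⟩ := exists_five
  have hi' := inj_five h
  obtain ⟨P, hP⟩ := exists_sylow (p := 5) (n := 2) _ hi (by simp) not_dvd.1
  obtain ⟨Q, hQ⟩ := exists_sylow (p := 5) (n := 2) _ hi' (by simp) not_dvd.1
  obtain ⟨c, hc⟩ := MulAction.exists_smul_eq Γ Q P
  have h5 : ∀ x, x ∈ (zq ha hb hab).range ↔ c⁻¹ * x * c ∈ (zq ha' hb' hab').range := fun x => by
    rw [← hP, ← hQ, ← hc, Sylow.coe_subgroup_smul, Subgroup.mem_pointwise_smul_iff_inv_smul_mem]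
    simp
  have h6 : ∀ v, ∃ u, zq ha hb hab (.ofAdd v) = c * zq ha' hb' hab' (.ofAdd u) * c⁻¹ := fun v => by
    obtain ⟨u, hu⟩ := (h5 _).1 ⟨.ofAdd v, rfl⟩
    exact ⟨u.toAdd, by rw [ofAdd_toAdd, hu]; group⟩
  have h7 : ∀ u, ∃ v, zq ha hb hab (.ofAdd v) = c * zq ha' hb' hab' (.ofAdd u) * c⁻¹ := fun u =>
    (h5 _).2 ⟨.ofAdd u, by group⟩
  have h8 : ∀ u, c * σ * c⁻¹ * (c * zq ha' hb' hab' (.ofAdd u) * c⁻¹) * (c * σ * c⁻¹)⁻¹ =
      c * zq ha' hb' hab' (.ofAdd (lin (2, 0) (0, 1) u)) * c⁻¹ := fun u => by rw [← hσ]; group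
  have h9 : ∀ v, ∃ d, c * σ * c⁻¹ * zq ha hb hab (.ofAdd v) * (c * σ * c⁻¹)⁻¹ = zq ha hb hab (.ofAdd d) := fun v => by
    obtain ⟨u, hu⟩ := h6 v
    obtain ⟨d, hd⟩ := h7 (lin (2, 0) (0, 1) u)
    exact ⟨d, by rw [hu, h8, hd]⟩
  obtain ⟨d1, hd1⟩ := h9 (1, 0)
  obtain ⟨d2, hd2⟩ := h9 (0, 1)
  have hD : Acts ha hb hab (c * σ * c⁻¹) (lin d1 d2) := acts_lin (by rwa [e1] at hd1) (by rwa [e2] at hd2)
  have h10 : ∀ {v u}, zq ha hb hab (.ofAdd v) = c * zq ha' hb' hab' (.ofAdd u) * c⁻¹ →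
      zq ha hb hab (.ofAdd (lin d1 d2 v)) = c * zq ha' hb' hab' (.ofAdd (lin (2, 0) (0, 1) u)) * c⁻¹ :=
    fun h => by rw [← hD, h, h8]
  rcases fin_chk d1 d2 (fun v _ => by
    obtain ⟨u, hu⟩ := h6 v
    refine Multiplicative.ofAdd.injective (hi ?_)
    rw [ofAdd_add, ofAdd_nsmul, ofAdd_nsmul, map_mul, map_pow, map_pow, h10 (h10 hu), h10 hu, hu, conj_pow, conj_pow,
      conj_mul, ← map_pow (zq ha' hb' hab'), ← map_pow (zq ha' hb' hab'), ← map_mul, ← ofAdd_nsmul, ← ofAdd_nsmul, ← ofAdd_add,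
      (by decide +kernel : ∀ u : V5, lin (2, 0) (0, 1) (lin (2, 0) (0, 1) u) + 2 • u = 3 • lin (2, 0) (0, 1) u)])
    with h11 | h11 | ⟨w, -, h11, v, h12⟩
  · obtain ⟨v, hv⟩ := h7 (1, 0)
    have := h10 hv
    rw [h11, hv, mul_left_inj, mul_right_inj] at this
    exact absurd (hi' this) (by decide +kernel)
  · obtain ⟨v, hv⟩ := h7 (0, 1)
    have := h10 hv
    rw [h11, ofAdd_nsmul, map_pow, hv, conj_pow, ← map_pow, mul_left_inj, mul_right_inj] at this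
    exact absurd (hi' this) (by decide +kernel)
  · have : ∀ w, ∃ x, Acts ha hb hab x (evF d1 d2 w) := fun w => by
      induction w with
      | nil => exact ⟨1, fun v => by simp [evF]⟩
      | cons j w ih =>
        obtain ⟨x, hx⟩ := ih
        exact match j with
          | 0 => ⟨_, hs.mul hx⟩
          | 1 => ⟨_, ht.mul hx⟩
          | _ + 2 => ⟨_, hD.mul hx⟩
    obtain ⟨x, hx⟩ := this w
    exact h12 (hx.eq hi not_dvd.1 h11 v)

end Cfsg.Agent.H7.Ord
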