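import Cfsg.Agent.H7.InqL1
import Cfsg.Agent.H7.InqS1
import Cfsg.Agent.H6.Suzuki

/-!
Fixed spaces of elements of odd order in representations of `L₃(4)` and `Sz(8)` over the field with two elements.
-/

set_option autoImplicit false
set_option linter.unusedSectionVars false

namespace Cfsg.Agent.H7.Inq

open Cfsg.Agent.H7.Bit hiding app
open Cfsg.Agent.H4.BP hiding app
open Matrix Finset

variable {K : Type*} [Field K] [CharP K 2] {y : K}

open L in
theorem exists_L (h : y * y = y + 1) : ∃ b s : SpecialLinearGroup (Fin 3) K, b ^ 5 = 1 ∧ s ^ 7 = 1 ∧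
    b * s ≠ s * b ∧ ∀ (ι : Type) [Fintype ι] [DecidableEq ι] (ρ : SpecialLinearGroup (Fin 3) K →* Matrix ι ι F),
      (∀ z ∈ Subgroup.center _, ρ z = 1) → fd (ρ s) ≤ fd (ρ b) ∧ 9 * fd (ρ b) ≤ Fintype.card ι + 8 * fd (ρ s) := by
  have h2 : (2 : K) = 0 := CharTwo.two_eq_zero
  let val : SpecialLinearGroup (Fin 3) K →* Matrix (Fin 3) (Fin 3) K :=
    (Units.coeHom _).comp SpecialLinearGroup.toGL
  have hR := rp_RR (y := y) (val := val) (d := 2) (fun _ _ e => Subtype.ext e) two_pos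
  let b : SpecialLinearGroup (Fin 3) K := ⟨of fun a a' : Fin 3 =>
    el y 2 (([[1, 3, 0], [1, 0, 1], [3, 2, 2]].getD a []).getD a' 0), by simp [det_fin_three, el4]; grind⟩
  let s : SpecialLinearGroup (Fin 3) K := ⟨of fun a a' : Fin 3 =>
    el y 2 (([[1, 1, 2], [1, 1, 3], [3, 2, 1]].getD a []).getD a' 0), by simp [det_fin_three, el4]; grind⟩
  let z : SpecialLinearGroup (Fin 3) K := ⟨of fun a a' : Fin 3 =>
    el y 2 (([[2, 0, 0], [0, 2, 0], [0, 0, 2]].getD a []).getD a' 0), by simp [det_fin_three, el4]; grind⟩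
  have hz : z ∈ Subgroup.center _ := Matrix.SpecialLinearGroup.mem_center_iff.2 ⟨y, by simp; grind, by
    ext i j; fin_cases i <;> fin_cases j <;> simp [z, el4]⟩
  have rb := RR_of_chk (val := val) (g := b) blk_b (hmc4 h) rfl
  have rs := RR_of_chk (val := val) (g := s) blk_s (hmc4 h) rfl
  have rz := RR_of_chk (val := val) (g := z) blk_z (hmc4 h) rfl
  have rt := hR.gw _ rb rs wt
  rw [show evalW (3 * 2) (gt [cb, cs] (one (3 * 2))) wt.reverse = ct from ct_eq] at rt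
  have tb' := tr_of_chk (K := K) (eP 3 2) tr_b
  have ts' := tr_of_chk (K := K) (eP 3 2) tr_s
  have tt' := tr_of_chk (K := K) (eP 3 2) tr_t
  refine ⟨b, s, by simpa [g2, pow_succ, mul_assoc] using hR.eq _ rb rs b5,
    by simpa [g2, pow_succ, mul_assoc] using hR.eq _ rb rs s7, by
      simpa [g2] using ne_of_chk ne_bs (by omega) (by omega) two_pos (hR.evalW _ (hR.two _ rb rs) _)
        (hR.evalW _ (hR.two _ rb rs) _), fun ι _ _ ρ hρ => ?_⟩
  have hz' := fun c => mem_cl_of_ker ρ c (hρ z hz)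
  obtain ⟨W5, h5⟩ := exists_CT (g := g2 b s) hR (eP 3 2) c5_ct c5_r0 c5_r1 (tb' ▸ rb) (ts' ▸ rs) (fun _ => rfl)
    (hR.list _ rb rz (self_mem_cl ρ b) (hz' _) C5_eq)
  obtain ⟨W7, h7⟩ := exists_CT (g := g2 b s) hR (eP 3 2) c7_ct c7_r0 c7_r1 (tb' ▸ rb) (ts' ▸ rs) (fun _ => rfl)
    (hR.list _ rs rz (self_mem_cl ρ s) (hz' _) C7_eq)
  obtain ⟨W3, h3⟩ := exists_CT (g := g2 s (gw (g2 b s) wt)) hR (eP 3 2) c3_ct c3_r0 c3_r1 (ts' ▸ rs) (tt' ▸ rt)
    (fun _ => rfl) (hR.list _ rt rz (self_mem_cl ρ _) (hz' _) C3_eq)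
  have i1 := ineq ρ (a := 1) (c := fun _ => s) (S := i1S) (N := fun _ => 2880) (W := fun _ => W7)
    (fun i hi => by interval_cases i; exact h7) i1_inv i1_id
  have i2 := ineq ρ (a := 3) (c := fun _ => b) (S := i2S) (N := fun _ => 4032) (W := fun _ => W5)
    (fun i hi => by interval_cases i <;> exact h5) i2_inv i2_id
  have i3 := ineq ρ (a := 3) (c := fun _ => gw (g2 b s) wt) (S := i3S) (N := fun _ => 7) (W := fun _ => W3)
    (fun i hi => by interval_cases i <;> exact h3) i3_inv i3_id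
  simp only [sum_range_succ, sum_range_zero] at i1 i2 i3
  change _ ≤ 0 + fd (ρ (b * 1)) at i1
  change _ ≤ 0 + fd (ρ (gw (g2 b s) wt)) + fd (ρ (s * 1)) + fd (ρ (s * 1)) at i2
  change _ ≤ 0 + fd (ρ 1) + fd (ρ (s * 1)) + fd (ρ (s * 1)) at i3
  rw [mul_one] at i1 i2 i3
  rw [map_one, fd_one] at i3
  omega

open S H6.Suzuki in
theorem exists_S (h : y ^ 3 = y + 1) (θ : K →+* K) (hθ : ∀ x, θ (θ x) = x ^ 2) (hy : θ y = y ^ 4) :
    ∃ b s c : SzG θ, b ^ 5 = 1 ∧ s ^ 7 = 1 ∧ c ^ 13 = 1 ∧ b ≠ 1 ∧ s ≠ 1 ∧ c ≠ 1 ∧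
      ∀ (ι : Type) [Fintype ι] [DecidableEq ι] (ρ : SzG θ →* Matrix ι ι F),
        fd (ρ s) ≤ fd (ρ b) ∧ fd (ρ b) + fd (ρ c) ≤ 2 * fd (ρ s) := by
  have h2 : (2 : K) = 0 := CharTwo.two_eq_zero
  have h0 : y ≠ 0 := by rintro rfl; simp at h
  let val : SzG θ →* Matrix (Fin 4) (Fin 4) K := (Units.coeHom _).comp (SzG θ).subtype
  have hR := rp_RR (y := y) (val := val) (d := 3) (fun _ _ e => mat_inj e) three_pos
  have rJ := RR_of_chk (val := val) (g := n θ) blk_J (hmc8 h) (by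
    refine (mat_n (θ := θ)).trans ?_
    ext i j; fin_cases i <;> fin_cases j <;> simp [H6.Suzuki.J, el8])
  have rU := RR_of_chk (val := val) (g := u hθ 1 0) blk_U (hmc8 h) (by
    refine (mat_u hθ 1 0).trans ?_
    ext i j; fin_cases i <;> fin_cases j <;> simp [uM, el8])
  have rs := RR_of_chk (val := val) (g := H6.Suzuki.h hθ (Units.mk0 y h0)) blk_s (hmc8 h) (by
    refine (mat_h hθ _).trans ?_
    ext i j; fin_cases i <;> fin_cases j <;> simp [hM, el8, hy] <;> field_simp <;> grind)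
  have rb := hR.evalW _ (hR.two _ rJ rU) [0, 1, 1]
  rw [show evalW (4 * 3) (gt [cJ, cU] (one (4 * 3))) [0, 1, 1] = cb from cb_eq] at rb
  generalize (List.map (g2 (n θ) (u hθ 1 0)) [0, 1, 1]).prod = b at rb
  generalize H6.Suzuki.h hθ (Units.mk0 y h0) = s at rs
  have rc := hR.gw _ rb rs [0, 1]
  rw [show evalW (4 * 3) (gt [cb, cs] (one (4 * 3))) [0, 1].reverse = cc from cc_eq] at rc
  have tb' := tr_of_chk (K := K) (eP 4 3) tr_b
  have ts' := tr_of_chk (K := K) (eP 4 3) tr_s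
  have r1 : RR y 3 val (toM K (eP 4 3) (eP 4 3) (one (4 * 3))) 1 := (toM_one (K := K) (eP 4 3)).symm ▸ hR.one
  refine ⟨b, s, gw (g2 b s) [0, 1], by simpa [g2, pow_succ, mul_assoc] using hR.eq _ rb rs b5,
    by simpa [g2, pow_succ, mul_assoc] using hR.eq _ rb rs s7,
    by simpa [g2, pow_succ, mul_assoc] using hR.eq _ rc rs c13,
    ne_of_chk ne_cb (by omega) (by omega) three_pos rb r1, ne_of_chk ne_cs (by omega) (by omega) three_pos rs r1,
    ne_of_chk ne_cc (by omega) (by omega) three_pos rc r1, fun ι _ _ ρ => ?_⟩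
  obtain ⟨W5, h5⟩ := exists_CT (g := g2 b s) hR (eP 4 3) c5_ct c5_r0 c5_r1 (tb' ▸ rb) (ts' ▸ rs) (fun _ => rfl)
    (hR.list _ rb rb (self_mem_cl ρ b) (self_mem_cl ρ b) C5_eq)
  obtain ⟨W7, h7⟩ := exists_CT (g := g2 b s) hR (eP 4 3) c7_ct c7_r0 c7_r1 (tb' ▸ rb) (ts' ▸ rs) (fun _ => rfl)
    (hR.list _ rs rs (self_mem_cl ρ s) (self_mem_cl ρ s) C7_eq)
  obtain ⟨W13, h13⟩ := exists_CT (g := g2 b s) hR (eP 4 3) c13_ct c13_r0 c13_r1 (tb' ▸ rb) (ts' ▸ rs) (fun _ => rfl)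
    (hR.list _ rc rc (self_mem_cl ρ _) (self_mem_cl ρ _) C13_eq)
  have i1 := ineq ρ (a := 1) (c := fun _ => s) (S := i1S) (N := fun _ => 4160) (W := fun _ => W7)
    (fun i hi => by interval_cases i; exact h7) i1_inv i1_id
  have i2 := ineq ρ (a := 2) (c := g2 b (gw (g2 b s) [0, 1])) (S := i2S) (N := gt [5824, 2240] 0)
    (W := fun i => if i = 0 then W5 else W13) (fun i hi => by interval_cases i; exacts [h5, h13]) i2_inv i2_id
  simp only [sum_range_succ, sum_range_zero] at i1 i2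
  change _ ≤ 0 + fd (ρ (b * 1)) at i1
  change 0 + fd (ρ b) + fd (ρ (gw (g2 b s) [0, 1])) ≤ 0 + fd (ρ (s * 1)) + fd (ρ (s * 1)) at i2
  rw [mul_one] at i1 i2
  omega

end Cfsg.Agent.H7.Inq
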