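import Cfsg.Agent.H7.Ord5
import Cfsg.Agent.H7.InqT
import Cfsg.Agent.H7.J2e
import Cfsg.Agent.H6.E7h

/-!
Groups that do not embed in `E₇(2)`.
-/

set_option autoImplicit false
set_option linter.unusedSectionVars false
set_option linter.unusedSimpArgs false

namespace Cfsg.Agent.H7.Ord

open Cfsg.Agent.H6.E7 Cfsg.Agent.H7.Inq Cfsg.Lie Matrix

variable {K : Type*} [Field K] [CharP K 2] [Fintype K]

theorem ne_one_of {S : Type*} [Group S] {ψ : S ⧸ Subgroup.center S →* Γ} (hψ : Function.Injective ψ) {a b : S}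
    (h : a * b ≠ b * a) : ψ a ≠ 1 := fun e =>
  h (Subgroup.mem_center_iff.1 ((QuotientGroup.eq_one_iff a).1 (hψ (e.trans ψ.map_one.symm))) b).symm

theorem no_L34 (h4 : Fintype.card K = 4) (ψ : ProjectiveSpecialLinearGroup (Fin 3) K →* Γ) :
    ¬Function.Injective ψ := fun hψ => by
  obtain ⟨y, h1, h2⟩ := exists_root (F := K) (p := 3) (by norm_num) (by rw [h4])
  have h3 : (2 : K) = 0 := CharTwo.two_eq_zero
  obtain ⟨b, s, hb, hs, hbs, h⟩ := exists_L (y := y) (by grind)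
  obtain ⟨h5, h6⟩ := h Wt (ρV.comp (ψ.comp (QuotientGroup.mk' _))) fun z hz => by
    simp [(QuotientGroup.eq_one_iff z).2 hz]
  have h7 := five (g := ψ b) (by rw [← map_pow, ← QuotientGroup.mk_pow, hb]; simp) (ne_one_of hψ hbs)
  have h8 := seven (g := ψ s) (by rw [← map_pow, ← QuotientGroup.mk_pow, hs]; simp) (ne_one_of hψ hbs.symm)
  change fd (ρV (ψ s)) ≤ fd (ρV (ψ b)) at h5
  change 9 * fd (ρV (ψ b)) ≤ _ + 8 * fd (ρV (ψ s)) at h6
  rw [card_W] at h6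
  omega

theorem no_Sz (h8 : Fintype.card K = 8) (ψ : Sz K 4 →* Γ) : ¬Function.Injective ψ := by
  obtain ⟨y, hy⟩ := exists_y (F := K) (by rw [h8])
  have h0 : ∀ x : K, iterateFrobenius K 2 2 x = x ^ 4 := fun x => rfl
  obtain ⟨b, s, c, hb, hs, hc, b1, s1, -, h⟩ := exists_S hy (iterateFrobenius K 2 2) (fun x => by
    have := FiniteField.pow_card x
    rw [h8] at this
    rw [h0, h0, ← pow_mul, show 4 * 4 = 8 * 2 from rfl, pow_mul, this]) (h0 y)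
  revert ψ
  rw [H6.Suzuki.Sz_eq _ 4 h0]
  intro ψ hψ
  obtain ⟨h5, h6⟩ := h Wt (ρV.comp ψ)
  have h7 := five (g := ψ b) (by rw [← map_pow, hb, map_one]) ((map_ne_one_iff ψ hψ).2 b1)
  have h8 := seven (g := ψ s) (by rw [← map_pow, hs, map_one]) ((map_ne_one_iff ψ hψ).2 s1)
  have h9 := thirteen (g := ψ c) (by rw [← map_pow, hc, map_one])
  change fd (ρV (ψ s)) ≤ fd (ρV (ψ b)) at h5
  change fd (ρV (ψ b)) + fd (ρV (ψ c)) ≤ 2 * fd (ρV (ψ s)) at h6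
  omega

theorem no_S3' {S M : Type*} [Group S] [Monoid M] (φ : S →* M) (hφ : Function.Injective φ) (ψ : S →* Γ)
    {a b s t : S} (ha : φ a ^ 5 = 1) (hb : φ b ^ 5 = 1) (hab : φ a * φ b = φ b * φ a)
    (h1 : φ s * φ a = φ b ^ 4 * φ s) (h2 : φ s * φ b = φ a ^ 4 * φ s) (h3 : φ t * φ a = φ b * φ t)
    (h4 : φ t * φ b = φ a ^ 4 * φ b ^ 4 * φ t) : ψ a = 1 := by
  simp only [← map_pow, ← map_mul, hφ.eq_iff, map_eq_one_iff φ hφ] at *
  refine no_S3 (b := ψ b) (s := ψ s) (t := ψ t) ?_ ?_ (Commute.map hab ψ) ?_ ?_ ?_ ?_ <;>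
    simp only [← map_pow, ← map_mul, *, map_one]

theorem exists_U3 (h16 : Fintype.card K = 16) : ∃ a b s t : SU 3 K 4,
    a.1.1 ^ 5 = 1 ∧ b.1.1 ^ 5 = 1 ∧ a.1.1 * b.1.1 = b.1.1 * a.1.1 ∧ s.1.1 * a.1.1 = b.1.1 ^ 4 * s.1.1 ∧
      s.1.1 * b.1.1 = a.1.1 ^ 4 * s.1.1 ∧ t.1.1 * a.1.1 = b.1.1 * t.1.1 ∧
      t.1.1 * b.1.1 = a.1.1 ^ 4 * b.1.1 ^ 4 * t.1.1 ∧ a.1.1 * s.1.1 ≠ s.1.1 * a.1.1 := by
  obtain ⟨z, h1, h2⟩ := exists_root (F := K) (p := 5) (by norm_num) (by rw [h16]; norm_num)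
  have h3 : (2 : K) = 0 := CharTwo.two_eq_zero
  have h4 : ∀ (A : Matrix (Fin 3) (Fin 3) K) (h : A.det = 1), (∀ u v, hermForm 3 K 4 (A *ᵥ u) (A *ᵥ v) =
      hermForm 3 K 4 u v) → (⟨A, h⟩ : SpecialLinearGroup (Fin 3) K) ∈ SU 3 K 4 := fun _ _ h => h
  have d1 : (diagonal ![z, z ^ 4, 1]).det = 1 := by simp [Fin.prod_univ_three]; grind
  have d2 : (diagonal ![1, z, z ^ 4]).det = 1 := by simp [Fin.prod_univ_three]; grind
  have d3 : (!![0, 0, 1; 0, 1, 0; 1, 0, 0] : Matrix _ _ K).det = 1 := by simp [det_fin_three]; grind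
  have d4 : (!![0, 0, 1; 1, 0, 0; 0, 1, 0] : Matrix _ _ K).det = 1 := by simp [det_fin_three]
  refine ⟨⟨_, h4 _ d1 fun u v => ?_⟩, ⟨_, h4 _ d2 fun u v => ?_⟩, ⟨_, h4 _ d3 fun u v => ?_⟩,
    ⟨_, h4 _ d4 fun u v => ?_⟩, ?_, ?_, ?_, ?_, ?_, ?_, ?_, fun h => h2 ?_⟩
  iterate 4
    simp [hermForm, Fin.sum_univ_three, mulVec, dotProduct, diagonal_apply]
    grind
  iterate 7
    simp only [diagonal_pow]
    ext i j
    fin_cases i <;> fin_cases j <;> simp [mul_apply, Fin.sum_univ_three, diagonal_apply] <;> grind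
  simpa [mul_apply, Fin.sum_univ_three, diagonal_apply] using congrFun (congrFun h 0) 2

theorem no_U34 (h16 : Fintype.card K = 16) (ψ : PSU 3 K 4 →* Γ) : ¬Function.Injective ψ := fun hψ => by
  obtain ⟨a, b, s, t, h1, h2, h3, h4, h5, h6, h7, h8⟩ := exists_U3 h16
  exact ne_one_of hψ (a := a) (b := s) (fun h => h8 (congrArg (fun g : SU 3 K 4 => g.1.1) h))
    (no_S3' ((slToMat 3 K).comp (SU 3 K 4).subtype) (Subtype.val_injective.comp Subtype.val_injective)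
      (ψ.comp (QuotientGroup.mk' _)) h1 h2 h3 h4 h5 h6 h7)

theorem no_L316 (h16 : Fintype.card K = 16) (ψ : ProjectiveSpecialLinearGroup (Fin 3) K →* Γ) :
    ¬Function.Injective ψ := fun hψ => by
  obtain ⟨a, b, s, t, h1, h2, h3, h4, h5, h6, h7, h8⟩ := exists_U3 h16
  exact ne_one_of hψ (a := a.1) (b := s.1) (fun h => h8 (congrArg Subtype.val h))
    (no_S3' (slToMat 3 K) Subtype.val_injective (ψ.comp (QuotientGroup.mk' _)) h1 h2 h3 h4 h5 h6 h7)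

open J2 Cert in
/-- words in `G₂(4)` -/
noncomputable def evw (w : List ℕ) : ℕ := List.rec (motive := fun _ => ℕ) (J2.X 0) (fun j _ acc => J2.mu (J2.X j) acc) w

/-- words in `G₂(4)` -/
noncomputable def g2w : ℕ → List ℕ :=
  H4.BP.gt [[3, 1], [2, 4, 2, 1, 2, 3, 4, 1, 2, 1, 4, 1, 3, 2, 1], [2, 4, 1, 2, 1, 4, 2], [4, 1, 2, 1, 4, 1, 2]] []

theorem g2_chk : (∀ p ∈ [([0, 0, 0, 0, 0], []), ([1, 1, 1, 1, 1], []), ([0, 1], [1, 0]), ([2, 0], [1, 1, 1, 1, 2]),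
    ([2, 1], [0, 0, 0, 0, 2]), ([3, 0], [1, 3]), ([3, 1], [0, 0, 0, 0, 1, 1, 1, 1, 3])],
      evw (p.1.flatMap g2w) = evw (p.2.flatMap g2w)) ∧ evw (g2w 0) < 2 ^ 72 ∧ J2.X 0 < 2 ^ 72 ∧ evw (g2w 0) ≠ J2.X 0 ∧
      ∀ j < 4, ∀ i ∈ g2w j, (Cert.mask [1, 2, 3, 4, 5]).testBit i := by decide +kernel

open J2 Cert in
theorem no_G24 (h4 : Fintype.card K = 4) (ψ : chevG2.group K →* Γ) : ¬Function.Injective ψ := fun hψ => by
  classical
  obtain ⟨ω, h1, h2⟩ := exists_root (F := K) (p := 3) (by norm_num) (by rw [h4])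
  have h3 : (2 : K) = 0 := CharTwo.two_eq_zero
  have hω : ω * ω = ω + 1 := by grind
  obtain ⟨e⟩ := G_iso hω fun t => by
    have := FiniteField.pow_card t
    rw [h4] at this
    grind
  have h5 : ∀ w, f ω (evw w) = (w.map fun j => f ω (J2.X j)).prod := fun w => by
    induction w with
    | nil => exact f0
    | cons j w ih => rw [List.map_cons, List.prod_cons, ← ih, ← hmu hω]; rfl
  have h6 : ∀ w : List ℕ, (∀ i ∈ w, (mask [1, 2, 3, 4, 5]).testBit i) → In (LL ω) (f ω (evw w)) := fun w hw => by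
    induction w with
    | nil => exact ⟨1, one_mem _, f0.symm⟩
    | cons j w ih =>
      rw [show evw (j :: w) = J2.mu (J2.X j) (evw w) from rfl, hmu hω]
      exact (in_L hω j (hw j (by simp))).mul (ih fun i hi => hw i (by simp [hi]))
  obtain ⟨r, h7, h8, h9, h10⟩ := g2_chk
  obtain ⟨a, ha, ea⟩ := h6 _ (h10 0 (by omega))
  obtain ⟨b, hb, eb⟩ := h6 _ (h10 1 (by omega))
  obtain ⟨s, hs, es⟩ := h6 _ (h10 2 (by omega))
  obtain ⟨t, ht, et⟩ := h6 _ (h10 3 (by omega))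
  replace r := fun p hp => congrArg (f ω) (r p hp)
  have h11 : ∀ v w, f ω (evw (v ++ w)) = f ω (evw v) * f ω (evw w) := fun v w => by simp [h5]
  have h12 : f ω (evw []) = 1 := f0
  simp only [List.forall_mem_cons, List.flatMap_cons, List.flatMap_nil, h11, h12, mul_one, ← ea, ← eb, ← es, ← et] at r
  obtain ⟨r1, r2, r3, r4, r5, r6, r7, -⟩ := r
  have := no_S3' ((Units.coeHom _).comp (LL ω).subtype) (fun _ _ h => Subtype.ext (Units.ext h))
    (ψ.comp e.symm.toMonoidHom) (a := ⟨a, ha⟩) (b := ⟨b, hb⟩) (s := ⟨s, hs⟩) (t := ⟨t, ht⟩)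
    (by simpa [pow_succ, mul_assoc] using r1) (by simpa [pow_succ, mul_assoc] using r2) r3
    (by simpa [pow_succ, mul_assoc] using r4) (by simpa [pow_succ, mul_assoc] using r5) r6
    (by simpa [pow_succ, mul_assoc] using r7)
  have h13 : a = 1 := congrArg Subtype.val ((map_eq_one_iff (ψ.comp e.symm.toMonoidHom)
    (hψ.comp e.symm.injective)).1 this)
  exact h9 (toP_inj hω e6 e6 h7 h8 (ea.symm.trans ((congrArg Units.val h13).trans f0.symm)))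

theorem empty_of {T : Type*} [Group T] (h : ∀ ψ : T →* Γ, ¬Function.Injective ψ) (H : Subgroup (chevE7.group F))
    (N : Subgroup H) : IsEmpty (N ≃* T) := ⟨fun e => by
  obtain ⟨ψ, hψ⟩ := exists_emb
  exact h (ψ.comp (H.subtype.comp (N.subtype.comp e.symm.toMonoidHom)))
    (hψ.comp (H.subtype_injective.comp (N.subtype_injective.comp e.symm.injective)))⟩

end Cfsg.Agent.H7.Ord
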