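import Cfsg.Agent.H9.DG0

set_option autoImplicit false

/-! The packages `C2`, `C3e` of S5732. -/

namespace Cfsg.Agent.H7.DGc
open MulAction Cfsg.Agent.H9.DG

universe u

theorem idx_le {H : Type*} [Group H] [Finite H] (x : H) (S : Set H) (hS : ∀ h : H, h * x * h⁻¹ ∈ S) :
    (Subgroup.centralizer ({x} : Set H)).index ≤ S.ncard := by
  rw [Subgroup.index, ← Nat.card_coe_set_eq]
  refine Nat.card_le_card_of_injective (fun q => (⟨q.out * x * q.out⁻¹, hS _⟩ : S)) fun q q' h => ?_
  have h' : q.out * x * q.out⁻¹ = q'.out * x * q'.out⁻¹ := congrArg Subtype.val h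
  rw [← q.out_eq, ← q'.out_eq]
  refine QuotientGroup.eq.2 (Subgroup.mem_centralizer_singleton_iff.2 ?_)
  calc q.out⁻¹ * q'.out * x = q.out⁻¹ * (q'.out * x * q'.out⁻¹) * q'.out := by group
    _ = x * (q.out⁻¹ * q'.out) := by rw [← h']; group

theorem key {H : Type*} [Group H] [Finite H] (L K E : Subgroup H) (hE : E ≤ K) (m : ℕ)
    (h : m * L.index ≤ Nat.card E) : m * (L ⊔ K).index ≤ Nat.card ↥(L ⊓ E) := by
  have h1 := Subgroup.relIndex_mul_index (le_sup_left : L ≤ L ⊔ K)
  have h0 : L.relIndex (L ⊔ K) ≠ 0 := Subgroup.index_ne_zero_of_finite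
  have h2 : L.relIndex E ≤ L.relIndex (L ⊔ K) := Subgroup.relIndex_le_of_le_right (hE.trans le_sup_right) h0
  have h3 := (L.subgroupOf E).index_mul_card
  have h4 : Nat.card (L.subgroupOf E) = Nat.card ↥(L ⊓ E) := by
    rw [← Subgroup.inf_subgroupOf_right]
    exact Nat.card_congr (Subgroup.subgroupOfEquivOfLe inf_le_right).toEquiv
  rw [h4] at h3
  refine Nat.le_of_mul_le_mul_left ?_ (Nat.pos_of_ne_zero h0)
  calc L.relIndex (L ⊔ K) * (m * (L ⊔ K).index) = m * L.index := by rw [← h1]; ring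
    _ ≤ L.relIndex E * Nat.card ↥(L ⊓ E) := h.trans (le_of_eq h3.symm)
    _ ≤ _ := Nat.mul_le_mul_right _ h2

section
variable {p : ℕ} {H V : Type u} [Group H] [AddCommGroup V] [Module (ZMod p) V]

/-- The eigenspace of `x` for `c`. -/
def eig (ρ : Representation (ZMod p) H V) (x : H) (c : ZMod p) : Submodule (ZMod p) V where
  carrier := {v | ρ x v = c • v}
  add_mem' := fun {a b} ha hb => by
    simp only [Set.mem_ofPred_eq] at *
    rw [map_add, ha, hb, smul_add]
  zero_mem' := by simp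
  smul_mem' := fun d v hv => by
    simp only [Set.mem_ofPred_eq] at *
    rw [map_smul, hv, smul_comm]

theorem mem_eig {ρ : Representation (ZMod p) H V} {x : H} {c : ZMod p} {v : V} : v ∈ eig ρ x c ↔ ρ x v = c • v :=
  Iff.rfl

theorem mul_app (ρ : Representation (ZMod p) H V) (g h : H) (v : V) : ρ (g * h) v = ρ g (ρ h v) := by
  rw [map_mul]; rfl

theorem one_app (ρ : Representation (ZMod p) H V) (v : V) : ρ 1 v = v := by
  rw [map_one]; rfl

theorem inv_eig (ρ : Representation (ZMod p) H V) (x : H) (c : ZMod p) :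
    Inv ρ (Subgroup.centralizer {x}) (eig ρ x c) := by
  intro g hg v hv
  rw [mem_eig] at *
  rw [← mul_app, ← Subgroup.mem_centralizer_singleton_iff.1 hg, mul_app, hv, map_smul]

end

theorem c2 (h : L2z.{u}) : C2.{u} := by
  intro p _ H V _ _ _ _ _ ρ K Q A r x v hAf _ hQK hQ hAQ hA hcyc _ hSr hC hxQ hx1 _ hv hxv
  have hpow : ∀ g : H, ∃ m : ℤ, ∀ a ∈ A, g * a * g⁻¹ = a ^ m := by
    intro g
    obtain ⟨m, hm⟩ := MonoidHom.map_cyclic (MulAut.conjNormal (H := A) g).toMonoidHom
    exact ⟨m, fun a ha => congrArg Subtype.val (hm ⟨a, ha⟩)⟩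
  have hconj : ∀ g : H, g * x * g⁻¹ ∈ (fun a => x * a) '' (A : Set H) := by
    intro g
    refine ⟨x⁻¹ * (g * x * g⁻¹), hC _ (Q.mul_mem (Q.inv_mem hxQ) (hQ.conj_mem x hxQ g)) fun a ha => ?_, by group⟩
    obtain ⟨m, hm⟩ := hpow x
    have h1 := hm a ha
    have h2 := hm (g⁻¹ * a * g⁻¹⁻¹) (hA.conj_mem a ha g⁻¹)
    rw [conj_zpow, ← h1] at h2
    calc a * (x⁻¹ * (g * x * g⁻¹)) = x⁻¹ * g * (g⁻¹ * (x * a * x⁻¹) * g⁻¹⁻¹) * x * g⁻¹ := by group
      _ = x⁻¹ * (g * x * g⁻¹) * a := by rw [← h2]; group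
  have h1 := idx_le x _ hconj
  rw [Set.ncard_image_of_injective _ (mul_right_injective x), ← Nat.card_coe_set_eq] at h1
  have h2 := key (Subgroup.centralizer {x}) K A (hAQ.trans hQK) 1 (by rw [one_mul]; exact h1)
  rw [one_mul] at h2
  refine h p H V ρ K (Subgroup.centralizer {x}) (Subgroup.centralizer {x} ⊓ A) (eig ρ x 1) hAf (inv_eig ρ x 1) ?_ ?_
    (inf_le_inf_left _ (hAQ.trans hQK)) (fun z hz => hSr z hz.2) h2
  · intro e
    have : v ∈ eig ρ x 1 := by rw [mem_eig, one_smul]; exact hxv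
    rw [e] at this
    exact hv this
  · intro e
    refine hx1 (hAf.inj ?_)
    ext w
    have : w ∈ eig ρ x 1 := e ▸ Submodule.mem_top
    rw [mem_eig, one_smul] at this
    rw [this, one_app]

theorem c3e (h : L2.{u}) : C3e.{u} := by
  intro p hp H V _ _ _ _ _ _ ρ K A E x hAf h2p hEK hSt hSr hxE hxA hx2 hI
  classical
  have hxx : x * x = 1 := by rw [← pow_two, hx2]
  have hxi : x⁻¹ = x := inv_eq_of_mul_eq_one_right hxx
  obtain ⟨f, hfE, hf⟩ : ∃ f ∈ E, x * f ≠ f * x := by
    by_contra hh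
    push Not at hh
    exact hxA (hSt.zE x hxE hh)
  set z := x * f * x⁻¹ * f⁻¹ with hz
  have hzA : z ∈ A := hSt.com x hxE f hfE
  have hz1 : z ≠ 1 := fun e => hf (by rw [hz, mul_inv_eq_one, mul_inv_eq_iff_eq_mul] at e; exact e)
  have hzx : z * x = x * z := hSt.cen z hzA x hxE
  have hzz : z * z = 1 := by
    have e1 : f * x * f⁻¹ = x * z := by rw [hz, hxi, ← mul_assoc, ← mul_assoc, ← mul_assoc, hxx, one_mul]
    calc z * z = (x * x) * (z * z) := by rw [hxx, one_mul]
      _ = x * (x * z) * z := by group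
      _ = x * (z * x) * z := by rw [hzx]
      _ = (x * z) * (x * z) := by group
      _ = f * (x * x) * f⁻¹ := by rw [← e1]; group
      _ = 1 := by rw [hxx]; group
  have hρz : ∀ w, ρ z w = -w := by
    intro w
    have := hSr z hzA hz1 (w + ρ z w) (by rw [map_add, ← mul_app, hzz, one_app, add_comm])
    exact eq_neg_of_add_eq_zero_right this
  have h20 : (2 : ZMod p) ≠ 0 := by
    intro e
    have : ((2 : ℕ) : ZMod p) = 0 := e
    rw [ZMod.natCast_eq_zero_iff] at this
    exact h2p ((Nat.prime_dvd_prime_iff_eq hp.out Nat.prime_two).1 this).symm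
  let L := Subgroup.centralizer ({x} : Set H)
  let I : Set H := {e | e ∈ E ∧ e ∉ A ∧ e ^ 2 = 1}
  have h1 : L.index ≤ I.ncard := by
    refine idx_le x I fun g => ⟨hSt.nE.conj_mem x hxE g, fun hh => hxA ?_, by rw [conj_pow, hx2]; group⟩
    have := hSt.nA.conj_mem _ hh g⁻¹
    rwa [show g⁻¹ * (g * x * g⁻¹) * g⁻¹⁻¹ = x by group] at this
  have h2 : 2 * I.ncard ≤ Nat.card E := by
    have hd : Disjoint I ((fun e => x * e) '' I) := by
      rw [Set.disjoint_left]
      rintro _ ⟨_, h4, h5⟩ ⟨e, ⟨he1, he2, he3⟩, rfl⟩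
      refine h4 (hI x hxE e he1 hxA he2 hx2 he3 ?_)
      have hei : e⁻¹ = e := inv_eq_of_mul_eq_one_right (by rw [← pow_two, he3])
      have : (x * e)⁻¹ = x * e := inv_eq_of_mul_eq_one_right (by rw [← pow_two]; exact h5)
      rw [mul_inv_rev, hei, hxi] at this
      exact this.symm
    have hs : I ∪ (fun e => x * e) '' I ⊆ (E : Set H) := by
      rintro _ (he | ⟨e, he, rfl⟩)
      · exact he.1
      · exact E.mul_mem hxE he.1
    have := Set.ncard_le_ncard hs
    rw [Set.ncard_union_eq hd, Set.ncard_image_of_injective _ (mul_right_injective x), ← Nat.card_coe_set_eq (E : Set H)]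
      at this
    rw [two_mul]
    exact this
  have h3 := key L K E hEK 2 ((Nat.mul_le_mul_left 2 h1).trans h2)
  refine h p H V ρ K L (eig ρ x 1) (eig ρ x (-1)) (L ⊔ K).index hAf (inv_eig ρ x 1) (inv_eig ρ x (-1)) ?_ ?_ ?_ le_rfl ?_
  · intro e
    refine hxA (hAf.inj (a₁ := x) (a₂ := z) ?_ ▸ hzA)
    ext w
    have : w + ρ x w ∈ eig ρ x 1 := by rw [mem_eig, one_smul, map_add, ← mul_app, hxx, one_app, add_comm]
    rw [e] at this
    rw [hρz]
    exact eq_neg_of_add_eq_zero_right this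
  · intro e
    refine hxA (hAf.inj (a₁ := x) (a₂ := 1) ?_ ▸ A.one_mem)
    ext w
    have : w - ρ x w ∈ eig ρ x (-1) := by
      rw [mem_eig, neg_one_smul, map_sub, ← mul_app, hxx, one_app, neg_sub]
    rw [e] at this
    rw [one_app]
    exact (sub_eq_zero.1 this).symm
  · rw [Submodule.disjoint_def]
    intro w h4 h5
    rw [mem_eig] at h4 h5
    rw [h4, one_smul, neg_one_smul, eq_neg_iff_add_eq_zero, ← two_smul (ZMod p)] at h5
    exact (smul_eq_zero.1 h5).resolve_left h20
  · intro v hv hU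
    obtain ⟨t, ht⟩ : ∃ t : H, ∀ g ∈ L ⊓ E, ρ g v = v → g = 1 ∨ g = t := by
      have hst : ∀ g ∈ L ⊓ E, ρ g v = v → g = 1 ∨ x * g ∈ A := by
        intro g hg hgv
        by_cases hgA : g ∈ A
        · left
          by_contra hh
          exact hv (hSr g hgA hh v hgv)
        · right
          have hg2 : g ^ 2 = 1 := by
            by_contra hh
            exact hv (hSr _ (hSt.pw g hg.2) hh v (by rw [pow_two, mul_app, hgv, hgv]))
          exact hI x hxE g hg.2 hxA hgA hx2 hg2 (Subgroup.mem_centralizer_singleton_iff.1 hg.1).symm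
      rcases hU with hU | hU
      · refine ⟨x⁻¹, fun g hg hgv => (hst g hg hgv).imp_right fun hh => ?_⟩
        rw [mem_eig, one_smul] at hU
        by_contra h4
        refine hv (hSr _ hh (fun e => h4 (eq_inv_of_mul_eq_one_right e)) v ?_)
        rw [mul_app, hgv, hU]
      · refine ⟨(z * x)⁻¹, fun g hg hgv => (hst g hg hgv).imp_right fun hh => ?_⟩
        rw [mem_eig, neg_one_smul] at hU
        by_contra h4
        refine hv (hSr _ (A.mul_mem hzA hh) (fun e => h4 (eq_inv_of_mul_eq_one_right ?_)) v ?_)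
        · rw [mul_assoc]; exact e
        · rw [mul_app ρ z, mul_app ρ x g, hgv, hU, hρz, neg_neg]
    have := Fintype.ofFinite H
    have := Fintype.ofFinite V
    have h4 : ({g : H | g ∈ L ⊓ E} : Finset H).card ≤ 2 * ({w : V | ∃ g ∈ L ⊓ K, ρ g v = w} : Finset V).card := by
      refine Finset.card_le_mul_card_image_of_maps_to (f := fun g => ρ g v) ?_ 2 ?_
      · intro g hg
        have hg' := (Finset.mem_filter.1 hg).2
        exact Finset.mem_filter.2 ⟨Finset.mem_univ _, g, ⟨hg'.1, hEK hg'.2⟩, rfl⟩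
      · intro w _
        rcases Finset.eq_empty_or_nonempty
          ({g ∈ ({g : H | g ∈ L ⊓ E} : Finset H) | ρ g v = w} : Finset H) with e | ⟨g0, hg0⟩
        · rw [e]; simp
        · refine le_trans (Finset.card_le_card (t := {g0, g0 * t}) fun g hg => ?_) Finset.card_le_two
          simp only [Finset.mem_filter, Finset.mem_univ, true_and] at hg hg0
          have := ht (g0⁻¹ * g) ((L ⊓ E).mul_mem ((L ⊓ E).inv_mem hg0.1) hg.1)
            (by rw [mul_app, hg.2, ← hg0.2, ← mul_app, inv_mul_cancel, one_app])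
          rw [Finset.mem_insert, Finset.mem_singleton]
          exact this.imp (fun e => (inv_mul_eq_one.1 e).symm) fun e => inv_mul_eq_iff_eq_mul.1 e
    have e1 : Nat.card ↥(L ⊓ E) = ({g : H | g ∈ L ⊓ E} : Finset H).card := by
      rw [Nat.card_eq_fintype_card, Fintype.card_subtype]
    have e2 : Set.ncard {w : V | ∃ g ∈ L ⊓ K, ρ g v = w} = ({w : V | ∃ g ∈ L ⊓ K, ρ g v = w} : Finset V).card := by
      rw [← Set.ncard_coe_finset]
      congr 1
      ext w
      simp
    omega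

end Cfsg.Agent.H7.DGc
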