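import Cfsg.Agent.H4.DGa

set_option autoImplicit false

/-! The package `PN` of S5732. -/

namespace Cfsg.Agent.H7.DGn
open MulAction Cfsg.Agent.H9.DG

universe u v

section
variable {G : Type*} [Group G] [Finite G] {p : ℕ} [hp : Fact p.Prime]

/-- `R` is a Sylow `p`-subgroup of `Y`. -/
def Mx (p : ℕ) (Y R : Subgroup G) : Prop := R ≤ Y ∧ ∃ P : Sylow p Y, (P : Subgroup Y) = R.subgroupOf Y

omit hp [Finite G] in
theorem exists_mx {Y Q : Subgroup G} (hQ : Q ≤ Y) (hp : IsPGroup p Q) : ∃ R, Q ≤ R ∧ Mx p Y R := by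
  obtain ⟨P, hP⟩ := (hp.comap_subtype (K := Y)).exists_le_sylow
  refine ⟨(P : Subgroup Y).map Y.subtype, fun x hx => ⟨⟨x, hQ hx⟩, hP hx, rfl⟩, Subgroup.map_subtype_le _, P, ?_⟩
  exact (Subgroup.comap_map_eq_self_of_injective Y.subtype_injective _).symm

theorem Mx.card {Y R : Subgroup G} (h : Mx p Y R) : Nat.card R = p ^ (Nat.card Y).factorization p := by
  obtain ⟨hle, P, hP⟩ := h
  rw [← P.card_eq_multiplicity, hP]
  exact (Nat.card_congr (Subgroup.subgroupOfEquivOfLe hle).toEquiv).symm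

theorem Mx.pg {Y R : Subgroup G} (h : Mx p Y R) : IsPGroup p R := IsPGroup.of_card h.card

theorem card_le {Y R : Subgroup G} (hle : R ≤ Y) (h : IsPGroup p R) :
    Nat.card R ≤ p ^ (Nat.card Y).factorization p := by
  obtain ⟨R', h1, h2⟩ := exists_mx hle h
  rw [← h2.card]
  exact Subgroup.card_le_of_le h1

/-- The Frattini argument. -/
theorem fratt {X D R : Subgroup G} [hD : D.Normal] (h : Mx p (X ⊓ D) R) :
    X ≤ (X ⊓ Subgroup.normalizer (R : Set G)) ⊔ D := by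
  obtain ⟨hle, P, hP⟩ := h
  intro x hx
  have hn : ∀ y ∈ X ⊓ D, ∀ g ∈ X, g * y * g⁻¹ ∈ X ⊓ D := fun y hy g hg =>
    ⟨X.mul_mem (X.mul_mem hg hy.1) (X.inv_mem hg), hD.conj_mem y hy.2 g⟩
  let φ : ↥(X ⊓ D) ≃* ↥(X ⊓ D) :=
    { toFun := fun y => ⟨x⁻¹ * y * x⁻¹⁻¹, hn _ y.2 _ (X.inv_mem hx)⟩
      invFun := fun y => ⟨x * y * x⁻¹, hn _ y.2 _ hx⟩
      left_inv := fun y => Subtype.ext (by simp [mul_assoc])
      right_inv := fun y => Subtype.ext (by simp [mul_assoc])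
      map_mul' := fun y z => Subtype.ext (by simp [mul_assoc]) }
  obtain ⟨g, hg⟩ := exists_smul_eq ↥(X ⊓ D) P (P.comapOfInjective φ.toMonoidHom φ.injective
    (by rw [MonoidHom.range_eq_top.2 φ.surjective]; exact le_top))
  have key : ∀ y : ↥(X ⊓ D), (g⁻¹ * y * g : ↥(X ⊓ D)).1 ∈ R ↔ x⁻¹ * y * x⁻¹⁻¹ ∈ R := by
    intro y
    have h1 : y ∈ g • P ↔ y ∈ P.comapOfInjective φ.toMonoidHom φ.injective
      (by rw [MonoidHom.range_eq_top.2 φ.surjective]; exact le_top) := by rw [hg]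
    have h2 : y ∈ g • P ↔ g⁻¹ * y * g ∈ (P : Subgroup ↥(X ⊓ D)) := by
      change y ∈ ((g • P : Sylow p ↥(X ⊓ D)) : Subgroup ↥(X ⊓ D)) ↔ _
      rw [Sylow.coe_subgroup_smul, Subgroup.mem_pointwise_smul_iff_inv_smul_mem]
      simp
    have h3 : y ∈ P.comapOfInjective φ.toMonoidHom φ.injective
      (by rw [MonoidHom.range_eq_top.2 φ.surjective]; exact le_top) ↔ φ y ∈ (P : Subgroup ↥(X ⊓ D)) := Iff.rfl
    rw [h2, h3, hP] at h1
    exact h1
  have e : x = g.1 * (g.1⁻¹ * x) := by group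
  rw [e]
  refine Subgroup.mul_mem _ (Subgroup.mem_sup_right g.2.2) (Subgroup.mem_sup_left ⟨X.mul_mem (X.inv_mem g.2.1) hx, ?_⟩)
  refine Subgroup.mem_normalizer_fintype fun y hy => ?_
  have := (key ⟨x * y * x⁻¹, hn _ (hle hy) _ hx⟩).2 (by simpa [mul_assoc] using hy)
  simpa [mul_assoc] using this

theorem exists_norm {Q S : Subgroup G} (hle : Q ≤ S) (hS : IsPGroup p S) (hne : Nat.card Q < Nat.card S) :
    ∃ s ∈ S, s ∉ Q ∧ s ∈ Subgroup.normalizer (Q : Set G) := by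
  have := hS.isNilpotent
  have h1 : Q.subgroupOf S < ⊤ := by
    rw [lt_top_iff_ne_top, Ne, Subgroup.subgroupOf_eq_top]
    exact fun h => absurd (Subgroup.card_le_of_le h) (not_le.2 hne)
  have h2 := Group.normalizerCondition_of_isNilpotent _ h1
  rw [← Subgroup.subgroupOf_normalizer_eq hle] at h2
  obtain ⟨s, h3, h4⟩ := SetLike.exists_of_lt h2
  exact ⟨s.1, s.2, h4, h3⟩

omit hp [Finite G] in
theorem card_orb {Ω : Type*} [MulAction G Ω] (X : Subgroup G) (c : Ω) :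
    (orbit X c).ncard * Nat.card ↥(stabilizer G c ⊓ X) = Nat.card X := by
  rw [← index_stabilizer, ← (stabilizer X c).index_mul_card]
  congr 1
  have : stabilizer X c = (stabilizer G c ⊓ X).subgroupOf X := by
    rw [Subgroup.inf_subgroupOf_right]; rfl
  rw [this]
  exact (Nat.card_congr (Subgroup.subgroupOfEquivOfLe inf_le_right).toEquiv).symm

end

theorem pn (tr : Tr.{u, v}) (po : PO.{u, v}) : PN.{u, v} := by
  intro G Ω _ _ _ _ D p ht ⟨a⟩ hE hp hpn
  have : Fact p.Prime := ⟨hp⟩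
  have hn0 : Nat.card Ω ≠ 0 := (Nat.card_pos_iff.2 ⟨⟨a⟩, inferInstance⟩).ne'
  have hv : 0 < (Nat.card Ω).factorization p := hp.factorization_pos_of_dvd hn0 hpn
  by_cases hD : D = ⊤
  · rw [hD, Subgroup.index_top]
    exact Nat.one_lt_pow hv.ne' hp.one_lt
  have hN := hE.1
  have htD := tr G Ω D ht hE
  have hcard : ∀ c : Ω, Nat.card Ω * Nat.card ↥(stabilizer G c ⊓ D) = Nat.card D := by
    intro c
    rw [← card_orb D c, orbit_eq_univ, Set.ncard_univ]
  have hfac : ∀ c : Ω, p ^ (Nat.card D).factorization p =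
      p ^ (Nat.card Ω).factorization p * p ^ (Nat.card ↥(stabilizer G c ⊓ D)).factorization p := by
    intro c
    rw [← hcard c, Nat.factorization_mul hn0 Nat.card_pos.ne', Finsupp.add_apply, pow_add]
  obtain ⟨Q, -, hQ⟩ := exists_mx (p := p) (bot_le : ⊥ ≤ stabilizer G a ⊓ D) IsPGroup.of_bot
  obtain ⟨S, hQS, hS⟩ := exists_mx (hQ.1.trans inf_le_right) hQ.pg
  have hq0 : 0 < Nat.card Q := Nat.card_pos
  obtain ⟨s, hs1, hs2, hs3⟩ := exists_norm hQS hS.pg (by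
    rw [hS.card, hfac a, ← hQ.card]
    exact (Nat.lt_mul_iff_one_lt_left hq0).2 (Nat.one_lt_pow hv.ne' hp.one_lt))
  set G1 := Subgroup.normalizer (Q : Set G) with hG1
  obtain ⟨P1, hP1, hP⟩ := exists_mx (p := p) (Y := G1 ⊓ D) (Q := G1 ⊓ S) (inf_le_inf_left _ hS.1) (hS.pg.to_inf_right)
  have hQP : Q ≤ P1 := (le_inf Subgroup.le_normalizer hQS).trans hP1
  have hlt : Nat.card Q < Nat.card P1 :=
    lt_of_le_of_ne (Subgroup.card_le_of_le hQP) fun e =>
      hs2 (Subgroup.eq_of_le_of_card_ge hQP e.ge ▸ hP1 ⟨hs3, hs1⟩)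
  have ha : (G1 ⊓ stabilizer G a) ⊔ D = ⊤ := by
    rw [eq_top_iff, ← H4.DG.sup_top hN ht (fun g hg => (hE.2 g hg).exists) a, inf_comm]
    exact sup_le le_sup_right (fratt hQ)
  set G2 := G1 ⊓ Subgroup.normalizer (P1 : Set G) with hG2
  have h2 : G2 ⊔ D = ⊤ := by
    rw [eq_top_iff, ← ha]
    exact sup_le (inf_le_left.trans (fratt hP)) le_sup_right
  have h1 : G1 ⊔ D = ⊤ := by
    rw [eq_top_iff, ← ha]
    exact sup_le_sup_right inf_le_left _
  obtain ⟨c, hc⟩ := (po G Ω D G2 hE hD h2).1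
  obtain ⟨g, hg, hga⟩ := (po G Ω D G1 hE hD h1).2 a c ha (by
    rw [eq_top_iff, ← hc]
    exact sup_le_sup_right (inf_le_inf_right _ inf_le_left) _)
  have hQc : Q ≤ stabilizer G c := by
    intro q hq
    have h3 : g⁻¹ * q * g ∈ Q := (Subgroup.mem_normalizer_iff''.1 hg.1 q).1 hq
    have h4 : (g⁻¹ * q * g) • a = a := (hQ.1 h3).1
    rw [mul_smul, mul_smul, inv_smul_eq_iff, hga] at h4
    exact h4
  have hP1D : P1 ≤ D := hP.1.trans inf_le_right
  have horb := card_orb P1 c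
  have hup : (orbit P1 c).ncard ≤ p ^ (Nat.card Ω).factorization p := by
    refine Nat.le_of_mul_le_mul_right ?_ hq0
    calc (orbit P1 c).ncard * Nat.card Q ≤ (orbit P1 c).ncard * Nat.card ↥(stabilizer G c ⊓ P1) :=
          Nat.mul_le_mul_left _ (Subgroup.card_le_of_le (le_inf hQc hQP))
      _ ≤ _ := by rw [horb, hQ.card, ← hfac a]; exact card_le hP1D hP.pg
  have hlow : 1 < (orbit P1 c).ncard := by
    have h3 : Nat.card ↥(stabilizer G c ⊓ P1) ≤ Nat.card Q := by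
      have e : Nat.card ↥(stabilizer G c ⊓ D) = Nat.card ↥(stabilizer G a ⊓ D) :=
        Nat.eq_of_mul_eq_mul_left (Nat.pos_of_ne_zero hn0) ((hcard c).trans (hcard a).symm)
      rw [hQ.card, ← e]
      exact card_le (inf_le_inf_left _ hP1D) hP.pg.to_inf_right
    by_contra h4
    have : (orbit P1 c).ncard * Nat.card ↥(stabilizer G c ⊓ P1) ≤ 1 * Nat.card Q := Nat.mul_le_mul (not_lt.1 h4) h3
    omega
  let L := G2 ⊓ stabilizer G c
  let Y : SubMulAction L Ω :=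
    { carrier := orbit P1 c \ {c}
      smul_mem' := by
        rintro l _ ⟨⟨y, rfl⟩, hy⟩
        have hl : l.1 • c = c := l.2.2
        refine ⟨⟨⟨l.1 * y.1 * l.1⁻¹, (Subgroup.mem_normalizer_iff.1 l.2.1.2 y.1).1 y.2⟩, ?_⟩, fun e => hy ?_⟩
        · show (l.1 * y.1 * l.1⁻¹) • c = l.1 • y.1 • c
          rw [mul_smul, mul_smul, inv_smul_eq_iff.2 hl.symm]
        · exact (smul_left_cancel_iff l.1).1 (Eq.trans e hl.symm) }
  have hdvd := H4.DG.dvd_card (L := L) (Y := Y) (D.subgroupOf L) fun y l hl => by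
    by_contra h3
    have h4 : l.1 • y.1 = y.1 := congrArg Subtype.val hl
    exact y.2.2 ((hE.2 l.1 h3).unique h4 l.2.2)
  have e1 : (D.subgroupOf L).index = D.index := by
    rw [← Subgroup.relIndex_top_right D, ← hc, Subgroup.relIndex_sup_right]
    rfl
  have e2 : Nat.card Y = (orbit P1 c).ncard - 1 := by
    rw [← Set.ncard_sdiff_singleton_of_mem (mem_orbit_self c)]
    rfl
  rw [e1, e2] at hdvd
  have := Nat.le_of_dvd (by omega) hdvd
  omega

end Cfsg.Agent.H7.DGn
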