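import Cfsg.Agent.H3.DR0

set_option autoImplicit false

/-! The package `PJ` of S5731. -/

namespace Cfsg.Agent.H7.DRj
open MulAction Finset Cfsg.Agent.H3.DR

universe u v

section
variable {G : Type u} {Ω : Type v} [Group G] [Fintype G] [MulAction G Ω]

open Classical in
theorem card_l (a b : Ω) : #{g : G | g • a = a ∧ g • b = b} = Nat.card (stabilizer (stabilizer G a) b) := by
  rw [← Fintype.card_subtype, ← Nat.card_eq_fintype_card]
  exact Nat.card_congr ⟨fun g => ⟨⟨g.1, g.2.1⟩, g.2.2⟩, fun g => ⟨g.1.1, g.1.2, g.2⟩, fun _ => rfl, fun _ => rfl⟩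

theorem card_G [Fintype Ω] (ht : IsPretransitive G Ω) (a b : Ω) : Fintype.card G =
    Fintype.card Ω * Nat.card (orbit (stabilizer G a) b) * Nat.card (stabilizer (stabilizer G a) b) := by
  rw [← Nat.card_eq_fintype_card, ← Nat.card_eq_fintype_card, ← (stabilizer G a).index_mul_card,
    index_stabilizer_of_transitive, mul_assoc, ← (stabilizer (stabilizer G a) b).index_mul_card, index_stabilizer,
    Nat.card_coe_set_eq]

open Classical in
theorem fib_le (a b c d : Ω) : #{t : G | t • a = c ∧ t • b = d} ≤ Nat.card (stabilizer (stabilizer G a) b) := by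
  rw [← card_l]
  rcases eq_empty_or_nonempty ({t : G | t • a = c ∧ t • b = d} : Finset G) with e | ⟨t0, h0⟩
  · rw [e]; simp
  · refine card_le_card_of_injOn (fun t => t0⁻¹ * t) ?_ fun x _ y _ h => mul_left_cancel h
    intro t ht
    simp only [coe_filter, mem_filter, mem_univ, true_and, Set.mem_ofPred_eq] at h0 ht ⊢
    rw [mul_smul, mul_smul, ht.1, ht.2, inv_smul_eq_iff, inv_smul_eq_iff]
    exact ⟨h0.1.symm, h0.2.symm⟩

open Classical in
theorem sum_ge (a b : Ω) : Fintype.card G * Nat.card (stabilizer (stabilizer G a) b) ≤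
    ∑ g : G, #{t : G | g • t • a = t • a ∧ g • t • b = t • b} := by
  simp only [card_filter]
  rw [sum_comm, ← card_univ, ← smul_eq_mul, ← sum_const]
  refine sum_le_sum fun t _ => ?_
  rw [← card_filter, ← card_l]
  refine card_le_card_of_injOn (fun g => t * g * t⁻¹) ?_ fun x _ y _ h => mul_left_cancel (mul_right_cancel h)
  intro g hg
  simp only [coe_filter, mem_univ, true_and, Set.mem_ofPred_eq] at hg ⊢
  rw [mul_smul, mul_smul, mul_smul, mul_smul, inv_smul_smul, inv_smul_smul, hg.1, hg.2]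
  exact ⟨rfl, rfl⟩

open Classical in
theorem small [Fintype Ω] {a b : Ω} (hab : a ≠ b) (g : G) :
    (#{t : G | g • t • a = t • a ∧ g • t • b = t • b} : ℝ) ≤
      Nat.card (stabilizer (stabilizer G a) b) * ((fx Ω g : ℝ) * (fx Ω g - 1)) := by
  have h := card_le_mul_card_image_of_maps_to (f := fun t : G => (t • a, t • b))
    (s := {t : G | g • t • a = t • a ∧ g • t • b = t • b}) (t := ({c : Ω | g • c = c} : Finset Ω).offDiag) (by
      intro t ht
      simp only [mem_filter, mem_univ, true_and, mem_offDiag] at ht ⊢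
      exact ⟨ht.1, ht.2, fun e => hab ((smul_left_cancel_iff t).1 e)⟩)
    (Nat.card (stabilizer (stabilizer G a) b)) (by
      rintro ⟨c, d⟩ _
      refine le_trans (card_le_card fun t ht => ?_) (fib_le a b c d)
      simp only [mem_filter, mem_univ, true_and, Prod.mk.injEq] at ht ⊢
      exact ht.2)
  rw [offDiag_card] at h
  have h2 : ((#{c : Ω | g • c = c} * #{c : Ω | g • c = c} - #{c : Ω | g • c = c} : ℕ) : ℝ) =
      (fx Ω g : ℝ) * (fx Ω g - 1) := by
    rw [Nat.cast_sub (Nat.le_mul_self _)]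
    unfold fx
    push_cast
    ring
  rw [← h2]
  exact_mod_cast h

end

theorem nat_ineq (f : ℕ) : (0 : ℝ) ≤ (f : ℝ) * (f - 1) := by
  rcases Nat.eq_zero_or_pos f with rfl | h
  · simp
  · have : (1 : ℝ) ≤ f := by exact_mod_cast h
    nlinarith

theorem pj (pb : PB.{u, v}) (pm : PM.{u, v}) : PJ.{u, v} := by
  intro G Ω _ _ _ _ a b m ht hn hab hm hS hl hδ
  classical
  have : Nonempty Ω := ⟨a⟩
  by_contra hcon
  rw [not_le] at hcon
  obtain ⟨-, hd, -⟩ := pb G Ω ht
  have hN := card_G ht a b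
  rw [← hm] at hN
  have hs := sum_ge (G := G) a b
  have hsm := fun g : G => small hab g
  set l := Nat.card (stabilizer (stabilizer G a) b) with hl0
  have hN0 : 0 < Fintype.card G := Fintype.card_pos
  have hm0 : 0 < m := Nat.pos_of_ne_zero fun e => by rw [e] at hN; simp at hN
  have hNr : (Fintype.card G : ℝ) = Fintype.card Ω * m * l := by exact_mod_cast hN
  have hnr : (10 : ℝ) ^ 16 ≤ Fintype.card Ω := by exact_mod_cast hn
  have hlr : (3 : ℝ) ≤ l := by exact_mod_cast hl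
  have hmr : (0 : ℝ) < m := by exact_mod_cast hm0
  have hN0r : (0 : ℝ) < Fintype.card G := by exact_mod_cast hN0
  set n : ℝ := (Fintype.card Ω : ℝ) with hndef
  set N : ℝ := (Fintype.card G : ℝ) with hNdef
  have hn0 : 0 < n := by linarith [show (0 : ℝ) < 10 ^ 16 by norm_num]
  have hsq : (10 : ℝ) ^ 8 ≤ √n := Real.le_sqrt_of_sq_le (by norm_num at hnr ⊢; linarith)
  have hδ0 : 0 ≤ dl G Ω := by unfold dl; positivity
  have hf1 : fx Ω (1 : G) = Fintype.card Ω := by unfold fx; simp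
  have hj : jj G Ω * N = ∑ g ∈ univ.erase (1 : G), (fx Ω g : ℝ) * (fx Ω g - 1) := by
    unfold jj
    rw [div_mul_cancel₀ _ hN0r.ne']
  have hrk : rk G Ω = jj G Ω + n * (n - 1) / N := by
    unfold rk jj
    rw [← add_div, ← sum_erase_add _ _ (mem_univ (1 : G)), hf1]
  have hj0 : 0 ≤ jj G Ω := by
    refine le_of_mul_le_mul_right ?_ hN0r
    rw [zero_mul, hj]
    exact sum_nonneg fun g _ => nat_ineq _
  have hmj : m * jj G Ω / n ≤ 1 / 100 := by
    rw [div_le_iff₀ hn0]; linarith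
  have hmr' : m * rk G Ω / n ≤ 1 / 100 + 1 / 3 := by
    have e : m * rk G Ω / n = m * jj G Ω / n + (n - 1) / n / l := by
      rw [hrk, hNr]; field_simp
    have h1 : (n - 1) / n ≤ 1 := by rw [div_le_one hn0]; linarith
    have h2 : (n - 1) / n / l ≤ 1 / 3 := by
      rw [div_le_iff₀ (by linarith)]; linarith
    linarith
  have hsq6 : √(0.5929 : ℝ) = 0.77 := by
    rw [show (0.5929 : ℝ) = 0.77 ^ 2 by norm_num, Real.sqrt_sq (by norm_num)]
  have hmix := pm G Ω m 0.5929 ht hm0 hS (by norm_num) (by rw [hsq6]; linarith)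
  rw [hsq6] at hmix
  set ρ : ℝ := √n / (0.77 * m) with hρ
  have hρ0 : 0 ≤ ρ := by positivity
  have hpt : ∀ g : G, (#{t : G | g • t • a = t • a ∧ g • t • b = t • b} : ℝ) ≤
      (l * 1000 + 1.002 * N * ρ / n) * max ((fx Ω g : ℝ) - 1) 0 + 1.002 * N / n ^ 2 * ((fx Ω g : ℝ) * (fx Ω g - 1)) := by
    intro g
    have h0 := nat_ineq (fx Ω g)
    have h1 : (0 : ℝ) ≤ max ((fx Ω g : ℝ) - 1) 0 := le_max_right _ _
    have h2 : (fx Ω g : ℝ) - 1 ≤ max ((fx Ω g : ℝ) - 1) 0 := le_max_left _ _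
    have h3 : (0 : ℝ) ≤ fx Ω g := by positivity
    by_cases hf : (fx Ω g : ℝ) ≤ 1000
    · have h4 : (fx Ω g : ℝ) * (fx Ω g - 1) ≤ 1000 * max ((fx Ω g : ℝ) - 1) 0 := by nlinarith
      have h5 : 0 ≤ 1.002 * N * ρ / n * max ((fx Ω g : ℝ) - 1) 0 := by positivity
      have h6 : 0 ≤ 1.002 * N / n ^ 2 * ((fx Ω g : ℝ) * (fx Ω g - 1)) := by positivity
      have h7 := mul_le_mul_of_nonneg_left h4 (show (0 : ℝ) ≤ l by positivity)
      have h8 := hsm g
      nlinarith
    · rw [not_le] at hf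
      have h4 := hmix {c : Ω | g • c = c} (fx Ω g / n) rfl a b hab
      simp only [mem_filter, mem_univ, true_and] at h4
      have h5 : (fx Ω g : ℝ) ≤ 1.002 * (fx Ω g - 1) := by linarith
      have h6 : (0 : ℝ) ≤ l * 1000 * max ((fx Ω g : ℝ) - 1) 0 := by positivity
      have h7 : ((fx Ω g : ℝ) / n) ^ 2 * N ≤ 1.002 * N / n ^ 2 * ((fx Ω g : ℝ) * (fx Ω g - 1)) := by
        have : (fx Ω g : ℝ) ^ 2 ≤ 1.002 * ((fx Ω g : ℝ) * (fx Ω g - 1)) := by nlinarith
        calc ((fx Ω g : ℝ) / n) ^ 2 * N = (fx Ω g : ℝ) ^ 2 * (N / n ^ 2) := by ring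
          _ ≤ 1.002 * ((fx Ω g : ℝ) * (fx Ω g - 1)) * (N / n ^ 2) := by gcongr
          _ = _ := by ring
      have h8 : (fx Ω g : ℝ) / n * (1 - fx Ω g / n) * ρ * N ≤ 1.002 * N * ρ / n * max ((fx Ω g : ℝ) - 1) 0 := by
        have h9 : (0 : ℝ) ≤ fx Ω g / n := by positivity
        calc (fx Ω g : ℝ) / n * (1 - fx Ω g / n) * ρ * N ≤ (fx Ω g : ℝ) / n * 1 * ρ * N := by gcongr; linarith
          _ = (fx Ω g : ℝ) * (N * ρ / n) := by ring
          _ ≤ 1.002 * max ((fx Ω g : ℝ) - 1) 0 * (N * ρ / n) := by gcongr; linarith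
          _ = _ := by ring
      have h9 : (#{t : G | g • t • a = t • a ∧ g • t • b = t • b} : ℝ) ≤
          (((fx Ω g : ℝ) / n) ^ 2 + fx Ω g / n * (1 - fx Ω g / n) * ρ) * N := by convert h4
      nlinarith
  have hs' : N * l ≤ ∑ g : G, (#{t : G | g • t • a = t • a ∧ g • t • b = t • b} : ℝ) := by
    rw [hNdef]; exact_mod_cast hs
  rw [← sum_erase_add _ _ (mem_univ (1 : G))] at hs'
  have h1 : (#{t : G | (1 : G) • t • a = t • a ∧ (1 : G) • t • b = t • b} : ℝ) ≤ N := by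
    rw [hNdef]; exact_mod_cast card_le_univ _
  have h2 := sum_le_sum fun g (_ : g ∈ univ.erase (1 : G)) => hpt g
  rw [sum_add_distrib, ← mul_sum, ← mul_sum, ← hj] at h2
  have h3 : ∑ g ∈ univ.erase (1 : G), max ((fx Ω g : ℝ) - 1) 0 ≤ dl G Ω * N := by
    rw [hd]
    exact sum_le_sum_of_subset_of_nonneg (erase_subset _ _) fun g _ _ => le_max_right _ _
  have h4 := mul_le_mul_of_nonneg_left h3 (show (0 : ℝ) ≤ l * 1000 + 1.002 * N * ρ / n by positivity)
  have h5 : N * l ≤ N + (l * 1000 + 1.002 * N * ρ / n) * (dl G Ω * N) + 1.002 * N / n ^ 2 * (jj G Ω * N) := by linarith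
  have e : N + (l * 1000 + 1.002 * N * ρ / n) * (dl G Ω * N) + 1.002 * N / n ^ 2 * (jj G Ω * N) =
      N * (1 + l * (1000 * dl G Ω + 1.002 / 0.77 * (dl G Ω * √n) + 1.002 * (m * jj G Ω / n))) := by
    rw [hρ, hNr]; field_simp; ring
  rw [e] at h5
  have h6 := le_of_mul_le_mul_left h5 hN0r
  have h7 : 1000 * dl G Ω ≤ 1 / 1000 := by nlinarith
  have h8 : 1000 * dl G Ω + 1.002 / 0.77 * (dl G Ω * √n) + 1.002 * (m * jj G Ω / n) ≤ 0.665 := by
    have : 1.002 / 0.77 * (dl G Ω * √n) ≤ 1.002 / 0.77 * 0.501 := by gcongr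
    norm_num at this ⊢
    linarith
  nlinarith

end Cfsg.Agent.H7.DRj
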