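import Cfsg.Agent.H4.FxH
import Cfsg.Agent.H4.T8G

/-!
Fixed points of elements of order five on the adjoint module.
-/

set_option autoImplicit false
set_option linter.unusedSectionVars false
set_option maxRecDepth 100000

namespace Cfsg.Agent.H7.E5

open Matrix Subgroup Cfsg.Agent.Chv Cfsg.Lie Cfsg.Agent.Chv.E8 Cfsg.Agent.H1.E8 Cfsg.Agent.H6 Cfsg.Agent.H6.Gs
open Cfsg.Agent.H4.T8 Cfsg.Agent.H4.Fx

theorem c5 : enum 5 (fun _ V => Nat.ble 40 (H4.T8.cnt 5 1 0 V)) = true := by decide +kernel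

attribute [local irreducible] S3 adE

theorem key2 {r s : Fin 240} (h : ∀ i, (B (al i) (R.rt r - R.rt s) : ZMod 2) = 0) : r = s ∨ r = R.neg s := by
  have h2 := fun i => (ZMod.intCast_zmod_eq_zero_iff_dvd _ 2).1 (h i)
  have h1 := B_wt (R.ei r) (R.ei s)
  change B (R.rt r - R.rt s) (R.rt r - R.rt s) ≤ 8 at h1
  have h4 : ∀ j, (2 : ℤ) ∣ (R.rt r - R.rt s) j := fun j => by
    generalize R.rt r - R.rt s = v at h2
    have a0 := h2 0; have a1 := h2 1; have a2 := h2 2; have a3 := h2 3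
    have a4 := h2 4; have a5 := h2 5; have a6 := h2 6; have a7 := h2 7
    simp [B, al_apply] at a0 a1 a2 a3 a4 a5 a6 a7
    fin_cases j <;> simp <;> omega
  choose u hu using h4
  have h5 : R.rt r - R.rt s = (2 : ℤ) • u := funext hu
  have h6 := congrArg (fun v => B v v) h5
  obtain ⟨k, hk⟩ := B_even u
  have h7 := B_le (B_rt s) (B_rt r)
  have h8 := le_B (B_rt s) (B_rt r)
  simp only [B_smul_left, B_smul_right, B_sub_left, B_sub_right, B_rt, B_comm (R.rt r) (R.rt s)] at h6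
  rcases (by omega : B (R.rt s) (R.rt r) = 2 ∨ B (R.rt s) (R.rt r) = -2) with e | e
  · exact .inl (R.ext (eq_of_B (B_rt s) (B_rt r) e))
  · exact .inr (R.ext ((eq_neg_of_B (B_rt s) (B_rt r) e).trans (R.rt_neg s).symm))

theorem fix_le {w : L ≃+ L} (hw : Iso w) (h7 : ∀ v, w^[5] v = v) {π : Equiv.Perm (Fin 240)}
    (h : ∀ r, R.rt (π r) = w (R.rt r)) (h5 : π ^ 5 = 1) (hπ : π ≠ 1) :
    (Finset.univ.filter fun r => π r = r).card ≤ 32 := by
  classical
  have := Fact.mk Nat.prime_five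
  let e : (Fin 8 → ZMod 2) ≃ (L →ₗ[ℤ] ZMod 2) := ((Pi.basisFun ℤ (Fin 8)).constr ℤ).toEquiv
  have := Fintype.ofEquiv _ e
  let f : (L →ₗ[ℤ] ZMod 2) →+ L →ₗ[ℤ] ZMod 2 := (LinearMap.lcomp ℤ _ w.toIntLinearEquiv.toLinearMap).toAddMonoidHom
  have h1 : Fintype.card (L →ₗ[ℤ] ZMod 2) = 2 ^ 8 := by rw [← Fintype.card_congr e]; simp
  have h2 := Equiv.Perm.card_fixedPoints_modEq (α := L →ₗ[ℤ] ZMod 2) (f := ⇑f) (p := 5) (n := 1)
    (funext fun φ => LinearMap.ext fun v => congrArg φ (h7 v))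
  let b : L → L →ₗ[ℤ] ZMod 2 := fun u =>
    (AddMonoidHom.mk' (fun v => (B v u : ZMod 2)) fun _ _ => by simp).toIntLinearMap
  have h4 := (f.eqLocus (.id _)).card_addSubgroup_dvd_card
  rw [Nat.card_eq_fintype_card (α := L →ₗ[ℤ] ZMod 2), h1, Nat.dvd_prime_pow Nat.prime_two] at h4
  obtain ⟨d, hd, h4⟩ := h4
  rw [h1, ← Nat.card_eq_fintype_card, show Nat.card (Function.fixedPoints f) = _ from h4] at h2
  have hn : ∀ r, π (R.neg r) = R.neg (π r) := fun r =>
    R.ext (by rw [h, RD.rt, RD.rt, R.rt_neg, R.rt_neg, map_neg, ← h])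
  have hnn : ∀ r, R.neg (R.neg r) = r := fun r => R.ext ((R.rt_neg _).trans (neg_eq_iff_eq_neg.2 (R.rt_neg _)))
  have h8 : d ≠ 8 := fun e => hπ (by
    have h9 : ∀ r, π r = r ∨ π r = R.neg r := fun r => key2 fun i => by
      have : b (al i) ∈ f.eqLocus (.id _) := (AddSubgroup.eq_top_of_card_eq _ (by
        rw [h4, e, ← h1, Nat.card_eq_fintype_card])).ge trivial
      rw [B_sub_right, Int.cast_sub, sub_eq_zero, B_comm, B_comm (al i)]
      exact (congrArg (fun v => (B v (al i) : ZMod 2)) (h r)).trans (LinearMap.congr_fun this (R.rt r))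
    have h10 : π ^ 2 = 1 := Equiv.ext fun r => by
      rw [sq, Equiv.Perm.mul_apply]
      rcases h9 r with e | e
      · rw [e, e]; rfl
      · rw [e, hn, e, hnn]; rfl
    rw [← h5, show 5 = 2 * 2 + 1 from rfl, pow_succ, pow_mul, h10, one_pow, one_mul])
  have h6 := Finset.card_le_mul_card_image_of_maps_to (s := Finset.univ.filter fun r => π r = r)
    (t := (f.eqLocus (.id _) : Set (L →ₗ[ℤ] ZMod 2)).toFinset) (f := fun r => b (R.rt r)) (fun r hr => by
      rw [Set.mem_toFinset]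
      exact LinearMap.ext fun v => congrArg Int.cast (by
        change B (w v) _ = B v _
        rw [← hw v, ← h, (Finset.mem_filter.1 hr).2])) 2 fun φ _ => by
      by_cases h0 : ((Finset.univ.filter fun r => π r = r).filter fun r => b (R.rt r) = φ) = ∅
      · simp [h0]
      obtain ⟨s, hs⟩ := Finset.nonempty_iff_ne_empty.2 h0
      refine (Finset.card_le_card (t := {s, R.neg s}) fun r hr => ?_).trans Finset.card_le_two
      rw [Finset.mem_insert, Finset.mem_singleton]
      refine key2 fun i => ?_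
      rw [B_sub_right, Int.cast_sub, sub_eq_zero]
      exact LinearMap.congr_fun ((Finset.mem_filter.1 hr).2.trans (Finset.mem_filter.1 hs).2.symm) (al i)
  rw [Set.toFinset_card, ← Nat.card_eq_fintype_card] at h6
  replace h6 := h6.trans_eq (congrArg (2 * ·) h4)
  interval_cases d <;> first | omega | simp_all [Nat.ModEq]

open Classical in
theorem transv {π : Equiv.Perm (Fin 240)} (h7 : π ^ 5 = 1) :
    ∃ T : Finset (Fin 240), 240 ≤ 5 * T.card + (Finset.univ.filter fun r => π r = r).card ∧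
      ∀ r ∈ T, ∀ s ∈ T, ∀ j < 5, s = (π ^ j) r → s = r ∧ j = 0 := by
  have h8 : ∀ j < 5, ∀ s, (π ^ (5 - j)) ((π ^ j) s) = s := fun j hj s => by
    rw [← Equiv.Perm.mul_apply, ← pow_add, Nat.sub_add_cancel hj.le, h7, Equiv.Perm.one_apply]
  refine ⟨Finset.univ.filter fun r => π r ≠ r ∧ ∀ j, r ≤ (π ^ j) r, ?_, fun r hr s hs j hj e => ?_⟩
  · have h1 := Finset.card_filter_add_card_filter_not (s := Finset.univ) fun r => π r = r
    have h2 := (Finset.card_le_card (s := Finset.univ.filter fun r => ¬ π r = r) fun s hs => by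
      obtain ⟨j, hj, h2⟩ := (Finset.range 5).exists_min_image (fun j => (π ^ j) s) ⟨0, by simp⟩
      refine Finset.mem_image.2 ⟨(j, (π ^ j) s), Finset.mem_product.2 ⟨hj, Finset.mem_filter.2 ⟨Finset.mem_univ _,
        fun e => (Finset.mem_filter.1 hs).2 ((π ^ j).injective ?_), fun i => ?_⟩⟩, h8 j (Finset.mem_range.1 hj) s⟩
      · rw [← Equiv.Perm.mul_apply, ← pow_succ, pow_succ', Equiv.Perm.mul_apply, e]
      · rw [← Equiv.Perm.mul_apply, ← pow_add, pow_eq_pow_mod (i + j) h7]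
        exact h2 _ (Finset.mem_range.2 (Nat.mod_lt _ (by decide)))).trans (Finset.card_image_le
        (f := fun p : ℕ × Fin 240 => (π ^ (5 - p.1)) p.2)
        (s := Finset.range 5 ×ˢ Finset.univ.filter fun r => π r ≠ r ∧ ∀ j, r ≤ (π ^ j) r))
    rw [Finset.card_product, Finset.card_range] at h2
    rw [Finset.card_univ, Fintype.card_fin] at h1
    omega
  obtain ⟨-, h1, h2⟩ := Finset.mem_filter.1 hr
  have h4 : s = r := le_antisymm (((Finset.mem_filter.1 hs).2.2 (5 - j)).trans_eq (by rw [e, h8 j hj])) (e ▸ h2 j)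
  refine ⟨h4, of_not_not fun h0 => h1 ?_⟩
  have := Fact.mk Nat.prime_five
  exact zpowers_le.2 (show π ^ j ∈ MulAction.stabilizer _ r from e.symm.trans h4) (mem_zpowers_pow_iff.2 (by
    rw [orderOf_eq_prime h7 fun e => h1 (by simp [e])]
    interval_cases j <;> simp_all))

/-- elements of the Cartan subalgebra -/
noncomputable def hv (u : Fin 8 → KK) : I → KK := Sum.elim u 0

theorem hv_ei (u : Fin 8 → KK) (r : Fin 240) : hv u (R.ei r) = 0 := rfl

theorem rh_hv (u v : L) : rh (hv fun i => (u i : KK)) v = B v u := by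
  rw [B_sum, rh, Int.cast_sum]
  exact Finset.sum_congr rfl fun i _ => by rw [Int.cast_mul, B_comm]; rfl

theorem fix_hv {n : GL I KK} (hn : n ∈ (S3 h3K).N) {w π} (h : Mon R n w π) {u : L} (hu : w u = u) :
    n.1 *ᵥ hv (fun i => (u i : KK)) = hv fun i => (u i : KK) := by
  generalize hv' : hv (fun i => (u i : KK)) = v
  have h0 : ∀ r, v (R.ei r) = 0 := fun r => hv' ▸ hv_ei _ r
  have h1 : ∀ r, (n.1 *ᵥ v) (R.ei r) = 0 := fun r => by
    rw [mulVec, dotProduct]
    refine Finset.sum_eq_zero fun b _ => ?_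
    rcases cases_I b with ⟨i, rfl⟩ | ⟨s, rfl⟩
    · refine mul_eq_zero_of_left (of_not_not fun e => R.rt_ne r ?_) _
      rw [h.mono _ _ e, H4.Fx.wt_inl, map_zero]
    · rw [h0, mul_zero]
  have h2 := Γ_Au h3K (Gs.Sys.N_le_Γ hn) v
  rw [ad_eq h3K, ad_eq h3K] at h2
  simp only [h0, h1, zero_smul, Finset.sum_const_zero, add_zero] at h2
  have h3 : ∀ r, rh (n.1 *ᵥ v - v) (R.rt r) = 0 := fun r => by
    obtain ⟨r, rfl⟩ := π.surjective r
    have h4 := congrFun₂ h2 (R.ei (π r)) (R.ei r)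
    rw [mul_diagonal, diagonal_mul, mul_comm] at h4
    have h5 := mul_right_cancel₀ (left_ne_zero_of_mul_eq_one (h.unit r)) h4
    have h6 : rh v (R.rt (π r)) = rh v (R.rt r) := by
      rw [← hv', rh_hv, rh_hv, h.rt, ← iso_of_mem hn h (R.rt r), hu]
    simp only [rh, Pi.sub_apply, sub_mul, Finset.sum_sub_distrib]
    exact sub_eq_zero.2 (h5.symm.trans h6.symm)
  funext a
  rcases cases_I a with ⟨i, rfl⟩ | ⟨s, rfl⟩
  · exact sub_eq_zero.1 (eq_zero_of_rh h3K h3 i)
  · rw [h0, h1]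

theorem dm_eq {k K : Type*} [Field k] [Field K] {ι : Type} [Fintype ι] [DecidableEq ι] (f : k →+* K)
    {A : Matrix ι ι k} {P n : GL ι K} (h : P.1 * A.map f * (P⁻¹).1 = n.1) :
    dm ⊤ (toLin' A) 1 = Module.finrank K (LinearMap.ker (toLin' (n.1 - 1))) := by
  rw [← h]
  have h1 := (toLin' (A - 1)).finrank_range_add_finrank_ker
  have h2 := (toLin' (P.1 * A.map f * (P⁻¹).1 - 1)).finrank_range_add_finrank_ker
  have h3 : (P.1 * A.map f * (P⁻¹).1 - 1).rank = (A - 1).rank := by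
    rw [← rank_map f, show P.1 * A.map f * (P⁻¹).1 - 1 = P.1 * (A - 1).map f * (P⁻¹).1 by
      rw [Matrix.map_sub _ (map_sub f), Matrix.map_one _ (map_zero f) (map_one f), mul_sub, sub_mul, mul_one,
        ← Units.val_mul, mul_inv_cancel, Units.val_one],
      rank_mul_eq_left_of_isUnit_det _ _ ((isUnit_iff_isUnit_det _).1 P⁻¹.isUnit),
      rank_mul_eq_right_of_isUnit_det _ _ ((isUnit_iff_isUnit_det _).1 P.isUnit)]
  rw [rank, rank, ← toLin'_apply', ← toLin'_apply'] at h3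
  rw [Module.finrank_fintype_fun_eq_card] at h1 h2
  rw [dm, top_inf_eq, Module.End.eigenspace_def, one_smul,
    show toLin' A - 1 = toLin' (A - 1) by rw [map_sub, toLin'_one]; rfl]
  omega

theorem core {n : GL I KK} (hn : n ∈ (S3 h3K).N) {w π} (ha : (S3 h3K).Act n w π) (h0 : n ^ 5 = 1) (hπ : π ≠ 1) :
    45 ≤ Module.finrank KK (LinearMap.ker (toLin' (n.1 - 1))) := by
  classical
  obtain ⟨w', h1, h2⟩ := ha.toMon.pow 5
  rw [h0, ← R.h.map_one] at h1
  have h3 := h1.perm_eq (mon_h 1)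
  have h4 := fix_le (iso_of_mem hn ha.toMon) (fun v => by
    rw [← h2, h1.w_eq (h3 ▸ mon_h (1 : Chr 8 KK))]; rfl) ha.rt h3 hπ
  obtain ⟨T, h5, h6⟩ := transv h3
  have h7 : ∀ s r : T, (∑ j ∈ Finset.range 5, n.1 ^ j) (R.ei s) (R.ei r) = if s = r then 1 else 0 := fun s r => by
    rw [Matrix.sum_apply, Finset.sum_eq_single 0 (fun j hj h0 => of_not_not fun e => ?_) (by simp)]
    · rw [pow_zero, one_apply]
      exact if_congr (ei_inj.trans Subtype.ext_iff.symm) rfl rfl
    obtain ⟨w', h7, -⟩ := ha.toMon.pow j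
    exact h0 (h6 _ r.2 _ s.2 j (Finset.mem_range.1 hj)
      (R.ext ((h7.mono _ _ (by rwa [Units.val_pow_eq_pow_val])).trans (h7.rt _).symm))).2
  let g : {r // π r = r} → Fin 8 → ZMod 3 := fun r i => R.rt r i
  obtain ⟨b, hb, h8, h9⟩ := exists_linearIndependent (ZMod 3) (Set.range g)
  have := Fintype.ofFinite b
  have h10 := Nat.card_le_card_of_injective (α := {r // π r = r}) (β := Submodule.span (ZMod 3) b)
    (fun r => ⟨g r, h8 ▸ Submodule.subset_span ⟨r, rfl⟩⟩) fun r s e => Subtype.ext (R.ext (sub_eq_zero.1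
      (key3 (K := ZMod 3) rfl (B_wt _ _) fun i => by
        rw [B_sum, Int.cast_sum]
        refine Finset.sum_eq_zero fun j _ => ?_
        rw [Int.cast_mul, Pi.sub_apply, Int.cast_sub]
        exact mul_eq_zero_of_left (sub_eq_zero.2 (congrFun (congrArg Subtype.val e) j)) _)))
  rw [Nat.card_eq_fintype_card, Fintype.card_subtype, Module.natCard_eq_pow_finrank (K := ZMod 3), Nat.card_zmod,
    ← Subtype.range_coe (s := b), finrank_span_eq_card h9] at h10
  let F : T ⊕ b → I → KK := Sum.elim (fun r => (∑ j ∈ Finset.range 5, n.1 ^ j) *ᵥ Pi.single (R.ei r) 1)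
    fun v => hv (algebraMap _ KK ∘ v.1)
  have h11 : LinearIndependent KK F := Fintype.linearIndependent_iff.2 fun a e => by
    have h11 : ∀ s, a (.inl s) = 0 := fun s => by
      have := congrFun e (R.ei s)
      simpa [F, Fintype.sum_sum_type, hv_ei, h7] using this
    rintro (s | v)
    · exact h11 s
    refine Fintype.linearIndependent_iff.1 ((linearIndependent_algebraMap_comp_iff (S := KK)).2 h9) (fun v => a (.inr v))
      (funext fun i => ?_) v
    have := congrFun e (hI i)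
    simp only [F, Fintype.sum_sum_type, h11, zero_smul, Finset.sum_apply, Pi.zero_apply, Finset.sum_const_zero,
      zero_add] at this
    rw [Finset.sum_apply]
    exact this
  have h12 : Submodule.span KK (Set.range F) ≤ LinearMap.ker (toLin' (n.1 - 1)) := Submodule.span_le.2 (by
    rintro _ ⟨r | v, rfl⟩
    · change (n.1 - 1) *ᵥ _ *ᵥ _ = 0
      rw [mulVec_mulVec, mul_geom_sum, ← Units.val_pow_eq_pow_val, h0, Units.val_one, sub_self, zero_mulVec]
    · obtain ⟨r, hr⟩ := hb v.2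
      change (n.1 - 1) *ᵥ hv (algebraMap _ KK ∘ v.1) = 0
      rw [← hr, show algebraMap _ KK ∘ g r = fun i => (R.rt r i : KK) from funext fun i => map_intCast _ _, sub_mulVec,
        one_mulVec, fix_hv hn ha.toMon (by rw [← ha.rt, r.2]), sub_self])
  refine le_trans ?_ (Submodule.finrank_mono h12)
  rw [finrank_span_eq_card h11, Fintype.card_sum, Fintype.card_coe]
  generalize Fintype.card b = k at h10
  by_contra h
  have : k ≤ 2 := by omega
  interval_cases k <;> omega

theorem e5 (x : chevE8.group (ZMod 3)) (hx : x ^ 5 = 1) : 48 ≤ dm ⊤ (rho x) 1 := by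
  classical
  obtain ⟨ζ, hζ⟩ := exists_prim (N := 5 ^ 2) (by decide)
  obtain ⟨c, -, -, hn⟩ := conj_N (S := S3 h3K) lfK Nat.prime_five (sep (by decide)) hζ (one_mem _) (FF_mem x) (by simp)
    (k := 1) (by rw [pow_one, ← map_pow, hx, map_one])
  obtain ⟨w, π, ha⟩ := Gs.Sys.exists_act hn
  by_cases hπ : π = 1
  · obtain ⟨ζ, hζ⟩ := exists_prim (N := 5) (by decide)
    obtain ⟨q, V, h1, -, -, h3⟩ := kac (by decide) hζ hx (Gs.Sys.mem_H ha.toMon hn fun i => hπ ▸ R.pos_sim i) c5
    have h4 := h3 1 0 1 (by decide) (by simp)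
    rw [pow_one, show ind 0 0 = 1 from rfl] at h4
    have := Nat.le_of_ble_eq_true h1
    omega
  suffices 45 ≤ dm ⊤ (rho x) 1 by
    have h1 := card_mod ⊤ (rho x) (fun _ _ => trivial) (by rw [← map_pow, hx, map_one])
    rw [finrank_top, rho_dim] at h1
    generalize dm ⊤ (rho x) 1 = d at this h1
    by_contra h
    interval_cases d <;> exact absurd h1 (by decide)
  exact (core hn ha (by rw [conj_pow, ← map_pow, hx, map_one, mul_one, mul_inv_cancel]) hπ).trans_eq
    (dm_eq (algebraMap (ZMod 3) KK) (A := x.1.1) (P := c) rfl).symm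

end Cfsg.Agent.H7.E5
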