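import Cfsg.Agent.H7.Sp3

/-!
Irreducible subgroups of `Sp(V)` in characteristic two containing a complement to the transvections
in the unipotent radical of a point stabiliser: reduction to the linear case.
-/

set_option autoImplicit false
set_option linter.unusedSectionVars false

namespace Cfsg.Agent.H7.Ev

open Cfsg.Agent.Form Module

variable {F : Type*} [Field F] [CharP F 2] {V : Type*} [AddCommGroup V] [Module F V]

theorem eqv (F : Type*) [Field F] [Module F V] {x y : V} (h : ∀ t : F, t • x = t • y) : x = y := by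
  simpa using h 1

set_option hygiene false in
scoped macro "v2" : tactic =>
  `(tactic| (refine eqv F fun t0 => ?_; match_scalars <;> first | ring1 | grind))

variable {S : PQ (FP.symp F) V} {M : Subgroup (V ≃ₗ[F] V)}

theorem sw (x y : V) : S.B y x = S.B x y := by rw [sB_swap x y]; grind

theorem sw' {x y : V} {c : F} (h : S.B x y = c) : S.B y x = c := (sw x y).trans h

theorem exists_sq [Finite F] (c : F) : ∃ t : F, t ^ 2 = c :=
  (Finite.injective_iff_surjective.1 (frobenius_inj F 2)) c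

/-- the Eichler map with data `a, w, q` lies in `M` -/
def R (S : PQ (FP.symp F) V) (M : Subgroup (V ≃ₗ[F] V)) (a w : V) (q : F) : Prop :=
  ∃ h : S.B w a = 0, ev S a w q h ∈ M

variable {a a' p w w' u : V} {q q' c : F} {g : V ≃ₗ[F] V}

theorem R.perp (h : R S M a w q) : S.B w a = 0 := h.1

theorem R.ex (h : R S M a w q) :
    ∃ g ∈ M, ∀ x, g x = x + (S.B x w + q * S.B x a) • a + S.B x a • w :=
  ⟨_, h.2, fun x => ev_apply ..⟩

theorem R.of (h : S.B w a = 0) (hg : g ∈ M)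
    (e : ∀ x, g x = x + (S.B x w + q * S.B x a) • a + S.B x a • w) : R S M a w q :=
  ⟨h, by rwa [show ev S a w q h = g from LinearEquiv.ext fun x => by rw [e, ev_apply]]⟩

theorem R.congr (h : R S M a w q) (e1 : w = w') (e2 : q = q') : R S M a w' q' := e1 ▸ e2 ▸ h

theorem R.add (h : R S M a w q) (h' : R S M a w' q') : R S M a (w + w') (q + q' + S.B w w') :=
  ⟨by simp [h.perp, h'.perp], ev_congr_mem (ev_mul_mem h.2 h'.2) rfl rfl (by rw [sw])⟩

theorem R.zero : R S M a 0 0 := .of (by simp) M.one_mem (by simp)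

theorem R.add_self (h : R S M a w q) (t : F) : R S M a (w + t • a) q := by
  obtain ⟨g, hg, e⟩ := h.ex
  exact .of (by simp [h.perp]) hg fun x => by rw [e]; simp; v2

theorem R.of_add (t : F) (h : R S M a (w + t • a) q) : R S M a w q :=
  (h.add_self t).congr (by v2) rfl

theorem R.smul {t : F} (h : R S M (t • a) w q) (ht : t ≠ 0) : R S M a (t • w) (t ^ 2 * q) := by
  obtain ⟨g, hg, e⟩ := h.ex
  exact .of (by simpa [ht] using h.perp) hg fun x => by rw [e]; simp; v2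

theorem R.smul' {t : F} (h : R S M a (t • w) (t ^ 2 * q)) (ht : t ≠ 0) : R S M (t • a) w q := by
  obtain ⟨g, hg, e⟩ := h.ex
  exact .of (by simpa [ht] using h.perp) hg fun x => by rw [e]; simp; v2

theorem R.map (hM : M ≤ S.isom) (h : R S M a w q) (hg : g ∈ M) : R S M (g a) (g w) q :=
  ⟨_, ev_conj_mem h.2 hg (hM hg)⟩

theorem R.inv (hM : M ≤ S.isom) (h : R S M a w q) (hg : g ∈ M) (e : g a = a) :
    R S M a (g w + w) (S.B (g w) w) := by
  have := h.map hM hg
  rw [e] at this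
  exact (this.add h).congr rfl (by grind)

theorem ctr_of_R (h : ∀ s, R S M a 0 s) : Ctr S M a :=
  ctr_iff.2 fun c => by rw [← ev_zero]; exact (h c).2

theorem R_of_ctr (h : Ctr S M a) (s : F) : R S M a 0 s :=
  ⟨by simp, by rw [ev_zero]; exact ctr_iff.1 h s⟩

theorem exists_swap (ha : S.B a' a = 1) (h1 : S.B u a' = 0) (hc : c ≠ 0) (h : R S M a u c)
    (h' : R S M a' (c⁻¹ • u) c⁻¹) : ∃ g ∈ M, g a = c⁻¹ • a' ∧ g a' = c • a ∧
      ∀ x, S.B x a = 0 → S.B x a' = 0 → g x = x + (c⁻¹ * S.B x u) • u := by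
  obtain ⟨g, hg, e⟩ := h.ex
  obtain ⟨k, hk, f⟩ := h'.ex
  have h0 := h.perp
  refine ⟨g * k * g, mul_mem (mul_mem hg hk) hg, ?_, ?_, fun x hx hx' => ?_⟩ <;>
    simp [sw' ha, sw' h0, sw' h1, *] <;> clear e f h h' <;> v2

/-- `M` covers the unipotent radical at `a` modulo the transvections -/
def Cov (S : PQ (FP.symp F) V) (M : Subgroup (V ≃ₗ[F] V)) (a : V) : Prop :=
  a ≠ 0 ∧ ∀ w, S.B w a = 0 → ∃ q, R S M a w q

theorem Cov.smul (h : Cov S M a) {t : F} (ht : t ≠ 0) : Cov S M (t • a) := by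
  refine ⟨smul_ne_zero ht h.1, fun w hw => ?_⟩
  obtain ⟨q, hq⟩ := h.2 (t • w) (by simpa [ht] using hw)
  exact ⟨q / t ^ 2, (hq.congr rfl (by field_simp)).smul' ht⟩

theorem Cov.map (hM : M ≤ S.isom) (h : Cov S M a) (hg : g ∈ M) : Cov S M (g a) := by
  refine ⟨by simpa using h.1, fun w hw => ?_⟩
  obtain ⟨q, hq⟩ := h.2 (g.symm w) (by rw [← PQ.B_isom (hM hg)]; simpa using hw)
  exact ⟨q, by simpa using hq.map hM hg⟩

theorem Cov.step (hM : M ≤ S.isom) (h : Cov S M a') (ha : S.B a' a = 1) (h1 : S.B u a' = 0)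
    (hu : R S M a u c) : Cov S M (a' + c • a + u) := by
  obtain ⟨g, hg, e⟩ := hu.ex
  simpa [e, ha, sw' h1] using h.map hM hg

/-- irreducibility -/
def Irr (M : Subgroup (V ≃ₗ[F] V)) : Prop :=
  ∀ W : Submodule F V, (∀ g ∈ M, ∀ w ∈ W, g w ∈ W) → W = ⊥ ∨ W = ⊤

theorem Irr.exists (hS : S.Nondeg) (hI : Irr M) (h0 : a ≠ 0) :
    ∃ g ∈ M, ∃ t : F, t ≠ 0 ∧ S.B (t • g a) a = 1 := by
  by_contra hc
  have h1 : ∀ g ∈ M, S.B (g a) a = 0 := fun g hg => by
    by_contra h; exact hc ⟨g, hg, _, inv_ne_zero h, by simp [h]⟩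
  let W : Submodule F V := Submodule.span F {x | ∃ g ∈ M, g a = x}
  have hW : ∀ x ∈ W, S.B x a = 0 := fun x hx => by
    induction hx using Submodule.span_induction with
    | mem x hx => obtain ⟨g, hg, rfl⟩ := hx; exact h1 g hg
    | zero => simp
    | add x y _ _ hx hy => simp [hx, hy]
    | smul c x _ hx => simp [hx]
  rcases hI W (fun g hg x hx => by
    induction hx using Submodule.span_induction with
    | mem x hx => obtain ⟨k, hk, rfl⟩ := hx; exact Submodule.subset_span ⟨g * k, mul_mem hg hk, rfl⟩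
    | zero => simp
    | add x y _ _ hx hy => rw [map_add]; exact add_mem hx hy
    | smul c x _ hx => rw [map_smul]; exact W.smul_mem c hx) with h | h
  · have : a ∈ W := Submodule.subset_span ⟨1, M.one_mem, rfl⟩
    rw [h] at this; exact h0 this
  · exact h0 (hS.right a fun y => hW y (by simp [h]))

theorem move {x y : V} {β : F} (hβ : β ≠ 0) (hy : S.B y p = β)
    (h : R S M p (β⁻¹ • (x + y)) (β⁻¹ ^ 2 * S.B y x)) : ∃ g ∈ M, g y = x := by
  obtain ⟨g, hg, e⟩ := h.ex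
  exact ⟨g, hg, by rw [e]; simp [hy]; clear e h; v2⟩

theorem exists_W (hS : S.Nondeg) (ha : S.B a' a = 1) (h0 : S.B u a = 0) (h1 : S.B u a' = 0)
    (hu : u ≠ 0) (t : F) : ∃ w, S.B w a = 0 ∧ S.B w a' = 0 ∧ S.B w u = t := by
  obtain ⟨y, hy⟩ := hS.exists_eq hu t
  exact ⟨y + S.B y a' • a + S.B y a • a', by simp [ha]; grind, by simp [sw' ha]; grind,
    by simp [hy, sw' h0, sw' h1]⟩

structure Lin (S : PQ (FP.symp F) V) (M : Subgroup (V ≃ₗ[F] V)) (a : V) : Prop where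
  cov : Cov S M a
  uni : ∀ s, R S M a 0 s → s = 0
  hom : ∀ w q t, R S M a w q → R S M a (t • w) (t ^ 2 * q)

theorem uniq (hu : ∀ s, R S M a 0 s → s = 0) (h : R S M a w q) (h' : R S M a w q') : q = q' := by
  have := hu _ ((h.add h').congr (by v2) rfl)
  simp at this; grind

theorem lin_two (hq : ∀ c : F, c = 0 ∨ c = 1) (h : Cov S M a) (hc : ¬ Ctr S M a) : Lin S M a := by
  refine ⟨h, fun s hs => by_contra fun h0 => hc (ctr_of_R fun t => ?_), fun w q t hw => ?_⟩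
  · rcases hq t with rfl | rfl
    · exact .zero
    · exact hs.congr rfl ((hq s).resolve_left h0)
  · rcases hq t with rfl | rfl
    · simpa using R.zero
    · simpa using hw

theorem star (hM : M ≤ S.isom) (hp : S.B p a = 0) (hw : S.B w a = 0) (h : R S M p w c) {x : V}
    (hx : R S M a x q) : R S M a ((S.B x w + c * S.B x p) • p + S.B x p • w) (c * S.B x p ^ 2) := by
  obtain ⟨g, hg, e⟩ := h.ex
  refine (hx.inv hM hg (by simp [e, sw' hp, sw' hw])).congr ?_ ?_ <;> rw [e] <;> clear e hx h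
  · v2
  · simp [sw x p, sw x w]; grind

variable [FiniteDimensional F V] [Finite F]

theorem full (hS : S.Nondeg) (hM : M ≤ S.isom) (hI : Irr M) (h : Cov S M a) (hc : Ctr S M a) :
    S.isom ≤ M := by
  have key : ∀ {p p' x : V}, Cov S M p ∧ Ctr S M p → Cov S M p' ∧ Ctr S M p' → S.B p' p ≠ 0 →
      S.B x p ≠ 0 → Cov S M x ∧ Ctr S M x := by
    intro p p' x hp hp' h1 h2
    have ht : S.B x p / S.B p' p ≠ 0 := div_ne_zero h2 h1
    have hy : S.B ((S.B x p / S.B p' p) • p') p = S.B x p := by simp [h1]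
    obtain ⟨q, hq⟩ := hp.1.2 ((S.B x p)⁻¹ • (x + (S.B x p / S.B p' p) • p')) (by
      rw [S.B_smul_left, S.B_add_left, hy]; grind)
    obtain ⟨g, hg, e⟩ := move h2 hy ((hq.add (R_of_ctr hp.2 (q + (S.B x p)⁻¹ ^ 2 *
      S.B ((S.B x p / S.B p' p) • p') x))).congr (add_zero _) (by
      rw [S.B_zero_right, add_zero, ← add_assoc, CharTwo.add_self_eq_zero, zero_add]))
    exact e ▸ ⟨(hp'.1.smul ht).map hM hg, (hp'.2.smul _).map hg (hM hg)⟩
  obtain ⟨g, hg, t, ht, e⟩ := hI.exists hS h.1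
  have h' : Cov S M (t • g a) ∧ Ctr S M (t • g a) := ⟨(h.map hM hg).smul ht, (hc.map hg (hM hg)).smul t⟩
  refine isom_le_of_ctr hS fun x => ?_
  by_cases hx : x = 0
  · exact hx ▸ ctr_zero
  obtain ⟨y, -, h1, h2⟩ := exists_B_ne_ne (S := S) (U := ⊤) (x := a) (y := x)
    (by simpa [hS.perp_top] using h.1) (by simpa [hS.perp_top] using hx)
  exact (key (key ⟨h, hc⟩ h' (by simp [e]) (sB_ne_comm h1)) ⟨h, hc⟩ h1 h2).2

section pair
variable (hS : S.Nondeg) (hM : M ≤ S.isom) (hq : ∃ c : F, c ≠ 0 ∧ c ≠ 1)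
  (hN : ∀ x, Cov S M x → ¬ Ctr S M x)
include hS hM

theorem exists_R (ha : Cov S M a) (hn : p ∉ F ∙ a) (y : F) : ∃ x q, R S M a x q ∧ S.B x p = y := by
  obtain ⟨x, hx, e⟩ := hS.exists_perp_eq hn y
  obtain ⟨q, hq⟩ := ha.2 x (S.mem_perp_span_singleton.1 hx)
  exact ⟨x, q, hq, sw' e⟩

theorem pair_aux (ha : Cov S M a) (hp : S.B p a = 0) (hn : p ∉ F ∙ a) {ν : F} (h : R S M p (ν • a) c)
    (hc : c ≠ 0) (z : F) : R S M a (z • p) (z ^ 2 / c) := by
  obtain ⟨x, q, hx, e⟩ := exists_R hS hM ha hn (z / c)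
  refine .of_add (z / c * ν) ((star hM hp (by simp) h hx).congr ?_ ?_) <;> rw [e]
  · simp [hx.perp]; clear hx h; v2
  · grind

omit hS hM in
theorem notMem_symm (h0 : a ≠ 0) (hn : p ∉ F ∙ a) : a ∉ F ∙ p := fun h => by
  obtain ⟨t, rfl⟩ := Submodule.mem_span_singleton.1 h
  exact hn (Submodule.mem_span_singleton.2 ⟨t⁻¹, by simp [smul_smul, left_ne_zero_of_smul h0]⟩)

include hq hN

theorem pair_zero (ha : Cov S M a) (hp : Cov S M p) (e : S.B p a = 0) (hn : p ∉ F ∙ a) {ν : F}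
    (h : R S M a (ν • p) c) : c = 0 := by
  by_contra hc
  obtain ⟨d, h0, h1⟩ := hq
  have k : ∀ κ : F, κ ≠ 0 → ∀ z, R S M a (z • p) (z ^ 2 / κ) := fun κ hκ z => by
    obtain ⟨t, ht⟩ := exists_sq (κ * c)
    exact pair_aux hS hM ha e hn ((pair_aux hS hM hp (sw' e) (notMem_symm ha.1 hn) h hc t).congr rfl
      (by grind)) hκ z
  refine hN a ha (ctr_of_R fun s => ?_)
  obtain ⟨z, hz⟩ := exists_sq (s * d / (d + 1))
  exact ((k 1 one_ne_zero z).add (k d h0 z)).congr (by clear k; v2) (by simp; grind)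

theorem pair_dir (ha : Cov S M a) (hp : Cov S M p) (e : S.B p a = 0) (hn : p ∉ F ∙ a) (z : F) :
    R S M a (z • p) 0 := by
  obtain ⟨c, h⟩ := ha.2 (z • p) (by simp [e])
  exact h.congr rfl (pair_zero hS hM hq hN ha hp e hn h)

theorem pair_uni (ha : Cov S M a) (hp : Cov S M p) (e : S.B p a = 0) (hn : p ∉ F ∙ a) (s : F)
    (h : R S M a 0 s) : s = 0 :=
  pair_zero hS hM hq hN ha hp e hn (ν := 0) (h.congr (by simp) rfl)

theorem pair_hom (ha : Cov S M a) (hp : Cov S M p) (e : S.B p a = 0) (hn : p ∉ F ∙ a)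
    (hw : S.B w p = 0) (h : R S M a w q) (t : F) : R S M a (t • w) (t ^ 2 * q) := by
  obtain ⟨κ, hκ⟩ := hp.2 w hw
  have k : ∀ y : F, R S M a (y • w) (y ^ 2 * κ) := fun y => by
    obtain ⟨x, q, hx, f⟩ := exists_R hS hM ha hn y
    exact ((star hM e h.perp hκ hx).add (pair_dir hS hM hq hN ha hp e hn (S.B x w + κ * y))).congr
      (by rw [f]; clear hx hκ h; v2) (by simp [f, hw]; ring)
  rw [uniq (pair_uni hS hM hq hN ha hp e hn) h ((k 1).congr (one_smul ..) rfl)]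
  simpa using k t

theorem lin_of_two {p' : V} (ha : Cov S M a) (hp : Cov S M p) (e : S.B p a = 0) (hn : p ∉ F ∙ a)
    (hp' : Cov S M p') (e' : S.B p' a = 0) (h1 : S.B u a = 0) (h2 : S.B u p = 0)
    (h3 : S.B u p' = 1) : Lin S M a := by
  have hn' : p' ∉ F ∙ a := fun h => by
    obtain ⟨t, rfl⟩ := Submodule.mem_span_singleton.1 h
    simp [h1] at h3
  have hu := pair_uni hS hM hq hN ha hp e hn
  refine ⟨ha, hu, fun w q t h => ?_⟩
  obtain ⟨q₁, k₁⟩ := ha.2 (S.B w p' • u) (by simp [h1])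
  obtain ⟨q₂, k₂⟩ := ha.2 (w + S.B w p' • u) (by simp [h1, h.perp])
  rw [uniq hu h ((k₁.add k₂).congr (by clear k₁ k₂ h; v2) rfl)]
  exact ((pair_hom hS hM hq hN ha hp e hn (by simp [h2]) k₁ t).add
    (pair_hom hS hM hq hN ha hp' e' hn' (by simp [h3]; grind) k₂ t)).congr
    (by clear k₁ k₂ h; v2) (by simp; ring)

theorem lin_of_pair (hI : Irr M) (ha : Cov S M a) (hp : Cov S M p) (e : S.B p a = 0)
    (hn : p ∉ F ∙ a) : ∃ b, Lin S M b := by
  obtain ⟨g, hg, t, ht, f⟩ := hI.exists hS ha.1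
  have hb := (ha.map hM hg).smul ht
  generalize t • g a = b at *
  have h0 : S.B (p + S.B p b • a) a = 0 := by simp [e]
  have h1 : S.B (p + S.B p b • a) b = 0 := by simp [sw' f]; grind
  have h2 : R S M a (p + S.B p b • a) 0 := by
    simpa using (pair_dir hS hM hq hN ha hp e hn 1).add_self _
  have h3 : p + S.B p b • a ≠ 0 := fun h => hn (Submodule.mem_span_singleton.2 ⟨-S.B p b, by
    rw [neg_smul, neg_eq_iff_add_eq_zero, add_comm, h]⟩)
  generalize p + S.B p b • a = u at *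
  have h4 : Cov S M (b + u) := by simpa using hb.step hM f h1 h2
  have h5 : b + u ∉ F ∙ b := fun h => by
    obtain ⟨s, hs⟩ := Submodule.mem_span_singleton.1 h
    have := congrArg (S.B · a) hs
    simp [f, h0] at this
    exact h3 (by simpa [this] using hs)
  obtain ⟨w, k0, k1, k2⟩ := exists_W hS f h0 h1 h3 1
  obtain ⟨c, hc⟩ := ha.2 w k0
  by_cases c0 : c = 0
  · subst c0
    exact ⟨b, lin_of_two hS hM hq hN hb h4 (by simp [h1]) h5 (by simpa using hb.step hM f k1 hc)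
      (by simp [k1]) h1 (by simp [h1]) (by simp [h1, sw' k2])⟩
  have h6 : R S M b u 0 := .of_add 1 ((pair_dir hS hM hq hN hb h4 (by simp [h1]) h5 1).congr
    (by simp [add_comm]) rfl)
  obtain ⟨k, hk, ek⟩ := hc.ex
  obtain ⟨l, hl, el⟩ := (h6.map hM hk).ex
  have h7 : l b = w + c • u := by
    rw [el]; simp [ek, f, h0, sw' h1, sw' k1, sw' k2]; clear el ek h6 hc h2; v2
  exact ⟨b, lin_of_two hS hM hq hN hb h4 (by simp [h1]) h5 (h7 ▸ hb.map hM hl)
    (by simp [k1, h1]) h1 (by simp [h1]) (by simp [sw' k2])⟩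

end pair

section nopair
variable (hM : M ≤ S.isom) (hno : ∀ a p, Cov S M a → Cov S M p → S.B p a = 0 → p ∈ F ∙ a)
include hM hno

theorem np_inj (ha' : Cov S M a') (f : S.B a' a = 1) (h1 : S.B u a' = 0) (h : R S M a u 0) : u = 0 := by
  obtain ⟨s, hs⟩ := Submodule.mem_span_singleton.1 (hno a' _ ha' (ha'.step hM f h1 h) (by simp [h1]))
  have := congrArg (S.B · a) hs
  simp [f, h.perp] at this
  simpa [this] using hs

theorem np_surj (ha : Cov S M a) (ha' : Cov S M a') (f : S.B a' a = 1) (h0 : S.B u a = 0)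
    (h1 : S.B u a' = 0) (hu : u ≠ 0) :
    (∀ t, ∃ z : F, R S M a (z • u) t) ∧ ∀ s, R S M a 0 s → s = 0 := by
  choose φ hφ using fun z : F => ha.2 (z • u) (by simp [h0])
  have inj : ∀ z : F, R S M a (z • u) 0 → z = 0 := fun z hz =>
    (smul_eq_zero.1 (np_inj hM hno ha' f (by simp [h1]) hz)).resolve_right hu
  have hs : Function.Surjective φ := Finite.injective_iff_surjective.1 fun z z' e => by
    have := inj (z + z') (((hφ z).add (hφ z')).congr (add_smul ..).symm (by simp [e]; grind))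
    grind
  refine ⟨fun t => (hs t).imp fun z e => (hφ z).congr rfl e, fun s h => ?_⟩
  obtain ⟨z, hz⟩ := hs (φ 0 + s)
  have := inj z ((((hφ z).add (hφ 0)).add h).congr (by simp) (by simp [hz]; grind))
  subst this; grind

theorem np_one (ha : Cov S M a) (ha' : Cov S M a') (f : S.B a' a = 1) (h0 : S.B u a = 0)
    (h1 : S.B u a' = 0) (hu : u ≠ 0) {t : F} (h : Cov S M (a' + t • a)) : t = 0 := by
  obtain ⟨k, uni⟩ := np_surj hM hno ha ha' f h0 h1 hu
  obtain ⟨z, hz⟩ := k t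
  obtain ⟨s, hs⟩ := Submodule.mem_span_singleton.1 (hno _ _ h (ha'.step hM f (by simp [h1]) hz)
    (by simp [h0, h1, f, sw' f]; grind))
  have := congrArg (S.B · a) hs
  simp [f, h0] at this
  exact uni t (hz.congr (by simpa [this] using hs) rfl)

theorem np_swap (ha : Cov S M a) (ha' : Cov S M a') (f : S.B a' a = 1) (h1 : S.B u a' = 0)
    (h : R S M a u c) (hu : u ≠ 0) (hc : c ≠ 0) : R S M a' (c⁻¹ • u) c⁻¹ := by
  obtain ⟨κ, hκ⟩ := ha'.2 (c⁻¹ • u) (by simp [h1])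
  obtain ⟨g, hg, e⟩ := hκ.ex
  have h2 := ((ha'.step hM f h1 h).smul (inv_ne_zero hc)).map hM hg
  have h3 : g (c⁻¹ • (a' + c • a + u)) = a + (c⁻¹ + κ) • a' := by
    rw [e]; simp [sw' f, h1, sw' h1, sw' h.perp]; clear e hκ h h2; v2
  have := np_one hM hno ha' ha (sw' f) h1 h.perp hu (h3 ▸ h2)
  exact hκ.congr rfl (by grind)

theorem lin_of_nopair (hS : S.Nondeg) (hI : Irr M) (hd : 3 ≤ finrank F V) (ha : Cov S M a) :
    Lin S M a := by
  obtain ⟨g, hg, t, ht, f⟩ := hI.exists hS ha.1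
  have hb := (ha.map hM hg).smul ht
  generalize t • g a = b at *
  obtain ⟨u₀, -, k0, k1, k2⟩ := exists_perp_two (S := S) (U := ⊤) (by simpa using hd) a b
  have uni := (np_surj hM hno ha hb f k1 k2 k0).2
  refine ⟨ha, uni, fun w q t h => ?_⟩
  have h1 : S.B (w + S.B w b • a) b = 0 := by simp [sw' f]; grind
  have h2 := h.add_self (S.B w b)
  refine .of_add (t * S.B w b) (R.congr ?_ (by rw [mul_smul, ← smul_add]) rfl)
  generalize w + S.B w b • a = u at *
  by_cases hu : u = 0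
  · subst hu; simpa [uni q h2] using R.zero
  by_cases t0 : t = 0
  · simpa [t0] using R.zero
  have k : ∀ c : F, c ≠ 0 → ∃ g ∈ M, g a = c⁻¹ • b ∧ g b = c • a ∧ g u = u := fun c hc => by
    obtain ⟨z, hz⟩ := (np_surj hM hno ha hb f h2.perp h1 hu).1 c
    have h3 : S.B (z • u) b = 0 := by simp [h1]
    obtain ⟨g, hg, e1, e2, e3⟩ := exists_swap f h3 hc hz (np_swap hM hno ha hb f h3 hz
      (fun e => hc (uni c (hz.congr e rfl))) hc)
    exact ⟨g, hg, e1, e2, by simpa using e3 u h2.perp h1⟩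
  obtain ⟨g₁, m₁, -, e₁, f₁⟩ := k t t0
  obtain ⟨g₂, m₂, e₂, -, f₂⟩ := k 1 one_ne_zero
  exact R.smul (by simpa [e₁, e₂, f₁, f₂] using (h2.map hM m₂).map hM m₁) t0

end nopair

theorem exists_lin (hS : S.Nondeg) (hM : M ≤ S.isom) (hI : Irr M) (hd : 3 ≤ finrank F V)
    (ha : Cov S M a) (hn : ¬ S.isom ≤ M) : ∃ b, Lin S M b := by
  have hN : ∀ x, Cov S M x → ¬ Ctr S M x := fun x hx hc => hn (full hS hM hI hx hc)
  by_cases hq : ∃ c : F, c ≠ 0 ∧ c ≠ 1
  swap
  · exact ⟨a, lin_two (fun c => by_contra fun h => hq ⟨c, not_or.1 h⟩) ha (hN a ha)⟩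
  by_cases hno : ∀ a p, Cov S M a → Cov S M p → S.B p a = 0 → p ∈ F ∙ a
  · exact ⟨a, lin_of_nopair hM hno hS hI hd ha⟩
  push Not at hno
  obtain ⟨a, p, h1, h2, h3, h4⟩ := hno
  exact lin_of_pair hS hM hq hN hI h1 h2 h3 h4

end Cfsg.Agent.H7.Ev
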