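import Cfsg.Agent.H7.Ev1

/-!
The linear case: a quadratic form is preserved, with two exceptions in `Sp₄(2)`.
-/

set_option autoImplicit false
set_option linter.unusedSectionVars false

namespace Cfsg.Agent.H7.Ev

open Cfsg.Agent.Form Module

variable {F : Type*} [Field F] [CharP F 2] {V : Type*} [AddCommGroup V] [Module F V]
variable {S : PQ (FP.symp F) V} {M : Subgroup (V ≃ₗ[F] V)}
variable {a a' p w w' u : V} {q q' c : F} {g : V ≃ₗ[F] V}

theorem Lin.to_smul (h : Lin S M a) (hr : R S M a w q) {t : F} (ht : t ≠ 0) : R S M (t • a) w q :=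
  (h.hom _ _ t hr).smul' ht

theorem Lin.of_smul (h : Lin S M a) {t : F} (hr : R S M (t • a) w q) (ht : t ≠ 0) : R S M a w q :=
  (h.hom _ _ t⁻¹ (hr.smul ht)).congr (by simp [ht]) (by grind)

theorem Lin.smul (h : Lin S M a) {t : F} (ht : t ≠ 0) : Lin S M (t • a) :=
  ⟨h.cov.smul ht, fun s hs => h.uni s (h.of_smul hs ht), fun _ _ s hw =>
    h.to_smul (h.hom _ _ s (h.of_smul hw ht)) ht⟩

theorem Lin.map (hM : M ≤ S.isom) (h : Lin S M a) (hg : g ∈ M) : Lin S M (g a) :=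
  ⟨h.cov.map hM hg, fun s hs => h.uni s (by simpa using hs.map hM (inv_mem hg)), fun w q s hw => by
    have := (h.hom _ _ s (by simpa using hw.map hM (inv_mem hg))).map hM hg
    simpa using this⟩

/-- consistency of the quadratic forms attached to two points -/
def Con (S : PQ (FP.symp F) V) (M : Subgroup (V ≃ₗ[F] V)) (a a' : V) : Prop :=
  ∀ w q, S.B w a' = 0 → R S M a w q → R S M a' w q

theorem Con.symm (ha : Lin S M a) (ha' : Lin S M a') (h : Con S M a a') : Con S M a' a := by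
  intro w q hw hr
  obtain ⟨q', hq⟩ := ha.cov.2 w hw
  rwa [uniq ha'.uni hr (h w q' hr.perp hq)]

theorem con_of (hM : M ≤ S.isom) (ha : Lin S M a) (ha' : Lin S M a') (f : S.B a' a = 1)
    (h : R S M a u c) (h' : R S M a' u c) (hc : c ≠ 0) : Con S M a' a := by
  intro x κ hx hr
  obtain ⟨g, hg, -, e1, e2⟩ := exists_swap f h'.perp hc h ((ha'.hom _ _ c⁻¹ h').congr rfl (by grind))
  have := hr.map hM hg
  rw [e1, e2 x hx hr.perp] at this
  exact ((ha.of_smul this hc).add (ha.hom _ _ (c⁻¹ * S.B x u) h)).congr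
    (by clear this hr h h' e2; v2) (by simp; grind)

variable [FiniteDimensional F V] [Finite F]

theorem exists_perp_four (hd : 5 ≤ finrank F V) (a b e f : V) :
    ∃ x, x ≠ 0 ∧ S.B x a = 0 ∧ S.B x b = 0 ∧ S.B x e = 0 ∧ S.B x f = 0 := by
  obtain ⟨x, hx, h0⟩ := (Submodule.ne_bot_iff _).1 (LinearMap.ker_ne_bot_of_finrank_lt
    (f := ((S.lin a).prod (S.lin b)).prod ((S.lin e).prod (S.lin f))) (by simp; omega))
  rw [LinearMap.mem_ker] at hx
  exact ⟨x, h0, congrArg (·.1.1) hx, congrArg (·.1.2) hx, congrArg (·.2.1) hx, congrArg (·.2.2) hx⟩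

/-- a symplectic frame -/
structure Fr (S : PQ (FP.symp F) V) (a a' e f : V) : Prop where
  aa : S.B a' a = 1
  ef : S.B e f = 1
  ea : S.B e a = 0
  ea' : S.B e a' = 0
  fa : S.B f a = 0
  fa' : S.B f a' = 0

theorem con_or (hS : S.Nondeg) (hM : M ≤ S.isom) (ha : Lin S M a) (ha' : Lin S M a')
    (f : S.B a' a = 1) : Con S M a a' ∨ ((∀ c : F, c = 0 ∨ c = 1) ∧ finrank F V ≤ 4 ∧ ∃ e f, Fr S a a' e f ∧
      R S M a e 0 ∧ R S M a f 0 ∧ R S M a' e 0 ∧ R S M a' f 1) := by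
  by_cases hcon : Con S M a a'
  · exact .inl hcon
  right
  have hK : ∀ u c, R S M a u c → R S M a' u c → c = 0 := fun u c h h' => by_contra fun hc =>
    hcon ((con_of hM ha ha' f h h' hc).symm ha' ha)
  obtain ⟨u, c, h1, h2, h3⟩ : ∃ u c, S.B u a' = 0 ∧ R S M a u c ∧ ¬ R S M a' u c := by
    simpa [Con] using hcon
  obtain ⟨c', h4⟩ := ha'.cov.2 u h1
  have hδ : c + c' ≠ 0 := fun e => h3 (h4.congr rfl (by grind))
  have hK' : ∀ x, S.B x a = 0 → S.B x a' = 0 → ∃ t : F, R S M a (x + t • u) 0 ∧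
      R S M a' (x + t • u) 0 := fun x hx hx' => by
    obtain ⟨k, hk⟩ := ha.cov.2 x hx
    obtain ⟨k', hk'⟩ := ha'.cov.2 x hx'
    obtain ⟨t, ht⟩ := exists_sq ((k + k') / (c + c'))
    have e1 := hk.add (ha.hom _ _ t h2)
    have e2 := (hk'.add (ha'.hom _ _ t h4)).congr rfl
      (show _ = k + t ^ 2 * c + S.B x (t • u) by clear hk hk' e1 h2 h3 h4; grind)
    exact ⟨t, e1.congr rfl (hK _ _ e1 e2), e2.congr rfl (hK _ _ e1 e2)⟩
  have hu : u ≠ 0 := by
    rintro rfl; exact hδ (by rw [ha.uni c h2, ha'.uni c' h4, add_zero])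
  obtain ⟨y, y0, y1, y2⟩ := exists_W hS f h2.perp h1 hu 1
  obtain ⟨t, k1, k2⟩ := hK' y y0 y1
  have k3 : S.B (y + t • u) u = 1 := by simp [y2]
  generalize y + t • u = e at *
  have l1 : R S M a (u + c • e) 0 := (h2.add (ha.hom _ _ c k1)).congr rfl (by simp [sw' k3]; grind)
  have l2 : R S M a' (u + c • e) (c + c') :=
    (h4.add (ha'.hom _ _ c k2)).congr rfl (by simp [sw' k3]; grind)
  have l3 : S.B e (u + c • e) = 1 := by simp [k3]
  have hq : ∀ c : F, c = 0 ∨ c = 1 := by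
    generalize u + c • e = v at *
    generalize c + c' = δ at *
    by_contra hq
    push Not at hq
    obtain ⟨d, d0, d1⟩ := hq
    have hl : d * δ ≠ 0 := mul_ne_zero d0 hδ
    have hν : d * δ + δ ≠ 0 := fun e => d1 (mul_right_cancel₀ hδ (by grind))
    generalize d * δ = l at *
    obtain ⟨g, hg, eg⟩ := ((ha.hom _ _ l k1).add l1).ex
    have m1 : R S M a' ((l + δ) • e + (v + δ • e)) (l + δ) :=
      ((ha'.hom _ _ (l + δ) k2).add (l2.add (ha'.hom _ _ δ k2))).congr rfl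
        (by simp [l3, sw' l3]; grind)
    have m2 := m1.map hM hg
    have m3 : g ((l + δ) • e + (v + δ • e)) = (l + δ) • e + (v + δ • e) := by
      rw [eg]; simp [l3, sw' l3, k1.perp, l1.perp]; grind
    have m4 : g a' = a' + l • a + (l • e + v) := by
      rw [eg]; simp [l3, f, sw' k2.perp, sw' l2.perp]
    have m5 : g e = e + a := by rw [eg]; simp [l3, k1.perp]
    have hb := (ha'.map hM hg).smul (inv_ne_zero hl)
    have := con_of hM ha' hb (by simp [m4, sw' f, k2.perp, l2.perp, hl]) m1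
      ((ha'.map hM hg).to_smul (m3 ▸ m2) (inv_ne_zero hl)) hν (v + a') 0
      (by simp [l2.perp]) ((ha'.map hM hg).to_smul ((((ha'.map hM hg).hom _ _ l
        (k2.map hM hg)).add_self 1).congr (by
          rw [m4, m5]; clear m1 m2 m3 m4 m5 eg hb k1 k2 l1 l2; v2) (by simp)) (inv_ne_zero hl))
    exact hδ (uniq ha'.uni l2 (.of_add 1 (by simpa using this)))
  refine ⟨hq, ?_, e, _, ⟨f, l3, k1.perp, k2.perp, l1.perp, l2.perp⟩, k1, l1, k2,
    l2.congr rfl ((hq _).resolve_left hδ)⟩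
  by_contra hd
  obtain ⟨x, x0, x1, x2, x3, x4⟩ := exists_perp_four (S := S) (by omega) a a' e u
  obtain ⟨z, z1, z2, z3⟩ := exists_W hS f x1 x2 x0 1
  obtain ⟨s, s1, s2⟩ := hK' x x1 x2
  obtain ⟨r, r1, r2⟩ := hK' (z + S.B z u • e) (by simp [z1, k1.perp]) (by simp [z2, k2.perp])
  have := hK _ _ (s1.add r1) (s2.add r2)
  simp [sw' z3, x3, x4, sw u z, sw' k3] at this
  grind

theorem exists_form (ha : Lin S M a) (f : S.B a' a = 1) : ∃ T : PQ (FP.orth F) V,
    (∀ x y, T.B x y = S.B x y) ∧ T.Q a' = 0 ∧ T.Q a = 0 ∧ ∀ w, S.B w a = 0 → R S M a w (T.Q w) := by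
  choose c hc using fun x : V => ha.cov.2 (x + S.B x a • a') (by simp [f]; grind)
  have h0 : ∀ {x : V} {q : F}, R S M a (x + S.B x a • a') q → c x = q := fun h => uniq ha.uni (hc _) h
  refine ⟨⟨S.B, S.B_add_left, S.B_smul_left, fun x y => by simp [sw x y],
    fun x => c x + S.B x a * S.B x a', fun x y => ?_, fun t x => ?_, fun x => by simp; grind⟩,
    fun _ _ => rfl, ?_, ?_, fun w hw => ?_⟩
  · rw [h0 (((hc x).add (hc y)).congr (by simp; v2) rfl)]
    simp [sw y a']; grind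
  · rw [h0 ((ha.hom _ _ t (hc x)).congr (by simp; v2) rfl)]
    simp; ring
  · simp [h0 (x := a') (R.zero.congr (by simp [f]; v2) rfl)]
  · simp [h0 (x := a) ((R.zero.add_self 1).congr (by simp) rfl)]
  · simpa [hw] using hc w

section form
variable {T : PQ (FP.orth F) V} (hT : ∀ x y, T.B x y = S.B x y)
include hT

theorem R.isom (hp : T.Q p = 0) (h : R S M p w (T.Q w)) : R S (M ⊓ T.isom) p w (T.Q w) :=
  ⟨h.1, h.2, (T.orth_mem_isom _).2 fun x => by
    simp [T.orth_Q_add, T.orth_Q_smul, hT, hp, sw' h.1]; grind⟩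

theorem move_Q {x y : V} (hp : T.Q p = 0) (h : ∀ w, S.B w p = 0 → R S M p w (T.Q w))
    (hx : S.B x p ≠ 0) (hy : S.B y p = S.B x p) (hQ : T.Q x = T.Q y) :
    ∃ g ∈ M, g ∈ T.isom ∧ g y = x := by
  obtain ⟨g, hg, e⟩ := move hx hy (((h ((S.B x p)⁻¹ • (x + y)) (by simp [hy]; grind)).isom hT hp).congr
    rfl (by simp [T.orth_Q_add, T.orth_Q_smul, hT, hQ, sw x y]; grind))
  exact ⟨g, hg.1, hg.2, e⟩

theorem sing_ind (hS : S.Nondeg) (P : V → Prop) (f : S.B a' a = 1) (h0 : T.Q a = 0) (h1 : T.Q a' = 0)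
    (ha : P a) (ha' : P a') (step : ∀ p p' x, P p → P p' → S.B p' p ≠ 0 → T.Q x = 0 → S.B x p ≠ 0 → P x)
    (x : V) (hx : x ≠ 0) (hQ : T.Q x = 0) : P x := by
  by_cases e : S.B x a = 0
  swap
  · exact step a a' x ha ha' (by simp [f]) hQ e
  by_cases e' : S.B x a' = 0
  swap
  · exact step a' a x ha' ha (by simp [sw' f]) hQ e'
  obtain ⟨w, k0, k1, k2⟩ := exists_W hS f e e' hx 1
  exact step (a' + T.Q w • a + w) a x (step a a' _ ha ha' (by simp [f]) (by
    simp [T.orth_Q_add, T.orth_Q_smul, hT, h0, h1, f, sw' k0, sw' k1]; grind) (by simp [f, k0])) ha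
    (by simp [sw' f, sw' k0]) hQ (by simp [e, e', sw' k2])

theorem eq_of_sing (d : V → F) (hd : ∀ x y, d (x + y) = d x + d y) (hs : ∀ (t : F) x, d (t • x) = t ^ 2 * d x)
    (f : S.B a' a = 1) (h0 : T.Q a = 0) (h1 : T.Q a' = 0) (h : ∀ x, T.Q x = 0 → d x = 0) (x : V) :
    d x = 0 := by
  obtain ⟨w, k0, k1, e⟩ : ∃ w, S.B w a = 0 ∧ S.B w a' = 0 ∧ x = w + S.B x a' • a + S.B x a • a' :=
    ⟨x + S.B x a' • a + S.B x a • a', by simp [f]; grind, by simp [sw' f]; grind, by v2⟩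
  have := h (a' + T.Q w • a + w) (by
    simp [T.orth_Q_add, T.orth_Q_smul, hT, h0, h1, f, sw' k0, sw' k1]; grind)
  rw [e]
  simpa [hd, hs, h a h0, h a' h1] using this

end form

theorem tri (hS : S.Nondeg) (hM : M ≤ S.isom) (hI : Irr M) (hd : 3 ≤ finrank F V)
    (ha : Cov S M a) : S.isom ≤ M ∨
    (∃ T : PQ (FP.orth F) V, (∀ x y, T.B x y = S.B x y) ∧ M ≤ T.isom ∧
      (∀ p w, T.Q p = 0 → S.B w p = 0 → R S M p w (T.Q w)) ∧
      ∃ a a', S.B a' a = 1 ∧ T.Q a = 0 ∧ T.Q a' = 0) ∨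
    ((∀ c : F, c = 0 ∨ c = 1) ∧ finrank F V ≤ 4 ∧ ∃ a a' e f, Fr S a a' e f ∧
      ((R S M a e 0 ∧ R S M a f 0 ∧ R S M a' e 0 ∧ R S M a' f 1) ∨
      (R S M a e 1 ∧ R S M a f 1 ∧ R S M a' e 1 ∧ R S M a' f 1 ∧ R S M (a + a') e 1))) := by
  by_cases hn : S.isom ≤ M
  · exact .inl hn
  right
  by_cases hcon : ∀ a a', Lin S M a → Lin S M a' → S.B a' a = 1 → Con S M a a'
  swap
  · push Not at hcon
    obtain ⟨a, a', h1, h2, h3, h4⟩ := hcon
    obtain ⟨k1, k2, e, f, k3, k4⟩ := (con_or hS hM h1 h2 h3).resolve_left h4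
    exact .inr ⟨k1, k2, a, a', e, f, k3, .inl k4⟩
  obtain ⟨a, ha⟩ := exists_lin hS hM hI hd ha hn
  obtain ⟨g, hg, t, ht, f⟩ := hI.exists hS ha.cov.1
  have hb := (ha.map hM hg).smul ht
  generalize t • g a = b at *
  obtain ⟨T, hT, h1, h0, hr⟩ := exists_form ha f
  have good := sing_ind hT hS
    (fun p => Lin S M p ∧ T.Q p = 0 ∧ ∀ w, S.B w p = 0 → R S M p w (T.Q w)) f h0 h1 ⟨ha, h0, hr⟩
    ⟨hb, h1, fun w hw => .of_add (S.B w a) ((hcon a b ha hb f _ _ (by simp [hw])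
      (hr (w + S.B w a • b) (by simp [f]; grind))).congr rfl (by
        simp [T.orth_Q_add, T.orth_Q_smul, hT, h1, hw]))⟩ (by
      rintro p p' x ⟨-, k1, k2⟩ ⟨l0, l1, l2⟩ e1 e2 e3
      have ht : S.B x p / S.B p' p ≠ 0 := div_ne_zero e3 e1
      obtain ⟨g, hg, hg', e⟩ := move_Q hT (y := (S.B x p / S.B p' p) • p') k1 k2 e3 (by simp [e1])
        (by simp [T.orth_Q_smul, e2, l1])
      refine ⟨e ▸ (l0.smul ht).map hM hg, e2, fun w hw => ?_⟩
      have := (l0.to_smul (l2 (g.symm w) (by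
        rw [← e, ← g.apply_symm_apply w, PQ.B_isom (hM hg)] at hw; simpa [ht] using hw)) ht).map hM hg
      rwa [e, ← (T.orth_mem_isom g).1 hg', g.apply_symm_apply] at this)
  by_cases hs : ∀ p, Lin S M p → T.Q p = 0
  · refine .inl ⟨T, hT, fun g hg => (T.orth_mem_isom g).2 fun x => ?_, fun p w hp hw => ?_, a, b, f, h0, h1⟩
    · have := eq_of_sing hT (fun x => T.Q (g x) + T.Q x) (fun x y => by
        simp [T.orth_Q_add, hT, PQ.B_isom (hM hg)]; grind) (fun t x => by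
        simp [T.orth_Q_smul]; ring) f h0 h1 (fun x hx => by
        by_cases e : x = 0
        · simp [e, T.orth_Q_zero]
        · simp [hx, hs _ ((good x e hx).1.map hM hg)]) x
      grind
    · by_cases e : p = 0
      · exact .of hw M.one_mem (by simp [e])
      · exact (good p e hp).2.2 w hw
  right
  push Not at hs
  obtain ⟨p, hp, hQ⟩ := hs
  obtain ⟨s, s0, s1⟩ : ∃ s, T.Q s = 0 ∧ S.B s p = 1 := by
    by_contra hc
    refine hp.cov.1 (hS.right p fun y => pow_eq_zero_iff (two_ne_zero) |>.1 (eq_of_sing hT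
      (fun x => S.B x p ^ 2) (fun x y => by simp; grind) (fun t x => by simp; ring) f h0 h1
      (fun x hx => by_contra fun e => hc ⟨(S.B x p)⁻¹ • x, by simp [T.orth_Q_smul, hx], ?_⟩) y))
    simp [show S.B x p ≠ 0 by simpa using e]
  have hps : ∀ s, T.Q s = 0 → S.B s p ≠ 0 → ∀ w, S.B w p = 0 → S.B w s = 0 → R S M p w (T.Q w) :=
    fun s s0 s1 w w0 w1 => by
      have := good ((S.B s p)⁻¹ • s) (by rintro e; simpa [s1] using congrArg (S.B · p) e)
        (by simp [T.orth_Q_smul, s0])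
      exact hcon _ _ this.1 hp (by simp [sw s p, s1]) _ _ w0 (this.2.2 w (by simp [w1]))
  have hW : ∀ w, w ≠ 0 → S.B w p = 0 → S.B w s = 0 → T.Q w = T.Q p := fun w w0 w1 w2 => by
    by_contra hne
    obtain ⟨z, z0, z1, z2⟩ := exists_W hS s1 w1 w2 w0 1
    have e1 := hps (T.Q p • s + p + w + T.Q w • s) (by
      simp [T.orth_Q_add, T.orth_Q_smul, hT, s0, s1, sw' s1, w2, sw' w1, sw' w2]; grind)
      (by simp [s1, w1]; grind) (z + (T.Q p + T.Q w)⁻¹ • p) (by simp [z0])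
      (by simp [z0, z1, z2, sw' s1, sw' w1]; grind)
    have := uniq hp.uni (e1.of_add _) (hps s s0 (by simp [s1]) z z0 z1)
    simp [T.orth_Q_add, T.orth_Q_smul, hT, z0, hQ] at this
    grind
  obtain ⟨e, -, e0, e1, e2⟩ := exists_perp_two (S := S) (U := ⊤) (by simpa using hd) p s
  obtain ⟨f, f1, f2, f3⟩ := exists_W hS s1 e1 e2 e0 1
  have f0 : f ≠ 0 := by rintro rfl; simp at f3
  have hq : ∀ c : F, c = 0 ∨ c = 1 := fun c => or_iff_not_imp_left.2 fun c0 => by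
    have := hW (c • e) (smul_ne_zero c0 e0) (by simp [e1]) (by simp [e2])
    rw [T.orth_Q_smul, hW e e0 e1 e2] at this
    have : (c + 1) ^ 2 = 0 := by grind
    grind
  have hQ1 := (hq _).resolve_left hQ
  have s2 : T.Q (s + p) = 0 := by simp [T.orth_Q_add, hT, s0, s1, hQ1]; grind
  have g1 := (good s (by rintro rfl; simp at s1) s0).2.2
  have g2 := (good (s + p) (by rintro e; simpa [s1] using congrArg (S.B · p) e) s2).2.2
  have q1 := (hW e e0 e1 e2).trans hQ1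
  have q2 := (hW f f0 f1 f2).trans hQ1
  refine ⟨hq, ?_, s, s + p, e, f, ⟨by simp [sw' s1], sw' f3, e2, by simp [e1, e2], f2, by simp [f1, f2]⟩,
    .inr ⟨q1 ▸ g1 e e2, q2 ▸ g1 f f2, q1 ▸ g2 e (by simp [e1, e2]), q2 ▸ g2 f (by simp [f1, f2]), ?_⟩⟩
  · by_contra hd
    obtain ⟨x, x0, x1, x2, x3, x4⟩ := exists_perp_four (S := S) (by omega) p s e f
    have := hW (x + e) (by rintro h; simpa [x4, sw' f3] using congrArg (S.B · f) h)
      (by simp [x1, e1]) (by simp [x2, e2])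
    simp [T.orth_Q_add, hT, x3, hW x x0 x1 x2, q1] at this
  · rw [show s + (s + p) = p by clear hW hps good; v2]
    exact q1 ▸ hps s s0 (by simp [s1]) e e1 e2

end Cfsg.Agent.H7.Ev
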