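import Cfsg.Agent.H7.Ev2

/-!
Dickson invariant in characteristic two: the Siegel maps generate the isometries of even rank.
-/

set_option autoImplicit false
set_option linter.unusedSectionVars false

namespace Cfsg.Agent.H7.Ev

open Cfsg.Agent.Form Module

variable {F : Type*} [Field F] [CharP F 2] {V : Type*} [AddCommGroup V] [Module F V]
variable {S : PQ (FP.symp F) V} {M : Subgroup (V ≃ₗ[F] V)} [FiniteDimensional F V] [Finite F]
variable {a a' p w d : V} {g g' : V ≃ₗ[F] V}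

/-- fixed space -/
def Fx (g : V ≃ₗ[F] V) : Submodule F V := LinearMap.ker ((g : V →ₗ[F] V) - 1)

theorem mem_Fx {x : V} : x ∈ Fx g ↔ g x = x := by simp [Fx, sub_eq_zero]

theorem finrank_split {U : Type*} [AddCommGroup U] [Module F U] (Φ : Submodule F V) (φ : V →ₗ[F] U) :
    finrank F Φ = finrank F (Φ ⊓ LinearMap.ker φ : Submodule F V) + finrank F (Φ.map φ) := by
  rw [← (φ.domRestrict Φ).finrank_range_add_finrank_ker, LinearMap.range_domRestrict, add_comm,
    LinearMap.ker_domRestrict, ← Submodule.finrank_map_subtype_eq Φ, Submodule.map_comap_subtype]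

theorem exists_sub (hS : S.Nondeg) (hg : g ∈ S.isom) {v : V} (hv : ∀ x, g x = x → S.B v x = 0) :
    ∃ y, g y = y + v := by
  have h1 : LinearMap.range ((g : V →ₗ[F] V) - 1) = S.perp (Fx g) := by
    refine Submodule.eq_of_le_of_finrank_eq ?_ ?_
    · rintro _ ⟨y, rfl⟩ x hx
      have := PQ.B_isom hg y x
      rw [mem_Fx.1 hx] at this
      simp [this]
    · have := hS.finrank_perp (Fx g)
      have h2 := ((g : V →ₗ[F] V) - 1).finrank_range_add_finrank_ker
      rw [Fx] at this ⊢; omega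
  obtain ⟨y, hy⟩ : v ∈ LinearMap.range ((g : V →ₗ[F] V) - 1) := h1 ▸ fun x hx => hv x (mem_Fx.1 hx)
  exact ⟨y, by rw [← hy]; simp⟩

variable {T : PQ (FP.orth F) V} (hT : ∀ x y, T.B x y = S.B x y)
include hT

theorem isom_le : T.isom ≤ S.isom := fun g hg =>
  (S.symp_mem_isom g).2 fun x y => by rw [← hT, ← hT, PQ.B_isom hg]

theorem B_sub (hg : g ∈ T.isom) {y v : V} (e : g y = y + v) : S.B y v = T.Q v := by
  have := (T.orth_mem_isom g).1 hg y
  rw [e, T.orth_Q_add, hT] at this; grind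

theorem refl_mem (hd : T.Q d ≠ 0) : tv S d (T.Q d)⁻¹ ∈ T.isom := (T.orth_mem_isom _).2 fun x => by
  simp [T.orth_Q_add, T.orth_Q_smul, hT]; grind

theorem par_refl (hS : S.Nondeg) (hg : g ∈ T.isom) (hd : T.Q d ≠ 0) :
    Odd (finrank F (Fx g) + finrank F (Fx (tv S d (T.Q d)⁻¹ * g))) := by
  have hg' := isom_le hT hg
  have k : ∀ Φ : Submodule F V, (finrank F (Φ.map (S.lin d)) = 0 ∧ ∀ x ∈ Φ, S.B x d = 0) ∨
      (finrank F (Φ.map (S.lin d)) = 1 ∧ ∃ x ∈ Φ, S.B x d ≠ 0) := fun Φ => by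
    by_cases h : ∀ x ∈ Φ, S.B x d = 0
    · exact .inl ⟨Submodule.finrank_eq_zero.2 ((Submodule.eq_bot_iff _).2 (by
        rintro _ ⟨x, hx, rfl⟩; exact h x hx)), h⟩
    · push Not at h
      have h1 := (Φ.map (S.lin d)).finrank_le
      have h2 : finrank F (Φ.map (S.lin d)) ≠ 0 := fun e => by
        obtain ⟨x, hx, h0⟩ := h
        exact h0 ((Submodule.eq_bot_iff _).1 (Submodule.finrank_eq_zero.1 e) _ ⟨x, hx, rfl⟩)
      exact .inr ⟨by simp at h1; omega, h⟩
  have hr : ∀ x, tv S d (T.Q d)⁻¹ (tv S d (T.Q d)⁻¹ x) = x := fun x => by simp; v2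
  have e : Fx (tv S d (T.Q d)⁻¹ * g) ⊓ LinearMap.ker (S.lin d) = Fx g ⊓ LinearMap.ker (S.lin d) := by
    ext x
    simp only [Submodule.mem_inf, mem_Fx, LinearMap.mem_ker, PQ.lin_apply, LinearEquiv.mul_apply]
    refine and_congr_left fun hx => ⟨fun h => ?_, fun h => by simp [h, hx]⟩
    rw [← hr (g x), h]; simp [hx]
  rw [finrank_split (Fx g) (S.lin d), finrank_split (Fx (_ * g)) (S.lin d), e]
  rcases k (Fx g) with ⟨h1, h2⟩ | ⟨h1, x, hx, h2⟩ <;>
    rcases k (Fx (tv S d (T.Q d)⁻¹ * g)) with ⟨h3, h4⟩ | ⟨h3, y, hy, h4⟩ <;> rw [h1, h3]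
  · obtain ⟨y, hy⟩ := exists_sub hS hg' (v := d) fun x hx => sw' (h2 x (mem_Fx.2 hx))
    have h5 := B_sub hT hg hy
    exact (hd (h5 ▸ h4 y (mem_Fx.2 (by simp [hy, h5, hd]; v2)))).elim
  · exact ⟨_, by ring⟩
  · exact ⟨_, by ring⟩
  · have h5 := PQ.B_isom hg' x y
    rw [mem_Fx.1 hx, ← hr (g y), show tv S d (T.Q d)⁻¹ (g y) = y from mem_Fx.1 hy] at h5
    simp [hd, h2, h4] at h5

theorem par_sing (hS : S.Nondeg) (hg : g ∈ T.isom) (hp : T.Q p = 0) (hw : T.Q w = 0) (h : S.B w p = 0) :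
    Even (finrank F (Fx (ev S p w 0 h * g)) + finrank F (Fx g)) := by
  have hr : ∀ x, ev S p w 0 h (ev S p w 0 h x) = x := fun x => by simp [h, sw' h]; v2
  have hm : ev S p w 0 h ∈ T.isom := (T.orth_mem_isom _).2 fun x => by
    simp [T.orth_Q_add, T.orth_Q_smul, hT, hp, hw, sw' h]; grind
  let φ := (S.lin p).prod (S.lin w)
  have hφ : ∀ x, φ x = (S.B x p, S.B x w) := fun _ => rfl
  have A : ∀ g g' : V ≃ₗ[F] V, g ∈ T.isom → (∀ x, g' x = ev S p w 0 h (g x)) →
      (finrank F ((Fx g).map φ) = 2 → finrank F ((Fx g').map φ) = 0) ∧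
      (finrank F ((Fx g).map φ) = 1 → finrank F ((Fx g').map φ) ≠ 0) := by
    intro g g' hg e
    have hg' := isom_le hT hg
    refine ⟨fun h2 => Submodule.finrank_eq_zero.2 ((Submodule.eq_bot_iff _).2 ?_), fun h1 h0 => ?_⟩
    · rintro _ ⟨y, hy, rfl⟩
      have ht := Submodule.eq_top_of_finrank_eq (h2.trans (by simp))
      have k : ∀ z : F × F, S.B y w * z.1 + S.B y p * z.2 = 0 := fun z => by
        obtain ⟨x, hx, rfl⟩ : z ∈ (Fx g).map φ := ht ▸ trivial
        have h5 := PQ.B_isom hg' x y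
        rw [mem_Fx.1 hx, ← hr (g y), ← e, mem_Fx.1 hy] at h5
        simpa [hφ, add_assoc] using h5
      exact Prod.ext (by simpa [hφ] using k (0, 1)) (by simpa [hφ] using k (1, 0))
    · obtain ⟨⟨_, x₀, hx₀, rfl⟩, h2, h3⟩ := finrank_eq_one_iff'.1 h1
      obtain ⟨y, hy⟩ := exists_sub hS hg' (v := S.B x₀ w • p + S.B x₀ p • w) fun x hx => by
        obtain ⟨c, hc⟩ := h3 ⟨_, x, mem_Fx.2 hx, rfl⟩
        simp only [Subtype.ext_iff, hφ, SetLike.val_smul, Prod.smul_mk, Prod.mk.injEq, smul_eq_mul] at hc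
        simp [sw x p, sw x w, ← hc.1, ← hc.2]; grind
      have h4 := B_sub hT hg hy
      simp [T.orth_Q_add, T.orth_Q_smul, hT, hp, hw, sw' h] at h4
      obtain ⟨t, t1, t2⟩ : ∃ t : F, S.B y p = t * S.B x₀ p ∧ S.B y w = t * S.B x₀ w := by
        by_cases h5 : S.B x₀ p = 0
        · have h6 : S.B x₀ w ≠ 0 := fun h6 => h2 (Subtype.ext (Prod.ext h5 h6))
          exact ⟨S.B y w / S.B x₀ w, by grind, by grind⟩
        · exact ⟨S.B y p / S.B x₀ p, by grind, by grind⟩
      have := (Submodule.eq_bot_iff _).1 (Submodule.finrank_eq_zero.1 h0) _ ⟨y + (1 + t) • x₀, mem_Fx.2 (by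
        rw [e]; simp [hy, mem_Fx.1 hx₀, t1, t2, h, sw' h]; clear h3 h2 hr e; v2), rfl⟩
      simp only [hφ, PQ.B_add_left, PQ.B_smul_left, t1, t2, Prod.mk_eq_zero] at this
      exact h2 (Subtype.ext (Prod.ext (show S.B x₀ p = 0 by grind) (show S.B x₀ w = 0 by grind)))
  have e : Fx (ev S p w 0 h * g) ⊓ LinearMap.ker φ = Fx g ⊓ LinearMap.ker φ := by
    ext x
    simp only [Submodule.mem_inf, mem_Fx, LinearMap.mem_ker, hφ, LinearEquiv.mul_apply, Prod.mk_eq_zero]
    refine and_congr_left fun hx => ⟨fun h => ?_, fun h => by simp [h, hx]⟩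
    rw [← hr (g x), h]; simp [hx]
  rw [finrank_split (Fx g) φ, finrank_split (Fx (_ * g)) φ, e]
  have h1 := A g (ev S p w 0 h * g) hg fun _ => rfl
  have h2 := A (ev S p w 0 h * g) g (mul_mem hm hg) fun x => (hr _).symm
  have h3 := ((Fx g).map φ).finrank_le
  have h4 := ((Fx (ev S p w 0 h * g)).map φ).finrank_le
  simp only [finrank_prod, finrank_self] at h3 h4
  rw [Nat.even_iff]; omega

theorem par_ev (hS : S.Nondeg) (hg : g ∈ T.isom) (hp : T.Q p = 0) (h : S.B w p = 0) :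
    Even (finrank F (Fx (ev S p w (T.Q w) h * g)) + finrank F (Fx g)) := by
  by_cases hw : T.Q w = 0
  · rw [hw]; exact par_sing hT hS hg hp hw h
  have e : T.Q (w + T.Q w • p) = T.Q w := by simp [T.orth_Q_add, T.orth_Q_smul, hT, hp, h]
  have h1 := par_refl hT hS hg (e ▸ hw)
  have h2 := par_refl hT hS (mul_mem (refl_mem hT (e ▸ hw)) hg) hw
  rw [← mul_assoc, show tv S w (T.Q w)⁻¹ * tv S (w + T.Q w • p) (T.Q (w + T.Q w • p))⁻¹ =
    ev S p w (T.Q w) h from LinearEquiv.ext fun x => by simp [e, sw' h]; clear h1 h2; v2] at h2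
  rw [Nat.odd_iff] at h1 h2; rw [Nat.even_iff]; omega

theorem norm_trans (hS : S.Nondeg) (hd : 3 ≤ finrank F V) (hM : M ≤ T.isom)
    (hr : ∀ p w, T.Q p = 0 → S.B w p = 0 → R S M p w (T.Q w)) (f : S.B a' a = 1) (h0 : T.Q a = 0)
    (h1 : T.Q a' = 0) (hQ : T.Q d = 1) : ∃ e ∈ M, e d = a + a' := by
  have k : ∀ {a a' d : V}, S.B a' a = 1 → T.Q a = 0 → T.Q a' = 0 → T.Q d = 1 → S.B d a ≠ 0 →
      ∃ e ∈ M, e d = a + a' := by
    intro a a' d f h0 h1 hQ hb
    obtain ⟨g, hg, -, e⟩ := move_Q hT (x := S.B d a • a' + (S.B d a)⁻¹ • a) (y := d) h0 (hr a · h0)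
      (by simp [f, hb]) (by simp [f]) (by simp [T.orth_Q_add, T.orth_Q_smul, hT, h0, h1, f, hQ, hb])
    obtain ⟨u, u0, u1, u2⟩ : ∃ u, S.B u a = 0 ∧ S.B u a' = 0 ∧ T.Q u ≠ 0 := by
      by_contra hc
      push Not at hc
      obtain ⟨x, -, x0, x1, x2⟩ := exists_perp_two (S := S) (U := ⊤) (by simpa using hd) a a'
      obtain ⟨y, y1, y2, y3⟩ := exists_W hS f x1 x2 x0 1
      have := hc (y + x) (by simp [x1, y1]) (by simp [x2, y2])
      simp [T.orth_Q_add, hT, hc x x1 x2, hc y y1 y2, y3] at this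
    obtain ⟨t, ht⟩ := exists_sq ((S.B d a)⁻¹ / T.Q u)
    have e1 : T.Q (t • u) = (S.B d a)⁻¹ := by rw [T.orth_Q_smul, ht]; field_simp
    obtain ⟨n, hn, n1, n2, -⟩ := exists_swap (u := t • u) f (by simp [u1]) (inv_ne_zero hb)
      (e1 ▸ hr a _ h0 (by simp [u0])) ((hr a' _ h1 (by simp [u1])).congr rfl (by
        rw [T.orth_Q_smul, e1]; field_simp))
    exact ⟨n * g, mul_mem hn hg, by simp [e, n1, n2, smul_smul, hb]⟩
  by_cases e : S.B d a = 0
  swap
  · exact k f h0 h1 hQ e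
  by_cases e' : S.B d a' = 0
  swap
  · simpa [add_comm] using k (sw' f) h1 h0 hQ e'
  obtain ⟨w, k0, k1, k2⟩ := exists_W hS f e e' (by rintro rfl; simp [T.orth_Q_zero] at hQ) 1
  obtain ⟨g, hg, eg⟩ := (hr a' w h1 k1).ex
  obtain ⟨n, hn, en⟩ := k f h0 h1 (((T.orth_mem_isom g).1 (hM hg) d).trans hQ)
    (by simp [eg, e, e', sw' k2, f])
  exact ⟨n * g, mul_mem hn hg, en⟩

theorem orth_main (hS : S.Nondeg) (hd : 3 ≤ finrank F V) (hM : M ≤ T.isom)
    (hr : ∀ p w, T.Q p = 0 → S.B w p = 0 → R S M p w (T.Q w)) (f : S.B a' a = 1) (h0 : T.Q a = 0)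
    (h1 : T.Q a' = 0) :
    M = T.isom ∨ ∀ g, g ∈ M ↔ g ∈ T.isom ∧ Even (finrank F (Fx g) + finrank F V) := by
  let E := Subgroup.closure {g | ∃ p w h, T.Q p = 0 ∧ g = ev S p w (T.Q w) h}
  have hE : E ≤ M := (Subgroup.closure_le _).2 (by rintro _ ⟨p, w, h, hp, rfl⟩; exact (hr p w hp h).2)
  have hEr : ∀ p w, T.Q p = 0 → S.B w p = 0 → R S E p w (T.Q w) := fun p w hp h =>
    ⟨h, Subgroup.subset_closure ⟨p, w, h, hp, rfl⟩⟩
  have nor : ∀ g ∈ T.isom, ∀ e ∈ E, g * e * g⁻¹ ∈ E := fun g hg e he => by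
    induction he using Subgroup.closure_induction with
    | mem x hx =>
      obtain ⟨p, w, h, hp, rfl⟩ := hx
      rw [ev_conj _ _ _ _ (isom_le hT hg), ← (T.orth_mem_isom g).1 hg w]
      exact Subgroup.subset_closure ⟨_, _, _, by rw [(T.orth_mem_isom g).1 hg, hp], rfl⟩
    | one => simp
    | mul x y _ _ hx hy => simpa [mul_assoc] using mul_mem hx hy
    | inv x _ hx => simpa [mul_assoc] using inv_mem hx
  have par : ∀ e ∈ E, ∀ g ∈ T.isom, Even (finrank F (Fx (e * g)) + finrank F (Fx g)) := fun e he => by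
    induction he using Subgroup.closure_induction with
    | mem x hx => obtain ⟨p, w, h, hp, rfl⟩ := hx; exact fun g hg => par_ev hT hS hg hp h
    | one => intro g _; rw [one_mul]; exact ⟨_, rfl⟩
    | mul x y _ hy kx ky =>
      intro g hg
      have e1 := kx _ (mul_mem (hM (hE hy)) hg)
      have e2 := ky g hg
      rw [mul_assoc]; rw [Nat.even_iff] at *; omega
    | inv x hx kx =>
      intro g hg
      have := kx _ (mul_mem (inv_mem (hM (hE hx))) hg)
      rwa [mul_inv_cancel_left, add_comm] at this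
  have hQ : T.Q (a + a') = 1 := by simp [T.orth_Q_add, hT, h0, h1, sw' f]
  have hr1 : tv S (a + a') 1 ∈ T.isom := by simpa [hQ] using refl_mem hT (d := a + a') (by simp [hQ])
  have hr2 : ∀ d : V, (tv S d 1)⁻¹ = tv S d 1 := fun d => by rw [tv_inv, CharTwo.neg_eq]
  have hr3 := inv_mul_cancel (tv S (a + a') 1)
  have dec : ∀ g ∈ T.isom, g ∈ E ∨ tv S (a + a') 1 * g ∈ E := fun g hg => by
    rw [← PQ.Nondeg.gen_bot (S := T) (fun x hx => hS x fun y => by rw [← hT, hx])] at hg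
    rw [hr2] at hr3
    induction hg using Subgroup.closure_induction with
    | mem x hx =>
      rcases hx with ⟨d, c, h, -, rfl⟩ | ⟨d, w, q, h, -, -, rfl⟩
      · rcases (T.orth_tauOK_iff d c).1 h with rfl | ⟨hd0, rfl⟩
        · exact .inl (by rw [tau_zero]; exact E.one_mem)
        obtain ⟨t, ht⟩ := exists_sq (T.Q d)⁻¹
        have e1 : T.Q (t • d) = 1 := by rw [T.orth_Q_smul, ht]; field_simp
        obtain ⟨e, he, e2⟩ := norm_trans hT hS hd (hE.trans hM) hEr f h0 h1 e1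
        rw [show T.tau d _ h = tv S (t • d) 1 from LinearEquiv.ext fun x => by
          rw [tv_smul, ht]; simp [hT, CharTwo.neg_eq], ← e2, ← tv_conj _ _ (isom_le hT (hM (hE he)))]
        have := mul_mem he (nor _ (by simpa [e1] using refl_mem hT (d := t • d) (by simp [e1])) _
          (inv_mem he))
        exact .inr (by simpa [hr2, mul_assoc] using this)
      · have e1 : q = T.Q w := sub_eq_zero.1 h.qw
        have e2 : S.B w d = 0 := hT w d ▸ h.perp
        rw [show T.eich d w q h = ev S d w (T.Q w) e2 from LinearEquiv.ext fun x => by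
          simp [hT, e1]; v2]
        exact .inl (hEr d w ((T.orth_sing d).1 h.sing) e2).2
    | one => exact .inl E.one_mem
    | mul x y _ _ hx hy =>
      rcases hx with hx | hx <;> rcases hy with hy | hy
      · exact .inl (mul_mem hx hy)
      · exact .inr (by simpa [mul_assoc] using mul_mem (nor _ hr1 _ hx) hy)
      · exact .inr (by simpa [mul_assoc] using mul_mem hx hy)
      · exact .inl (by simpa [← mul_assoc, hr3] using mul_mem (nor _ hr1 _ hx) hy)
    | inv x _ hx =>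
      rcases hx with hx | hx
      · exact .inl (inv_mem hx)
      · exact .inr (by simpa [mul_assoc, hr2, hr3] using nor _ hr1 _ (inv_mem hx))
  have one : finrank F (Fx (1 : V ≃ₗ[F] V)) = finrank F V := by
    rw [show Fx (1 : V ≃ₗ[F] V) = ⊤ from eq_top_iff.2 fun x _ => mem_Fx.2 rfl, finrank_top]
  by_cases hc : M ≤ E
  · refine .inr fun g => ⟨fun hg => ⟨hM hg, by
      have := par g (hc hg) 1 (one_mem _); rwa [mul_one, one] at this⟩,
      fun hg => hE ((dec g hg.1).resolve_right fun h => ?_)⟩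
    have e1 := par _ h 1 (one_mem _)
    have e2 := par_refl hT hS hg.1 (d := a + a') (by simp [hQ])
    have e3 := hg.2
    rw [hQ, inv_one, Nat.odd_iff] at e2
    rw [mul_one, one] at e1
    rw [Nat.even_iff] at *; omega
  · obtain ⟨g, hg, hg'⟩ := SetLike.not_le_iff_exists.1 hc
    have h2 : tv S (a + a') 1 ∈ M := by
      simpa using mul_mem (hE ((dec g (hM hg)).resolve_left hg')) (inv_mem hg)
    exact .inl (le_antisymm hM fun k hk => (dec k hk).elim (fun h => hE h) fun h => by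
      simpa using mul_mem (inv_mem h2) (hE h))

end Cfsg.Agent.H7.Ev
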