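import Cfsg.Agent.H7.Ev3
import Cfsg.Agent.H3.SymSix

/-!
`Sp₄(2)` and the symmetric group of degree six.
-/

set_option autoImplicit false
set_option linter.unusedSectionVars false

namespace Cfsg.Agent.H7.Ev

open Cfsg.Agent.Form Module Equiv

theorem six_of_words (K : Subgroup (Perm (Fin 6))) (g : Fin 5 → Perm (Fin 6)) (hg : ∀ i, g i ∈ K)
    (A B C : List (List (Fin 5))) (hl : A.length * (B.length * C.length) = 120)
    (h : ((A.flatMap fun a => B.flatMap fun b => C.map fun c => ((a ++ b ++ c).map g).prod).map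
      fun s => 36 * (s 0).1 + 6 * (s 1).1 + (s 2).1).Nodup) :
    K = ⊤ ∨ Nonempty (K ≃* alternatingGroup (Fin 6)) ∨ Nonempty (K ≃* Perm (Fin 5)) := by
  classical
  by_cases h1 : K = ⊤
  · exact .inl h1
  by_cases h2 : K = alternatingGroup (Fin 6)
  · exact .inr (.inl ⟨.subgroupCongr h2⟩)
  have h3 := H3.SymIndex.card_le_index (by simp) K h1 h2
  have h4 := K.index_mul_card
  have h5 : 120 ≤ Nat.card K := by
    have := List.toFinset_card_of_nodup h.of_map
    rw [Nat.card_eq_fintype_card, Fintype.card_subtype]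
    refine le_trans (le_of_eq ?_) (Finset.card_le_card (s := (A.flatMap fun a => B.flatMap fun b =>
      C.map fun c => ((a ++ b ++ c).map g).prod).toFinset) fun x hx => ?_)
    · rw [this, ← hl]; simp
    · simp only [List.mem_toFinset, List.mem_flatMap, List.mem_map] at hx
      obtain ⟨a, -, b, -, c, -, rfl⟩ := hx
      exact Finset.mem_filter.2 ⟨Finset.mem_univ _, K.list_prod_mem fun x hx => by
        obtain ⟨i, -, rfl⟩ := List.mem_map.1 hx; exact hg i⟩
  rw [Nat.card_perm] at h4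
  simp only [Nat.card_eq_fintype_card (α := Fin 6), Fintype.card_fin, Nat.factorial] at h3 h4
  exact .inr (.inr (H3.SymSix.nonempty_mulEquiv (by simp) K (by nlinarith)))

/-- an involution of `Fin 6` given by its values -/
def pm (v : Fin 6 → Fin 6) (h : ∀ i, v (v i) = i := by decide) : Perm (Fin 6) := ⟨v, v, h, h⟩

variable {F : Type*} [Field F] [CharP F 2] {V : Type*} [AddCommGroup V] [Module F V]
variable {S : PQ (FP.symp F) V} {M : Subgroup (V ≃ₗ[F] V)} [FiniteDimensional F V] [Finite F]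
variable {a a' e f : V}

/-- the six vectors -/
def fv (a a' e f : V) : Fin 6 → V := ![a, a', a + a' + e, a + a' + f, a + a' + e + f, 0]

theorem Fr.decomp (h : Fr S a a' e f) (hd : finrank F V ≤ 4) (x : V) :
    x = S.B x a' • a + S.B x a • a' + S.B x f • e + S.B x e • f := by
  let s : (Fin 4 → F) →ₗ[F] V := Fintype.linearCombination F ![a, a', e, f]
  have hs : ∀ c, s c = c 0 • a + c 1 • a' + c 2 • e + c 3 • f := fun c => by
    simp [s, Fintype.linearCombination_apply, Fin.sum_univ_four]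
  obtain ⟨h1, h2, h3, h4, h5, h6⟩ := h
  have hi : Function.Injective s := (injective_iff_map_eq_zero s).2 fun c hc => by
    have k := fun y => congrArg (S.B · y) ((hs c).symm.trans hc)
    have k0 := k a'; have k1 := k a; have k2 := k f; have k3 := k e
    simp [sw' h1, sw' h2, sw' h3, sw' h4, sw' h5, sw' h6, h1, h2, h3, h4, h5, h6] at k0 k1 k2 k3
    ext i; fin_cases i <;> simpa
  obtain ⟨c, rfl⟩ := (LinearMap.injective_iff_surjective_of_finrank_eq_finrank (le_antisymm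
    (LinearMap.finrank_le_finrank_of_injective hi) (by simpa using hd))).1 hi x
  simp [sw' h1, sw' h2, sw' h3, sw' h4, sw' h5, sw' h6, *]

theorem Fr.ext (h : Fr S a a' e f) (hd : finrank F V ≤ 4) {g g' : V →ₗ[F] V}
    (k : ∀ i, g (fv a a' e f i) = g' (fv a a' e f i)) : g = g' := by
  have k0 : g a = g' a := k 0
  have k1 : g a' = g' a' := k 1
  have k2 : g e = g' e := by simpa [fv, k0, k1] using k 2
  have k3 : g f = g' f := by simpa [fv, k0, k1] using k 3
  ext x; rw [h.decomp hd x]; simp [k0, k1, k2, k3]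

/-- the linear map attached to a permutation -/
def rl (S : PQ (FP.symp F) V) (a a' e f : V) (σ : Perm (Fin 6)) : V →ₗ[F] V :=
  let h := fun i => fv a a' e f (σ i) + fv a a' e f (σ 5)
  (S.lin a').smulRight (h 0) + (S.lin a).smulRight (h 1) + (S.lin f).smulRight (h 0 + h 1 + h 2) +
    (S.lin e).smulRight (h 0 + h 1 + h 3)

theorem Fr.rl_fv (h : Fr S a a' e f) (σ : Perm (Fin 6)) (i : Fin 6) :
    rl S a a' e f σ (fv a a' e f i) = fv a a' e f (σ i) + fv a a' e f (σ 5) := by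
  have hs : ∑ i, fv a a' e f (σ i) = 0 := by
    rw [Equiv.sum_comp σ, Fin.sum_univ_six]; simp [fv]; v2
  rw [Fin.sum_univ_six] at hs
  obtain ⟨h1, h2, h3, h4, h5, h6⟩ := h
  simp only [rl]
  generalize fv a a' e f ∘ σ = x at *
  generalize hx : (fun i => fv a a' e f (σ i)) = x at *
  have hx' : ∀ i, fv a a' e f (σ i) = x i := fun i => congrFun hx i
  simp only [hx'] at *
  have h7 : x 4 = x 0 + x 1 + x 2 + x 3 + x 5 := by rw [← add_zero (x 4), ← hs]; v2
  fin_cases i <;> simp [fv, sw' h1, sw' h2, sw' h3, sw' h4, sw' h5, sw' h6, *] <;> v2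

theorem Fr.rl_mul (h : Fr S a a' e f) (hd : finrank F V ≤ 4) (σ τ : Perm (Fin 6)) :
    rl S a a' e f (σ * τ) = rl S a a' e f σ * rl S a a' e f τ :=
  h.ext hd fun i => by simp [h.rl_fv]; v2

theorem Fr.rl_one (h : Fr S a a' e f) (hd : finrank F V ≤ 4) : rl S a a' e f 1 = 1 :=
  h.ext hd fun i => by rw [h.rl_fv]; simp [fv]

/-- the representation of `S₆` -/
def Fr.rho (h : Fr S a a' e f) (hd : finrank F V ≤ 4) : Perm (Fin 6) →* (V ≃ₗ[F] V) :=
  MonoidHom.mk' (fun σ => LinearEquiv.ofLinearMap (rl S a a' e f σ) (rl S a a' e f σ⁻¹)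
    (by rw [← Module.End.mul_eq_comp, ← h.rl_mul hd, mul_inv_cancel, h.rl_one hd]; rfl)
    (by rw [← Module.End.mul_eq_comp, ← h.rl_mul hd, inv_mul_cancel, h.rl_one hd]; rfl))
    fun σ τ => LinearEquiv.toLinearMap_injective (h.rl_mul hd σ τ)

theorem Fr.rho_eq (h : Fr S a a' e f) (hd : finrank F V ≤ 4) {σ : Perm (Fin 6)} {g : V ≃ₗ[F] V}
    (k : ∀ i, g (fv a a' e f i) = fv a a' e f (σ i) + fv a a' e f (σ 5)) : h.rho hd σ = g :=
  LinearEquiv.toLinearMap_injective (h.ext hd fun i => (h.rl_fv σ i).trans (k i).symm)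

theorem Fr.rho_inj (h : Fr S a a' e f) (hd : finrank F V ≤ 4) : Function.Injective (h.rho hd) := by
  rw [← MonoidHom.ker_eq_bot_iff]
  by_contra hne
  have := Perm.alternatingGroup_le_of_normal (by simp) ((Subgroup.nontrivial_iff_ne_bot _).mpr hne)
    (show pm ![1, 0, 3, 2, 4, 5] ∈ alternatingGroup (Fin 6) by
      rw [Perm.mem_alternatingGroup]; decide)
  have h1 := (h.rl_fv (pm ![1, 0, 3, 2, 4, 5]) 0).symm.trans (LinearEquiv.congr_fun this a)
  simpa [fv, pm, h.aa] using congrArg (S.B · a) h1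

theorem Fr.tv_mem (h : Fr S a a' e f) (hd : finrank F V ≤ 4) (i j : Fin 6) :
    tv S (fv a a' e f i + fv a a' e f j) 1 ∈ (h.rho hd).range := by
  have hb : ∀ i j, S.B (fv a a' e f i) (fv a a' e f j) = if i = j ∨ i = 5 ∨ j = 5 then 0 else 1 := by
    obtain ⟨h1, h2, h3, h4, h5, h6⟩ := h
    intro i j
    fin_cases i <;> fin_cases j <;>
      simp [fv, sw' h1, sw' h2, sw' h3, sw' h4, sw' h5, sw' h6, CharTwo.add_self_eq_zero, *]
  have h5 : fv a a' e f 5 = 0 := rfl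
  by_cases e0 : i = j
  · rw [show tv S (fv a a' e f i + fv a a' e f j) 1 = 1 from LinearEquiv.ext fun x => by
      rw [e0, show fv a a' e f j + fv a a' e f j = 0 by v2]; simp]
    exact one_mem _
  refine ⟨swap i j, h.rho_eq hd fun k => ?_⟩
  simp only [tv_apply, PQ.B_add_right, hb, swap_apply_def]
  generalize fv a a' e f = x at *
  clear hb
  by_cases e1 : k = i <;> by_cases e2 : k = j <;> by_cases e3 : k = 5 <;> by_cases e4 : i = 5 <;>
    by_cases e5 : j = 5 <;> simp_all [@eq_comm _ 5 i, @eq_comm _ 5 j, CharTwo.add_self_eq_zero] <;> v2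

theorem Fr.isom_le (hS : S.Nondeg) (hq : ∀ c : F, c = 0 ∨ c = 1) (h : Fr S a a' e f)
    (hd : finrank F V ≤ 4) : S.isom ≤ (h.rho hd).range := by
  refine isom_le_of_ctr hS fun v => ctr_iff.2 fun c => ?_
  rcases hq c with rfl | rfl
  · rw [tv_zero]; exact one_mem _
  obtain ⟨i, j, rfl⟩ : ∃ i j, v = fv a a' e f i + fv a a' e f j := by
    rw [h.decomp hd v]
    rcases hq (S.B v a') with e1 | e1 <;> rcases hq (S.B v a) with e2 | e2 <;>
      rcases hq (S.B v f) with e3 | e3 <;> rcases hq (S.B v e) with e4 | e4 <;> rw [e1, e2, e3, e4]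
    exacts [⟨5, 5, by simp [fv]⟩, ⟨2, 4, by simp [fv]; v2⟩, ⟨3, 4, by simp [fv]; v2⟩,
      ⟨2, 3, by simp [fv]; v2⟩, ⟨1, 5, by simp [fv]⟩, ⟨0, 3, by simp [fv]; v2⟩,
      ⟨0, 2, by simp [fv]; v2⟩, ⟨0, 4, by simp [fv]; v2⟩, ⟨0, 5, by simp [fv]⟩,
      ⟨1, 3, by simp [fv]; v2⟩, ⟨1, 2, by simp [fv]; v2⟩, ⟨1, 4, by simp [fv]; v2⟩,
      ⟨0, 1, by simp [fv]⟩, ⟨3, 5, by simp [fv]⟩, ⟨2, 5, by simp [fv]⟩, ⟨4, 5, by simp [fv]⟩]
  exact h.tv_mem hd i j

theorem Fr.exc (hS : S.Nondeg) (hM : M ≤ S.isom) (hq : ∀ c : F, c = 0 ∨ c = 1) (h : Fr S a a' e f)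
    (hd : finrank F V ≤ 4)
    (hr : (R S M a e 0 ∧ R S M a f 0 ∧ R S M a' e 0 ∧ R S M a' f 1) ∨
      (R S M a e 1 ∧ R S M a f 1 ∧ R S M a' e 1 ∧ R S M a' f 1 ∧ R S M (a + a') e 1)) :
    S.isom ≤ M ∨ Nonempty (M ≃* alternatingGroup (Fin 6)) ∨ Nonempty (M ≃* Perm (Fin 5)) := by
  have hle := h.isom_le hS hq hd
  have e1 : (M.comap (h.rho hd)).map (h.rho hd) = M := Subgroup.map_comap_eq_self (hM.trans hle)
  have e2 := ((M.comap (h.rho hd)).equivMapOfInjective _ (h.rho_inj hd)).trans (.subgroupCongr e1)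
  suffices k : M.comap (h.rho hd) = ⊤ ∨ Nonempty (M.comap (h.rho hd) ≃* alternatingGroup (Fin 6)) ∨
      Nonempty (M.comap (h.rho hd) ≃* Perm (Fin 5)) by
    refine k.imp (fun k => hle.trans ?_) (Or.imp (·.map e2.symm.trans) (·.map e2.symm.trans))
    rw [← e1, k, MonoidHom.range_eq_map]
  have k : ∀ {d w : V} {q : F} (σ : Perm (Fin 6)), R S M d w q → (∀ i, fv a a' e f i +
      (S.B (fv a a' e f i) w + q * S.B (fv a a' e f i) d) • d + S.B (fv a a' e f i) d • w =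
      fv a a' e f (σ i) + fv a a' e f (σ 5)) → σ ∈ M.comap (h.rho hd) := fun σ hr hi => by
    obtain ⟨g, hg, eg⟩ := hr.ex
    rwa [Subgroup.mem_comap, h.rho_eq hd (g := g) fun i => by rw [eg, hi]]
  obtain ⟨h1, h2, h3, h4, h5, h6⟩ := id h
  rcases hr with ⟨r0, r1, r2, r3⟩ | ⟨r0, r1, r2, r3, r4⟩
  · refine six_of_words _ ![pm ![5, 2, 1, 4, 3, 0], pm ![5, 3, 4, 1, 2, 0], pm ![2, 5, 0, 4, 3, 1],
      pm ![3, 1, 4, 0, 2, 5], 1] (fun i => ?_) [[], [0], [2], [3], [2, 0], [1, 2]]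
      [[], [1, 0], [0, 3, 0], [1, 3, 0], [0, 3, 1]]
      [[], [3, 1, 3, 2, 0], [0, 3, 2, 1, 3], [1, 3, 1, 0, 3, 1]] rfl (by decide +kernel)
    fin_cases i
    on_goal 5 => exact one_mem _
    on_goal 4 => refine k _ r3 fun i => ?_
    on_goal 3 => refine k _ r2 fun i => ?_
    on_goal 2 => refine k _ r1 fun i => ?_
    on_goal 1 => refine k _ r0 fun i => ?_
    all_goals clear * - h1 h2 h3 h4 h5 h6; fin_cases i <;>
      simp [fv, pm, sw' h1, sw' h2, sw' h3, sw' h4, sw' h5, sw' h6, CharTwo.add_self_eq_zero, *] <;> v2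
  · refine six_of_words _ ![pm ![0, 2, 1, 4, 3, 5], pm ![0, 3, 4, 1, 2, 5], pm ![2, 1, 0, 4, 3, 5],
      pm ![3, 1, 4, 0, 2, 5], pm ![0, 1, 5, 4, 3, 2]] (fun i => ?_) [[], [2], [3], [0, 2], [1, 2], [4, 2]]
      [[], [0], [1], [1, 0], [4, 0]] [[], [4], [2, 1, 3, 2, 0], [2, 1, 0, 3, 0]] rfl (by decide +kernel)
    fin_cases i
    on_goal 5 => refine k _ r4 fun i => ?_
    on_goal 4 => refine k _ r3 fun i => ?_
    on_goal 3 => refine k _ r2 fun i => ?_
    on_goal 2 => refine k _ r1 fun i => ?_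
    on_goal 1 => refine k _ r0 fun i => ?_
    all_goals clear * - h1 h2 h3 h4 h5 h6; fin_cases i <;>
      simp [fv, pm, sw' h1, sw' h2, sw' h3, sw' h4, sw' h5, sw' h6, CharTwo.add_self_eq_zero, *] <;> v2

end Cfsg.Agent.H7.Ev
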