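import Cfsg.Agent.H7.Ev4

/-!
The unipotent radical of a vector stabiliser, and the final classification.
-/

set_option autoImplicit false
set_option linter.unusedSectionVars false

namespace Cfsg.Agent.H7.Ev

open Cfsg.Agent.Form Module Equiv

variable {F : Type*} [Field F] [CharP F 2] {V : Type*} [AddCommGroup V] [Module F V]
variable {S : PQ (FP.symp F) V} {M : Subgroup (V ≃ₗ[F] V)} [FiniteDimensional F V] [Finite F]
variable {a b : V} {g : V ≃ₗ[F] V}

theorem tr_zero (P : Submodule F V) (k : ℕ) : ∀ (r : V ≃ₗ[F] V) (τ : F), (∀ x ∈ P, r x ∈ P) →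
    (∀ x ∈ P, r (r x) = τ • r x + x) → r ^ 2 ^ k = 1 → ∀ x ∈ P, τ ^ 2 ^ k • x = 0 := by
  induction k with
  | zero =>
    intro r τ _ h2 h3 x hx
    rw [pow_zero, pow_one] at h3
    simpa [h3] using h2 x hx
  | succ k ih =>
    intro r τ h1 h2 h3 x hx
    rw [pow_succ', pow_mul] at h3 ⊢
    refine ih (r ^ 2) _ (fun x hx => h1 _ (h1 x hx)) (fun x hx => ?_) h3 x hx
    simp only [sq, LinearEquiv.mul_apply]
    rw [h2 _ (h1 _ (h1 x hx)), h2 _ (h1 x hx), h2 x hx]; v2

theorem B_of_two {v w : V} {k : ℕ} (h : (tv S v 1 * tv S w 1) ^ 2 ^ k = 1) : S.B v w = 0 := by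
  have := tr_zero (Submodule.span F {v, w}) k _ (S.B v w ^ 2) (fun x hx => by
    have h1 : v ∈ Submodule.span F {v, w} := Submodule.subset_span (by simp)
    have h2 : w ∈ Submodule.span F {v, w} := Submodule.subset_span (by simp)
    exact add_mem (add_mem hx (Submodule.smul_mem _ _ h2)) (Submodule.smul_mem _ _ h1)) (fun x hx => by
    obtain ⟨s, t, rfl⟩ := Submodule.mem_span_pair.1 hx
    simp [sw v w]; v2) h v (Submodule.subset_span (by simp))
  by_contra h0
  simpa [h0] using congrArg (S.B · w) this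

theorem core_triv (hS : S.Nondeg) (P : (V ≃ₗ[F] V) → Prop)
    (h1 : ∀ g, P g → g ∈ S.isom ∧ g a = a ∧ ∃ k, g ^ 2 ^ k = 1)
    (h2 : ∀ g, P g → ∀ w, S.B w a = 0 → P (g * tv S w 1 * g⁻¹ * (tv S w 1)⁻¹)) (hg : P g) {w : V}
    (hw : S.B w a = 0) : g w + w ∈ F ∙ a := by
  have k : ∀ g, P g → ∀ w, S.B w a = 0 → P (tv S (g w) 1 * tv S w 1) := fun g hg w hw => by
    simpa [tv_conj _ _ (h1 g hg).1, tv_inv, CharTwo.neg_eq] using h2 g hg w hw
  have k2 : ∀ g, P g → ∀ w, S.B w a = 0 → S.B (g w) w = 0 := fun g hg w hw => by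
    obtain ⟨-, -, n, hn⟩ := h1 _ (k g hg w hw); exact B_of_two hn
  rw [← hS.perp_perp (F ∙ a)]
  intro x hx
  have := k2 _ (k g hg w hw) x (S.mem_perp_span_singleton.1 hx)
  simp [sw' (k2 g hg w hw)] at this
  have : (S.B (g w) x + S.B w x) ^ 2 = 0 := by
    rw [sw w x, sw (g w) x] at this; clear * - this; grind
  simpa using this

theorem exists_ev (hb : S.B b a = 1) (hg : g ∈ S.isom) (ha : g a = a)
    (h : ∀ w, S.B w a = 0 → g w + w ∈ F ∙ a) : ∃ w q, S.B w a = 0 ∧ S.B w b = 0 ∧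
      ∀ x, g x = x + (S.B x w + q * S.B x a) • a + S.B x a • w := by
  have h1 : S.B (g b) a = 1 := by rw [← hb, ← PQ.B_isom hg b a, ha]
  refine ⟨g b + b + S.B (g b) b • a, S.B (g b) b, by simp [h1, hb]; grind, by simp [sw' hb]; grind,
    fun x => ?_⟩
  obtain ⟨t, ht⟩ := Submodule.mem_span_singleton.1 (h (x + S.B x a • b) (by simp [hb]; grind))
  have e : g x = x + S.B x a • b + t • a + S.B x a • g b := by
    rw [ht]; simp; v2
  have := PQ.B_isom hg x b
  rw [e] at this ⊢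
  simp [sw' h1, sw (g b) b] at this ⊢
  clear e ht; v2

theorem cov_of (hS : S.Nondeg) (h0 : a ≠ 0) {X : Subgroup (V ≃ₗ[F] V)} (hX : X ≤ M)
    (h1 : ∀ g ∈ X, g ∈ S.isom ∧ g a = a ∧ ∀ w, S.B w a = 0 → g w + w ∈ F ∙ a)
    (hc : Nat.card X = Nat.card F ^ (finrank F V - 2))
    (hr : ∀ g ∈ X, finrank F (LinearMap.range ((g : V →ₗ[F] V) - 1)) ≠ 1) : Cov S M a := by
  obtain ⟨b, hb⟩ := hS.exists_eq h0 1
  choose w q w1 w2 e using fun g : X => exists_ev hb (h1 g g.2).1 (h1 g g.2).2.1 (h1 g g.2).2.2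
  let ψ : X → S.perp (Submodule.span F {a, b}) := fun g => ⟨w g, S.mem_perp_span.2 (by simp [w1, w2])⟩
  have hi : Function.Injective ψ := fun g g' hg => by
    have e1 : w g = w g' := congrArg Subtype.val hg
    have e2 : q g = q g' := by_contra fun hq => hr _ (g * g').2 (by
      have e3 : ∀ x, ((g * g').1 - 1 : V →ₗ[F] V) x = ((q g + q g') * S.B x a) • a := fun x => by
        simp [e, e1, w1, sw' (w1 g')]; clear e; v2
      rw [← finrank_span_singleton (K := F) h0]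
      refine congrArg (fun U : Submodule F V => finrank F U) <| le_antisymm (by rintro _ ⟨x, rfl⟩; rw [e3]; exact Submodule.smul_mem _ _ (by simp))
        ((Submodule.span_singleton_le_iff_mem _ _).2 ⟨(q g + q g')⁻¹ • b, ?_⟩)
      rw [e3]; simp [hb]; clear e e3; v2)
    exact Subtype.ext (LinearEquiv.ext fun x => by rw [e, e, e1, e2])
  have := Module.finite_of_finite F (M := V)
  have hs := (hi.bijective_of_nat_card_le (by
    have h2 := hS.finrank_perp (Submodule.span F {a, b})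
    rw [S.finrank_span_pair_of_hyperbolic (S.symp_sing a) (by simp [sw' hb])] at h2
    rw [hc, Module.natCard_eq_pow_finrank (K := F), ← h2]; simp)).2
  refine ⟨h0, fun v hv => ?_⟩
  obtain ⟨g, hg⟩ := hs ⟨v + S.B v b • a, S.mem_perp_span.2 (by simp [hv, sw' hb]; grind)⟩
  exact ⟨q g, .of_add _ ((R.of (w1 g) (hX g.2) (e g)).congr (congrArg Subtype.val hg) rfl)⟩

theorem main (hS : S.Nondeg) (hM : M ≤ S.isom) (hI : Irr M) (hd : 4 ≤ finrank F V)
    (ha : Cov S M a) : M = S.isom ∨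
    (∃ Q : QuadraticForm F V, (∀ x y, QuadraticMap.polar Q x y = S.B x y) ∧
      ((∀ g, g ∈ M ↔ ∀ x, Q (g x) = Q x) ∨ ∀ g, g ∈ M ↔ (∀ x, Q (g x) = Q x) ∧
        Even (finrank F (LinearMap.range ((g : V →ₗ[F] V) - 1))))) ∨
    (Nat.card F = 2 ∧ finrank F V = 4 ∧
      (Nonempty (M ≃* alternatingGroup (Fin 6)) ∨ Nonempty (M ≃* Perm (Fin 5)))) := by
  rcases tri hS hM hI (by omega) ha with h | ⟨T, hT, h1, h2, a, a', f, h3, h4⟩ |
    ⟨hq, h1, a, a', e, f, h2, h3⟩
  · exact .inl (le_antisymm hM h)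
  · have hp : ∀ x y, QuadraticMap.polar T.Q x y = S.B x y := fun x y => by rw [T.orth_polar, hT]
    refine .inr (.inl ⟨QuadraticMap.ofPolar T.Q (fun t x => by simp [T.orth_Q_smul, sq])
      (fun x y z => by simp [hp]) (fun t x y => by simp [hp]), hp, ?_⟩)
    refine (orth_main hT hS (by omega) h1 h2 f h3 h4).imp (fun h g => by rw [h]; exact T.orth_mem_isom g)
      fun h g => (h g).trans (and_congr (T.orth_mem_isom g) ?_)
    rw [← ((g : V →ₗ[F] V) - 1).finrank_range_add_finrank_ker, Fx, Nat.even_iff, Nat.even_iff]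
    omega
  · refine (h2.exc hS hM hq h1 h3).imp (le_antisymm hM) fun h => .inr ⟨?_, by omega, h⟩
    exact Nat.card_eq_two_iff.2 ⟨0, 1, zero_ne_one, Set.eq_univ_of_forall fun c => by simpa using hq c⟩

end Cfsg.Agent.H7.Ev
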