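import Cfsg.Agent.H7.Bit2
import Cfsg.Agent.H4.BP

/-!
Inequalities between dimensions of fixed spaces, valid in every representation over the field with two
elements, certified by maps between permutation modules.
-/

set_option autoImplicit false
set_option linter.unusedSectionVars false

namespace Cfsg.Agent.H7.Inq

open Cfsg.Agent.H7.Bit hiding app
open Cfsg.Agent.H4.BP hiding app
open Matrix Finset Module

/-- the field -/
abbrev F := ZMod 2

variable {Γ : Type*} [Group Γ] {ι : Type*} [Fintype ι] [DecidableEq ι]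

/-- fixed space -/
def fx (A : Matrix ι ι F) : Submodule F (ι → F) where
  carrier := {z | A *ᵥ z = z}
  zero_mem' := mulVec_zero A
  add_mem' := fun {a b} (ha : _ = _) (hb : _ = _) => by simp [mulVec_add, ha, hb]
  smul_mem' := fun c z (hz : _ = _) => by simp [mulVec_smul, hz]

theorem mem_fx {A : Matrix ι ι F} {z : ι → F} : z ∈ fx A ↔ A *ᵥ z = z := Iff.rfl

/-- dimension of the fixed space -/
noncomputable def fd (A : Matrix ι ι F) : ℕ := finrank F (fx A)

theorem fd_one : fd (1 : Matrix ι ι F) = Fintype.card ι := by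
  rw [fd, show fx (1 : Matrix ι ι F) = ⊤ from eq_top_iff.2 fun z _ => one_mulVec z]
  simp

variable (ρ : Γ →* Matrix ι ι F)

/-- the elements fixing the fixed space of an element -/
def cl (c : Γ) : Subgroup Γ where
  carrier := {x | ∀ z ∈ fx (ρ c), ρ x *ᵥ z = z}
  one_mem' := fun z _ => by simp
  mul_mem' := fun {a b} ha hb z hz => by rw [map_mul, ← mulVec_mulVec, hb z hz, ha z hz]
  inv_mem' := fun {a} ha z hz => by
    conv_lhs => rw [← ha z hz, mulVec_mulVec, ← map_mul, inv_mul_cancel, map_one, one_mulVec]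

theorem self_mem_cl (c : Γ) : c ∈ cl ρ c := fun _ hz => hz

theorem mem_cl_of_ker (c : Γ) {x : Γ} (h : ρ x = 1) : x ∈ cl ρ c := fun z _ => by rw [h, one_mulVec]

theorem fd_le_pow (c : Γ) (n : ℕ) : fd (ρ c) ≤ fd (ρ (c ^ n)) :=
  Submodule.finrank_mono fun z hz => pow_mem (self_mem_cl ρ c) n z hz

theorem fd_conj_le (c x : Γ) : fd (ρ c) ≤ fd (ρ (x * c * x⁻¹)) := by
  refine LinearMap.finrank_le_finrank_of_injective (f := (toLin' (ρ x)).restrict (p := fx (ρ c))
    (q := fx (ρ (x * c * x⁻¹))) fun z hz => ?_) fun z z' h => Subtype.ext ?_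
  · rw [mem_fx, toLin'_apply, mulVec_mulVec, ← map_mul, inv_mul_cancel_right, map_mul, ← mulVec_mulVec, mem_fx.1 hz]
  · have := congrArg (fun v : fx (ρ (x * c * x⁻¹)) => ρ x⁻¹ *ᵥ v.1) h
    simpa [mulVec_mulVec, ← map_mul] using this

theorem fd_conj (c x : Γ) : fd (ρ (x * c * x⁻¹)) = fd (ρ c) :=
  le_antisymm (by simpa [mul_assoc] using fd_conj_le ρ (x * c * x⁻¹) x⁻¹) (fd_conj_le ρ c x)

theorem fd_pow {c : Γ} {n m : ℕ} (h : (c ^ n) ^ m = c) : fd (ρ (c ^ n)) = fd (ρ c) :=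
  le_antisymm (by simpa [h] using fd_le_pow ρ (c ^ n) m) (fd_le_pow ρ c n)

/-- certificate for a lower bound -/
noncomputable def loChk (n k A P Q : ℕ) : Bool := Nat.beq (mul n n k A P) P && Nat.beq (mul k n k Q P) (one k)

theorem le_fd {n k A P Q : ℕ} (e : ι ≃ Fin n) (h : loChk n k A P Q = true) : k ≤ fd (toM F e e A) := by
  simp only [loChk, Bool.and_eq_true, Nat.beq_eq] at h
  have h1 := congrArg (toM F e (Equiv.refl (Fin k))) h.1
  have h2 := congrArg (toM F (Equiv.refl (Fin k)) (Equiv.refl (Fin k))) h.2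
  rw [toM_mul e e] at h1
  rw [toM_mul _ e, toM_one] at h2
  have := LinearMap.finrank_le_finrank_of_injective (f := (toLin' (toM F e (Equiv.refl (Fin k)) P)).codRestrict
    (fx (toM F e e A)) fun z => by rw [mem_fx, toLin'_apply, mulVec_mulVec, h1]) fun z z' h => by
      have := congrArg (fun v : fx (toM F e e A) => toM F (Equiv.refl (Fin k)) e Q *ᵥ v.1) h
      simpa [mulVec_mulVec, h2] using this
  simpa [fd] using this

/-- certificate for an upper bound -/
noncomputable def upChk (n k A P Q R : ℕ) : Bool :=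
  Nat.beq (Nat.xor (mul n k n P Q) (mul n n n R (Nat.xor A (one n)))) (one n)

theorem fd_le {n k A P Q R : ℕ} (e : ι ≃ Fin n) (h : upChk n k A P Q R = true) : fd (toM F e e A) ≤ k := by
  have h1 := congrArg (toM F e e) (Nat.eq_of_beq_eq_true h)
  rw [toM_xor, toM_mul e (Equiv.refl (Fin k)), toM_mul e e, toM_xor, toM_one] at h1
  have h2 : fx (toM F e e A) ≤ LinearMap.range (toLin' (toM F e (Equiv.refl (Fin k)) P)) := fun z hz => by
    have := congrArg (· *ᵥ z) h1
    simp only [add_mulVec, ← mulVec_mulVec, one_mulVec, mem_fx.1 hz] at this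
    rw [show z + z = 0 from funext fun _ => CharTwo.add_self_eq_zero _, mulVec_zero, add_zero] at this
    exact ⟨_, this⟩
  simpa [fd] using (Submodule.finrank_mono h2).trans (LinearMap.finrank_range_le _)

variable (g : ℕ → Γ)

/-- the value of a word, read backwards -/
def gw (w : List ℕ) : Γ := (w.reverse.map g).prod

theorem gw_cons (s : ℕ) (w : List ℕ) : gw g (s :: w) = gw g w * g s := by simp [gw]

/-- coset table -/
structure CT (C : Subgroup Γ) (S : Nets) (N : ℕ) (W : ℕ → Γ) : Prop where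
  wf : ∃ k, WF S k
  fix : ∀ s, gen S s ∈ Fx N
  pos : 0 < N
  W0 : W 0 = 1
  rel : ∀ s, ∀ i < N, ∃ c ∈ C, W i = g s * W (gen S s i) * c

variable {g} {C : Subgroup Γ} {S : Nets} {N : ℕ} {W : ℕ → Γ}

theorem CT.word (h : CT g C S N W) (w : List ℕ) :
    ev S w ∈ Fx N ∧ ∀ i < N, ∃ c ∈ C, W i = gw g w * W (ev S w i) * c := by
  induction w with
  | nil => exact ⟨one_mem _, fun i _ => ⟨1, one_mem _, by simp [gw]⟩⟩
  | cons s w ih =>
    refine ⟨ev_cons S s w ▸ mul_mem (h.fix s) ih.1, fun i hi => ?_⟩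
    obtain ⟨c, hc, e⟩ := ih.2 i hi
    obtain ⟨c', hc', e'⟩ := h.rel s _ (Fx.lt ih.1 hi)
    exact ⟨c' * c, mul_mem hc' hc, by rw [e, e', gw_cons, ev_cons, Equiv.Perm.mul_apply]; simp [mul_assoc]⟩

variable (N W) in
/-- a set of cosets as an operator -/
noncomputable def sm (B : ℕ) : Matrix ι ι F := ∑ i ∈ range N, bit F B i • ρ (W i)

theorem sm_xor (A B : ℕ) : sm ρ N W (Nat.xor A B) = sm ρ N W A + sm ρ N W B := by
  simp only [sm, bit_xor, add_smul, sum_add_distrib]

theorem sm_zero : sm ρ N W 0 = 0 := by simp [sm]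

theorem CT.sm_one (h : CT g C S N W) : sm ρ N W 1 = 1 := by
  rw [sm, sum_eq_single 0 (fun i _ hi => by rw [← pow_zero 2, bit_pow, if_neg hi, zero_smul])
    (by simp [h.pos.ne']), h.W0]
  simp [bit]

theorem CT.sm_apW {c : Γ} (h : CT g (cl ρ c) S N W) {z : ι → F} (hz : z ∈ fx (ρ c)) (w : List ℕ) (B : ℕ) :
    sm ρ N W (apW S w B) *ᵥ z = ρ (gw g w) *ᵥ sm ρ N W B *ᵥ z := by
  obtain ⟨k, hk⟩ := h.wf
  obtain ⟨h1, h2⟩ := h.word w
  simp only [sm, sum_mulVec, mulVec_sum, smul_mulVec, mulVec_smul]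
  refine sum_nbij' (ev S w) ((ev S w)⁻¹ : Equiv.Perm ℕ) (fun i hi => mem_range.2 (Fx.lt h1 (mem_range.1 hi)))
    (fun i hi => mem_range.2 (Fx.lt (inv_mem h1) (mem_range.1 hi))) (by simp) (by simp) fun i hi => ?_
  obtain ⟨c', hc, e⟩ := h2 i (mem_range.1 hi)
  rw [bit, hk.apW, e, map_mul, map_mul, ← mulVec_mulVec, ← mulVec_mulVec, hc z hz, bit]

/-- a sum of words on bit sets -/
noncomputable def apA (S : Nets) (a : List (List ℕ)) (x : ℕ) : ℕ :=
  List.rec (motive := fun _ => ℕ) 0 (fun w _ acc => Nat.xor (apW S w x) acc) a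

variable (g) in
/-- a sum of words -/
noncomputable def ga (a : List (List ℕ)) : Matrix ι ι F := (a.map fun w => ρ (gw g w)).sum

theorem CT.sm_apA {c : Γ} (h : CT g (cl ρ c) S N W) {z : ι → F} (hz : z ∈ fx (ρ c)) (a : List (List ℕ)) (B : ℕ) :
    sm ρ N W (apA S a B) *ᵥ z = ga ρ g a *ᵥ sm ρ N W B *ᵥ z := by
  induction a with
  | nil => simp [apA, ga, sm_zero]
  | cons w a ih =>
    change sm ρ N W (Nat.xor (apW S w B) (apA S a B)) *ᵥ z = _
    rw [sm_xor, add_mulVec, ih, h.sm_apW ρ hz]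
    simp only [ga, add_mulVec, List.map_cons, List.sum_cons]

theorem sm_sumB (p : ℕ) (f : ℕ → ℕ) : sm ρ N W (sumB p f) = ∑ j ∈ range p, sm ρ N W (f j) := by
  induction p with
  | zero => simp [sumB, sm_zero]
  | succ p ih => rw [sum_range_succ, ← ih, ← sm_xor]; rfl

/-- the check of the certificate -/
noncomputable def invChk (S : Nets) (b : ℕ) (d : ℕ → List ℕ) (B : ℕ → ℕ) : Bool :=
  all b fun j => force (B j) fun x => Nat.beq (apW S (d j) x) x

/-- the check of the certificate -/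
noncomputable def idChk (S : Nets) (b : ℕ) (E : List (List ℕ)) (A : ℕ → List (List ℕ)) (B : ℕ → ℕ) (r : ℕ) : Bool :=
  force (sumB b fun j => force (B j) (apA S (A j))) fun x => Nat.beq (apA S E x) r

theorem ineq {a b : ℕ} {c : ℕ → Γ} {S : ℕ → Nets} {N : ℕ → ℕ} {W : ℕ → ℕ → Γ}
    (h : ∀ i < a, CT g (cl ρ (c i)) (S i) (N i) (W i)) {d : ℕ → List ℕ} {B : ℕ → ℕ → ℕ}
    {E : ℕ → List (List ℕ)} {A : ℕ → ℕ → List (List ℕ)} (h1 : ∀ i < a, invChk (S i) b d (B i) = true)
    (h2 : ∀ i < a, ∀ i' < a, idChk (S i) b (E i') (A i') (B i) (if i = i' then 1 else 0) = true) :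
    ∑ i ∈ range a, fd (ρ (c i)) ≤ ∑ j ∈ range b, fd (ρ (gw g (d j))) := by
  let α : (∀ i : Fin a, fx (ρ (c i))) →ₗ[F] ∀ j : Fin b, fx (ρ (gw g (d j))) := LinearMap.pi fun j =>
    LinearMap.codRestrict _ (∑ i : Fin a, toLin' (sm ρ (N i) (W i) (B i j)) ∘ₗ (fx (ρ (c i))).subtype ∘ₗ
      LinearMap.proj i) fun z => by
        rw [LinearMap.sum_apply]
        refine sum_mem fun i _ => ?_
        have h3 := all_spec (h1 i i.2) j j.2
        rw [force_eq] at h3
        have := (h i i.2).sm_apW ρ (z i).2 (d j) (B i j)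
        rw [Nat.eq_of_beq_eq_true h3] at this
        exact this.symm
  have hα : ∀ z (j : Fin b), (α z j).1 = ∑ i : Fin a, sm ρ (N i) (W i) (B i j) *ᵥ (z i).1 := fun z j => by
    simp [α]
  have key : ∀ z (i' : Fin a), ga ρ g (E i') *ᵥ ∑ j : Fin b, ga ρ g (A i' j) *ᵥ (α z j).1 = (z i').1 := by
    intro z i'
    have h3 : ∀ i : Fin a, ga ρ g (E i') *ᵥ ∑ j : Fin b, ga ρ g (A i' j) *ᵥ sm ρ (N i) (W i) (B i j) *ᵥ (z i).1 =
        sm ρ (N i) (W i) (if (i : ℕ) = i' then 1 else 0) *ᵥ (z i).1 := fun i => by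
      have h4 := h2 i i.2 i' i'.2
      simp only [idChk, force_eq] at h4
      rw [← Nat.eq_of_beq_eq_true h4, (h i i.2).sm_apA ρ (z i).2, sm_sumB, sum_mulVec,
        ← Fin.sum_univ_eq_sum_range (fun j => sm ρ (N i) (W i) (apA (S i) (A i' j) (B i j)) *ᵥ (z i).1)]
      simp only [(h i i.2).sm_apA ρ (z i).2]
    simp only [hα, mulVec_sum] at h3 ⊢
    rw [sum_comm, sum_congr rfl fun i _ => h3 i, sum_eq_single i' (fun i _ hi => by
      rw [if_neg (Fin.val_ne_of_ne hi), sm_zero, zero_mulVec]) (by simp), if_pos rfl, (h i' i'.2).sm_one, one_mulVec]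
  have := LinearMap.finrank_le_finrank_of_injective (f := α) fun z z' e => funext fun i => Subtype.ext (by
    rw [← key z, ← key z', e])
  rwa [finrank_pi_fintype, finrank_pi_fintype, Fin.sum_univ_eq_sum_range (fun i => finrank F (fx (ρ (c i)))),
    Fin.sum_univ_eq_sum_range (fun j => finrank F (fx (ρ (gw g (d j)))))] at this

/-! ### Coset tables from matrices -/

variable {K : Type*} [CommRing K] [CharP K 2] {κ : Type*} [Fintype κ] [DecidableEq κ] {n : ℕ}

/-- a matrix represents a group element -/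
structure Rp (R : Matrix κ κ K → Γ → Prop) : Prop where
  one : R 1 1
  mul : ∀ {A B x y}, R A x → R B y → R (A * B) (x * y)
  uniq : ∀ {A x y}, R A x → R A y → x = y

theorem Rp.evalW {R : Matrix κ κ K → Γ → Prop} (h : Rp R) (e : κ ≃ Fin n) {X : ℕ → ℕ} {y : ℕ → Γ}
    (hX : ∀ j, R (toM K e e (X j)) (y j)) (w : List ℕ) : R (toM K e e (evalW n X w)) (w.map y).prod := by
  rw [toM_evalW]
  induction w with
  | nil => exact h.one
  | cons j w ih => simpa using h.mul (hX j) ih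

variable (K) in
/-- the matrices coded by bit planes -/
def pm (e : κ ≃ Fin n) (N PL i : ℕ) : Matrix κ κ K := of fun r c => bit K (Bit.col (Nat.mul n N) PL (e r)) (N * e c + i)

/-- union of bit sets -/
noncomputable def orB (m : ℕ) (f : ℕ → ℕ) : ℕ := Nat.rec (motive := fun _ => ℕ) 0 (fun j acc => Nat.lor acc (f j)) m

theorem orB_spec {m : ℕ} {f : ℕ → ℕ} {i : ℕ} (h : (orB m f).testBit i = false) : ∀ j < m, (f j).testBit i = false := by
  induction m with
  | zero => simp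
  | succ m ih =>
    change (orB m f ||| f m).testBit i = false at h
    rw [Nat.testBit_or, Bool.or_eq_false_iff] at h
    intro j hj
    rcases Nat.lt_succ_iff_lt_or_eq.1 hj with hj | rfl
    exacts [ih h.1 j hj, h.2]

/-- the check of the action of a generator -/
noncomputable def relChk (S : Nets) (s n N PL Gt : ℕ) (Cs : List ℕ) : Bool :=
  force (Bit.mk (Nat.mul n N) n fun r => force (Bit.col (Nat.mul n N) PL r) fun row => Bit.mk N n fun c => ap S s (Bit.col N row c))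
    fun T => force (mul (Nat.mul n N) n n T Gt) fun Y =>
      Nat.beq (List.rec (motive := fun _ => ℕ) (Nat.sub (Nat.pow 2 N) 1) (fun C _ acc => Nat.land acc
        (force (orB n fun r => Nat.xor (mul N n n (Bit.col (Nat.mul n N) Y r) C) (Bit.col (Nat.mul n N) PL r))
          fun X => orB n fun c => Bit.col N X c)) Cs) 0

theorem rel_spec (e : κ ≃ Fin n) {k s PL Gt : ℕ} {Cs : List ℕ} (hS : WF S k) (hs : gen S s ∈ Fx N)
    (h : relChk S s n N PL Gt Cs = true) {i : ℕ} (hi : i < N) :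
    ∃ C ∈ Cs, pm K e N PL i = (toM K e e Gt)ᵀ * pm K e N PL (gen S s i) * toM K e e C := by
  simp only [relChk, force_eq, Nat.beq_eq] at h
  generalize hT : (Bit.mk (Nat.mul n N) n fun r => Bit.mk N n fun c => ap S s (Bit.col N (Bit.col (Nat.mul n N) PL r) c)) = T at h
  generalize hY : mul (Nat.mul n N) n n T Gt = Y at h
  replace h := (congrArg (·.testBit i) h).trans (Nat.zero_testBit i)
  have h1 : ∃ C ∈ Cs, (orB n fun c => Bit.col N (orB n fun r => Nat.xor (mul N n n (Bit.col (Nat.mul n N) Y r) C)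
      (Bit.col (Nat.mul n N) PL r)) c).testBit i = false := by
    induction Cs with
    | nil =>
      change (2 ^ N - 1).testBit i = false at h
      simp [Nat.testBit_two_pow_sub_one, hi] at h
    | cons C Cs ih =>
      change Nat.testBit (_ &&& _) i = false at h
      rw [Nat.testBit_and, Bool.and_eq_false_iff] at h
      rcases h with h | h
      · obtain ⟨C', h1, h2⟩ := ih h
        exact ⟨C', List.mem_cons_of_mem _ h1, h2⟩
      · exact ⟨C, List.mem_cons_self .., h⟩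
  obtain ⟨C, hC, h1⟩ := h1
  refine ⟨C, hC, ?_⟩
  have hlt : ∀ c : κ, N * e c + i < Nat.mul n N := fun c => by
    have := (e c).2
    change _ < n * N
    nlinarith
  ext r c
  have h2 := orB_spec h1 _ (e c).2
  have h3 : ∀ A j, (Bit.col N A j).testBit i = A.testBit (N * j + i) := fun A j => by
    have e : Bit.col N A j = (A >>> (N * j)) % 2 ^ N := rfl
    simp [e, Nat.testBit_mod_two_pow, hi]
  rw [h3] at h2
  have h4 : bit K _ _ = 0 := if_neg (by rw [orB_spec h2 _ (e r).2]; simp)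
  rw [bit_xor, CharTwo.add_eq_zero, Bit.mul, bit_mk _ hi, if_pos (e c).2, bit_app, ← sum_enc e] at h4
  rw [pm, of_apply, ← h4, mul_apply]
  refine sum_congr rfl fun c' _ => ?_
  rw [bit_col hi, bit_col (e c').2, bit_col (hlt c'), ← hY, Bit.mul, bit_mk _ (hlt c'), if_pos (e r).2, bit_app,
    ← sum_enc e, mul_apply]
  refine congrArg₂ _ (sum_congr rfl fun r' _ => ?_) rfl
  rw [bit_col (e r').2, bit_col (hlt c'), ← hT, bit_mk _ (hlt c'), if_pos (e r').2, bit_mk _ hi, if_pos (e c').2,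
    mul_comm, bit.eq_1 K (ap _ _ _), hS.ap, ← bit.eq_1 K, bit_col (Fx.lt hs hi)]
  rfl

/-- the check of a coset table -/
noncomputable def ctChk (S : Nets) (k n N PL : ℕ) (l : List ℕ) : Bool :=
  (S.all fun l => l.all (wf1 (2 ^ k))) && Nat.beq S.length 2 && agree S k N [0] && agree S k N [1] &&
    Nat.blt 0 N && covers (reach S [[0], [1]] l 1) N &&
    all n fun r => all n fun c => bt (Bit.col (Nat.mul n N) PL r) (Nat.mul N c) == Nat.beq r c

theorem exists_CT {R : Matrix κ κ K → Γ → Prop} (hR : Rp R) (e : κ ≃ Fin n) {k PL G0 G1 : ℕ} {Cs l : List ℕ}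
    (h : ctChk S k n N PL l = true) (h0 : relChk S 0 n N PL G0 Cs = true) (h1 : relChk S 1 n N PL G1 Cs = true)
    (hg0 : R (toM K e e G0)ᵀ (g 0)) (hg1 : R (toM K e e G1)ᵀ (g 1)) (hg : ∀ s, g (s + 2) = 1)
    (hC : ∀ A ∈ Cs, ∃ c ∈ C, R (toM K e e A) c) : ∃ W, CT g C S N W := by
  simp only [ctChk, Bool.and_eq_true, Nat.beq_eq, Nat.blt_eq] at h
  obtain ⟨⟨⟨⟨⟨⟨hS, h2⟩, h3⟩, h4⟩, h5⟩, h6⟩, h7⟩ := h
  have hS : WF S k := hS
  have f0 : gen S 0 ∈ Fx N := by simpa using hS.agree h3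
  have f1 : gen S 1 ∈ Fx N := by simpa using hS.agree h4
  have f2 : ∀ s, gen S (s + 2) = 1 := fun s => by
    obtain ⟨a, b, rfl⟩ := List.length_eq_two.1 h2
    rfl
  have f3 : ∀ s, gen S s ∈ Fx N := fun s => match s with
    | 0 => f0
    | 1 => f1
    | s + 2 => f2 s ▸ one_mem _
  have key : ∀ s, ∀ i < N, ∀ x, R (pm K e N PL (gen S s i)) x → ∃ c ∈ C, R (pm K e N PL i) (g s * x * c) :=
    fun s i hi x hx => match s with
    | 0 => by
      obtain ⟨A, hA, e1⟩ := rel_spec (K := K) e hS f0 h0 hi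
      obtain ⟨c, hc, h8⟩ := hC A hA
      exact ⟨c, hc, e1 ▸ hR.mul (hR.mul hg0 hx) h8⟩
    | 1 => by
      obtain ⟨A, hA, e1⟩ := rel_spec (K := K) e hS f1 h1 hi
      obtain ⟨c, hc, h8⟩ := hC A hA
      exact ⟨c, hc, e1 ▸ hR.mul (hR.mul hg1 hx) h8⟩
    | s + 2 => ⟨1, one_mem _, by simpa [f2, hg] using hx⟩
  have e0 : pm K e N PL 0 = 1 := by
    ext r c
    have := all_spec (all_spec h7 _ (e r).2) _ (e c).2
    rw [beq_iff_eq, bt_eq] at this
    change bit K _ (Nat.mul N (e c)) = _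
    rw [bit, this, one_apply]
    simp [Fin.val_inj]
  have hP := hS.reach (W := [[0], [1]]) (P := fun i => i < N → ∃ x, R (pm K e N PL i) x) (fun w hw p hp hN => by
    obtain ⟨s, rfl⟩ : ∃ s, w = [s] := by
      simp only [List.mem_cons, List.not_mem_nil, or_false] at hw
      rcases hw with rfl | rfl <;> exact ⟨_, rfl⟩
    simp only [ev_cons, ev_nil, mul_one] at hp
    obtain ⟨x, hx⟩ := hp (Fx.lt (f3 s) hN)
    obtain ⟨c, -, hc⟩ := key s p hN x hx
    exact ⟨_, hc⟩) l 1 fun p hp _ => by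
      rw [Nat.testBit_one_eq_true_iff_self_eq_zero.1 hp, e0]
      exact ⟨1, hR.one⟩
  have : Nonempty Γ := ⟨1⟩
  choose! W hW using fun i (hi : i < N) => hP i (covers_spec h6 i hi) hi
  refine ⟨W, ⟨k, hS⟩, f3, h5, hR.uniq (hW 0 h5) (e0 ▸ hR.one), fun s i hi => ?_⟩
  obtain ⟨c, hc, h8⟩ := key s i hi _ (hW _ (Fx.lt (f3 s) hi))
  exact ⟨c, hc, hR.uniq (hW i hi) h8⟩

end Cfsg.Agent.H7.Inq
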