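import Cfsg.Agent.H7.Inq

/-!
Matrices over a small field of characteristic two as matrices of bits.
-/

set_option autoImplicit false
set_option linter.unusedSectionVars false

namespace Cfsg.Agent.H7.Inq

open Cfsg.Agent.H7.Bit hiding app
open Cfsg.Agent.H4.BP hiding app
open Matrix Finset

variable {Γ : Type*} [Group Γ] {K : Type*} [Field K] [CharP K 2] (y : K) (m d : ℕ)

/-- coded field elements -/
def el (x : ℕ) : K := ∑ l ∈ range d, bit K x l * y ^ l

/-- the coordinates -/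
def JJ : Matrix (Fin m) (Fin m × Fin d) K := of fun a p => if p.1 = a then y ^ (p.2 : ℕ) else 0

variable {m} (val : Γ →* Matrix (Fin m) (Fin m) K)

/-- the relation -/
def RR (A : Matrix (Fin m × Fin d) (Fin m × Fin d) K) (g : Γ) : Prop := val g * JJ y m d = JJ y m d * A

variable {y d val}

theorem mul_JJ (g : Matrix (Fin m) (Fin m) K) (a a' : Fin m) (j : Fin d) :
    (g * JJ y m d) a (a', j) = g a a' * y ^ (j : ℕ) := by
  simp [mul_apply, JJ]

theorem JJ_mul (A : Matrix (Fin m × Fin d) (Fin m × Fin d) K) (a : Fin m) (p : Fin m × Fin d) :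
    (JJ y m d * A) a p = ∑ l : Fin d, A (a, l) p * y ^ (l : ℕ) := by
  simp [mul_apply, JJ, Fintype.sum_prod_type, mul_comm]

theorem rp_RR (hv : Function.Injective val) (hd : 0 < d) : Rp (RR y d val) where
  one := by simp [RR]
  mul := fun {A B x z} h h' => by
    rw [RR, map_mul, Matrix.mul_assoc, h', ← Matrix.mul_assoc, h, Matrix.mul_assoc]
  uniq := fun {A x z} h h' => hv (by
    ext a a'
    simpa [mul_JJ] using congrFun (congrFun (h.trans h'.symm) a) (a', ⟨0, hd⟩))

/-- the coding of the indices -/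
abbrev eP (m d : ℕ) : Fin m × Fin d ≃ Fin (m * d) := finProdFinEquiv

/-- check of the blocks -/
noncomputable def blkChk (m d : ℕ) (mc : ℕ → ℕ → ℕ) (t : List (List ℕ)) (A : ℕ) : Bool :=
  all m fun a => all m fun a' => all d fun j => all d fun l =>
    bt A (m * d * (j + d * a') + (l + d * a)) == bt (mc ((t.getD a []).getD a' 0) j) l

theorem RR_of_chk {mc : ℕ → ℕ → ℕ} {t : List (List ℕ)} {A : ℕ} (h : blkChk m d mc t A = true)
    (hmc : ∀ x, ∀ j < d, el y d x * y ^ j = el y d (mc x j)) {g : Γ}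
    (hg : val g = of fun a a' : Fin m => el y d ((t.getD a []).getD a' 0)) :
    RR y d val (toM K (eP m d) (eP m d) A) g := by
  ext a ⟨a', j⟩
  rw [mul_JJ, JJ_mul, hg, of_apply, hmc _ _ j.2, el, ← Fin.sum_univ_eq_sum_range (fun l => bit K _ l * y ^ l)]
  refine sum_congr rfl fun l _ => ?_
  have := all_spec (all_spec (all_spec (all_spec h a a.2) a' a'.2) j j.2) l l.2
  rw [beq_iff_eq, bt_eq, bt_eq] at this
  rw [bit, ← this]
  rfl

/-- check of a transpose -/
noncomputable def trChk (n A B : ℕ) : Bool := all n fun r => all n fun c => bt A (n * r + c) == bt B (n * c + r)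

theorem tr_of_chk {κ : Type*} [Fintype κ] {n A B : ℕ} (e : κ ≃ Fin n) (h : trChk n A B = true) :
    (toM K e e A)ᵀ = toM K e e B := by
  ext r c
  have := all_spec (all_spec h _ (e r).2) _ (e c).2
  rw [beq_iff_eq, bt_eq, bt_eq] at this
  change bit K _ _ = bit K _ _
  rw [bit, bit, this]

/-- check that two codes represent different elements -/
noncomputable def neChk (m d A B a c : ℕ) : Bool :=
  all d fun l => bt (Nat.xor A B) (m * d * c + (l + d * a)) == Nat.beq l 0

theorem ne_of_chk {A B a c : ℕ} (h : neChk m d A B a c = true) (ha : a < m) (hc : c < m * d) (hd : 0 < d) {x z : Γ}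
    (hx : RR y d val (toM K (eP m d) (eP m d) A) x) (hz : RR y d val (toM K (eP m d) (eP m d) B) z) : x ≠ z := by
  rintro rfl
  have h1 : JJ y m d * toM K (eP m d) (eP m d) (Nat.xor A B) = 0 := by
    rw [toM_xor, Matrix.mul_add, ← hx, ← hz]
    ext
    exact CharTwo.add_self_eq_zero _
  have h2 := congrFun (congrFun h1 ⟨a, ha⟩) ((eP m d).symm ⟨c, hc⟩)
  have h3 : ∀ l : Fin d, toM K (eP m d) (eP m d) (Nat.xor A B) (⟨a, ha⟩, l) ((eP m d).symm ⟨c, hc⟩) =
      if l = ⟨0, hd⟩ then 1 else 0 := fun l => by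
    have := all_spec h l l.2
    rw [beq_iff_eq, bt_eq] at this
    change bit K _ _ = _
    rw [Equiv.apply_symm_apply, bit]
    exact if_congr (this.symm ▸ (by simp [Fin.ext_iff])) rfl rfl
  simp only [JJ_mul, h3] at h2
  simp at h2

/-- two generators -/
def g2 (x z : Γ) : ℕ → Γ
  | 0 => x
  | 1 => z
  | _ + 2 => 1

section two
variable {κ : Type*} [Fintype κ] [DecidableEq κ] {n : ℕ} {R : Matrix κ κ K → Γ → Prop} (h : Rp R) (e : κ ≃ Fin n)
  {A B : ℕ} {x z : Γ} (hx : R (toM K e e A) x) (hz : R (toM K e e B) z)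
include h hx hz

theorem Rp.two : ∀ j, R (toM K e e (gt [A, B] (Bit.one n) j)) (g2 x z j)
  | 0 => hx
  | 1 => hz
  | _ + 2 => (toM_one (K := K) e).symm ▸ h.one

theorem Rp.gw (w : List ℕ) : R (toM K e e (Bit.evalW n (gt [A, B] (Bit.one n)) w.reverse)) (Inq.gw (g2 x z) w) :=
  h.evalW e (h.two e hx hz) _

theorem Rp.list {C : Subgroup Γ} (h1 : x ∈ C) (h2 : z ∈ C) {ws : List (List ℕ)} {Cs : List ℕ}
    (h3 : Cs = ws.map (Bit.evalW n (gt [A, B] (Bit.one n)))) : ∀ D ∈ Cs, ∃ c ∈ C, R (toM K e e D) c := by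
  subst h3
  intro D hD
  obtain ⟨w, -, rfl⟩ := List.mem_map.1 hD
  refine ⟨_, Subgroup.list_prod_mem _ fun u hu => ?_, h.evalW e (h.two e hx hz) w⟩
  obtain ⟨j, -, rfl⟩ := List.mem_map.1 hu
  exact match j with
    | 0 => h1
    | 1 => h2
    | _ + 2 => one_mem _

theorem Rp.eq {w w' : List ℕ} (h1 : Bit.evalW n (gt [A, B] (Bit.one n)) w = Bit.evalW n (gt [A, B] (Bit.one n)) w') :
    (w.map (g2 x z)).prod = (w'.map (g2 x z)).prod :=
  h.uniq (h.evalW e (h.two e hx hz) w) (h1 ▸ h.evalW e (h.two e hx hz) w')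

end two

/-- multiplication table of the field with four elements -/
def mc4 (x j : ℕ) : ℕ := ([[0, 1, 2, 3], [0, 2, 3, 1]].getD j []).getD (x % 4) 0

/-- multiplication table of the field with eight elements -/
def mc8 (x j : ℕ) : ℕ :=
  ([[0, 1, 2, 3, 4, 5, 6, 7], [0, 2, 4, 6, 3, 1, 7, 5], [0, 4, 3, 7, 6, 2, 5, 1]].getD j []).getD (x % 8) 0

theorem el_mod (x : ℕ) : el y d x = el y d (x % 2 ^ d) :=
  sum_congr rfl fun l hl => by simp [bit, Nat.testBit_mod_two_pow, mem_range.1 hl]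

theorem el4 : el y 2 0 = 0 ∧ el y 2 1 = 1 ∧ el y 2 2 = y ∧ el y 2 3 = y + 1 := by
  simp [el, bit, sum_range_succ, Nat.testBit_eq_decide_div_mod_eq, add_comm]

theorem el8 : el y 3 0 = 0 ∧ el y 3 1 = 1 ∧ el y 3 2 = y ∧ el y 3 3 = y + 1 ∧ el y 3 4 = y ^ 2 ∧
    el y 3 5 = y ^ 2 + 1 ∧ el y 3 6 = y ^ 2 + y ∧ el y 3 7 = y ^ 2 + y + 1 := by
  simp [el, bit, sum_range_succ, Nat.testBit_eq_decide_div_mod_eq, add_comm, add_left_comm, add_assoc]

theorem hmc4 (h : y * y = y + 1) (x : ℕ) : ∀ j < 2, el y 2 x * y ^ j = el y 2 (mc4 x j) := by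
  intro j hj
  have h2 : (2 : K) = 0 := CharTwo.two_eq_zero
  rw [el_mod x, mc4]
  have : x % 4 < 4 := Nat.mod_lt _ (by omega)
  change el y 2 (x % 4) * _ = _
  generalize x % 4 = u at *
  interval_cases u <;> interval_cases j <;> simp [el4] <;> grind

theorem hmc8 (h : y ^ 3 = y + 1) (x : ℕ) : ∀ j < 3, el y 3 x * y ^ j = el y 3 (mc8 x j) := by
  intro j hj
  have h2 : (2 : K) = 0 := CharTwo.two_eq_zero
  rw [el_mod x, mc8]
  have : x % 8 < 8 := Nat.mod_lt _ (by omega)
  change el y 3 (x % 8) * _ = _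
  generalize x % 8 = u at *
  interval_cases u <;> interval_cases j <;> simp [el8] <;> grind

end Cfsg.Agent.H7.Inq
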