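import Cfsg.Agent.H6.E7d

/-!
The order of `E₇(2)` up to a power of two.
-/

set_option autoImplicit false
set_option linter.unusedSectionVars false
set_option linter.unusedSimpArgs false

namespace Cfsg.Agent.H7.Ord

open Cfsg.Agent.H1.E8 Cfsg.Agent.H6.E7 Matrix

attribute [-simp] zsmul_eq_mul Matrix.mulVec_mulVec
attribute [local simp] mul_mulVec'

/-- the field -/
abbrev F := ZMod 2

theorem card_of_fib {Γ Y : Type*} [Group Γ] {P Q : Subgroup Γ} (hQ : Q ≤ P) (f : Γ → Y)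
    (h : ∀ g ∈ P, ∀ g' ∈ P, f g = f g' ↔ g⁻¹ * g' ∈ Q) : Nat.card P = (f '' P).ncard * Nat.card Q := by
  rw [← Subgroup.card_mul_index (Q.subgroupOf P), mul_comm, Nat.card_congr (Subgroup.subgroupOfEquivOfLe hQ).toEquiv,
    Subgroup.index_eq_card, ← Nat.card_coe_set_eq]
  congr 1
  refine Nat.card_congr (Equiv.ofBijective (Quotient.lift (fun g : P => (⟨f g, g, g.2, rfl⟩ : f '' P))
    fun a b hab => Subtype.ext ((h a a.2 b b.2).2 (QuotientGroup.leftRel_apply (s := Q.subgroupOf P).1 hab))) ⟨?_, ?_⟩)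
  · rintro ⟨a⟩ ⟨b⟩ hab
    exact Quotient.sound (QuotientGroup.leftRel_apply.2 ((h a a.2 b b.2).1 (congrArg Subtype.val hab)))
  · rintro ⟨_, g, hg, rfl⟩
    exact ⟨Quotient.mk _ ⟨g, hg⟩, rfl⟩

/-- the top weights -/
def mu (j : ℕ) : L := toL ([[2, 3, 4, 6, 5, 4, 3, 1], [2, 3, 4, 6, 5, 4, 2, 1], [2, 3, 4, 6, 5, 3, 2, 1],
  [2, 3, 4, 6, 4, 3, 2, 1], [2, 3, 4, 5, 4, 3, 2, 1], [2, 2, 4, 5, 4, 3, 2, 1], [2, 3, 3, 5, 4, 3, 2, 1]].getD j [])

theorem isW_mu : ∀ j < 7, IsW (mu j) := by decide +kernel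

theorem mu_inj : ∀ i < 7, ∀ j < 7, mu i = mu j → i = j := by decide +kernel

theorem mu_top : ∀ k < 7, ∀ l ∈ tbl, ht (mu k) < ht (toL l) → ∃ j < k, toL l = mu j := by decide +kernel

/-- the weights with the same inner products with the first `k` top weights as the next one -/
def D0 (k : ℕ) (v : L) : Prop := ∀ j < k, B (mu j) v = B (mu j) (mu k)

instance instDecD0 (k : ℕ) : DecidablePred (D0 k) :=
  fun v => inferInstanceAs (Decidable (∀ j < k, B (mu j) v = B (mu j) (mu k)))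

/-- the orbit of the next top weight -/
def D (k : ℕ) (v : L) : Prop := D0 k v ∧ (k = 5 → ∀ t ∈ tbl.map toL, D0 5 t → B v t ≠ 1)

instance instDecD (k : ℕ) : DecidablePred (D k) :=
  fun v => inferInstanceAs (Decidable (D0 k v ∧ (k = 5 → ∀ t ∈ tbl.map toL, D0 5 t → B v t ≠ 1)))

theorem D_step : ∀ k < 7, ∀ l ∈ tbl, D k (toL l) → toL l = mu k ∨
    ∃ i : Fin 8, i ≠ 7 ∧ (∀ j < k, B (al i) (mu j) = 0) ∧ B (al i) (toL l) = -1 ∧ D k (al i + toL l) := by
  decide +kernel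

theorem D_mu : ∀ k < 7, D k (mu k) := by decide +kernel

theorem D_ne : ∀ k < 7, ∀ l ∈ tbl, D k (toL l) → ∀ j < k, toL l ≠ mu j := by decide +kernel

theorem D_iso {k : ℕ} (hk : k < 7) {w : L ≃+ L} (hw : IsIso w) (h : ∀ j < k, w (mu j) = mu j) : D k (w (mu k)) := by
  refine ⟨fun j hj => by rw [← hw.iso (mu j) (mu k), h j hj], ?_⟩
  rintro rfl t ht h1
  have h2 : IsW t := by
    obtain ⟨l, hl, rfl⟩ := List.mem_map.1 ht
    exact tbl_isW l hl
  rw [← w.apply_symm_apply t, hw.iso]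
  exact (D_mu 5 hk).2 rfl _ (mem_tbl (hw.symm.isW.2 h2)) fun j hj => by
    rw [← hw.iso (mu j), h j hj, w.apply_symm_apply, h1 j hj]

/-- the flag -/
def V (k : ℕ) : Submodule F (Wt → F) where
  carrier := {z | ∀ a : Wt, (∀ j < k, a.1 ≠ mu j) → z a = 0}
  zero_mem' := fun _ _ => rfl
  add_mem' := fun ha hb a h => by simp [ha a h, hb a h]
  smul_mem' := fun c z hz a h => by simp [hz a h]

theorem V_mono {k k' : ℕ} (h : k ≤ k') : V k ≤ V k' := fun _ hz a ha => hz a fun j hj => ha j (by omega)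

theorem e_mem {j k : ℕ} (h : j < k) : e F (mu j) ∈ V k := fun a ha => if_neg (ha j h)

theorem V_ind {k : ℕ} (hk : k ≤ 7) {W : Submodule F (Wt → F)} {g : Matrix Wt Wt F}
    (h : ∀ j < k, g *ᵥ e F (mu j) ∈ W) {z : Wt → F} (hz : z ∈ V k) : g *ᵥ z ∈ W := by
  classical
  rw [pi_eq_sum_univ' z, mulVec_sum]
  refine sum_mem fun a _ => ?_
  rw [mulVec_smul]
  by_cases ha : ∀ j < k, a.1 ≠ mu j
  · rw [hz a ha, zero_smul]; exact zero_mem _
  · push Not at ha
    obtain ⟨j, hj, e1⟩ := ha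
    refine W.smul_mem _ ?_
    convert h j hj using 2
    rw [← e1, e_single]

/-- a submonoid of a finite group -/
def subOfFin {Γ : Type*} [Group Γ] [Finite Γ] (S : Submonoid Γ) : Subgroup Γ :=
  { S with inv_mem' := fun {x} hx => Submonoid.powers_le.2 hx
            (mem_powers_iff_mem_zpowers.2 (inv_mem (Subgroup.mem_zpowers x))) }

/-- the stabiliser of the flag -/
noncomputable def P (k : ℕ) : Subgroup (GL Wt F) :=
  G F ⊓ subOfFin {
    carrier := {g : GL Wt F | ∀ j < k, j < 7 → g.1 *ᵥ e F (mu j) - e F (mu j) ∈ V j}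
    one_mem' := fun j _ _ => by simp
    mul_mem' := fun {g g'} hg hg' j hj h7 => by
      have h1 := V_ind (k := j) (W := V j) (g := g.1) h7.le (fun i hi => by
        simpa using (V j).add_mem (V_mono hi.le (hg i (by omega) (by omega))) (e_mem hi)) (hg' j hj h7)
      simpa [mulVec_sub] using (V j).add_mem h1 (hg j hj h7) }

theorem mem_P {k : ℕ} {g : GL Wt F} :
    g ∈ P k ↔ g ∈ G F ∧ ∀ j < k, j < 7 → g.1 *ᵥ e F (mu j) - e F (mu j) ∈ V j := Iff.rfl

theorem P_zero : P 0 = G F := by ext g; simp [mem_P]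

theorem P_le (k : ℕ) : P (k + 1) ≤ P k := fun _ hg => ⟨hg.1, fun j hj => hg.2 j (by omega)⟩

theorem P_V {k : ℕ} (hk : k ≤ 7) {g : GL Wt F} (hg : g ∈ P k) {z : Wt → F} (hz : z ∈ V k) : g.1 *ᵥ z ∈ V k :=
  V_ind hk (fun i hi => by
    simpa using (V k).add_mem (V_mono hi.le ((mem_P.1 hg).2 i hi (by omega))) (e_mem hi)) hz

theorem P_V' {k : ℕ} (hk : k ≤ 7) {g : GL Wt F} (hg : g ∈ P k) {z : Wt → F} (hz : g.1 *ᵥ z ∈ V k) : z ∈ V k := by
  simpa [mulVec_mulVec] using P_V hk ((P k).inv_mem hg) hz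

theorem U_le_G : gp F Pos ≤ G F := (gp_mono fun _ _ _ => trivial).trans le_sup_left

theorem U_le (k : ℕ) : gp F Pos ≤ P k := fun u hu => ⟨U_le_G hu, fun j _ h7 a ha => by
  have h1 : ht a.1 ≤ ht (mu j) := by
    by_contra! hc
    obtain ⟨l, hl, e1⟩ := List.mem_map.1 (mem_tbl a.2)
    obtain ⟨i, hi, e2⟩ := mu_top j h7 l hl (e1 ▸ hc)
    exact ha i hi (e1 ▸ e2)
  rw [Pi.sub_apply, mulVec_e u.1 a ⟨_, isW_mu j h7⟩, tri_of_mem hu a ⟨_, isW_mu j h7⟩ h1,
    ← mulVec_e 1 a ⟨_, isW_mu j h7⟩, one_mulVec, sub_self]⟩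

theorem zo (c : F) : c = 0 ∨ c = 1 := by revert c; decide

theorem one_of_ne {c : F} (h : c ≠ 0) : c = 1 := by revert c; decide

theorem Act.he1 {g : GL Wt F} {w : L ≃+ L} {χ : L → F} (a : Act g w χ) (v : L) : g.1 *ᵥ e F v = e F (w v) := by
  rw [a.he', one_of_ne (a.ch.ne v), one_smul]

theorem fix_of_P {k : ℕ} {g : GL Wt F} {w : L ≃+ L} {χ : L → F} (a : Act g w χ) (hg : g ∈ P k) {j : ℕ} (hj : j < k)
    (h7 : j < 7) : w (mu j) = mu j := by
  have := (mem_P.1 hg).2 j hj h7 ⟨_, isW_mu j h7⟩ fun i hi e1 => by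
    have := mu_inj j h7 i (by omega) e1
    omega
  rw [Act.he1 a] at this
  by_contra hc
  simp [e, Ne.symm hc] at this

/-- orbits of the unipotent group on the quotient -/
def S (k : ℕ) (v : L) : Set ((Wt → F) ⧸ V k) := (fun u : GL Wt F => (V k).mkQ (u.1 *ᵥ e F v)) '' gp F Pos

theorem S_top {k : ℕ} (hk : k < 7) : S k (mu k) = {(V k).mkQ (e F (mu k))} := by
  ext x
  constructor
  · rintro ⟨u, hu, rfl⟩
    exact (Submodule.Quotient.eq _).2 ((mem_P.1 (U_le (k + 1) hu)).2 k (by omega) hk)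
  · rintro rfl
    exact ⟨1, one_mem _, by simp⟩

/-- action on the quotient -/
noncomputable def φ {k : ℕ} (hk : k ≤ 7) {g : GL Wt F} (hg : g ∈ P k) : (Wt → F) ⧸ V k →ₗ[F] (Wt → F) ⧸ V k :=
  (V k).mapQ (V k) (toLin' g.1) fun _ hz => P_V hk hg hz

theorem φ_mk {k : ℕ} (hk : k ≤ 7) {g : GL Wt F} (hg : g ∈ P k) (z : Wt → F) :
    φ hk hg ((V k).mkQ z) = (V k).mkQ (g.1 *ᵥ z) := rfl

theorem φ_inj {k : ℕ} (hk : k ≤ 7) {g : GL Wt F} (hg : g ∈ P k) : Function.Injective (φ hk hg) := by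
  refine (injective_iff_map_eq_zero _).2 fun x hx => ?_
  obtain ⟨z, rfl⟩ := (V k).mkQ_surjective x
  exact (Submodule.Quotient.mk_eq_zero _).2 (P_V' hk hg ((Submodule.Quotient.mk_eq_zero _).1 hx))

theorem coord_eq {k : ℕ} {z z' : Wt → F} (h : (V k).mkQ z = (V k).mkQ z') {a : Wt} (ha : ∀ j < k, a.1 ≠ mu j) :
    z a = z' a := sub_eq_zero.1 ((Submodule.Quotient.eq _).1 h a ha)

section step
variable {k : ℕ} (hk : k ≤ 7) {i : Fin 8} (hi : i ≠ 7) (h0 : ∀ j < k, B (al i) (mu j) = 0)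
include hk hi h0

theorem X_mem_P (c : F) : X (al i) c ∈ P k :=
  U_le k (X_mem (IsR.al hi) (pos_al i) c)

theorem N_mem_P : N (al i) 1 ∈ P k := by
  refine ⟨(le_sup_left : gp F _ ≤ G F) (mul_mem (mul_mem (X_mem (IsR.al hi) trivial _)
    (X_mem (IsR.al hi).neg trivial _)) (X_mem (IsR.al hi) trivial _)), fun j hj _ => ?_⟩
  rw [Act.he1 (act_N (IsR.al hi) one_ne_zero), rfE_apply, rf, h0 j hj]
  simp

theorem card_step {v : L} (hv : IsW v) (h1 : B (al i) v = -1) : (S k v).ncard = 2 * (S k (al i + v)).ncard := by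
  have hα := IsR.al hi
  have hv' : IsW (al i + v) := (isW_add hα hv).2 h1
  have hn := act_N (K := F) hα one_ne_zero
  have e1 : (N (al i) (1 : F)).1 *ᵥ e F (al i + v) = e F v := by
    rw [Act.he1 hn, rfE_apply, rf]; simp [h1, B_al]
  have e2 : ∀ c : F, (X (al i) c).1 *ᵥ e F (al i + v) = e F (al i + v) := fun c => by
    rw [coe_X hα, x_e hα hv', if_neg (by simp [h1, B_al]), add_zero]
  have hs : ∀ {g : GL Wt F}, g ∈ gp F Pos → ∃ c, X (al i) c * g ∈ gp F (fun r => Pos r ∧ r ≠ al i) := fun hg =>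
    exists_split (S := fun r => Pos r ∧ r ≠ al i) (S' := Pos) hα
      (fun r hr hS => ⟨fun e => not_pos_neg hr.1 hS.1 (by rw [e, neg_neg]; exact pos_al i),
        fun _ => ⟨pos_add (pos_al i) hS.1, fun e => root_ne_zero hr.1 (by simpa using e)⟩⟩)
      (fun r _ hp => by tauto) hg
  have hc : ∀ {n : GL Wt F} {χ : L → F} {g : GL Wt F}, Act n (rfE hα) χ → g ∈ gp F (fun r => Pos r ∧ r ≠ al i) →
      n * g * n⁻¹ ∈ gp F Pos := fun hn hg => hn.conj_mem (S' := Pos) (fun r hr hS => pos_rf hr.1 hS.1 hS.2) hg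
  have hn' : Act (N (al i) (1 : F))⁻¹ (rfE hα) fun v => (1 ^ (-B (al i) ((rfE hα).symm v)))⁻¹ := by
    convert hn.inv using 1
    ext1 v
    rw [eq_comm, AddEquiv.symm_apply_eq, rfE_apply, rfE_apply, rf_rf hα.1]
  have hN := N_mem_P hk hi h0
  have hXN : ∀ c : F, X (al i) c * N (al i) 1 ∈ P k := fun c => mul_mem (X_mem_P hk hi h0 c) hN
  have key : S k v = φ hk (hXN 0) '' S k (al i + v) ∪ φ hk (hXN 1) '' S k (al i + v) := by
    ext y
    constructor
    · rintro ⟨u, hu, rfl⟩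
      obtain ⟨c, h2⟩ := hs hu
      have h3 : φ hk (hXN c) ((V k).mkQ (((N (al i) (1 : F))⁻¹ * (X (al i) c * u) * (N (al i) 1)⁻¹⁻¹).1 *ᵥ
          e F (al i + v))) = (V k).mkQ (u.1 *ᵥ e F v) := by
        rw [φ_mk, mulVec_mulVec, ← Units.val_mul, inv_inv, ← e1, mulVec_mulVec, ← Units.val_mul]
        simp [mul_assoc, ← mul_assoc (X (al i) c) (X (al i) c), X_X]
      have h4 : c = 0 ∨ c = 1 := zo c
      rcases h4 with rfl | rfl
      · exact Or.inl ⟨_, ⟨_, hc hn' h2, rfl⟩, h3⟩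
      · exact Or.inr ⟨_, ⟨_, hc hn' h2, rfl⟩, h3⟩
    · have h5 : ∀ c : F, y ∈ φ hk (hXN c) '' S k (al i + v) → y ∈ S k v := by
        rintro c ⟨_, ⟨u, hu, rfl⟩, rfl⟩
        obtain ⟨d, h2⟩ := hs (inv_mem hu)
        have h3 := hc hn (inv_mem h2)
        refine ⟨_, mul_mem (X_mem hα (pos_al i) c) h3, ?_⟩
        have h4 : (X (al i) c * (N (al i) 1 * (X (al i) d * u⁻¹)⁻¹ * (N (al i) 1)⁻¹)) * N (al i) 1 =
            X (al i) c * N (al i) 1 * u * X (al i) d := by simp [mul_assoc]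
        change (V k).mkQ _ = (V k).mkQ _
        rw [← e1, mulVec_mulVec, ← Units.val_mul, h4]
        simp only [Units.val_mul, mul_mulVec', e2, toLin'_apply]
      rintro (h | h)
      exacts [h5 _ h, h5 _ h]
  have hA : ∀ j < k, (⟨_, hv'⟩ : Wt).1 ≠ mu j := fun j hj e3 => by
    have := h0 j hj
    rw [← e3] at this
    simp [h1, B_al] at this
  have h6 : ∀ (c : F) u, u ∈ gp F Pos → ((X (al i) c * N (al i) 1).1 *ᵥ u.1 *ᵥ e F (al i + v)) ⟨_, hv'⟩ = c := by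
    intro c u hu
    have h7 : ∀ a : Wt, ((N (al i) (1 : F)).1 *ᵥ u.1 *ᵥ e F (al i + v)) (hn.iso.perm a) = u.1 a ⟨_, hv'⟩ := fun a => by
      rw [← mulVec_e u.1 a ⟨_, hv'⟩]
      simp [mulVec, dotProduct, hn.entry]
    have h8 : hn.iso.perm ⟨_, hv⟩ = ⟨_, hv'⟩ := Subtype.ext (by simp [rf, B_comm v, h1, add_comm])
    have h9 : hn.iso.perm ⟨_, hv'⟩ = ⟨_, hv⟩ := Subtype.ext (by simp [rf, B_comm v, h1, B_al])
    have h10 := h7 ⟨_, hv⟩
    have h11 := h7 ⟨_, hv'⟩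
    rw [h8, tri_of_mem hu _ _ (by simp [ht_add, ht_al]), one_apply_ne (fun e => root_ne_zero hα.1 (by
      simpa [Subtype.ext_iff] using e))] at h10
    rw [h9, tri_of_mem hu _ _ le_rfl, one_apply_eq] at h11
    rw [Units.val_mul, mul_mulVec']
    generalize (N (al i) (1 : F)).1 *ᵥ u.1 *ᵥ e F (al i + v) = z at *
    rw [coe_X hα, x, add_mulVec, one_mulVec, smul_mulVec, Pi.add_apply, h10,
      Pi.smul_apply, mulVec, dotProduct, Finset.sum_eq_single ⟨_, hv⟩ (fun b _ hb => by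
        simp [E, Subtype.ext_iff, Ne.symm (Subtype.coe_ne_coe.2 hb)]) (by simp)]
    simp [E, h11]
  rw [key, Set.ncard_union_eq, Set.ncard_image_of_injective _ (φ_inj _ _),
    Set.ncard_image_of_injective _ (φ_inj _ _), two_mul]
  rw [Set.disjoint_left]
  rintro _ ⟨_, ⟨u, hu, rfl⟩, rfl⟩ ⟨_, ⟨u', hu', rfl⟩, e3⟩
  have := coord_eq e3 hA
  rw [toLin'_apply, toLin'_apply, h6 _ _ hu, h6 _ _ hu'] at this
  exact one_ne_zero this

end step

theorem ht_le {t : L} (h : IsW t) : ht t ≤ 28 := by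
  obtain ⟨l, hl, rfl⟩ := List.mem_map.1 (mem_tbl h)
  revert l
  decide +kernel

theorem orbit {k : ℕ} (hk : k < 7) {v : L} (hv : IsW v) (hD : D k v) :
    (S k v).ncard = 2 ^ (ht (mu k) - ht v).toNat ∧ ht v ≤ ht (mu k) ∧
      ∃ n ∈ P k, n.1 *ᵥ e F (mu k) = e F v := by
  have key : ∀ m : ℕ, ∀ v, IsW v → D k v → 28 - ht v = m → (S k v).ncard = 2 ^ (ht (mu k) - ht v).toNat ∧
      ht v ≤ ht (mu k) ∧ ∃ n ∈ P k, n.1 *ᵥ e F (mu k) = e F v := fun m => by
    induction m using Nat.strong_induction_on with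
    | _ m ih =>
      intro v hv hD hm
      obtain ⟨l, hl, rfl⟩ := List.mem_map.1 (mem_tbl hv)
      rcases D_step k hk l hl hD with h | ⟨i, hi, h0, h1, h2⟩
      · rw [h, S_top hk]
        exact ⟨by simp, le_rfl, 1, one_mem _, by simp⟩
      · have hv' := (isW_add (IsR.al hi) hv).2 h1
        have h3 : ht (al i + toL l) = ht (toL l) + 1 := by rw [ht_add, ht_al, add_comm]
        have h4 := ht_le hv'
        obtain ⟨h5, h6, n, hn, h7⟩ := ih (28 - ht (al i + toL l)).toNat (by omega) _ hv' h2 (by omega)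
        refine ⟨?_, by omega, N (al i) 1 * n, mul_mem (N_mem_P hk.le hi h0) hn, ?_⟩
        · rw [card_step hk.le hi h0 hv h1, h5, ← pow_succ']
          congr 1
          omega
        · rw [Units.val_mul, mul_mulVec', h7, Act.he1 (act_N (IsR.al hi) one_ne_zero), rfE_apply, rf]
          simp [h1, B_al]
  have := ht_le hv
  exact key (28 - ht v).toNat v hv hD (by omega)

/-- the index -/
def idx (k : ℕ) : ℕ := (tbl.map fun l => if D k (toL l) then 2 ^ (ht (mu k) - ht (toL l)).toNat else 0).sum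

theorem card_P {k : ℕ} (hk : k < 7) : Nat.card (P k) = idx k * Nat.card (P (k + 1)) := by
  classical
  rw [card_of_fib (P_le k) (fun g => (V k).mkQ (g.1 *ᵥ e F (mu k))) fun g hg g' hg' => ?_]
  swap
  · have h1 := mul_mem (inv_mem hg) hg'
    have h2 : (V k).mkQ (g.1 *ᵥ e F (mu k)) = (V k).mkQ (g'.1 *ᵥ e F (mu k)) ↔
        (g⁻¹ * g').1 *ᵥ e F (mu k) - e F (mu k) ∈ V k := by
      rw [eq_comm, ← (φ_inj hk.le (inv_mem hg)).eq_iff, φ_mk, φ_mk, Submodule.mkQ_apply, Submodule.mkQ_apply,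
        Submodule.Quotient.eq, mulVec_mulVec, mulVec_mulVec, ← Units.val_mul, ← Units.val_mul, inv_mul_cancel,
        Units.val_one, one_mulVec]
    rw [h2]
    refine ⟨fun h => ⟨h1.1, fun j hj h7 => ?_⟩, fun h => (mem_P.1 h).2 k (by omega) hk⟩
    rcases Nat.lt_succ_iff_lt_or_eq.1 hj with h3 | rfl
    exacts [(mem_P.1 h1).2 j h3 h7, h]
  refine congrArg (· * Nat.card (P (k + 1))) ?_
  have hA : ∀ t : Wt, D k t.1 → ∀ j < k, t.1 ≠ mu j := fun t ht => by
    obtain ⟨l, hl, e1⟩ := List.mem_map.1 (mem_tbl t.2)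
    exact e1 ▸ D_ne k hk l hl (e1 ▸ ht)
  have key : (fun g : GL Wt F => (V k).mkQ (g.1 *ᵥ e F (mu k))) '' P k =
      ⋃ t ∈ {t : Wt | D k t.1}, S k t.1 := by
    ext y
    simp only [Set.mem_iUnion, Set.mem_ofPred_eq]
    constructor
    · rintro ⟨g, hg, rfl⟩
      obtain ⟨u, hu, n, ⟨w, χ, hn⟩, u', hu', rfl⟩ := bruhat (mem_P.1 hg).1
      have h1 : n ∈ P k := by
        simpa [mul_assoc] using mul_mem (mul_mem (inv_mem (U_le k hu)) hg) (inv_mem (U_le k hu'))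
      refine ⟨⟨w (mu k), hn.iso.isW.2 (isW_mu k hk)⟩, D_iso hk hn.iso fun j hj => fix_of_P hn h1 hj (by omega),
        u, hu, ?_⟩
      have h2 := congrArg (φ hk.le (mul_mem (U_le k hu) h1))
        ((Submodule.Quotient.eq _).2 ((mem_P.1 (U_le (k + 1) hu')).2 k (by omega) hk))
      simp only [← Submodule.mkQ_apply, φ_mk] at h2
      simp only [Units.val_mul, mul_mulVec'] at h2 ⊢
      rw [h2, Act.he1 hn]
    · rintro ⟨t, ht, u, hu, rfl⟩
      obtain ⟨-, -, n, hn, h1⟩ := orbit hk t.2 ht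
      exact ⟨u * n, mul_mem (U_le k hu) hn, by simp [h1]⟩
  have hd : ∀ t t' : Wt, D k t.1 → t ≠ t' → ht t.1 ≤ ht t'.1 → Disjoint (S k t.1) (S k t'.1) := by
    intro t t' h1 h2 h3
    rw [Set.disjoint_left]
    rintro _ ⟨u, hu, rfl⟩ ⟨u', hu', e3⟩
    have := coord_eq e3 (hA t h1)
    rw [mulVec_e, mulVec_e, tri_of_mem hu' _ _ h3, tri_of_mem hu _ _ le_rfl, one_apply_eq, one_apply_ne h2] at this
    exact zero_ne_one this
  rw [key, (Set.toFinite _).ncard_biUnion (fun _ _ => Set.toFinite _) fun t h2 t' h3 h => ?_,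
    idx, ← sum_W fun v => if D k v then 2 ^ (ht (mu k) - ht v).toNat else 0, ← finsum_eq_sum_of_fintype]
  · refine finsum_congr fun t => ?_
    by_cases h : D k t.1
    · simp [h, (orbit hk t.2 h).1]
    · simp [h]
  · rcases le_total (ht t.1) (ht t'.1) with h1 | h1
    exacts [hd t t' h2 h h1, (hd t' t h3 h.symm h1).symm]

theorem idx_eq : idx 0 = 277347807 ∧ idx 1 = 139503 ∧ idx 2 = 2295 ∧ idx 3 = 155 ∧ idx 4 = 21 ∧ idx 5 = 1 ∧
    idx 6 = 3 := by decide +kernel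

theorem P_seven : P 7 ≤ gp F Pos := fun g hg => by
  obtain ⟨u, hu, n, ⟨w, χ, hn⟩, u', hu', rfl⟩ := bruhat (mem_P.1 hg).1
  have h1 : n ∈ P 7 := by
    simpa [mul_assoc] using mul_mem (mul_mem (inv_mem (U_le 7 hu)) hg) (inv_mem (U_le 7 hu'))
  have h2 : ∀ j < 7, w (mu j) = mu j := fun j hj => fix_of_P hn h1 hj hj
  let A : AddSubgroup L := w.toAddMonoidHom.eqLocus (AddMonoidHom.id L)
  have h3 : ∀ j < 7, mu j ∈ A := h2
  have h4 : θ ∈ A := hn.iso.hθ
  have h5 : ∀ j : Fin 8, j ≠ 0 → ∃ i < 7, ∃ i' < 7, al j = mu i - mu i' ∨ al j = θ - mu i := by decide +kernel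
  have h6 : ∀ j : Fin 8, j ≠ 0 → al j ∈ A := fun j hj => by
    obtain ⟨i, hi, i', hi', h | h⟩ := h5 j hj
    exacts [h ▸ sub_mem (h3 i hi) (h3 i' hi'), h ▸ sub_mem h4 (h3 i hi)]
  have h7 : (2 : ℤ) • al 0 ∈ A := by
    rw [show (2 : ℤ) • al 0 = θ - ((3 : ℤ) • al 1 + (4 : ℤ) • al 2 + (6 : ℤ) • al 3 + (5 : ℤ) • al 4 +
      (4 : ℤ) • al 5 + (3 : ℤ) • al 6 + (2 : ℤ) • al 7) by decide +kernel]
    refine sub_mem h4 ?_
    repeat' first | apply add_mem | exact zsmul_mem (h6 _ (by decide)) _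
  have h8 : ∀ v, w v = v := span_al (S := A) fun j => by
    by_cases hj : j = 0
    · subst hj
      have : (2 : ℤ) • w (al 0) = (2 : ℤ) • al 0 := (map_zsmul w _ _).symm.trans h7
      exact smul_right_injective L two_ne_zero this
    · exact h6 j hj
  have h9 : n = 1 := Units.ext (mext fun t _ => by rw [Act.he1 hn, h8, Units.val_one, one_mulVec])
  rw [h9, mul_one]
  exact mul_mem hu hu'

theorem pow_of_tri {u : Matrix Wt Wt F} (h : Tri u) : u ^ 32 = 1 := by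
  have h1 : ∀ n : ℕ, ∀ a b : Wt, ht a.1 < ht b.1 + n → ((u - 1) ^ n) a b = 0 := fun n => by
    induction n with
    | zero => intro a b hab; rw [pow_zero, one_apply_ne]; rintro rfl; simp at hab
    | succ n ih =>
      intro a b hab
      rw [pow_succ, mul_apply]
      refine Finset.sum_eq_zero fun c _ => ?_
      by_cases hc : ht c.1 ≤ ht b.1
      · rw [Matrix.sub_apply, h c b hc, sub_self, mul_zero]
      · rw [ih a c (by push_cast at hab; omega), zero_mul]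
  have h2 : (u - 1) ^ 2 ^ 5 = 0 := by
    ext a b
    have := ht_le a.2
    have := ht_nonneg (pos_of_coord b.2.1 (i := 7) (by rw [b.2.2]; omega))
    exact h1 _ a b (by push_cast; omega)
  have : Nonempty Wt := ⟨⟨_, isW_mu 0 (by omega)⟩⟩
  rwa [sub_pow_char_pow_of_commute _ _ (Commute.one_right u), one_pow, sub_eq_zero] at h2

theorem card_G : ∃ m, Nat.card (G F) = 277347807 * 139503 * 2295 * 155 * 21 * 3 * 2 ^ m := by
  have h : IsPGroup 2 (P 7) := fun g => ⟨5, Subtype.ext (Units.ext (pow_of_tri (tri_of_mem (P_seven g.2))))⟩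
  obtain ⟨m, hm⟩ := IsPGroup.iff_card.1 h
  obtain ⟨h0, h1, h2, h3, h4, h5, h6⟩ := idx_eq
  refine ⟨m, ?_⟩
  rw [← P_zero, card_P (k := 0) (by omega), card_P (k := 1) (by omega), card_P (k := 2) (by omega),
    card_P (k := 3) (by omega), card_P (k := 4) (by omega), card_P (k := 5) (by omega), card_P (k := 6) (by omega),
    h0, h1, h2, h3, h4, h5, h6, hm]
  ring

end Cfsg.Agent.H7.Ord
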