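import Cfsg.Agent.H7.Ord1
import Cfsg.Agent.H7.Inq
import Cfsg.Agent.H6.E7g

/-!
The embedding of `E₇(2)` in the 56-dimensional group, and coded matrices.
-/

set_option autoImplicit false
set_option linter.unusedSectionVars false
set_option linter.unusedSimpArgs false
set_option maxRecDepth 10000

namespace Cfsg.Agent.H7.Ord

open Cfsg.Agent.H1.E8 Cfsg.Agent.H6.E7 Cfsg.Agent.H7.Bit Cfsg.Lie Matrix

attribute [-simp] zsmul_eq_mul Matrix.mulVec_mulVec
attribute [local simp] mul_mulVec'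

theorem exists_R : ∀ i : Fin 8, i ≠ 7 → (∃ r < 126, R r = al i) ∧ ∃ r < 126, R r = -al i := by decide +kernel

theorem eq_one_of_lift {f : GL Wt F} (h : Lift (rho F) 1 f) : f = 1 := by
  have h1 : ∀ r < 126, E F (R r) * f.1 = f.1 * E F (R r) := fun r hr => by
    have := h (Pi.single (.inr ⟨r, hr⟩) 1)
    have e2 : rb F (eA (.inr ⟨r, hr⟩)) = E F (R r) := by
      rw [show (eA (.inr ⟨r, hr⟩) : ℕ) = 7 + r from rfl, rb, if_neg (by omega), add_tsub_cancel_left]
    have h2 : rho F (Pi.single (.inr ⟨r, hr⟩) 1) = rb F (eA (.inr ⟨r, hr⟩)) := by simp [rho]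
    rw [one_mulVec, h2, e2] at this
    exact this
  have h2 : ∀ i : Fin 8, i ≠ 7 → E F (al i) * f.1 = f.1 * E F (al i) ∧ E F (-al i) * f.1 = f.1 * E F (-al i) :=
    fun i hi => by
      obtain ⟨⟨r, hr, e1⟩, s, hs, e2⟩ := exists_R i hi
      exact ⟨e1 ▸ h1 r hr, e2 ▸ h1 s hs⟩
  have h0 := isW_mu 0 (by omega)
  have h3 : ∀ t, IsW t → t = mu 0 ∨ ∃ i : Fin 8, i ≠ 7 ∧ B (al i) t = -1 := fun t ht => by
    obtain ⟨l, hl, rfl⟩ := List.mem_map.1 (mem_tbl ht)
    exact (D_step 0 (by omega) l hl ⟨fun _ h => absurd h (by omega), fun h => absurd h (by omega)⟩).imp_right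
      fun ⟨i, h1, _, h2, _⟩ => ⟨i, h1, h2⟩
  have h4 : ∀ a : Wt, a.1 ≠ mu 0 → f.1 a ⟨_, h0⟩ = 0 := fun a ha => by
    obtain ⟨i, hi, h5⟩ := (h3 a.1 a.2).resolve_left ha
    have h6 : B (al i) (mu 0) ≠ -1 := (by decide +kernel : ∀ i : Fin 8, i ≠ 7 → B (al i) (mu 0) ≠ -1) i hi
    have := congrFun (congrArg (· *ᵥ e F (mu 0)) (h2 i hi).1) ⟨_, (isW_add (IsR.al hi) a.2).2 h5⟩
    simp only [mul_mulVec', E_e (IsR.al hi) h0, if_neg h6, mulVec_zero, Pi.zero_apply] at this
    rw [mulVec, dotProduct, Finset.sum_eq_single a (fun b _ hb => by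
      simp [E, Subtype.ext_iff, Ne.symm (Subtype.coe_ne_coe.2 hb)]) (by simp), mulVec_e f.1 a ⟨_, h0⟩] at this
    simpa [E] using this
  have h5 : f.1 *ᵥ e F (mu 0) = e F (mu 0) := by
    have h6 : f.1 ⟨_, h0⟩ ⟨_, h0⟩ ≠ 0 := fun h6 => by
      have := congrFun (congrFun f.inv_mul ⟨_, h0⟩) ⟨_, h0⟩
      rw [mul_apply, Finset.sum_eq_zero fun b _ => ?_] at this
      · simp at this
      · by_cases hb : b.1 = mu 0
        · rw [show b = ⟨_, h0⟩ from Subtype.ext hb, h6, mul_zero]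
        · rw [h4 b hb, mul_zero]
    funext a
    rw [mulVec_e f.1 a ⟨_, h0⟩, e]
    split_ifs with ha
    · rw [show a = ⟨_, h0⟩ from Subtype.ext ha, one_of_ne h6]
    · exact h4 a ha
  have key : ∀ m : ℕ, ∀ t, IsW t → 28 - ht t = m → f.1 *ᵥ e F t = e F t := fun m => by
    induction m using Nat.strong_induction_on with
    | _ m ih =>
      intro t h6 hm
      rcases h3 t h6 with rfl | ⟨i, hi, h7⟩
      · exact h5
      · have h8 := (isW_add (IsR.al hi) h6).2 h7
        have h9 : ht (al i + t) = ht t + 1 := by rw [ht_add, ht_al, add_comm]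
        have h10 := ht_le h8
        have := congrArg (· *ᵥ e F (al i + t)) (h2 i hi).2
        simp only [mul_mulVec', ih (28 - ht (al i + t)).toNat (by omega) _ h8 (by omega), E_e' _ h8,
          neg_add_cancel_left] at this
        exact this.symm
  exact Units.ext (mext fun t ht => by
    have := ht_le ht
    rw [key _ t ht (Int.toNat_of_nonneg (by omega)).symm, Units.val_one, one_mulVec])

theorem lift_uniq {g : GL chevE7.Idx F} {f f' : GL Wt F} (h : Lift (rho F) g f) (h' : Lift (rho F) g f') : f = f' := by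
  have := h.inv.mul h'
  rw [← Units.val_mul, ← Units.val_mul, inv_mul_cancel] at this
  exact inv_mul_eq_one.1 (eq_one_of_lift this)

theorem exists_emb : ∃ ψ : chevE7.group F →* G F, Function.Injective ψ := by
  choose f h1 h2 using fun g : chevE7.group F => exists_lift g.2
  refine ⟨MonoidHom.mk' (fun g => ⟨f g, (le_sup_left : gp F _ ≤ G F) (h1 g)⟩) fun a b =>
    Subtype.ext (lift_uniq (h2 (a * b)) ((h2 a).mul (h2 b))), fun a b h => Subtype.ext (Units.ext ?_)⟩
  exact Lift.uniq rho_inj (f a).isUnit (h2 a) (by rw [show f a = f b from congrArg Subtype.val h]; exact h2 b)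

/-- the weights -/
def wt (i : ℕ) : L := toL (tbl.getD i [])

theorem isW_wt : ∀ i < 56, IsW (wt i) := by decide +kernel

/-- numbering of the weights -/
noncomputable def eW : Wt ≃ Fin 56 := (Equiv.ofBijective (fun i : Fin 56 => (⟨wt i, isW_wt i i.2⟩ : Wt)) ⟨fun i j h => by
  have h1 : ∀ i : Fin (tbl.map toL).length, wt i = (tbl.map toL).get i := by decide +kernel
  exact (List.nodup_iff_injective_get.1 tbl_nodup) ((h1 i).symm.trans ((congrArg Subtype.val h).trans (h1 j))),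
  fun t => by
    obtain ⟨l, hl, e⟩ := List.mem_map.1 (mem_tbl t.2)
    obtain ⟨i, hi, rfl⟩ := List.getElem_of_mem hl
    exact ⟨⟨i, hi⟩, Subtype.ext (by simpa [wt, hi] using e)⟩⟩).symm

theorem wt_eW (t : Wt) : wt (eW t) = t.1 := congrArg Subtype.val (eW.symm_apply_apply t)

theorem e_wt {i : ℕ} (hi : i < 56) : e F (wt i) = toV F eW (Nat.pow 2 i) := by
  have := toV_pow (K := F) eW (eW.symm ⟨i, hi⟩)
  rw [Equiv.apply_symm_apply] at this
  rw [this, ← e_single]
  rfl

/-- check of a root element -/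
def XChk (r : L) (A : ℕ) : Prop := IsR r ∧ ∀ b < 56, (B r (wt b) ≠ -1 ∧ Bit.col 56 A b = Nat.pow 2 b) ∨
  (B r (wt b) = -1 ∧ Nat.log2 (Nat.xor (Bit.col 56 A b) (Nat.pow 2 b)) < 56 ∧
    r + wt b = wt (Nat.log2 (Nat.xor (Bit.col 56 A b) (Nat.pow 2 b))) ∧
    Bit.col 56 A b = Nat.xor (Nat.pow 2 b) (Nat.pow 2 (Nat.log2 (Nat.xor (Bit.col 56 A b) (Nat.pow 2 b)))))

instance instDecXChk (r : L) (A : ℕ) : Decidable (XChk r A) := by unfold XChk; infer_instance

theorem X_eq {r : L} {A : ℕ} (h : XChk r A) : (X r (1 : F)).1 = toM F eW eW A := by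
  rw [coe_X h.1]
  refine mext fun t ht => ?_
  have h1 : toM F eW eW A *ᵥ e F t = toV F eW (Bit.col 56 A (eW ⟨t, ht⟩)) := by
    funext a
    rw [mulVec_e _ a ⟨t, ht⟩, toV_col eW eW]
  have h2 := h.2 _ (eW ⟨t, ht⟩).2
  have h3 := e_wt (eW ⟨t, ht⟩).2
  rw [wt_eW] at h2 h3
  rw [h1, x_e h.1 ht]
  rcases h2 with ⟨h4, h5⟩ | ⟨h4, h5, h6, h7⟩
  · rw [if_neg h4, h5, add_zero, h3]
  · rw [if_pos h4, h7, toV_xor, one_smul, h6, e_wt h5, h3]

/-- the group -/
noncomputable abbrev Γ := G F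

/-- the representation -/
noncomputable def ρV : Γ →* Matrix Wt Wt F := (Units.coeHom _).comp (G F).subtype

theorem ρV_inj : Function.Injective ρV := fun _ _ h => Subtype.ext (Units.ext h)

theorem ρV_evalW {X : ℕ → ℕ} {y : ℕ → Γ} (h : ∀ j, ρV (y j) = toM F eW eW (X j)) (w : List ℕ) :
    ρV (w.map y).prod = toM F eW eW (evalW 56 X w) := by
  rw [toM_evalW, map_list_prod, List.map_map]
  exact congrArg _ (List.map_congr_left fun j _ => h j)

theorem card_W : Fintype.card Wt = 56 := by simpa using Fintype.card_congr eW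

end Cfsg.Agent.H7.Ord
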