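import Cfsg.Agent.H7.Ord3

/-!
Sylow subgroups of `E₇(2)` for the primes five and seven.
-/

set_option autoImplicit false
set_option linter.unusedSectionVars false
set_option linter.unusedSimpArgs false

namespace Cfsg.Agent.H7.Ord

open Cfsg.Agent.H1.E8 Cfsg.Agent.H6.E7 Cfsg.Agent.H7.Inq
open Cfsg.Agent.H7.Bit hiding app
open Cfsg.Agent.H4.BP hiding app

section gen
variable {Λ : Type*} [Group Λ] {p : ℕ} [hp : Fact p.Prime]

/-- powers with exponents modulo `p` -/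
def zp {a : Λ} (ha : a ^ p = 1) : Multiplicative (ZMod p) →* Λ :=
  MonoidHom.mk' (fun i => a ^ i.toAdd.val) fun i j => by
    rw [toAdd_mul, ZMod.val_add, ← pow_add, ← pow_eq_pow_mod _ ha]

theorem zp_nat {a : Λ} (ha : a ^ p = 1) (i : ℕ) : zp ha (.ofAdd (i : ZMod p)) = a ^ i := by
  change a ^ (i : ZMod p).val = _
  rw [ZMod.val_natCast, ← pow_eq_pow_mod _ ha]

theorem exists_sylow [Finite Λ] {A : Type*} [Group A] {n : ℕ} (f : A →* Λ) (hf : Function.Injective f)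
    (hA : Nat.card A = p ^ n) (h : ¬p ^ (n + 1) ∣ Nat.card Λ) : ∃ P : Sylow p Λ, (P : Subgroup Λ) = f.range := by
  have h1 : Nat.card f.range = p ^ n := hA ▸ Nat.card_congr (MonoidHom.ofInjective hf).toEquiv.symm
  refine ⟨(IsPGroup.of_card h1).toSylow fun h2 => h ?_, rfl⟩
  rw [← f.range.card_mul_index, h1, pow_succ]
  exact Nat.mul_dvd_mul_left _ h2

theorem conj_mem [Finite Λ] (P : Sylow p Λ) {g : Λ} (hg : g ^ p = 1) : ∃ c, c * g * c⁻¹ ∈ (P : Subgroup Λ) := by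
  obtain ⟨Q, hQ⟩ := ((IsPGroup.of_card (p := p) (n := 1) (G := Multiplicative (ZMod p)) (by simp)).to_subgroup ⊤).map (zp hg)
    |>.exists_le_sylow
  obtain ⟨c, rfl⟩ := MulAction.exists_smul_eq Λ Q P
  refine ⟨c, Subgroup.smul_mem_pointwise_smul _ (MulAut.conj c) _ (hQ ⟨.ofAdd ((1 : ℕ) : ZMod p), trivial, ?_⟩)⟩
  rw [zp_nat, pow_one]

end gen

/-- the root elements -/
noncomputable def xr (j : ℕ) : Γ := ⟨X (rt j) 1, by
  by_cases h : IsR (rt j)
  · exact (le_sup_left : gp F _ ≤ G F) (X_mem h trivial _)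
  · rw [X, dif_neg h]; exact one_mem _⟩

theorem gt_ge {α : Type} (l : List α) (d : α) {j : ℕ} (h : l.length ≤ j) : gt l d j = d := by
  induction l generalizing j with
  | nil => rfl
  | cons a l ih =>
    obtain ⟨j, rfl⟩ := Nat.exists_eq_add_of_le' (show 1 ≤ j from le_trans (by simp) h)
    exact ih (by simpa using h)

theorem ρV_xr (j : ℕ) : ρV (xr j) = toM F eW eW (XV j) := by
  by_cases h : j < 18
  · exact X_eq (XV_chk j h)
  · change (X (rt j) (1 : F)).1 = _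
    rw [rt, XV, gt_ge _ _ (by simpa using h), gt_ge _ _ (by simpa using h), toM_one, X, dif_neg (by decide +kernel)]
    rfl

/-- the elements -/
noncomputable def yy (j : ℕ) : Γ := ((wd j).map xr).prod

theorem ρV_yy (j : ℕ) : ρV (yy j) = toM F eW eW (YV j) := by
  rw [yy, ρV_evalW ρV_xr]
  by_cases h : j < 10
  · rw [YV_chk j h]
  · rw [wd, YV, gt_ge _ _ (by simpa using h), gt_ge _ _ (by simpa using h)]
    rfl

theorem rel_eq {v w : List ℕ} (h : evalW 56 YV v = evalW 56 YV w) : (v.map yy).prod = (w.map yy).prod :=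
  ρV_inj (by rw [ρV_evalW ρV_yy, ρV_evalW ρV_yy, h])

theorem not_dvd : ¬5 ^ 3 ∣ Nat.card Γ ∧ ¬7 ^ 4 ∣ Nat.card Γ := by
  obtain ⟨m, hm⟩ := card_G
  rw [hm]
  constructor <;> intro h
  · exact absurd ((Nat.Coprime.pow 3 m (by norm_num)).dvd_of_dvd_mul_right h) (by norm_num)
  · exact absurd ((Nat.Coprime.pow 4 m (by norm_num)).dvd_of_dvd_mul_right h) (by norm_num)

theorem conj_pow_pow {Λ : Type*} [Group Λ] {t a : Λ} {k : ℕ} (h : t * a = a ^ k * t) (x : ℕ) :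
    t ^ x * a * (t ^ x)⁻¹ = a ^ k ^ x := by
  induction x with
  | zero => simp
  | succ x ih =>
    have : t * a * t⁻¹ = a ^ k := by rw [h, mul_inv_cancel_right]
    rw [pow_succ t, mul_inv_rev, show t ^ x * t * a * (t⁻¹ * (t ^ x)⁻¹) = t ^ x * (t * a * t⁻¹) * (t ^ x)⁻¹ by group,
      this, ← conj_pow, ih, ← pow_mul, pow_succ]

theorem seven {g : Γ} (hg : g ^ 7 = 1) (h1 : g ≠ 1) : 17 ≤ fd (ρV g) ∨ fd (ρV g) ≤ 8 := by
  have : Fact (Nat.Prime 7) := ⟨by norm_num⟩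
  have r := fun p hp => rel_eq (rel7 p hp)
  simp only [List.forall_mem_cons, List.map_cons, List.map_nil, List.prod_cons, List.prod_nil, mul_one] at r
  obtain ⟨a7, b7, c7', hab, hac, hbc, r11, r12, r13, r21, r22, r23, r31, r32, r33, -⟩ := r
  have hρ : ∀ i j k, ρV (yy 4 ^ i * yy 5 ^ j * yy 6 ^ k) =
      toM F eW eW (evalW 56 YV (List.replicate i 4 ++ List.replicate j 5 ++ List.replicate k 6)) := fun i j k => by
    rw [← ρV_evalW ρV_yy]; simp [mul_assoc]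
  generalize yy 4 = a, yy 5 = b, yy 6 = c, yy 7 = s, yy 8 = t, yy 9 = u at *
  replace a7 : a ^ 7 = 1 := by simpa [pow_succ, mul_assoc] using a7
  replace b7 : b ^ 7 = 1 := by simpa [pow_succ, mul_assoc] using b7
  replace c7' : c ^ 7 = 1 := by simpa [pow_succ, mul_assoc] using c7'
  change Commute a b at hab
  change Commute a c at hac
  change Commute b c at hbc
  have hpow : ∀ i j k m, (a ^ i * b ^ j * c ^ k) ^ m = a ^ (i * m) * b ^ (j * m) * c ^ (k * m) := fun i j k m => by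
    rw [(((hac.pow_pow i k).mul_left (hbc.pow_pow j k))).mul_pow, (hab.pow_pow i j).mul_pow, ← pow_mul, ← pow_mul,
      ← pow_mul]
  have key : ∀ i < 7, ∀ j < 7, ∀ k < 7, (i = 0 ∧ j = 0 ∧ k = 0) ∨ (fd (ρV (a ^ i * b ^ j * c ^ k)) ≤ 20 ∧
      (17 ≤ fd (ρV (a ^ i * b ^ j * c ^ k)) ∨ fd (ρV (a ^ i * b ^ j * c ^ k)) ≤ 8)) := by
    intro i hi j hj k hk
    refine (c7_cov i hi j hj k hk).imp_right ?_
    rintro ⟨_, he, m, hm, ⟨x, -, rfl⟩, ⟨y, -, rfl⟩, z, -, rfl⟩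
    obtain ⟨e, he', rfl⟩ := List.mem_map.1 he
    obtain ⟨h2, h3, h4⟩ := c7_chk e he'
    have h5 : ∀ v : Γ, (s ^ x * t ^ y * u ^ z) * v * (s ^ x * t ^ y * u ^ z)⁻¹ =
        s ^ x * (t ^ y * (u ^ z * v * (u ^ z)⁻¹) * (t ^ y)⁻¹) * (s ^ x)⁻¹ := fun v => by group
    have h6 : ∀ {v w : Γ}, v * w = w * v → ∀ x i : ℕ, v ^ x * w ^ i * (v ^ x)⁻¹ = w ^ i := fun h x i => by
      rw [((show Commute _ _ from h).pow_pow x i).eq, mul_inv_cancel_right]
    have h7 : ∀ {v w : Γ}, v * w = w * (w * v) → ∀ x i : ℕ, v ^ x * w ^ i * (v ^ x)⁻¹ = w ^ (2 ^ x * i) :=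
      fun h x i => by rw [← conj_pow, conj_pow_pow (k := 2) (by rw [h, pow_two, mul_assoc]), ← pow_mul]
    have h8 : a ^ (2 ^ x * e.1.1 * m % 7) * b ^ (2 ^ y * e.1.2.1 * m % 7) * c ^ (2 ^ z * e.1.2.2 * m % 7) =
        ((s ^ x * t ^ y * u ^ z) * (a ^ e.1.1 * b ^ e.1.2.1 * c ^ e.1.2.2) * (s ^ x * t ^ y * u ^ z)⁻¹) ^ m := by
      rw [← conj_mul, ← conj_mul, h5, h5, h5, h6 r31, h6 r21, h7 r11, h6 r32, h7 r22, h6 r12, h7 r33, h6 r23, h6 r13,
        hpow, ← pow_eq_pow_mod _ a7, ← pow_eq_pow_mod _ b7, ← pow_eq_pow_mod _ c7']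
    have h9 : ∀ v : Γ, v ^ 7 = 1 → fd (ρV (v ^ m)) = fd (ρV v) := fun v hv => by
      simp only [List.mem_cons, List.not_mem_nil, or_false] at hm
      rcases hm with rfl | rfl
      · rw [pow_one]
      · exact fd_pow ρV (m := 5) (by rw [← pow_mul, pow_eq_pow_mod _ hv]; simp)
    rw [h8, h9 _ (by
      rw [conj_pow, hpow, mul_comm _ 7, mul_comm _ 7, mul_comm _ 7, pow_mul, pow_mul, pow_mul, a7, b7, c7']
      simp), fd_conj, hρ]
    have h10 := fd_le eW h3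
    exact ⟨h10.trans h2, h4.symm.imp (le_fd eW) fun h => h10.trans h⟩
  let f := ((zp a7).noncommCoprod (zp b7) fun i j => hab.pow_pow _ _).noncommCoprod (zp c7') fun i j =>
    (hac.pow_pow _ _).mul_left (hbc.pow_pow _ _)
  have hf : ∀ v, f v = a ^ v.1.1.toAdd.val * b ^ v.1.2.toAdd.val * c ^ v.2.toAdd.val := fun v => rfl
  obtain ⟨P, hP⟩ := exists_sylow (p := 7) (n := 3) f ((injective_iff_map_eq_one f).2 fun v hv => by
    rcases key _ (ZMod.val_lt v.1.1.toAdd) _ (ZMod.val_lt v.1.2.toAdd) _ (ZMod.val_lt v.2.toAdd) with h | h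
    · simp only [ZMod.val_eq_zero, toAdd_eq_zero] at h
      exact Prod.ext (Prod.ext h.1 h.2.1) h.2.2
    · rw [← hf, hv, map_one, fd_one, card_W] at h
      omega) (by simp) not_dvd.2
  obtain ⟨d, hd⟩ := conj_mem P hg
  obtain ⟨v, hv⟩ := hP ▸ hd
  rw [← fd_conj ρV g d, ← hv, hf]
  refine ((key _ (ZMod.val_lt _) _ (ZMod.val_lt _) _ (ZMod.val_lt _)).resolve_left fun h => h1 ?_).2
  rw [hf, h.1, h.2.1, h.2.2] at hv
  simpa using hv.symm

theorem thirteen {g : Γ} (hg : g ^ 13 = 1) : 1 ≤ fd (ρV g) := by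
  classical
  have : Fact (Nat.Prime 13) := ⟨by norm_num⟩
  let f : Function.End (Wt → F) := Matrix.mulVec (ρV g)
  have h := Equiv.Perm.card_fixedPoints_modEq (f := f) (p := 13) (n := 1) (by
    have : ∀ (n : ℕ) z, (f ^ n) z = Matrix.mulVec (ρV (g ^ n)) z := fun n => by
      induction n with
      | zero => intro z; rw [pow_zero, pow_zero, map_one, Matrix.one_mulVec]; rfl
      | succ n ih => intro z; rw [pow_succ, pow_succ, map_mul, ← Matrix.mulVec_mulVec, ← ih]; rfl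
    funext z
    rw [this, pow_one, hg, map_one, Matrix.one_mulVec]; rfl)
  by_contra! hc
  have h1 : Nat.card (fx (ρV g)) = 1 := by
    rw [Module.natCard_eq_pow_finrank (K := F), show Module.finrank F (fx (ρV g)) = 0 from Nat.lt_one_iff.1 hc, pow_zero]
  rw [← Nat.card_eq_fintype_card (α := Function.fixedPoints _), show Nat.card (Function.fixedPoints _) = 1 from h1,
    Fintype.card_fun, card_W, ZMod.card] at h
  exact absurd h (by decide)

end Cfsg.Agent.H7.Ord
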