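import Cfsg.Agent.H7.Contain2
import Cfsg.Agent.Asch.Lin

/-!
Maximal subgroups of SL: the list of types.
-/

set_option autoImplicit false
set_option linter.unusedSectionVars false

namespace Cfsg.Agent.H7

open Module Cfsg.Agent.Form
open scoped Matrix MatrixGroups

theorem eq_inf_of_max {G : Type*} [Group G] {K H M : Subgroup G} (hH : Geo.IsMaximalIn K H) (h : H ≤ M)
    (hM : ¬ K ≤ M) : H = M ⊓ K := by
  rcases hH.2 (M ⊓ K) (le_inf h hH.1.le) inf_le_right with h1 | h1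
  · exact h1.symm
  · exact (hM (inf_eq_right.1 h1)).elim

theorem ne_top_of_card_pow {F : Type*} [Field F] [Fintype F] {F₀ : Subfield F} {r : ℕ} (hr : r.Prime)
    (h : Fintype.card F = Nat.card F₀ ^ r) : F₀ ≠ ⊤ := by
  rintro rfl
  have h1 : Nat.card (⊤ : Subfield F) = Fintype.card F := by
    rw [← Nat.card_eq_fintype_card]; exact Nat.card_congr (Subfield.topEquiv (K := F)).toEquiv
  rw [h1] at h
  have h2 := Fintype.one_lt_card (α := F)
  have := Nat.pow_lt_pow_right h2 hr.one_lt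
  rw [pow_one] at this
  omega

variable {ι : Type} [Fintype ι] [DecidableEq ι] {F : Type*} [Field F] [Fintype F]

/-- The possible shapes of a maximal subgroup of the special linear group. -/
inductive SLCase (H : Subgroup (GL ι F)) : Prop
  | c1 (W : Submodule F (ι → F)) : W ≠ ⊥ → W ≠ ⊤ → H = Geo.subspaceStabilizer W ⊓ Geo.specialLinear ι F →
      SLCase H
  | c2 (t m : ℕ) (D : Fin t → Submodule F (ι → F)) : Geo.IsMDecomposition m D → t * m = Fintype.card ι →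
      (m = 1 → 5 ≤ Fintype.card F) → (m = 2 → 3 ≤ Fintype.card F) →
      H = Geo.decompositionStabilizer D ⊓ Geo.specialLinear ι F → SLCase H
  | c3 (r : ℕ) (K : Subalgebra F (Matrix ι ι F)) : r.Prime → r ∣ Fintype.card ι → Geo.IsFieldSubalgebra r K →
      H = Geo.subalgebraNormalizer K ⊓ Geo.specialLinear ι F → SLCase H
  | c4 (n₁ n₂ : ℕ) (e : ι ≃ Fin n₁ × Fin n₂) (P : GL ι F) : 2 ≤ n₁ → n₁ < n₂ → n₁ * n₂ = Fintype.card ι →
      (n₁ = 2 → 3 ≤ Fintype.card F) → H = Geo.tensorProductSubgroup n₁ n₂ e P ⊓ Geo.specialLinear ι F →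
      SLCase H
  | c5 (F₀ : Subfield F) (r : ℕ) (P : GL ι F) : r.Prime → Fintype.card F = Nat.card F₀ ^ r →
      H = Geo.subfieldSubgroup F₀ P ⊓ Geo.specialLinear ι F → SLCase H
  | c6 (r m : ℕ) (R : Subgroup (GL ι F)) : r.Prime → Geo.IsLinearSymplecticTypeData r R →
      r ^ m = Fintype.card ι → H = Geo.subgroupNormalizer R ⊓ Geo.specialLinear ι F → SLCase H
  | c7 (m t : ℕ) (e : ι ≃ (Fin t → Fin m)) (P : GL ι F) : 3 ≤ m → 2 ≤ t → m ^ t = Fintype.card ι →
      H = Geo.tensorWreathSubgroup m t e P ⊓ Geo.specialLinear ι F → SLCase H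
  | c8s (f : (ι → F) → (ι → F) → F) : Geo.IsSymplecticForm f → Even (Fintype.card ι) →
      H = Geo.similarityGroup f ⊓ Geo.specialLinear ι F → SLCase H
  | c8u (σ : F ≃+* F) (f : (ι → F) → (ι → F) → F) : Geo.IsUnitaryForm σ f →
      H = Geo.similarityGroup f ⊓ Geo.specialLinear ι F → SLCase H
  | c8o (Q : (ι → F) → F) : Geo.IsNondegenerateQuadraticForm Q → Odd (Fintype.card F) →
      H = Geo.quadSimilarityGroup Q ⊓ Geo.specialLinear ι F → SLCase H
  | res : Geo.InLinearResidualClass H → SLCase H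

theorem slCase (hn : 3 ≤ Fintype.card ι) {H : Subgroup (GL ι F)}
    (hH : Geo.IsMaximalIn (Geo.specialLinear ι F) H) : SLCase H := by
  have : Nonempty ι := Fintype.card_pos_iff.1 (by omega)
  have hq := Fintype.one_lt_card (α := F)
  have c1 : ∀ W : Submodule F (ι → F), W ≠ ⊥ → W ≠ ⊤ → H ≤ Geo.subspaceStabilizer W → SLCase H :=
    fun W h1 h2 h => .c1 W h1 h2 (eq_inf_of_max hH h (SL_not_le_subspaceStabilizer hn h1 h2))
  have c3 : ∀ (r : ℕ) (K : Subalgebra F (Matrix ι ι F)), r.Prime → Geo.IsFieldSubalgebra r K →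
      H ≤ Geo.subalgebraNormalizer K → SLCase H := fun r K h1 h2 h =>
    .c3 r K h1 (Asch.dvd_card_of_field h2) h2
      (eq_inf_of_max hH h (SL_not_le_subalgebraNormalizer hn h2 h1.one_lt))
  have c8s : ∀ f : (ι → F) → (ι → F) → F, Geo.IsSymplecticForm f → H ≤ Geo.similarityGroup f → SLCase H :=
    fun f h1 h => .c8s f h1 (Asch.even_card_of_symplectic h1)
      (eq_inf_of_max hH h (SL_not_le_similarityGroup_symp hn h1))
  have c8u : ∀ (σ : F ≃+* F) (f : (ι → F) → (ι → F) → F), Geo.IsUnitaryForm σ f →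
      H ≤ Geo.similarityGroup f → SLCase H := fun σ f h1 h =>
    .c8u σ f h1 (eq_inf_of_max hH h (SL_not_le_similarityGroup_unit hn h1))
  have c8o : ∀ Q : (ι → F) → F, Geo.IsNondegenerateQuadraticForm Q → Odd (Fintype.card F) →
      H ≤ Geo.quadSimilarityGroup Q → SLCase H := fun Q h1 h2 h =>
    .c8o Q h1 h2 (eq_inf_of_max hH h (SL_not_le_quadSimilarityGroup hn h1))
  rcases Asch.linCase hn H with ⟨W, h1, h2, h⟩ | ⟨t, m, D, h1, h⟩ | ⟨r, K, h1, h2, h⟩ |
    ⟨n₁, n₂, e, P, h1, h2, h⟩ | ⟨F₀, r, P, h1, h2, h⟩ | ⟨r, m, R, h1, h2, h⟩ | ⟨m, t, e, P, h1, h2, h⟩ |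
    ⟨f, h1, h⟩ | ⟨σ, f, h1, h⟩ | ⟨Q, h1, h2, h⟩ | h
  · exact c1 W h1 h2 h
  · by_cases a1 : m = 1 ∧ Fintype.card F < 5
    · obtain ⟨rfl, a1⟩ := a1
      obtain h2 | h2 | h2 : Fintype.card F = 2 ∨ Fintype.card F = 3 ∨ Fintype.card F = 2 ^ 2 := by omega
      · obtain ⟨W, b1, b2, -, b3, -⟩ := monomial_card_two h2 h1
        exact c1 W b1 b2 (h.trans b3)
      · obtain ⟨Q, b1, b3, -⟩ := monomial_card_three h2 h1
        exact c8o Q b1 (by rw [h2]; decide) (h.trans (b3.trans (isometryGroup_le_quadSimilarityGroup Q)))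
      · obtain ⟨f, b1, b3, -⟩ := monomial_card_four h2 h1
        exact c8u _ f b1 (h.trans (b3.trans (preserving_le_similarityGroup f)))
    by_cases a2 : m = 2 ∧ Fintype.card F < 3
    · obtain ⟨rfl, a2⟩ := a2
      obtain ⟨f, b1, b3, -⟩ := planes_card_two (by omega) h1
      exact c8s f b1 (h.trans (b3.trans (preserving_le_similarityGroup f)))
    exact .c2 t m D h1 (card_eq_of_isMDecomposition h1).symm (by omega) (by omega)
      (eq_inf_of_max hH h (SL_not_le_decompositionStabilizer hn h1))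
  · exact c3 r K h1 h2 h
  · by_cases a1 : n₁ = 2 ∧ Fintype.card F < 3
    · obtain ⟨rfl, a1⟩ := a1
      obtain ⟨K, b1, b2, -⟩ := tensor_card_two (by omega) (by omega) e P
      exact c3 2 K Nat.prime_two b1 (h.trans b2)
    exact .c4 n₁ n₂ e P h1 h2 (by simpa using (Fintype.card_congr e).symm) (by omega)
      (eq_inf_of_max hH h (SL_not_le_tensorProductSubgroup hn h1 (by omega) e P))
  · exact .c5 F₀ r P h1 h2 (eq_inf_of_max hH h (SL_not_le_subfieldSubgroup hn (ne_top_of_card_pow h1 h2) P))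
  · exact .c6 r m R h1.symplecticType.prime h1 h2.symm (eq_inf_of_max hH h (SL_not_le_subgroupNormalizer hn
      h1.symplecticType.prime h1.symplecticType.pGroup h1.absIrred))
  · exact .c7 m t e P h1 h2 (by simpa using (Fintype.card_congr e).symm)
      (eq_inf_of_max hH h (SL_not_le_tensorWreathSubgroup hn (by omega) h2 e P))
  · exact c8s f h1 h
  · exact c8u σ f h1 h
  · exact c8o Q h1 h2 h
  · exact .res h

theorem minimalField_mod {z p e : ℕ} (h : Geo.IsMinimalFieldFor z p e F) :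
    0 < e ∧ (p % z) ^ e % z = 1 % z ∧ ∀ d, 0 < d → d < e → (p % z) ^ d % z ≠ 1 % z := by
  obtain ⟨hp, -, hc, h1, h2⟩ := h
  have key : ∀ d, z ∣ p ^ d - 1 ↔ (p % z) ^ d % z = 1 % z := fun d => by
    rw [← Nat.pow_mod]
    exact ((Nat.modEq_iff_dvd' (Nat.one_le_pow _ _ hp.pos)).symm.trans ⟨Nat.ModEq.symm, Nat.ModEq.symm⟩)
  refine ⟨Nat.pos_of_ne_zero ?_, (key e).1 h1, fun d a b c => h2 d a b ((key d).2 c)⟩
  rintro rfl
  have := Fintype.one_lt_card (α := F)
  simp [hc] at this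

/-- The field attached to class six data for an odd prime `r`. -/
theorem c6_odd {r : ℕ} (hr : r ≠ 2) {R : Subgroup (GL ι F)} (h : Geo.IsLinearSymplecticTypeData r R) :
    ∃ p e a : ℕ, p.Prime ∧ CharP F p ∧ Fintype.card F = p ^ e ∧ p % r = a ∧ a < r ∧ 0 < e ∧ e < r ∧ Odd e ∧
      a ^ e % r = 1 % r ∧ ∀ d, 0 < d → d < e → a ^ d % r ≠ 1 % r := by
  obtain ⟨p, e, hne, hmin, ⟨-, he, hz, -⟩ | ⟨h2, -⟩ | ⟨h2, -⟩⟩ := h.field
  · rw [hz] at hmin
    obtain ⟨h1, h2, h3⟩ := minimalField_mod hmin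
    have hrp := h.symplecticType.prime
    refine ⟨p, e, p % r, hmin.1, hmin.2.1, hmin.2.2.1, rfl, Nat.mod_lt _ hrp.pos, h1, ?_, he, h2, h3⟩
    by_contra hlt
    have h4 := hrp.two_le
    refine h3 (r - 1) (by omega) (by omega) ?_
    rw [← Nat.pow_mod, ← Nat.totient_prime hrp]
    exact Nat.ModEq.pow_totient ((Nat.coprime_primes hmin.1 hrp).2 hne.symm)
  · exact (hr h2).elim
  · exact (hr h2).elim

theorem c6_two (hn : 3 ≤ Fintype.card ι) {R : Subgroup (GL ι F)} (h : Geo.IsLinearSymplecticTypeData 2 R) :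
    ∃ p : ℕ, p.Prime ∧ Fintype.card F = p ∧ p % 4 = 1 := by
  obtain ⟨p, e, hne, hmin, ⟨h2, -⟩ | ⟨-, rfl, hz, -⟩ | ⟨-, -, h2, -⟩⟩ := h.field
  · exact absurd h2 (by decide)
  · rw [hz] at hmin
    obtain ⟨-, h2, -⟩ := minimalField_mod hmin
    exact ⟨p, hmin.1, by simpa using hmin.2.2.1, by simpa using h2⟩
  · omega

theorem c6_three {R : Subgroup (GL ι F)} (h : Geo.IsLinearSymplecticTypeData 3 R) :
    ∃ p : ℕ, p.Prime ∧ Fintype.card F = p ∧ p % 3 = 1 := by
  obtain ⟨p, e, a, h1, -, h3, h4, h5, h6, h7, h8, h9, -⟩ := c6_odd (by decide) h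
  have := Nat.odd_iff.1 h8
  obtain rfl : e = 1 := by omega
  exact ⟨p, h1, by simpa using h3, by rw [pow_one] at h9; omega⟩

theorem c6_five {R : Subgroup (GL ι F)} (h : Geo.IsLinearSymplecticTypeData 5 R) :
    ∃ p : ℕ, p.Prime ∧ Fintype.card F = p ∧ p % 5 = 1 := by
  obtain ⟨p, e, a, h1, -, h3, h4, h5, h6, h7, h8, h9, h10⟩ := c6_odd (by decide) h
  have := Nat.odd_iff.1 h8
  obtain rfl | rfl : e = 1 ∨ e = 3 := by omega
  · exact ⟨p, h1, by simpa using h3, by rw [pow_one] at h9; omega⟩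
  · have := h10 1 (by omega) (by omega)
    interval_cases a <;> simp_all

theorem c6_seven {R : Subgroup (GL ι F)} (h : Geo.IsLinearSymplecticTypeData 7 R) :
    ∃ p : ℕ, p.Prime ∧ CharP F p ∧ ((Fintype.card F = p ∧ p % 7 = 1) ∨
      (Fintype.card F = p ^ 3 ∧ (p % 7 = 2 ∨ p % 7 = 4))) := by
  obtain ⟨p, e, a, h1, h2, h3, h4, h5, h6, h7, h8, h9, h10⟩ := c6_odd (by decide) h
  have := Nat.odd_iff.1 h8
  refine ⟨p, h1, h2, ?_⟩
  obtain rfl | rfl | rfl : e = 1 ∨ e = 3 ∨ e = 5 := by omega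
  · exact Or.inl ⟨by simpa using h3, by rw [pow_one] at h9; omega⟩
  · have := h10 1 (by omega) (by omega)
    refine Or.inr ⟨h3, ?_⟩
    rw [h4]
    interval_cases a <;> simp_all
  · have := h10 1 (by omega) (by omega)
    interval_cases a <;> simp_all

theorem c6_eleven {R : Subgroup (GL ι F)} (h : Geo.IsLinearSymplecticTypeData 11 R) :
    ∃ p : ℕ, p.Prime ∧ CharP F p ∧ ((Fintype.card F = p ∧ p % 11 = 1) ∨
      (Fintype.card F = p ^ 5 ∧ (p % 11 = 3 ∨ p % 11 = 4 ∨ p % 11 = 5 ∨ p % 11 = 9))) := by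
  obtain ⟨p, e, a, h1, h2, h3, h4, h5, h6, h7, h8, h9, h10⟩ := c6_odd (by decide) h
  have := Nat.odd_iff.1 h8
  refine ⟨p, h1, h2, ?_⟩
  obtain rfl | rfl | rfl | rfl | rfl : e = 1 ∨ e = 3 ∨ e = 5 ∨ e = 7 ∨ e = 9 := by omega
  · exact Or.inl ⟨by simpa using h3, by rw [pow_one] at h9; omega⟩
  · have := h10 1 (by omega) (by omega)
    interval_cases a <;> simp_all
  · have := h10 1 (by omega) (by omega)
    refine Or.inr ⟨h3, ?_⟩
    rw [h4]
    interval_cases a <;> simp_all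
  · have := h10 1 (by omega) (by omega)
    interval_cases a <;> simp_all
  · have := h10 1 (by omega) (by omega)
    interval_cases a <;> simp_all

theorem prime_pow_eq {r m n : ℕ} (hr : r.Prime) (h : r ^ m = n) (hn : 1 < n) : r = n.minFac := by
  subst h
  rw [hr.pow_minFac]
  rintro rfl; simp at hn

theorem not_prime_pow_eq {r m n a b : ℕ} (hr : r.Prime) (h : r ^ m = n) (ha : a.Prime) (hb : b.Prime)
    (h1 : a ∣ n) (h2 : b ∣ n) : a = b := by
  subst h
  rw [(Nat.prime_dvd_prime_iff_eq ha hr).1 (ha.dvd_of_dvd_pow h1),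
    (Nat.prime_dvd_prime_iff_eq hb hr).1 (hb.dvd_of_dvd_pow h2)]

theorem pow_eq_small {m t n : ℕ} (hm : 3 ≤ m) (ht : 2 ≤ t) (h : m ^ t = n) (hn : n ≤ 15) :
    m = 3 ∧ t = 2 := by
  have h1 : m ^ 2 ≤ m ^ t := Nat.pow_le_pow_right (by omega) ht
  have h2 : m = 3 := by nlinarith
  subst h2
  refine ⟨rfl, ?_⟩
  by_contra h3
  have : 3 ^ 3 ≤ 3 ^ t := Nat.pow_le_pow_right (by omega) (by omega)
  omega

end Cfsg.Agent.H7
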