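import Cfsg.Agent.H7.Sp3
import Cfsg.Agent.H8.Dickson

/-!
Symplectic groups: McLaughlin's lemma, Dickson's lemma modulo a fixed vector.
-/

set_option autoImplicit false
set_option linter.unusedSectionVars false

namespace Cfsg.Agent.H7

open Module Cfsg.Agent.Form
open scoped Matrix MatrixGroups

variable {F : Type*} [Field F] {V : Type*} [AddCommGroup V] [Module F V]
variable {S : PQ (FP.symp F) V} {M : Subgroup (V ≃ₗ[F] V)}

/-- All vectors of `W` outside its radical are full centres. -/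
def Good (S : PQ (FP.symp F) V) (M : Subgroup (V ≃ₗ[F] V)) (W : Submodule F V) : Prop :=
  ¬ W ≤ S.perp W ∧ ∀ x ∈ W, x ∉ S.perp W → Ctr S M x

theorem Good.sup (hq : ∃ c : F, c ≠ 0 ∧ c ≠ 1) {W : Submodule F V} (h : Good S M W) {v : V} (hv : Ctr S M v)
    (hvW : v ∉ S.perp W) : Good S M (W ⊔ F ∙ v) := by
  have h1 : ∀ w ∈ W, S.B w v ≠ 0 → Ctr S M w := by
    intro w hw hwv
    by_cases hp : w ∈ S.perp W
    swap
    · exact h.2 w hw hp
    obtain ⟨w', hw', a1, a2⟩ := exists_not_not W.toAddSubgroup (S.perp W).toAddSubgroup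
      (S.perp (F ∙ v)).toAddSubgroup (SetLike.not_le_iff_exists.1 h.1)
      ⟨w, hw, fun h' => hwv (S.mem_perp_span_singleton.1 h')⟩
    have a3 : S.B w' v ≠ 0 := fun h' => a2 (S.mem_perp_span_singleton.2 h')
    obtain ⟨c, hc0, hc1⟩ := hq
    set s := c * (S.B w v / S.B w' v) with hs
    have hs0 : s ≠ 0 := mul_ne_zero hc0 (div_ne_zero hwv a3)
    have b1 : Ctr S M (s • w') := (h.2 w' hw' a1).smul s
    have b2 : Ctr S M (w - s • w') := h.2 _ (W.sub_mem hw (W.smul_mem _ hw')) fun h' => a1 (by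
      have := (S.perp W).smul_mem s⁻¹ ((S.perp W).sub_mem hp h')
      simpa [smul_smul, inv_mul_cancel₀ hs0] using this)
    have e1 : S.B (s • w') v = c * S.B w v := by simp [hs]; field_simp
    have b3 := b2.add' hv (by
      rw [S.B_sub_left, e1, ← one_sub_mul]; exact mul_ne_zero (sub_ne_zero.2 hc1.symm) hwv)
    have e2 : S.B w w' = 0 := hp w' hw'
    have b4 := b3.add' b1 (by simpa [e2, hs0] using sB_ne_comm a3)
    have b5 := b4.sub' hv (by simpa using hwv)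
    convert b5 using 1; abel
  refine ⟨fun hle => h.1 (le_sup_left.trans (hle.trans (S.perp_anti le_sup_left))), fun x hx hx' => ?_⟩
  obtain ⟨w, hw, a, rfl⟩ := mem_sup_span_iff.1 hx
  rw [S.perp_sup, Submodule.mem_inf, S.mem_perp_span_singleton] at hx'
  by_cases hwv : S.B w v ≠ 0
  · exact (h1 w hw hwv).add_symp hv hwv a
  push Not at hwv
  have hx'' : w + a • v ∉ S.perp W := fun h' => hx' ⟨h', by simp [hwv]⟩
  by_cases ha : a = 0
  · rw [ha, zero_smul, add_zero] at hx'' ⊢; exact h.2 w hw hx''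
  obtain ⟨d, hd, d1, d2⟩ := exists_B_ne_ne hx'' hvW
  have d3 := sB_ne_comm d2
  have b1 := (h1 _ (W.add_mem hw hd) (by simpa [hwv] using d3)).add_symp hv (by simpa [hwv] using d3) a
  have b2 := b1.sub' (h1 d hd d3) (by simpa [add_right_comm w d] using d1)
  convert b2 using 1; abel

theorem good_pair {u a : V} (hu : Ctr S M u) (ha : Ctr S M a) (h : S.B u a ≠ 0) :
    Good S M (Submodule.span F {u, a}) := by
  refine ⟨fun hle => h (hle (Submodule.subset_span (by simp)) a (Submodule.subset_span (by simp))),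
    fun x hx _ => ?_⟩
  obtain ⟨s, t, rfl⟩ := Submodule.mem_span_pair.1 hx
  by_cases hs : s = 0
  · simpa [hs] using ha.smul t
  · exact (hu.smul s).add_symp ha (by simp [hs, h]) t

theorem exists_good_max [FiniteDimensional F V] (hq : ∃ c : F, c ≠ 0 ∧ c ≠ 1) {W₀ : Submodule F V}
    (h : Good S M W₀) : ∃ W, W₀ ≤ W ∧ Good S M W ∧ ∀ v, Ctr S M v → v ∈ W ∨ v ∈ S.perp W := by
  obtain ⟨W, ⟨h1, h2⟩, h3⟩ := set_has_maximal_iff_noetherian.2 (inferInstance : IsNoetherian F V)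
    {W | W₀ ≤ W ∧ Good S M W} ⟨W₀, le_rfl, h⟩
  refine ⟨W, h1, h2, fun v hv => ?_⟩
  by_contra hc
  rw [not_or] at hc
  refine h3 (W ⊔ F ∙ v) ⟨h1.trans le_sup_left, h2.sup hq hv hc.2⟩ (lt_of_le_of_ne le_sup_left fun e => hc.1 ?_)
  rw [e]; exact Submodule.mem_sup_right (Submodule.mem_span_singleton_self v)

/-- If the full centres contain a spanning additive subgroup then every vector is a full centre. -/
theorem ctr_of_addSubgroup [FiniteDimensional F V] (hS : S.Nondeg) (hq : ∃ c : F, c ≠ 0 ∧ c ≠ 1) (R : AddSubgroup V)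
    (hR : ∀ v ∈ R, Ctr S M v) (hnd : ∀ x, (∀ y ∈ R, S.B x y = 0) → x = 0) (v : V) : Ctr S M v := by
  by_cases hv : v = 0
  · rw [hv]; exact ctr_zero
  have key : ∀ x, x ≠ 0 → ∃ y ∈ R, S.B x y ≠ 0 := fun x hx => by
    by_contra hc; push Not at hc; exact hx (hnd x hc)
  obtain ⟨u, hu, hu'⟩ := key v hv
  obtain ⟨a, ha, ha'⟩ := key u (by rintro rfl; simp at hu')
  obtain ⟨W, -, h2, h3⟩ := exists_good_max hq (good_pair (hR u hu) (hR a ha) ha')
  have h4 : ∀ y ∈ R, y ∈ W := by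
    by_contra hc
    push Not at hc
    obtain ⟨x, hx, h5, h6⟩ := exists_not_not R W.toAddSubgroup (S.perp W).toAddSubgroup hc (by
      by_contra hc'
      push Not at hc'
      exact h2.1 fun w hw => by
        rw [hnd w fun y hy => S.B_comm_zero (hc' y hy w hw)]; exact zero_mem _)
    exact (h3 x (hR x hx)).elim h5 h6
  have h5 : S.perp W = ⊥ := eq_bot_iff.2 fun x hx => hnd x fun y hy => hx y (h4 y hy)
  have h6 : W = ⊤ := by rw [← hS.perp_perp W, h5, S.perp_bot]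
  exact h2.2 v (by rw [h6]; trivial) (by rwa [h5])

/-- Dickson's lemma modulo a fixed vector `r`. -/
theorem plane_mod [Finite F] {K : Subgroup (V ≃ₗ[F] V)} {r u a : V} (hr : ∀ h ∈ K, h r = r)
    (h4 : 4 ≤ {b : F | ∃ h ∈ K, ∃ t : F, h u = u ∧ h a = a + b • u + t • r}.ncard)
    (hy : ∃ h ∈ K, h u = u + a ∧ h a = a) {b : F} (hb0 : b ≠ 0)
    (hb : ∃ h ∈ K, ∃ t : F, h u = u ∧ h a = a + b • u + t • r) : ∃ h ∈ K, ∃ s : F, h u = b • u + s • r := by
  let mk := (F ∙ r).mkQ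
  let K' : Subgroup ((V ⧸ (F ∙ r)) ≃ₗ[F] (V ⧸ (F ∙ r))) :=
    { carrier := {k | ∃ h ∈ K, ∀ x, k (mk x) = mk (h x)}
      one_mem' := ⟨1, K.one_mem, fun _ => rfl⟩
      mul_mem' := by
        rintro k k' ⟨h, hh, e⟩ ⟨h', hh', e'⟩
        exact ⟨h * h', K.mul_mem hh hh', fun x => by rw [LinearEquiv.mul_apply, e', e]; rfl⟩
      inv_mem' := by
        rintro k ⟨h, hh, e⟩
        refine ⟨h⁻¹, K.inv_mem hh, fun x => ?_⟩
        apply k.injective
        rw [e]
        exact (k.apply_symm_apply _).trans (congrArg mk (h.apply_symm_apply x).symm) }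
  have lift : ∀ h ∈ K, ∃ k ∈ K', ∀ x, k (mk x) = mk (h x) := fun h hh =>
    ⟨Submodule.Quotient.equiv (F ∙ r) (F ∙ r) h (by simp [Submodule.map_span, hr h hh]),
      ⟨h, hh, fun _ => rfl⟩, fun _ => rfl⟩
  have hr0 : mk r = 0 := (Submodule.Quotient.mk_eq_zero _).2 (Submodule.mem_span_singleton_self r)
  have key : ∀ b : F, (∃ h ∈ K, ∃ t : F, h u = u ∧ h a = a + b • u + t • r) →
      ∃ k ∈ K', k (mk u) = mk u ∧ k (mk a) = mk a + b • mk u := by
    rintro b ⟨h, hh, t, e1, e2⟩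
    obtain ⟨k, hk, e⟩ := lift h hh
    exact ⟨k, hk, by rw [e, e1], by simp [e, e2, hr0]⟩
  obtain ⟨k, ⟨h, hh, e⟩, e1, -⟩ := (H8.Dickson.plane (K := K') (u := mk u) (a := mk a)
    (h4.trans (Set.ncard_le_ncard key)) (by
      obtain ⟨h, hh, e1, e2⟩ := hy
      obtain ⟨k, hk, e⟩ := lift h hh
      exact ⟨k, hk, by simp [e, e1], by rw [e, e2]⟩)).2.1 b hb0 (key b hb)
  rw [e, ← map_smul] at e1
  obtain ⟨s, hs⟩ := Submodule.mem_span_singleton.1 ((Submodule.Quotient.eq _).1 e1)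
  exact ⟨h, hh, s, by rw [hs]; abel⟩

theorem four_le_ncard [Finite F] {s : Set F} {a b c d : F} (ha : a ∈ s) (hb : b ∈ s) (hc : c ∈ s) (hd : d ∈ s)
    (h1 : a ≠ b) (h2 : a ≠ c) (h3 : a ≠ d) (h4 : b ≠ c) (h5 : b ≠ d) (h6 : c ≠ d) : 4 ≤ s.ncard := by
  have : ({a, b, c, d} : Set F).ncard = 4 := by
    rw [Set.ncard_insert_of_notMem (by simp [h1, h2, h3]), Set.ncard_insert_of_notMem (by simp [h4, h5]),
      Set.ncard_pair h6]
  rw [← this]
  exact Set.ncard_le_ncard (by rintro x (rfl | rfl | rfl | rfl) <;> assumption)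

theorem mem_of_sq_mem [Finite F] {F₀ : Subfield F} {γ : F} (h1 : γ ^ 2 ∈ F₀) (h2 : 2 * γ ∈ F₀) : γ ∈ F₀ := by
  by_cases h : (2 : F) = 0
  · have : CharP F₀ 2 := CharTwo.of_one_ne_zero_of_two_eq_zero one_ne_zero (Subtype.ext h)
    obtain ⟨s, hs⟩ := (frobeniusEquiv F₀ 2).surjective ⟨_, h1⟩
    have hs' : (s : F) ^ 2 = γ ^ 2 := congrArg Subtype.val hs
    have : (γ - s) ^ 2 = 0 := by linear_combination -hs' + (s ^ 2 - γ * s) * h
    rw [sub_eq_zero.1 (pow_eq_zero_iff two_ne_zero |>.1 this)]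
    exact s.2
  · have := F₀.div_mem h2 (show (2 : F) ∈ F₀ by exact_mod_cast natCast_mem F₀ 2)
    rwa [mul_div_cancel_left₀ _ h] at this

/-- The elements fixing a set pointwise. -/
def fixAll (X : Set V) : Subgroup (V ≃ₗ[F] V) where
  carrier := {g | ∀ x ∈ X, g x = x}
  one_mem' _ _ := rfl
  mul_mem' {g h} hg hh x hx := by rw [LinearEquiv.mul_apply, hh x hx, hg x hx]
  inv_mem' {g} hg x hx := by
    conv_lhs => rw [← hg x hx]
    exact g.symm_apply_apply x

theorem mem_fixAll {X : Set V} {g : V ≃ₗ[F] V} : g ∈ fixAll X ↔ ∀ x ∈ X, g x = x := Iff.rfl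

/-- Dickson's lemma for the parameters of transvections. -/
theorem tv_mul_mem [Finite F] {u a : V} (h : S.B a u = 1) (h4 : 4 ≤ {b : F | tv S u b ∈ M}.ncard)
    (hy : tv S a 1 ∈ M) {b c : F} (hb : tv S u b ∈ M) (hc : tv S u c ∈ M) : tv S u (b * c) ∈ M := by
  have hua : S.B u a = -1 := by rw [sB_swap, h]
  let K := M ⊓ fixAll {x | S.B x u = 0 ∧ S.B x a = 0}
  have key : ∀ b, tv S u b ∈ M ↔ ∃ h ∈ K, h u = u ∧ h a = a + b • u := fun b => by
    refine ⟨fun hb => ⟨_, ⟨hb, fun x hx => by simp [hx.1]⟩, by simp, by simp [h]⟩, ?_⟩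
    rintro ⟨k, ⟨hk, hk'⟩, e1, e2⟩
    suffices H : tv S u b = k from H ▸ hk
    ext x
    have := hk' (x - S.B x u • a + S.B x a • u) ⟨by simp [h], by simp [hua]⟩
    simp only [map_add, map_sub, map_smul, e1, e2] at this
    rw [tv_apply]
    linear_combination (norm := module) -this
  simp only [key] at h4 hb hc ⊢
  refine (H8.Dickson.plane h4 ⟨_, ⟨M.inv_mem hy, fun x hx => by simp [tv_inv, hx.2]⟩, ?_, ?_⟩).2.2 b c hb hc
  · simp [tv_inv, hua]
  · simp [tv_inv]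

end Cfsg.Agent.H7
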