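import Cfsg.Agent.H7.Sp4
import Cfsg.Agent.H7.SLCase

/-!
Symplectic groups: maximality of subfield subgroups.
-/

set_option autoImplicit false
set_option linter.unusedSectionVars false

namespace Cfsg.Agent.H7

open Module Cfsg.Agent.Form
open scoped Matrix MatrixGroups

variable {F : Type*} [Field F] {V : Type*} [AddCommGroup V] [Module F V]
variable {S : PQ (FP.symp F) V} {M : Subgroup (V ≃ₗ[F] V)}

theorem tv_mul_tv (z a : V) (h : S.B z a = 0) (s c : F) :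
    tv S (z + s • a) c * tv S z (-c) = ev S a ((c * s) • z) (c * s ^ 2) (by simp [h]) := by
  ext x
  simp [LinearEquiv.mul_apply, h]
  module

theorem ev_add_smul (d w : V) (q t : F) (h : S.B w d = 0) :
    ev S d (w + t • d) q (by simp [h]) = ev S d w (q + 2 * t) h := by
  ext x; simp; module

/-- A rational structure over the subfield `F₀`, together with the rational root elements of `M`. -/
structure RatS (S : PQ (FP.symp F) V) (F₀ : Subfield F) (R : AddSubgroup V) : Prop where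
  smul : ∀ c ∈ F₀, ∀ x ∈ R, c • x ∈ R
  B_mem : ∀ x ∈ R, ∀ y ∈ R, S.B x y ∈ F₀
  dual : ∀ x, (∀ y ∈ R, S.B y x ∈ F₀) → x ∈ R
  nd : ∀ x, (∀ y ∈ R, S.B x y = 0) → x = 0

variable {F₀ : Subfield F} {R : AddSubgroup V}

theorem RatS.exists_ne (h : RatS S F₀ R) {x : V} (hx : x ≠ 0) : ∃ y ∈ R, S.B y x ≠ 0 := by
  by_contra hc
  push Not at hc
  exact hx (h.nd x fun y hy => S.B_comm_zero (hc y hy))

theorem RatS.exists_one (h : RatS S F₀ R) {a : V} (ha : a ∈ R) (h0 : a ≠ 0) : ∃ y ∈ R, S.B y a = 1 := by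
  obtain ⟨y, hy, e⟩ := h.exists_ne h0
  exact ⟨_, h.smul _ (F₀.inv_mem (h.B_mem y hy a ha)) y hy, by simp [e]⟩

theorem RatS.exists_dual (h : RatS S F₀ R) {a y : V} (ha : a ∈ R) (hy : y ∈ R) (h0 : a ≠ 0) (hya : y ∉ F ∙ a) :
    ∃ w ∈ R, S.B w a = 0 ∧ S.B w y = 1 := by
  obtain ⟨a', ha', e⟩ := h.exists_one ha h0
  obtain ⟨w, hw, e'⟩ := h.exists_ne (x := y - S.B a' y • a) fun h' =>
    hya (Submodule.mem_span_singleton.2 ⟨_, (sub_eq_zero.1 h').symm⟩)
  have h1 : w - S.B w a • a' ∈ R := R.sub_mem hw (h.smul _ (h.B_mem _ hw _ ha) _ ha')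
  have h2 : S.B (w - S.B w a • a') y ≠ 0 := by simpa [mul_comm] using e'
  exact ⟨_, h.smul _ (F₀.inv_mem (h.B_mem _ h1 _ hy)) _ h1, by simp [e], by
    rw [S.B_smul_left, inv_mul_cancel₀ h2]⟩

/-- `M` contains the rational root elements, and no irrational ones with rational centre. -/
structure RatM (S : PQ (FP.symp F) V) (F₀ : Subfield F) (R : AddSubgroup V) (M : Subgroup (V ≃ₗ[F] V)) :
    Prop extends RatS S F₀ R where
  le : M ≤ S.isom
  tv_mem : ∀ v ∈ R, ∀ c ∈ F₀, tv S v c ∈ M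
  ev_mem : ∀ a ∈ R, ∀ w ∈ R, ∀ h : S.B w a = 0, ev S a w 0 h ∈ M
  rat : ∀ v ∈ R, v ≠ 0 → ∀ c, tv S v c ∈ M → c ∈ F₀

theorem RatM.sub_sq_mem (h : RatM S F₀ R M) {a y : V} (ha : a ∈ R) (hy : y ∈ R) (h0 : a ≠ 0)
    (hya : y ∉ F ∙ a) (hB : S.B y a = 0) {α q : F} (hm : ev S a (α • y) q (by simp [hB]) ∈ M) :
    q - α ^ 2 ∈ F₀ := by
  obtain ⟨w, hw, w1, w2⟩ := h.exists_dual ha hy h0 hya
  have w3 : S.B y w = -1 := by rw [sB_swap, w2]
  have w4 := S.B_comm_zero w1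
  have hB' := S.B_comm_zero hB
  have m1 := h.tv_mem w hw 1 F₀.one_mem
  have m2 := h.tv_mem _ (R.sub_mem hy hw) 1 F₀.one_mem
  have e1 := ev_mul_mem (ev_conj_mem hm m1 (h.le m1) |> fun e =>
    ev_congr_mem (d' := a) (w' := α • (y - w)) (h' := by simp [hB, w1]) e (by simp [w4])
      (by simp [w3, sub_eq_add_neg]) rfl) (ev_inv_mem hm)
  have e2 := ev_mul_mem hm (ev_conj_mem e1 m2 (h.le m2) |> fun e =>
    ev_congr_mem (d' := a) (w' := -(α • y)) (q' := -α ^ 2) (h' := by simp [hB]) e (by simp [w4, hB'])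
      (by simp [w2, w3, smul_sub]; abel) (by simp [w3]; ring))
  refine h.rat a ha h0 _ ?_
  rw [← ev_zero]
  exact ev_congr_mem e2 rfl (by simp) (by simp; ring)

theorem RatM.sq_mem (h : RatM S F₀ R M) {a y : V} (ha : a ∈ R) (hy : y ∈ R) (h0 : a ≠ 0)
    (hya : y ∉ F ∙ a) (hB : S.B y a = 0) {l μ : F} (hz : ∀ c ∈ F₀, tv S (l • a + μ • y) c ∈ M) :
    μ ^ 2 ∈ F₀ := by
  obtain ⟨w, hw, w1, w2⟩ := h.exists_dual ha hy h0 hya
  have w3 : S.B y w = -1 := by rw [sB_swap, w2]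
  have w4 := S.B_comm_zero w1
  have hB' := S.B_comm_zero hB
  have m1 := h.ev_mem a ha w hw w1
  by_cases h2 : (2 : F) ≠ 0
  · have m2 := hz 1 F₀.one_mem
    have e1 := ev_comm_mem m1 (ev_conj_mem m1 m2 (h.le m2) |> fun e =>
      ev_congr_mem (d' := a) (w' := w + μ • (l • a + μ • y)) (h' := by simp [hB, w1]) e (by simp [hB'])
        (by simp [w1, w2]) rfl)
    have := F₀.div_mem (h.rat a ha h0 _ e1) (F₀.neg_mem (show (2 : F) ∈ F₀ by exact_mod_cast natCast_mem F₀ 2))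
    convert this using 1
    simp [w3, w4]; field_simp
  push Not at h2
  have e1 : ∀ c ∈ F₀, ev S a ((-(c * μ ^ 2)) • y) (c * μ ^ 2) (by simp [hB]) ∈ M := fun c hc => by
    have m2 := tv_conj_mem (hz c hc) m1 (h.le m1)
    have m3 := M.mul_mem m2 (M.inv_mem (hz c hc))
    have e : ev S a w 0 w1 (l • a + μ • y) = (l • a + μ • y) + (-μ) • a := by simp [w3, w4, hB]
    rw [e, tv_inv, tv_mul_tv _ _ (by simp [hB])] at m3
    have m4 := ev_congr_mem (w' := (-(c * μ ^ 2)) • y + (-(c * μ * l)) • a) (h' := by simp [hB]) m3 rfl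
      (by module) rfl
    rw [ev_add_smul _ _ _ _ (by simp [hB])] at m4
    exact ev_congr_mem m4 rfl rfl (by rw [h2]; ring)
  have e2 : ∀ c ∈ F₀, c * μ ^ 2 - (c * μ ^ 2) ^ 2 ∈ F₀ := fun c hc => by
    simpa using h.sub_sq_mem ha hy h0 hya hB (e1 c hc)
  have e3 := e2 1 F₀.one_mem
  rw [one_mul] at e3
  set β := μ ^ 2 with hβ
  set δ := β - β ^ 2 with hδ
  by_cases d0 : δ = 0
  · rcases mul_eq_zero.1 (show β * (β - 1) = 0 by linear_combination -d0 + hδ) with e | e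
    · rw [e]; exact F₀.zero_mem
    · rw [sub_eq_zero.1 e]; exact F₀.one_mem
  by_cases d1 : δ ≠ 1
  · have := F₀.div_mem (F₀.sub_mem (e2 δ e3) (F₀.mul_mem (F₀.pow_mem e3 2) e3))
      (F₀.mul_mem e3 (F₀.sub_mem F₀.one_mem e3))
    convert this using 1
    rw [eq_div_iff (mul_ne_zero d0 (sub_ne_zero.2 d1.symm))]
    nth_rewrite 6 [hδ]
    ring
  push Not at d1
  have hy0 : y ≠ 0 := by rintro rfl; exact hya (zero_mem _)
  obtain ⟨w', hw', v1, v2⟩ := h.exists_dual hy ha hy0 fun hm => by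
    obtain ⟨c, rfl⟩ := Submodule.mem_span_singleton.1 hm
    have hc : c ≠ 0 := by rintro rfl; simp at h0
    exact hya (Submodule.mem_span_singleton.2 ⟨c⁻¹, by simp [smul_smul, hc]⟩)
  have v3 := S.B_comm_zero v1
  have v4 : S.B a w' = -1 := by rw [sB_swap, v2]
  have k1 : tv S (y - a) β * tv S y (-β) ∈ M := by
    have := tv_mul_tv y a hB (-1) β
    rw [neg_one_smul, ← sub_eq_add_neg] at this
    rw [this]
    exact ev_congr_mem (e1 1 F₀.one_mem) rfl (by simp) (by simp)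
  have m2 := h.tv_mem _ (R.sub_mem hw' (R.sub_mem hy ha)) 1 F₀.one_mem
  have k2 : tv S w' β * tv S y (-β) ∈ M := by
    have := M.mul_mem (M.mul_mem m2 k1) (M.inv_mem m2)
    have e : ∀ g a b : V ≃ₗ[F] V, g * (a * b) * g⁻¹ = (g * a * g⁻¹) * (g * b * g⁻¹) := fun g a b => by group
    rw [e, tv_conj _ _ (h.le m2), tv_conj _ _ (h.le m2)] at this
    convert this using 3 <;> simp [v3, v4, hB]
  have k3 : tv S (y - a) β * tv S w' (-β) ∈ M := by
    have := M.mul_mem k1 (M.inv_mem k2)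
    rwa [mul_inv_rev, mul_assoc, mul_inv_cancel_left, tv_inv] at this
  have k4 := tv_conj_mem (h.tv_mem _ (R.sub_mem hy ha) 1 F₀.one_mem) k3 (h.le k3)
  have e : (tv S (y - a) β * tv S w' (-β)) (y - a) = β • (y - a - w') := by
    simp only [LinearEquiv.mul_apply, tv_apply, PQ.B_add_left, PQ.B_smul_left, PQ.B_sub_left, PQ.B_sub_right,
      sB_self, v1, v2, v3, v4, hB, hB']
    match_scalars
    · linear_combination -d1 + hδ
    · linear_combination d1 - hδ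
    · ring
  rw [e, tv_smul] at k4
  have := h.rat _ (R.sub_mem (R.sub_mem hy ha) hw') (fun h' => by
    have := congrArg (S.B · w') h'
    simp [v3, v4] at this) _ k4
  convert F₀.add_mem F₀.one_mem this using 1
  linear_combination d1 - hδ

theorem notMem_span_swap {a y : V} (h0 : a ≠ 0) (hya : y ∉ F ∙ a) : a ∉ F ∙ y := fun hm => by
  obtain ⟨c, rfl⟩ := Submodule.mem_span_singleton.1 hm
  have hc : c ≠ 0 := by rintro rfl; simp at h0
  exact hya (Submodule.mem_span_singleton.2 ⟨c⁻¹, by simp [smul_smul, hc]⟩)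

theorem RatM.coords_mem [Finite F] (h : RatM S F₀ R M) {a y : V} (ha : a ∈ R) (hy : y ∈ R) (h0 : a ≠ 0)
    (hya : y ∉ F ∙ a) (hB : S.B y a = 0) {l μ : F} (hz : ∀ c ∈ F₀, tv S (l • a + μ • y) c ∈ M) :
    l ^ 2 ∈ F₀ ∧ l * μ ∈ F₀ := by
  have hy0 : y ≠ 0 := by rintro rfl; exact hya (zero_mem _)
  have h1 := h.sq_mem ha hy h0 hya hB hz
  have h2 := h.sq_mem hy ha hy0 (notMem_span_swap h0 hya) (S.B_comm_zero hB) (l := μ) (μ := l)
    (by simpa [add_comm] using hz)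
  have h3 := h.sq_mem (R.add_mem ha hy) hy (fun e => hya (by
    rw [eq_neg_of_add_eq_zero_right e]; exact neg_mem (Submodule.mem_span_singleton_self a))) (fun hm => by
      obtain ⟨c, hc⟩ := Submodule.mem_span_singleton.1 hm
      by_cases e : c = 1
      · rw [e, one_smul, add_eq_right] at hc; exact h0 hc
      · refine hya (Submodule.mem_span_singleton.2 ⟨c / (1 - c), ?_⟩)
        have : (1 - c) • y = c • a := by rw [sub_smul, one_smul]; nth_rewrite 1 [← hc]; module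
        rw [div_eq_inv_mul, mul_smul, ← this, smul_smul, inv_mul_cancel₀ (sub_ne_zero.2 (Ne.symm e)), one_smul])
    (by simp [hB]) (l := l) (μ := μ - l) (fun c hc => by convert hz c hc using 2; module)
  refine ⟨h2, mem_of_sq_mem ?_ ?_⟩
  · rw [mul_pow]; exact F₀.mul_mem h2 h1
  · convert F₀.sub_mem (F₀.add_mem h1 h2) h3 using 1; ring

theorem RatM.ratio_mem [Finite F] (h : RatM S F₀ R M) {x : V} (hx : tv S x 1 ∈ M) {a y : V} (ha : a ∈ R)
    (hy : y ∈ R) (hB : S.B y a = 0) (hax : S.B a x ≠ 0) : S.B y x / S.B a x ∈ F₀ := by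
  have h0 : a ≠ 0 := by rintro rfl; simp at hax
  by_cases hya : y ∈ F ∙ a
  · obtain ⟨c, rfl⟩ := Submodule.mem_span_singleton.1 hya
    obtain ⟨w, hw, e⟩ := h.exists_one ha h0
    simpa [e, hax] using h.B_mem w hw _ hy
  by_contra hγ
  set γ := S.B y x / S.B a x with hγ'
  have e0 : S.B y x = γ * S.B a x := by rw [hγ', div_mul_cancel₀ _ hax]
  set β := S.B a x with hβ
  have e1 : S.B x a = -β := sB_swap _ _
  have e2 : S.B x y = -(γ * β) := by rw [sB_swap, e0]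
  have hB' := S.B_comm_zero hB
  let K := M ⊓ fixAll {y - γ • a}
  have key : ∀ s ∈ F₀, ∀ t ∈ F₀, ∃ k ∈ K, ∃ t' : F, k a = a ∧
      k (β • x) = β • x + (-β ^ 2 * (s + t * γ) ^ 2) • a + t' • (y - γ • a) := fun s hs t ht =>
    ⟨_, ⟨h.tv_mem _ (R.add_mem (h.smul s hs a ha) (h.smul t ht y hy)) 1 F₀.one_mem, by
      rintro _ rfl; simp [hB, hB']⟩, -β ^ 2 * (s + t * γ) * t, by simp [hB'], by
      simp only [tv_apply, PQ.B_add_right, PQ.B_smul_left, PQ.B_smul_right, FP.symp_σ, e1, e2]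
      module⟩
  have hβ2 : -β ^ 2 ≠ 0 := neg_ne_zero.2 (pow_ne_zero 2 hax)
  have two : (2 : F) ∈ F₀ := by exact_mod_cast natCast_mem F₀ 2
  have n0 : γ ≠ 0 := by rintro e; exact hγ (e ▸ F₀.zero_mem)
  have n1 : 1 + γ ≠ 0 := fun e => hγ (by rw [eq_neg_of_add_eq_zero_right e]; exact F₀.neg_mem F₀.one_mem)
  have h4 := four_le_ncard (s := {b : F | ∃ k ∈ K, ∃ t : F, k a = a ∧ k (β • x) = β • x + b • a + t • (y - γ • a)})
    (key 0 F₀.zero_mem 0 F₀.zero_mem) (key 1 F₀.one_mem 0 F₀.zero_mem) (key 0 F₀.zero_mem 1 F₀.one_mem)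
    (key 1 F₀.one_mem 1 F₀.one_mem) (by simp [hax]) (by simp [hax, n0]) (by simp [hax, n1])
    (fun e => hγ (by
      have := mul_left_cancel₀ hβ2 e
      rcases mul_eq_zero.1 (show (γ - 1) * (γ + 1) = 0 by linear_combination -this) with e | e
      · rw [sub_eq_zero.1 e]; exact F₀.one_mem
      · exact (n1 (by rw [add_comm, e])).elim))
    (fun e => hγ (by
      have := mul_left_cancel₀ hβ2 e
      have e := (mul_eq_zero.1 (show γ * (γ + 2) = 0 by linear_combination -this)).resolve_left n0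
      rw [eq_neg_of_add_eq_zero_left e]; exact F₀.neg_mem two))
    (fun e => hγ (by
      have := mul_left_cancel₀ hβ2 e
      have e : 2 * γ = -1 := by linear_combination -this
      have h2 : (2 : F) ≠ 0 := by rintro h2; simp [h2] at e
      rw [show γ = -1 / 2 by field_simp; linear_combination e]
      exact F₀.div_mem (F₀.neg_mem F₀.one_mem) two))
  have main : ∀ s ∈ F₀, ∀ t ∈ F₀, s + t * γ ≠ 0 → -β ^ 2 * (s + t * γ) ^ 2 ∈ F₀ := by
    intro s hs t ht hst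
    obtain ⟨k, ⟨hk, hk'⟩, u, e⟩ := plane_mod (K := K) (r := y - γ • a) (fun k hk => hk.2 _ rfl) h4
      ⟨_, ⟨hx, by rintro _ rfl; simp [e0, ← hβ]⟩, by simp [← hβ], by simp⟩
      (mul_ne_zero hβ2 (pow_ne_zero 2 hst)) (key s hs t ht)
    generalize -β ^ 2 * (s + t * γ) ^ 2 = b at e ⊢
    have e' : k y = (y - γ • a) + γ • (b • a + u • (y - γ • a)) := by
      rw [← e, ← map_smul]; nth_rewrite 1 [← hk' _ rfl]; rw [← map_add]; simp
    have c1 := h.coords_mem ha hy h0 hya hB (l := b - u * γ) (μ := u) fun c hc => by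
      convert tv_conj_mem (h.tv_mem a ha c hc) hk (h.le hk) using 2; rw [e]; module
    have c2 := h.coords_mem ha hy h0 hya hB (l := γ * (b - u * γ) - γ) (μ := 1 + γ * u) fun c hc => by
      convert tv_conj_mem (h.tv_mem y hy c hc) hk (h.le hk) using 2; rw [e']; module
    have c3 := h.coords_mem ha hy h0 hya hB (l := (b - u * γ) + (γ * (b - u * γ) - γ)) (μ := u + (1 + γ * u))
      fun c hc => by
        convert tv_conj_mem (h.tv_mem _ (R.add_mem ha hy) c hc) hk (h.le hk) using 2; rw [map_add, e, e']; module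
    have eb : b = (b - u * γ) * (1 + γ * u) - (γ * (b - u * γ) - γ) * u := by ring
    rw [eb]
    generalize b - u * γ = l₁ at *
    generalize γ * l₁ - γ = l₂ at *
    generalize 1 + γ * u = μ₂ at *
    have c4 : l₁ * μ₂ + l₂ * u ∈ F₀ := by
      convert F₀.sub_mem (F₀.sub_mem c3.2 c1.2) c2.2 using 1; ring
    have c5 : l₁ * l₂ ∈ F₀ := mem_of_sq_mem (by rw [mul_pow]; exact F₀.mul_mem c1.1 c2.1) (by
      convert F₀.sub_mem (F₀.sub_mem c3.1 c1.1) c2.1 using 1; ring)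
    by_cases z1 : l₁ = 0
    · simpa [z1] using c4
    by_cases z2 : l₂ = 0
    · simpa [z2] using c4
    have c6 : l₁ * μ₂ ∈ F₀ := by
      convert F₀.div_mem (F₀.mul_mem c1.1 c2.2) c5 using 1; field_simp
    convert F₀.sub_mem (F₀.add_mem c6 c6) c4 using 1; ring
  have m1 := main 1 F₀.one_mem 0 F₀.zero_mem (by simp)
  have m2 := F₀.div_mem (main 0 F₀.zero_mem 1 F₀.one_mem (by simpa using n0)) m1
  have m3 := F₀.div_mem (main 1 F₀.one_mem 1 F₀.one_mem (by simpa using n1)) m1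
  refine hγ (mem_of_sq_mem ?_ ?_)
  · convert m2 using 1; field_simp; ring
  · convert F₀.sub_mem (F₀.sub_mem m3 m2) F₀.one_mem using 1; field_simp; ring

variable [FiniteDimensional F V]

theorem RatM.ratio_mem' [Finite F] (h : RatM S F₀ R M) (h3 : 3 ≤ finrank F V) {x : V} (hx : tv S x 1 ∈ M)
    {a y : V} (ha : a ∈ R) (hy : y ∈ R) (hax : S.B a x ≠ 0) : S.B y x / S.B a x ∈ F₀ := by
  by_cases hB : S.B y a = 0
  · exact h.ratio_mem hx ha hy hB hax
  have hB' := sB_ne_comm hB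
  have proj : ∀ z, S.B z a = 0 → S.B z y = 0 → z ≠ 0 →
      ∃ w ∈ R, S.B w a = 0 ∧ S.B w y = 0 ∧ S.B w z ≠ 0 := fun z z1 z2 z3 => by
    obtain ⟨w, hw, e⟩ := h.exists_ne z3
    refine ⟨w - (S.B w a / S.B y a) • y - (S.B w y / S.B a y) • a, R.sub_mem (R.sub_mem hw (h.smul _
      (F₀.div_mem (h.B_mem _ hw _ ha) (h.B_mem _ hy _ ha)) _ hy)) (h.smul _
      (F₀.div_mem (h.B_mem _ hw _ hy) (h.B_mem _ ha _ hy)) _ ha), by simp [hB], by simp [hB'], ?_⟩
    simpa [S.B_comm_zero z1, S.B_comm_zero z2] using e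
  obtain ⟨z, -, z3, z1, z2⟩ := exists_perp_two (S := S) (U := ⊤) (by simpa using h3) a y
  obtain ⟨u, hu, u1, u2, u3⟩ := proj z z1 z2 z3
  obtain ⟨w, hw, w1, w2, w3⟩ := proj u u1 u2 (by rintro rfl; simp at u3)
  have aux : ∀ u ∈ R, S.B u a = 0 → S.B u y = 0 → S.B u x ≠ 0 → S.B y x / S.B a x ∈ F₀ := fun u hu u1 u2 u3 => by
    convert F₀.mul_mem (h.ratio_mem hx hu hy (S.B_comm_zero u2) u3) (h.ratio_mem hx ha hu u1 hax) using 1
    field_simp
  by_cases a1 : S.B u x ≠ 0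
  · exact aux u hu u1 u2 a1
  by_cases a2 : S.B w x ≠ 0
  · exact aux w hw w1 w2 a2
  push Not at a1 a2
  have := h.ratio_mem hx (R.add_mem ha hu) (R.sub_mem hy (h.smul _
    (F₀.div_mem (h.B_mem _ hy _ ha) (h.B_mem _ hw _ hu)) _ hw)) (by simp [w1, w3, S.B_comm_zero u2])
    (by simpa [a1] using hax)
  simpa [a1, a2] using this

theorem RatM.exists_smul_mem [Finite F] (h : RatM S F₀ R M) (h3 : 3 ≤ finrank F V) {g : V ≃ₗ[F] V}
    (hg : g ∈ M) : ∃ c : F, c ≠ 0 ∧ ∀ x ∈ R, c • g x ∈ R := by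
  have hgi := h.le hg
  have row : ∀ v ∈ R, ∀ y ∈ R, ∀ y' ∈ R, S.B y (g v) ≠ 0 → S.B y' (g v) / S.B y (g v) ∈ F₀ :=
    fun v hv y hy y' hy' e => h.ratio_mem' h3 (tv_conj_mem (h.tv_mem v hv 1 F₀.one_mem) hg hgi) hy hy' e
  have col : ∀ y ∈ R, ∀ v ∈ R, ∀ v' ∈ R, S.B y (g v) ≠ 0 → S.B y (g v') / S.B y (g v) ∈ F₀ :=
    fun y hy v hv v' hv' e => by
      have e1 : ∀ v, S.B y (g v) = -S.B v (g⁻¹ y) := fun v => by rw [sB_swap, PQ.B_isom_symm hgi]; rfl
      simp only [e1, neg_div_neg_eq, neg_ne_zero] at e ⊢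
      exact h.ratio_mem' h3 (tv_conj_mem (h.tv_mem y hy 1 F₀.one_mem) (M.inv_mem hg) (h.le (M.inv_mem hg))) hv hv' e
  obtain ⟨z, -, z0⟩ := exists_ne_zero_of_finrank_pos (A := (⊤ : Submodule F V)) (by simp; omega)
  obtain ⟨v0, hv0, e⟩ := h.exists_ne z0
  obtain ⟨y0, hy0, e0⟩ := h.exists_ne (x := g v0) (by rintro e'; simp at e'; simp [e'] at e)
  refine ⟨(S.B y0 (g v0))⁻¹, inv_ne_zero e0, fun v hv => h.dual _ fun y hy => ?_⟩
  rw [S.B_smul_right, FP.symp_σ, ← div_eq_inv_mul]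
  by_cases a1 : S.B y0 (g v) ≠ 0
  · convert F₀.mul_mem (row v hv y0 hy0 y hy a1) (col y0 hy0 v0 hv0 v hv e0) using 1; field_simp
  by_cases a2 : S.B y (g v0) ≠ 0
  · convert F₀.mul_mem (col y hy v0 hv0 v hv a2) (row v0 hv0 y0 hy0 y hy e0) using 1; field_simp
  push Not at a1 a2
  simpa [a1, a2] using row _ (R.add_mem hv hv0) y0 hy0 y hy (by simpa [a1] using e0)

/-- Maximality of subfield subgroups. -/
theorem sp_subfield_ctr [Finite F] (hS : S.Nondeg) (h3 : 3 ≤ finrank F V) (hp : (finrank F₀ F).Prime)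
    (hR : RatS S F₀ R) (hM : M ≤ S.isom)
    (hH : ∀ g ∈ S.isom, (∃ c : F, c ≠ 0 ∧ ∀ x ∈ R, c • g x ∈ R) → g ∈ M)
    (hg : ∃ g ∈ M, ¬ ∃ c : F, c ≠ 0 ∧ ∀ x ∈ R, c • g x ∈ R) (v : V) : Ctr S M v := by
  have h1 : ∀ v ∈ R, ∀ c ∈ F₀, tv S v c ∈ M := fun v hv c hc => hH _ (tv_mem _ _) ⟨1, one_ne_zero, fun x hx => by
    rw [one_smul, tv_apply]; exact R.add_mem hx (hR.smul _ (F₀.mul_mem hc (hR.B_mem _ hx _ hv)) _ hv)⟩
  by_cases hc : ∀ v ∈ R, v ≠ 0 → ∀ c, tv S v c ∈ M → c ∈ F₀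
  · obtain ⟨g, hg, hg'⟩ := hg
    refine (hg' (RatM.exists_smul_mem ⟨hR, hM, h1, fun a ha w hw e => ?_, hc⟩ h3 hg)).elim
    refine hH _ (ev_mem _ _ _ _) ⟨1, one_ne_zero, fun x hx => ?_⟩
    rw [one_smul, ev_apply, zero_mul, add_zero]
    exact R.add_mem (R.add_mem hx (hR.smul _ (hR.B_mem _ hx _ hw) _ ha)) (hR.smul _ (hR.B_mem _ hx _ ha) _ hw)
  push Not at hc
  obtain ⟨u, hu, hu0, α, hα, hα'⟩ := hc
  obtain ⟨a, ha, hau⟩ := hR.exists_one hu hu0
  have h4 : 4 ≤ {b : F | tv S u b ∈ M}.ncard :=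
    four_le_ncard (h1 u hu 0 F₀.zero_mem) (h1 u hu 1 F₀.one_mem) hα
      (show tv S u (1 + α) ∈ M from tv_mul (S := S) u 1 α ▸ M.mul_mem (h1 u hu 1 F₀.one_mem) hα) zero_ne_one
      (fun e => hα' (e ▸ F₀.zero_mem))
      (fun e => hα' (by rw [eq_neg_of_add_eq_zero_right e.symm]; exact F₀.neg_mem F₀.one_mem))
      (fun e => hα' (e ▸ F₀.one_mem)) (fun e => hα' (by rw [left_eq_add.1 e]; exact F₀.zero_mem)) (by simp)
  let A : Subalgebra F₀ F :=
    { carrier := {b | tv S u b ∈ M}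
      mul_mem' := fun hb hc => tv_mul_mem hau h4 (h1 a ha 1 F₀.one_mem) hb hc
      add_mem' := fun {b c} hb hc => show tv S u (b + c) ∈ M from tv_mul (S := S) u b c ▸ M.mul_mem hb hc
      algebraMap_mem' := fun c => h1 u hu c c.2 }
  have hC : Ctr S M u := by
    rcases (Subalgebra.isSimpleOrder_of_finrank_prime F₀ F hp).eq_bot_or_eq_top A with e | e
    · have : α ∈ A := hα
      rw [e, Algebra.mem_bot] at this
      obtain ⟨c, rfl⟩ := this
      exact (hα' c.2).elim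
    · exact ctr_iff.2 fun c => show c ∈ A from e ▸ Algebra.mem_top
  have move : ∀ u ∈ R, ∀ w ∈ R, S.B u w ≠ 0 → Ctr S M u → Ctr S M w := fun u hu w hw e hC => by
    have m := h1 _ (R.sub_mem hw hu) _ (F₀.inv_mem (hR.B_mem _ hu _ hw))
    simpa [e] using hC.map m (hM m)
  refine ctr_of_addSubgroup hS ⟨α, fun e => hα' (e ▸ F₀.zero_mem), fun e => hα' (e ▸ F₀.one_mem)⟩ R
    (fun w hw => ?_) hR.nd v
  by_cases hw0 : w = 0
  · rw [hw0]; exact ctr_zero
  obtain ⟨d, hd, d1, d2⟩ := exists_not_not R (S.perp (F ∙ u)).toAddSubgroup (S.perp (F ∙ w)).toAddSubgroup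
    (by simpa [S.mem_perp_span_singleton] using hR.exists_ne hu0)
    (by simpa [S.mem_perp_span_singleton] using hR.exists_ne hw0)
  exact move d hd w hw (fun e => d2 (S.mem_perp_span_singleton.2 e))
    (move u hu d hd (sB_ne_comm fun e => d1 (S.mem_perp_span_singleton.2 e)) hC)

theorem finrank_subfield_of_card [Fintype F] {r : ℕ} (hcard : Fintype.card F = Nat.card F₀ ^ r) :
    finrank F₀ F = r := by
  have h1 := Module.natCard_eq_pow_finrank (K := F₀) (V := F)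
  rw [Nat.card_eq_fintype_card, hcard] at h1
  exact (Nat.pow_right_injective (Finite.one_lt_card (α := F₀)) h1).symm

/-- A symplectic form multiplied by a scalar. -/
def sScale (S : PQ (FP.symp F) V) (ζ : F) : PQ (FP.symp F) V :=
  PQ.ofAlt (fun x y => ζ * S.B x y) (fun x y v => by simp [mul_add]) (fun c x v => by simp [mul_left_comm])
    (fun u v => by rw [sB_swap]; ring) (fun v => by simp)

theorem sScale_B (ζ : F) (x y : V) : (sScale S ζ).B x y = ζ * S.B x y := rfl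

theorem sScale_isom {ζ : F} (hζ : ζ ≠ 0) : (sScale S ζ).isom = S.isom := by
  ext g
  simp only [PQ.symp_mem_isom, sScale_B, mul_right_inj' hζ]

theorem sScale_nondeg (hS : S.Nondeg) {ζ : F} (hζ : ζ ≠ 0) : (sScale S ζ).Nondeg :=
  fun x hx => hS x fun y => (mul_eq_zero.1 (hx y)).resolve_left hζ

/-- The rational vectors of a frame. -/
def ratVec {ι : Type} (F₀ : Subfield F) (Ψ : (ι → F) ≃ₗ[F] V) : AddSubgroup V where
  carrier := {v | ∀ i, Ψ.symm v i ∈ F₀}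
  zero_mem' i := by simp
  add_mem' ha hb i := by simpa using F₀.add_mem (ha i) (hb i)
  neg_mem' ha i := by simpa using ha i

theorem ratS_ratVec {ι : Type} [Fintype ι] [DecidableEq ι] (hS : S.Nondeg) (Ψ : (ι → F) ≃ₗ[F] V)
    (h : ∀ u v : ι → F, (∀ i, u i ∈ F₀) → (∀ i, v i ∈ F₀) → S.B (Ψ u) (Ψ v) ∈ F₀) :
    RatS S F₀ (ratVec F₀ Ψ) := by
  have hs : ∀ j k : ι, (Pi.single j (1 : F) : ι → F) k ∈ F₀ := fun j k => by
    by_cases hk : k = j
    · subst hk; simp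
    · simp [Pi.single_eq_of_ne hk]
  have hs' : ∀ j, Ψ (Pi.single j 1) ∈ ratVec F₀ Ψ := fun j i => by simpa using hs j i
  have hnd : ∀ x, (∀ j, S.B (Ψ (Pi.single j 1)) x = 0) → x = 0 := fun x hx => hS.right x fun y => by
    obtain ⟨y, rfl⟩ := Ψ.surjective y
    rw [pi_eq_sum_univ' y, map_sum, S.B_sum_left]
    simp [hx]
  refine ⟨fun c hc x hx i => by simpa using F₀.mul_mem hc (hx i), fun x hx y hy => by simpa using h _ _ hx hy,
    fun x hx => ?_, fun x hx => hnd x fun j => S.B_comm_zero (hx _ (hs' j))⟩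
  let L : (ι → F₀) →ₗ[F₀] (ι → F₀) :=
    { toFun := fun η j => ⟨S.B (Ψ (Pi.single j 1)) (Ψ fun i => η i), h _ _ (hs j) fun i => (η i).2⟩
      map_add' := fun a b => funext fun j => Subtype.ext (by
        change S.B _ (Ψ ((fun i => (a i : F)) + fun i => (b i : F))) = _
        simp)
      map_smul' := fun c a => funext fun j => Subtype.ext (by
        change S.B _ (Ψ ((c : F) • fun i => (a i : F))) = _
        simp) }
  have hL : Function.Injective L := by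
    rw [injective_iff_map_eq_zero]
    intro η hη
    have := hnd (Ψ fun i => η i) fun j => congrArg Subtype.val (congrFun hη j)
    rw [LinearEquiv.map_eq_zero_iff] at this
    exact funext fun i => Subtype.ext (congrFun this i)
  obtain ⟨η, hη⟩ := LinearMap.injective_iff_surjective.1 hL fun j => ⟨_, hx _ (hs' j)⟩
  have : x = Ψ fun i => η i := sub_eq_zero.1 (hnd _ fun j => by
    rw [S.B_sub_right, sub_eq_zero]; exact (congrArg Subtype.val (congrFun hη j)).symm)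
  intro i
  simp [this]

theorem sp_max_subfield [Fintype F] {m : ℕ} (hm : 2 ≤ m) {r : ℕ} (hr : r.Prime)
    (hcard : Fintype.card F = Nat.card F₀ ^ r) {P : GL (Fin m ⊕ Fin m) F} {ζ : F} (hζ : ζ ≠ 0)
    (hP : Geo.IsFormRationalStructure (sympForm m F) F₀ ζ P) :
    Geo.IsMaximalIn (spGL m F) (Geo.subfieldSubgroup F₀ P ⊓ spGL m F) := by
  refine sp_max _ (fun g => ∃ c : F, c ≠ 0 ∧ ∀ x ∈ ratVec F₀ (psi (Equiv.refl _) P), c • g x ∈
      ratVec F₀ (psi (Equiv.refl _) P)) (fun g _ => ?_)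
    (Sp_not_le_subfieldSubgroup hm (ne_top_of_card_pow hr hcard) P) fun M h1 h2 h3 v => ?_
  · rw [mem_subfieldSubgroup_iff]
    refine exists_congr fun c => and_congr_right fun _ => ⟨fun h x hx i => ?_, fun h x hx i => ?_⟩
    · simpa [theta_apply] using h _ hx i
    · simpa [theta_apply] using h (psi _ P x) (fun i => by simpa using hx i) i
  · have hS := sScale_nondeg (spS_nondeg (F := F) m) hζ
    rw [← sScale_isom hζ] at h1 h2
    have := isom_le_of_ctr hS (sp_subfield_ctr hS (by rw [finrank_spS]; omega)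
      (finrank_subfield_of_card hcard ▸ hr) (ratS_ratVec hS (psi (Equiv.refl _) P) hP) h1 h2 h3)
    rw [sScale_isom hζ] at this
    exact ctr_iff.2 fun c => this (tv_mem _ _)

end Cfsg.Agent.H7
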