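import Cfsg.Agent.H7.Sp5

/-!
Symplectic groups: maximality of field extension subgroups of symplectic type.
-/

set_option autoImplicit false
set_option linter.unusedSectionVars false

namespace Cfsg.Agent.H7

open Module Cfsg.Agent.Form
open scoped Matrix MatrixGroups

theorem leibniz_zero {K : Type*} [Field K] [Finite K] (μ d : K → K) (hμ : ∀ k l, μ (k * l) = μ k * μ l)
    (h : ∀ k l, d (k * l) = μ l * d k + μ k * d l) (k : K) : d k = 0 := by
  have := Fintype.ofFinite K
  have key : ∀ n : ℕ, d (k ^ (n + 1)) = (n + 1 : ℕ) * μ k ^ n * d k ∧ μ (k ^ (n + 1)) = μ k ^ (n + 1) := by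
    intro n
    induction n with
    | zero => simp
    | succ n ih =>
      rw [pow_succ k (n + 1), h, hμ, ih.1, ih.2]
      exact ⟨by push_cast; ring, by ring⟩
  have h1 := (key (Fintype.card K - 1)).1
  rw [Nat.sub_add_cancel Fintype.card_pos, FiniteField.pow_card, FiniteField.cast_card_eq_zero] at h1
  simpa using h1

variable {F K : Type*} [Field F] [Field K] [Algebra F K] {V : Type*} [AddCommGroup V] [Module F V] [Module K V]
  [IsScalarTower F K V]

theorem eq_zero_of_tau {τ : K →ₗ[F] F} (hτ : τ ≠ 0) {a : K} (h : ∀ k, τ (k * a) = 0) : a = 0 := by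
  by_contra h0
  exact hτ (LinearMap.ext fun k => by simpa [h0] using h (k / a))

theorem exists_tau_eq [FiniteDimensional F K] {τ : K →ₗ[F] F} (hτ : τ ≠ 0) (φ : K →ₗ[F] F) :
    ∃ β, ∀ b, φ b = τ (β * b) := by
  let Φ : K →ₗ[F] Dual F K :=
    { toFun := fun β => τ ∘ₗ LinearMap.mulLeft F β
      map_add' := fun a b => by ext x; simp [add_mul]
      map_smul' := fun c a => by ext x; simp }
  have hΦ : Function.Injective Φ := by
    rw [injective_iff_map_eq_zero]
    exact fun a ha => eq_zero_of_tau hτ fun k => by rw [mul_comm]; exact LinearMap.congr_fun ha k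
  obtain ⟨β, hβ⟩ := (LinearMap.injective_iff_surjective_of_finrank_eq_finrank (by simp)).1 hΦ φ
  exact ⟨β, fun b => by rw [← hβ]; rfl⟩

/-- `g` is linear over the extension field. -/
def KLin (K : Type*) [Field K] [Module K V] (g : V ≃ₗ[F] V) : Prop := ∀ (k : K) v, g (k • v) = k • g v

/-- `g` is semilinear over the extension field. -/
def KSemi (K : Type*) [Field K] [Module K V] (g : V ≃ₗ[F] V) : Prop :=
  ∀ k : K, ∃ k' : K, ∀ v, g (k • v) = k' • g v

theorem KLin.semi {g : V ≃ₗ[F] V} (h : KLin K g) : KSemi K g := fun k => ⟨k, h k⟩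

theorem KLin.mul {g h : V ≃ₗ[F] V} (hg : KLin K g) (hh : KLin K h) : KLin K (g * h) := fun k v => by
  simp only [LinearEquiv.mul_apply, hh k, hg k]

theorem KSemi.mul {g h : V ≃ₗ[F] V} (hg : KSemi K g) (hh : KSemi K h) : KSemi K (g * h) := fun k => by
  obtain ⟨k', e⟩ := hh k
  obtain ⟨k'', e'⟩ := hg k'
  exact ⟨k'', fun v => by simp only [LinearEquiv.mul_apply, e, e']⟩

theorem KLin.inv {g : V ≃ₗ[F] V} (hg : KLin K g) : KLin K g⁻¹ := fun k v => by
  apply g.injective
  rw [hg k]
  exact (g.apply_symm_apply _).trans (congrArg _ (g.apply_symm_apply v).symm)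

theorem kLin_res (g : V ≃ₗ[K] V) : KLin K (g.restrictScalars F) := fun k v => g.map_smul k v

/-- The symplectic space `S` is obtained from `f` by restriction of scalars. -/
structure ExtS (τ : K →ₗ[F] F) (f : PQ (FP.symp K) V) (S : PQ (FP.symp F) V) : Prop where
  tau : τ ≠ 0
  nd : f.Nondeg
  B : ∀ x y, S.B x y = τ (f.B x y)

variable {τ : K →ₗ[F] F} {f : PQ (FP.symp K) V} {S : PQ (FP.symp F) V} {M : Subgroup (V ≃ₗ[F] V)}

theorem ExtS.nondeg (h : ExtS τ f S) : S.Nondeg := fun x hx =>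
  h.nd x fun y => eq_zero_of_tau h.tau fun k => by simpa [h.B] using hx (k • y)

theorem ExtS.B_smul (h : ExtS τ f S) (k : K) (x y : V) : S.B (k • x) y = S.B x (k • y) := by simp [h.B]

theorem ExtS.res_mem (h : ExtS τ f S) {g : V ≃ₗ[K] V} (hg : g ∈ f.isom) : g.restrictScalars F ∈ S.isom :=
  (S.symp_mem_isom _).2 fun x y => by
    rw [h.B, h.B]; exact congrArg τ (PQ.B_isom hg x y)

theorem fB_smul_left (c : F) (x y : V) : f.B (c • x) y = c • f.B x y := by
  rw [← algebraMap_smul K c x, f.B_smul_left, Algebra.smul_def]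

/-- The functional `x ↦ f(x,u)` as an `F`-linear map. -/
def flin (F : Type*) [Field F] [Algebra F K] [Module F V] [IsScalarTower F K V] (f : PQ (FP.symp K) V) (u : V) :
    V →ₗ[F] K := (f.lin u).restrictScalars F

@[simp] theorem flin_apply (u x : V) : flin F f u x = f.B x u := rfl

variable [FiniteDimensional F K] [FiniteDimensional K V] [FiniteDimensional F V]

theorem ExtS.mem_span_of_perp (h : ExtS τ f S) {u y : V} (hy : ∀ w, f.B w u = 0 → S.B y w = 0) :
    ∃ k : K, y = k • u := by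
  have : y ∈ f.perp (f.perp (K ∙ u)) := fun w hw => eq_zero_of_tau h.tau fun k => by
    simpa [h.B] using hy (k • w) (by simp [f.mem_perp_span_singleton.1 hw])
  rw [h.nd.perp_perp] at this
  obtain ⟨k, hk⟩ := Submodule.mem_span_singleton.1 this
  exact ⟨k, hk.symm⟩

theorem ExtS.exists_trans (h : ExtS τ f S) {u w : V} (hu : u ≠ 0) (hw : w ≠ 0) :
    ∃ g ∈ f.isom, g u = w := by
  obtain ⟨g, hg, e⟩ := h.nd.witt_step ⊥ (u := u) (v := w) (by simpa using hu) (by simpa using hw) (by simp) trivial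
  exact ⟨g, f.gen_le_isom _ hg, e⟩

theorem ExtS.ctr_of_tv [Finite F] (h : ExtS τ f S) (hK : ∀ g ∈ f.isom, g.restrictScalars F ∈ M) {v : V}
    (hv : v ≠ 0) {c : F} (hc : c ≠ 0) (hm : tv S v c ∈ M) (w : V) : Ctr S M w := by
  refine ctr_of_scaled hc fun a => ?_
  by_cases h0 : a • w = 0
  · rw [h0]; exact ctr_iff.1 ctr_zero c
  obtain ⟨g, hg, e⟩ := h.exists_trans hv h0
  have := tv_conj_mem hm (hK g hg) (h.res_mem hg)
  rwa [LinearEquiv.restrictScalars_apply, e] at this

/-- An isometry normalising the unipotent radical is semilinear modulo the centre of the radical. -/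
theorem ExtS.exists_semi [Finite K] (h : ExtS τ f S) {u : V} (hu : u ≠ 0) {g : V ≃ₗ[F] V} (hg : g ∈ S.isom)
    (hgL : ∀ w, f.B w u = 0 → f.B (g w) u = 0)
    (hE : ∀ w κ (e : f.B w u = 0), KLin K (g⁻¹ * (ev f u w κ e).restrictScalars F * g)) :
    ∃ g₀ ∈ S.isom, KSemi K g₀ ∧ ∀ w, f.B w u = 0 → g₀ w = g w := by
  obtain ⟨x, hx⟩ := h.nd.exists_eq hu 1
  let σ : K →ₗ[F] K := flin F f u ∘ₗ (g : V →ₗ[F] V) ∘ₗ (LinearMap.toSpanSingleton K V (g.symm x)).restrictScalars F
  have hσ : ∀ k, σ k = f.B (g (k • g.symm x)) u := fun k => rfl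
  have h1 : ∀ k w, f.B w u = 0 →
      g (k • g.symm w) = σ k • w + f.B (g (k • g.symm x) - σ k • x) w • u := fun k w e => by
    have := congrArg g (hE w (-f.B x w) e k (g.symm x))
    simp only [LinearEquiv.mul_apply, LinearEquiv.coe_inv, LinearEquiv.apply_symm_apply,
      LinearEquiv.restrictScalars_apply, ev_apply, hx, map_add, smul_add, ← hσ, mul_one, add_neg_cancel,
      zero_smul, add_zero, one_smul] at this
    simp only [PQ.B_sub_left, PQ.B_smul_left]
    linear_combination (norm := module) -this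
  have h2 : ∀ k l, σ (k * l) = σ k * σ l ∧ ∀ w, f.B w u = 0 → f.B (g ((k * l) • g.symm x) - σ (k * l) • x) w =
      σ l * f.B (g (k • g.symm x) - σ k • x) w + σ k * f.B (g (l • g.symm x) - σ l • x) w := by
    intro k l
    have key : ∀ w, f.B w u = 0 → σ (k * l) • w + f.B (g ((k * l) • g.symm x) - σ (k * l) • x) w • u =
        (σ k * σ l) • w + (σ l * f.B (g (k • g.symm x) - σ k • x) w +
          σ k * f.B (g (l • g.symm x) - σ l • x) w) • u := fun w e => by
      have e1 := h1 k (g (l • g.symm w)) (by rw [h1 l w e]; simp [e])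
      rw [g.symm_apply_apply, ← mul_smul, h1 _ w e, h1 l w e] at e1
      rw [e1]
      have : f.B (g (k • g.symm x) - σ k • x) u = 0 := by simp [hσ, hx]
      simp only [PQ.B_add_right, PQ.B_smul_right, FP.symp_σ, this]
      module
    have e1 : σ (k * l) = σ k * σ l := by
      have := key u (by simp)
      simp only [PQ.B_sub_left, PQ.B_smul_left, hx, ← hσ, mul_one, sub_self, zero_smul, add_zero, mul_zero] at this
      exact smul_left_injective K hu this
    refine ⟨e1, fun w e => ?_⟩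
    have := key w e
    rw [← e1, add_right_inj] at this
    exact smul_left_injective K hu this
  have h3 : ∀ k w, f.B w u = 0 → g (k • w) = σ k • g w := fun k w e => by
    have := h1 k (g w) (hgL w e)
    rwa [leibniz_zero σ (fun k => f.B (g (k • g.symm x) - σ k • x) (g w)) (fun k l => (h2 k l).1)
      (fun k l => (h2 k l).2 _ (hgL w e)) k, g.symm_apply_apply, zero_smul, add_zero] at this
  let G : V →ₗ[F] V := (LinearMap.toSpanSingleton K V (g x)).restrictScalars F ∘ₗ σ ∘ₗ flin F f u +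
    (g : V →ₗ[F] V) ∘ₗ (LinearMap.id - (LinearMap.toSpanSingleton K V x).restrictScalars F ∘ₗ flin F f u)
  have hG : ∀ v, G v = σ (f.B v u) • g x + g (v - f.B v u • x) := fun v => rfl
  have p : ∀ v, f.B (v - f.B v u • x) u = 0 := fun v => by simp [hx]
  obtain ⟨g₀, hg₀, e⟩ := exists_isom_of_B h.nondeg G fun v v' => by
    have q1 : ∀ (a : K) w, f.B w u = 0 → S.B (σ a • g x) (g w) = S.B (a • x) w := fun a w e => by
      rw [h.B_smul, ← h3 a w e, PQ.B_isom hg, h.B_smul]
    have q2 : ∀ (a b : K) y, S.B (a • y) (b • y) = 0 := fun a b y => by simp [h.B]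
    rw [hG, hG, S.B_add_left, S.B_add_right, S.B_add_right, q2, q1 _ _ (p v'), sB_swap (σ _ • g x),
      q1 _ _ (p v), PQ.B_isom hg]
    simp only [PQ.B_sub_left, PQ.B_sub_right, q2, sB_swap (f.B v' u • x) v]
    ring
  refine ⟨g₀, hg₀, fun k => ⟨σ k, fun v => ?_⟩, fun w hw => by simp [e, hG, hw]⟩
  rw [e, e, hG, hG, f.B_smul_left, (h2 _ _).1, mul_smul k, ← smul_sub, h3 k _ (p v), smul_add, mul_smul]

/-- The stabiliser of a point of the extension space. -/
theorem ExtS.semi_of_stab [Finite K] (h : ExtS τ f S) (hM : M ≤ S.isom)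
    (hH : ∀ g ∈ S.isom, KSemi K g → g ∈ M) {u : V} (hu : u ≠ 0)
    (hY : ∀ ρ ∈ M, (∀ w, f.B w u = 0 → ρ w = w) → KLin K ρ) {g : V ≃ₗ[F] V} (hg : g ∈ M)
    (h1 : ∀ k : K, ∃ k' : K, g (k • u) = k' • u) (h2 : ∀ k : K, ∃ k' : K, g.symm (k • u) = k' • u) :
    KSemi K g := by
  have hK : ∀ g ∈ f.isom, g.restrictScalars F ∈ M := fun g hg => hH _ (h.res_mem hg) (kLin_res g).semi
  have key : ∀ g ∈ M, (∀ w, f.B w u = 0 → f.B (g w) u = 0) →
      (∀ w κ (e : f.B w u = 0), KLin K (g⁻¹ * (ev f u w κ e).restrictScalars F * g)) → KSemi K g := by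
    intro g hg a1 a2
    obtain ⟨g₀, b1, b2, b3⟩ := h.exists_semi hu (hM hg) a1 a2
    have := b2.mul (hY _ (M.mul_mem (M.inv_mem (hH _ b1 b2)) hg) fun w e => by
      rw [LinearEquiv.mul_apply, ← b3 w e]; exact g₀.symm_apply_apply w).semi
    rwa [mul_inv_cancel_left] at this
  have hgL : ∀ w, f.B w u = 0 → f.B (g w) u = 0 := fun w e => eq_zero_of_tau h.tau fun k => by
    obtain ⟨k', e'⟩ := h2 k
    have := PQ.B_isom_symm (hM hg) w (k • u)
    simpa [h.B, e', e] using this
  refine key g hg hgL fun w κ e => ?_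
  have hn : g⁻¹ * (ev f u w κ e).restrictScalars F * g ∈ M :=
    M.mul_mem (M.mul_mem (M.inv_mem hg) (hK _ (ev_mem _ _ _ _))) hg
  have n1 : ∀ k : K, (g⁻¹ * (ev f u w κ e).restrictScalars F * g) (k • u) = k • u := fun k => by
    obtain ⟨k', e'⟩ := h1 k
    simp [LinearEquiv.mul_apply, e', f.B_comm_zero e, LinearEquiv.symm_apply_eq]
  have n2 : ∀ y, f.B y u = 0 → ∃ k : K, (g⁻¹ * (ev f u w κ e).restrictScalars F * g) y = y + k • u :=
    fun y e' => by
      obtain ⟨k', e''⟩ := h2 (f.B (g y) w)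
      exact ⟨k', by simp [LinearEquiv.mul_apply, hgL y e', e'']⟩
  generalize g⁻¹ * (ev f u w κ e).restrictScalars F * g = n at hn n1 n2
  have n3 : KSemi K n := key n hn (fun y e' => by
    obtain ⟨k, e''⟩ := n2 y e'
    simp [e'', e']) fun w' κ' e' => by
      have := (hY _ (M.mul_mem (M.mul_mem (M.mul_mem (M.inv_mem hn) (hK _ (ev_mem u w' κ' e'))) hn)
        (M.inv_mem (hK _ (ev_mem u w' κ' e')))) fun y e'' => by
          obtain ⟨k, e3⟩ := n2 y e''
          have e4 : ((ev f u w' κ' e').restrictScalars F)⁻¹ y = y - f.B y w' • u := by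
            rw [LinearEquiv.coe_inv, LinearEquiv.symm_apply_eq]
            simp [e'', f.B_comm_zero e']
          rw [LinearEquiv.mul_apply, e4, LinearEquiv.mul_apply, map_sub, n1, e3, LinearEquiv.mul_apply,
            LinearEquiv.coe_inv, LinearEquiv.symm_apply_eq, e3]
          simp [e'', f.B_comm_zero e']).mul (kLin_res (ev f u w' κ' e'))
      rwa [inv_mul_cancel_right] at this
  intro k v
  obtain ⟨k', e'⟩ := n3 k
  have := e' u
  rw [n1, ← one_smul K u, n1, one_smul] at this
  rw [e', smul_left_injective K hu this]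

end Cfsg.Agent.H7
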